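import Cfsg.Agent.Lib.Classical.Simple

/-!
# Generation of `SL(N)` by a root element and a monomial cycle
-/

set_option autoImplicit false

namespace Cfsg.Agent.Lib.GLn.CycleGen

open Matrix
open scoped commutatorElement
open Fin.NatCast

variable {K : Type*} [Field K] {n : ℕ}

local notation "SLN" => Matrix.SpecialLinearGroup (Fin (n + 1)) K

/-- The scalars of a root group meeting `H`. -/
def rootParams (H : Subgroup SLN) {i j : Fin (n + 1)} (hij : i ≠ j) : AddSubgroup K where
  carrier := {c | SpecialLinearGroup.transvection hij c ∈ H}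
  add_mem' := fun {a b} ha hb => by
    have e : SpecialLinearGroup.transvection hij (a + b) =
        SpecialLinearGroup.transvection hij a * SpecialLinearGroup.transvection hij b := Subtype.ext (by
      change Matrix.transvection i j (a + b) = Matrix.transvection i j a * Matrix.transvection i j b
      rw [Matrix.transvection_mul_transvection_same _ _ hij])
    change SpecialLinearGroup.transvection hij (a + b) ∈ H
    rw [e]
    exact mul_mem ha hb
  zero_mem' := by
    have e : SpecialLinearGroup.transvection hij (0 : K) = 1 := Subtype.ext (by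
      change Matrix.transvection i j (0 : K) = 1
      simp)
    change SpecialLinearGroup.transvection hij (0 : K) ∈ H
    rw [e]
    exact one_mem H
  neg_mem' := fun {a} ha => by
    change SpecialLinearGroup.transvection hij (-a) ∈ H
    rw [← SpecialLinearGroup.transvection_inv]
    exact inv_mem ha

theorem succ_ne (hn : 1 ≤ n) (i : Fin (n + 1)) : i ≠ i + 1 := by
  intro e
  have h : i + 1 = i + 0 := by rw [add_zero]; exact e.symm
  have h1 := congrArg Fin.val (add_left_cancel h)
  simp [Nat.mod_eq_of_lt (by omega : 1 < n + 1)] at h1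

/-- All cyclically adjacent root groups generate. -/
theorem eq_top_of_adjacent (hn : 1 ≤ n) (H : Subgroup SLN)
    (h : ∀ (i : Fin (n + 1)) (t : K), SpecialLinearGroup.transvection (succ_ne hn i) t ∈ H) : H = ⊤ := by
  have key : ∀ (d : ℕ) (i j : Fin (n + 1)) (hij : i ≠ j), j = i + (d : Fin (n + 1)) → d ≤ n →
      ∀ t : K, SpecialLinearGroup.transvection hij t ∈ H := by
    intro d
    induction d with
    | zero => intro i j hij e; exact absurd (by rw [e]; simp) hij
    | succ d ih =>
      intro i j hij e hd t
      rcases Nat.eq_zero_or_pos d with rfl | hd0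
      · obtain rfl : j = i + 1 := by rw [e]; simp
        exact h i t
      have hkj : i + 1 ≠ j := by
        intro e'
        have h0 : (d : Fin (n + 1)) = 0 := by
          have h2 : i + 1 + (d : Fin (n + 1)) = i + 1 + 0 := by
            rw [add_zero]
            nth_rewrite 2 [e']
            rw [e, Nat.cast_succ, add_assoc, add_comm (1 : Fin (n + 1))]
          exact add_left_cancel h2
        have := congrArg Fin.val h0
        simp [Fin.val_natCast, Nat.mod_eq_of_lt (by omega : d < n + 1)] at this
        omega
      have h1 := h i t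
      have h2 := ih (i + 1) j hkj (by rw [e, Nat.cast_succ]; abel) (by omega) 1
      rw [← mul_one t, ← Cfsg.Agent.Lib.Classical.transvection_commutator (succ_ne hn i) hkj hij t 1,
        commutatorElement_def]
      exact mul_mem (mul_mem (mul_mem h1 h2) (inv_mem h1)) (inv_mem h2)
  refine eq_top_iff.2 fun A _ => ?_
  refine Cfsg.Agent.Lib.Classical.SL_transvection_induction (· ∈ H) (one_mem H) (fun i j hij c => ?_)
    (fun _ _ => mul_mem) A
  refine key (j - i).val i j hij ?_ (Nat.le_of_lt_succ (j - i).isLt) c
  rw [Fin.cast_val_eq_self]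
  exact (add_sub_cancel i j).symm

/-- The signs in the cycle. -/
def sgn (K : Type*) [Field K] (n : ℕ) (j : Fin (n + 1)) : K := if j.val = 0 then (-1) ^ n else 1

theorem sgn_ne_zero (j : Fin (n + 1)) : sgn K n j ≠ 0 := by
  unfold sgn
  split_ifs <;> simp

/-- The monomial cycle matrix. -/
def cyc (K : Type*) [Field K] (n : ℕ) : Matrix (Fin (n + 1)) (Fin (n + 1)) K :=
  Matrix.of (fun i j : Fin (n + 1) => if j.val = i.val + 1 then 1 else if i.val = n ∧ j.val = 0 then (-1) ^ n else 0)

variable {w : Matrix.SpecialLinearGroup (Fin (n + 1)) K} (hw : (w : Matrix (Fin (n + 1)) (Fin (n + 1)) K) = cyc K n)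

include hw in
theorem w_apply (i j : Fin (n + 1)) :
    (w : Matrix (Fin (n + 1)) (Fin (n + 1)) K) i j = if j = i + 1 then sgn K n j else 0 := by
  rw [hw, cyc, Matrix.of_apply]
  rcases Nat.lt_or_ge i.val n with hi | hi
  · have e : (i + 1).val = i.val + 1 := Fin.val_add_one_of_lt' (by omega)
    by_cases h : j.val = i.val + 1
    · rw [if_pos h, if_pos (Fin.ext (h.trans e.symm)), sgn, if_neg (by omega)]
    · rw [if_neg h, if_neg (by omega), if_neg (fun h' => h (by rw [h', e]))]
  · have hil : i = Fin.last n := Fin.ext (by have := i.isLt; simp; omega)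
    subst hil
    rw [Fin.last_add_one]
    simp only [Fin.val_last, true_and]
    by_cases h : j.val = 0
    · rw [if_neg (by omega), if_pos h, if_pos (Fin.ext h), sgn, if_pos h]
    · have := j.isLt
      rw [if_neg (by omega), if_neg h, if_neg (fun h' => h (by rw [h']; rfl))]

include hw in
theorem conj_transvection {a b : Fin (n + 1)} (hab : a ≠ b) (hab' : a + 1 ≠ b + 1) (c : K) :
    w * SpecialLinearGroup.transvection hab' c * w⁻¹ =
      SpecialLinearGroup.transvection hab (c * sgn K n (a + 1) / sgn K n (b + 1)) := by
  rw [mul_inv_eq_iff_eq_mul]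
  apply Subtype.ext
  change (w : Matrix (Fin (n + 1)) (Fin (n + 1)) K) * Matrix.transvection (a + 1) (b + 1) c =
    Matrix.transvection a b (c * sgn K n (a + 1) / sgn K n (b + 1)) * (w : Matrix (Fin (n + 1)) (Fin (n + 1)) K)
  ext i j
  rw [Matrix.transvection, Matrix.transvection, mul_add, add_mul, mul_one, one_mul, Matrix.add_apply, Matrix.add_apply]
  congr 1
  have hb := sgn_ne_zero (K := K) (b + 1)
  by_cases hj : j = b + 1
  · subst hj
    by_cases hi : i = a
    · subst hi
      rw [Matrix.mul_single_apply_same, Matrix.single_mul_apply_same, w_apply hw, w_apply hw, if_pos rfl, if_pos rfl]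
      field_simp
    · rw [Matrix.mul_single_apply_same, w_apply hw, if_neg (fun h => hi (add_right_cancel h).symm), zero_mul,
        Matrix.single_mul_apply_of_ne (h := hi)]
  · rw [Matrix.mul_single_apply_of_ne (hbj := hj)]
    by_cases hi : i = a
    · subst hi
      rw [Matrix.single_mul_apply_same, w_apply hw, if_neg hj, mul_zero]
    · rw [Matrix.single_mul_apply_of_ne (h := hi)]

include hw in
/-- One full root group and the cycle generate. -/
theorem eq_top_of_root (hn : 1 ≤ n) (H : Subgroup SLN) (hwH : w ∈ H)
    (h0 : ∀ t : K, SpecialLinearGroup.transvection (succ_ne hn 0) t ∈ H) : H = ⊤ := by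
  have step : ∀ k : ℕ, ∀ i : Fin (n + 1), i + (k : Fin (n + 1)) = 0 →
      ∀ t : K, SpecialLinearGroup.transvection (succ_ne hn i) t ∈ H := by
    intro k
    induction k with
    | zero =>
      intro i hi t
      obtain rfl : i = 0 := by simpa using hi
      exact h0 t
    | succ k ih =>
      intro i hi t
      have h1 := ih (i + 1) (by rw [← hi, Nat.cast_succ]; abel) (t * sgn K n (i + 1 + 1) / sgn K n (i + 1))
      have h2 := mul_mem (mul_mem hwH h1) (inv_mem hwH)
      rw [conj_transvection hw (succ_ne hn i) (succ_ne hn (i + 1))] at h2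
      have e : t * sgn K n (i + 1 + 1) / sgn K n (i + 1) * sgn K n (i + 1) / sgn K n (i + 1 + 1) = t := by
        have := sgn_ne_zero (K := K) (i + 1)
        have := sgn_ne_zero (K := K) (i + 1 + 1)
        field_simp
      rwa [e] at h2
  refine eq_top_of_adjacent hn H fun i t => step (-i).val i ?_ t
  rw [Fin.cast_val_eq_self, add_neg_cancel]

theorem diag_mul_single (d : Fin (n + 1) → K) (a b : Fin (n + 1)) (c : K) :
    Matrix.diagonal d * Matrix.single a b c = Matrix.single a b (d a * c) := by
  ext i j
  by_cases hi : i = a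
  · subst hi
    by_cases hj : j = b
    · subst hj; simp
    · simp [Matrix.diagonal_mul, Matrix.single_apply_of_ne, Ne.symm hj]
  · simp [Matrix.diagonal_mul, Matrix.single_apply_of_ne, Ne.symm hi]

theorem single_mul_diag (d : Fin (n + 1) → K) (a b : Fin (n + 1)) (c : K) :
    Matrix.single a b c * Matrix.diagonal d = Matrix.single a b (c * d b) := by
  ext i j
  by_cases hj : j = b
  · subst hj
    by_cases hi : i = a
    · subst hi; simp
    · simp [Matrix.mul_diagonal, Matrix.single_apply_of_ne, Ne.symm hi]
  · simp [Matrix.mul_diagonal, Matrix.single_apply_of_ne, Ne.symm hj]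

/-- Every element of a finite field is a sum of two squares. -/
theorem exists_sq_add_sq [Fintype K] (c : K) : ∃ s t : K, c = s ^ 2 + t ^ 2 := by
  by_cases h : ringChar K = 2
  · obtain ⟨r, hr⟩ := FiniteField.isSquare_of_char_two h c
    exact ⟨r, 0, by rw [hr]; ring⟩
  · obtain ⟨a, b, hab⟩ := FiniteField.exists_root_sum_quadratic (f := (Polynomial.X ^ 2 : Polynomial K))
      (g := (Polynomial.X ^ 2 - Polynomial.C c : Polynomial K)) (Polynomial.degree_X_pow 2)
      (Polynomial.degree_X_pow_sub_C (by norm_num) c) (FiniteField.odd_card_of_char_ne_two h)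
    refine ⟨a, b, ?_⟩
    simp at hab
    linear_combination -hab

end Cfsg.Agent.Lib.GLn.CycleGen
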