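import Cfsg.Agent.Lib.GLn.SemisimpleClasses

/-!
# Bounds for the number of conjugacy classes of `GL`
-/

set_option autoImplicit false

namespace Cfsg.Agent.Lib.GLn.ClassCount

open Polynomial Matrix

variable {F : Type*} [Field F]

/-- Monic polynomials of given degree with non-zero constant term. -/
abbrev P0 (F : Type*) [Field F] (d : ℕ) : Type _ := {P : F[X] // P.Monic ∧ P.natDegree = d ∧ P.coeff 0 ≠ 0}

/-- Tuples with weighted degree `n`. -/
abbrev Tup (F : Type*) [Field F] (N n : ℕ) : Type _ :=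
  {T : Fin N → F[X] // (∀ i, (T i).Monic ∧ (T i).coeff 0 ≠ 0) ∧ ∑ i : Fin N, ((i : ℕ) + 1) * (T i).natDegree = n}

theorem card_P0 [Fintype F] {d : ℕ} (hd : 1 ≤ d) :
    Finite (P0 F d) ∧ Nat.card (P0 F d) = (Fintype.card F - 1) * Fintype.card F ^ (d - 1) := by
  classical
  obtain ⟨k, rfl⟩ : ∃ k, d = k + 1 := ⟨d - 1, by omega⟩
  let e : {c : Fin (k + 1) → F // c 0 ≠ 0} ≃ P0 F (k + 1) :=
    ((SemisimpleClasses.monicEquiv F (k + 1)).subtypeEquiv (q := fun P => P.1.coeff 0 ≠ 0) fun c => by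
      conv_lhs => rw [← (SemisimpleClasses.monicEquiv F (k + 1)).symm_apply_apply c]
      rfl).trans
      ⟨fun P => ⟨P.1.1, P.1.2.1, P.1.2.2, P.2⟩, fun P => ⟨⟨P.1, P.2.1, P.2.2.1⟩, P.2.2.2⟩, fun _ => rfl, fun _ => rfl⟩
  refine ⟨Finite.of_equiv _ e, ?_⟩
  rw [← Nat.card_congr e, Nat.add_sub_cancel,
    Nat.card_congr (show {c : Fin (k + 1) → F // c 0 ≠ 0} ≃ {a : F // a ≠ 0} × (Fin k → F) from
      ((Fin.consEquiv fun _ : Fin (k + 1) => F).symm.subtypeEquiv (q := fun x => x.1 ≠ 0) (fun c => Iff.rfl)).trans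
        ⟨fun x => (⟨x.1.1, x.2⟩, x.1.2), fun y => ⟨(y.1.1, y.2), y.1.2⟩, fun _ => rfl, fun _ => rfl⟩)]
  rw [Nat.card_prod, Nat.card_eq_fintype_card, Nat.card_fun, Nat.card_eq_fintype_card, Nat.card_eq_fintype_card,
    Fintype.card_fin, Fintype.card_subtype_compl, Fintype.card_subtype_eq]

/-- The weight-`M` part of the recursion. -/
def rec' (q M : ℕ) (g : ℕ → ℕ) (n : ℕ) : ℕ :=
  ∑ d ∈ Finset.range (n / M), (q - 1) * q ^ d * g (n - M * (d + 1))

theorem rec'_bound {q N : ℕ} (hq : 2 ≤ q) (hN : 1 ≤ N) (g : ℕ → ℕ) (hg : ∀ m, g m ≤ q ^ m)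
    (hg' : ∀ m, N ≤ m → g m * q ^ N ≤ q ^ m * (q ^ N - 1)) :
    ∀ n, N + 1 ≤ n → rec' q (N + 1) g n ≤ (q - 1) * q ^ (n - (N + 1)) := by
  intro n
  induction n using Nat.strong_induction_on with
  | _ n ih =>
    intro hn
    have hdiv : n / (N + 1) = (n - (N + 1)) / (N + 1) + 1 := Nat.div_eq_sub_div (by omega) hn
    have hsplit : rec' q (N + 1) g n = (q - 1) * g (n - (N + 1)) + q * rec' q (N + 1) g (n - (N + 1)) := by
      rw [rec', rec', hdiv, Finset.sum_range_succ', Finset.mul_sum, add_comm]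
      congr 1
      · rw [pow_zero, mul_one, zero_add, mul_one]
      · refine Finset.sum_congr rfl fun d _ => ?_
        rw [show n - (N + 1) - (N + 1) * (d + 1) = n - (N + 1) * (d + 1 + 1) by
          rw [Nat.sub_sub]; congr 1; ring]
        ring
    rw [hsplit]
    by_cases h2 : 2 * (N + 1) ≤ n
    · have h1 := ih (n - (N + 1)) (by omega) (by omega)
      have h3 := hg' (n - (N + 1)) (by omega)
      refine Nat.le_of_mul_le_mul_right ?_ (pow_pos (by omega : 0 < q) N)
      have e1 : q ^ (n - (N + 1)) = q ^ (n - (N + 1) - (N + 1)) * (q * q ^ N) := by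
        rw [← pow_succ', ← pow_add]; congr 1; omega
      have hqN : 1 ≤ q ^ N := Nat.one_le_pow _ _ (by omega)
      calc ((q - 1) * g (n - (N + 1)) + q * rec' q (N + 1) g (n - (N + 1))) * q ^ N
          = (q - 1) * (g (n - (N + 1)) * q ^ N) + q * q ^ N * rec' q (N + 1) g (n - (N + 1)) := by ring
        _ ≤ (q - 1) * (q ^ (n - (N + 1)) * (q ^ N - 1)) + q * q ^ N * ((q - 1) * q ^ (n - (N + 1) - (N + 1))) :=
          Nat.add_le_add (Nat.mul_le_mul_left _ h3) (Nat.mul_le_mul_left _ h1)
        _ = (q - 1) * q ^ (n - (N + 1)) * ((q ^ N - 1) + 1) := by rw [e1]; ring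
        _ = _ := by rw [Nat.sub_add_cancel hqN]
    · have h0 : rec' q (N + 1) g (n - (N + 1)) = 0 := by
        rw [rec', Nat.div_eq_of_lt (by omega), Finset.range_zero, Finset.sum_empty]
      rw [h0, mul_zero, add_zero]
      exact Nat.mul_le_mul_left _ (hg _)

theorem tup_bound [Fintype F] : ∀ N, 1 ≤ N → ∀ n, Finite (Tup F N n) ∧ Nat.card (Tup F N n) ≤ Fintype.card F ^ n ∧
    (N ≤ n → Nat.card (Tup F N n) * Fintype.card F ^ N ≤ Fintype.card F ^ n * (Fintype.card F ^ N - 1)) := by
  classical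
  have hq : 2 ≤ Fintype.card F := Fintype.one_lt_card
  intro N hN
  induction N, hN using Nat.le_induction with
  | base =>
    intro n
    let e : Tup F 1 n ≃ P0 F n :=
      ⟨fun T => ⟨T.1 0, (T.2.1 0).1, by have := T.2.2; simpa using this, (T.2.1 0).2⟩,
       fun P => ⟨fun _ => P.1, fun _ => ⟨P.2.1, P.2.2.2⟩, by simp [P.2.2.1]⟩,
       fun T => Subtype.ext (funext fun i => congrArg T.1 (Subsingleton.elim 0 i)), fun P => rfl⟩
    rcases Nat.eq_zero_or_pos n with rfl | hn
    · haveI : Subsingleton (P0 F 0) := ⟨fun a b => Subtype.ext (by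
        rw [eq_one_of_monic_natDegree_zero a.2.1 a.2.2.1, eq_one_of_monic_natDegree_zero b.2.1 b.2.2.1])⟩
      refine ⟨Finite.of_equiv _ e.symm, ?_, fun h => absurd h (by omega)⟩
      rw [Nat.card_congr e, pow_zero]
      exact Finite.card_le_one_iff_subsingleton.2 inferInstance
    · obtain ⟨hf, hc⟩ := card_P0 (F := F) hn
      refine ⟨Finite.of_equiv _ e.symm, ?_, fun _ => ?_⟩ <;> rw [Nat.card_congr e, hc]
      · calc (Fintype.card F - 1) * Fintype.card F ^ (n - 1) ≤ Fintype.card F * Fintype.card F ^ (n - 1) :=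
            Nat.mul_le_mul_right _ (Nat.sub_le _ _)
          _ = _ := by rw [← pow_succ', Nat.sub_add_cancel hn]
      · rw [pow_one, mul_assoc, ← pow_succ, Nat.sub_add_cancel hn, mul_comm]
  | succ N hN ih =>
    set q := Fintype.card F with hqd
    set g := fun m => Nat.card (Tup F N m) with hg
    intro n
    -- split off the last entry
    let Pc : Fin (n / (N + 1) + 1) → Type _ := fun d => P0 F d × Tup F N (n - (N + 1) * (d : ℕ))
    have hfinP : ∀ d, Finite (Pc d) := fun d => by
      haveI : Finite (P0 F (d : ℕ)) := by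
        rcases Nat.eq_zero_or_pos (d : ℕ) with h | h
        · rw [h]
          haveI : Subsingleton (P0 F 0) := ⟨fun a b => Subtype.ext (by
            rw [eq_one_of_monic_natDegree_zero a.2.1 a.2.2.1, eq_one_of_monic_natDegree_zero b.2.1 b.2.2.1])⟩
          exact Finite.of_subsingleton
        · exact (card_P0 h).1
      haveI := (ih (n - (N + 1) * (d : ℕ))).1
      exact inferInstanceAs (Finite (P0 F (d : ℕ) × Tup F N (n - (N + 1) * (d : ℕ))))
    have hsum : ∀ T : Tup F (N + 1) n,
        ∑ i : Fin N, ((i : ℕ) + 1) * (T.1 i.castSucc).natDegree + (N + 1) * (T.1 (Fin.last N)).natDegree = n := by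
      intro T
      have := T.2.2
      rw [Fin.sum_univ_castSucc] at this
      simpa using this
    have hd : ∀ T : Tup F (N + 1) n, (T.1 (Fin.last N)).natDegree < n / (N + 1) + 1 := fun T =>
      Nat.lt_succ_of_le ((Nat.le_div_iff_mul_le (Nat.succ_pos N)).2 (by rw [mul_comm]; exact (Nat.le_add_left _ _).trans (hsum T).le))
    let Φ : Tup F (N + 1) n → Σ d, Pc d := fun T =>
      ⟨⟨_, hd T⟩, ⟨T.1 (Fin.last N), (T.2.1 _).1, rfl, (T.2.1 _).2⟩,
        ⟨fun i => T.1 i.castSucc, fun i => T.2.1 _, by have := hsum T; dsimp only; omega⟩⟩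
    have hinj : Function.Injective Φ := by
      intro T U h
      have h1 := congrArg (fun x : Σ d, Pc d => (x.2.1.1, x.2.2.1)) h
      simp only [Φ, Prod.mk.injEq] at h1
      refine Subtype.ext (funext fun i => ?_)
      refine Fin.lastCases h1.1 (fun j => ?_) i
      exact congrFun h1.2 j
    haveI := hfinP
    haveI : Finite (Tup F (N + 1) n) := Finite.of_injective Φ hinj
    have hle : Nat.card (Tup F (N + 1) n) ≤ g n + rec' q (N + 1) g n := by
      refine (Nat.card_le_card_of_injective Φ hinj).trans (le_of_eq ?_)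
      rw [Nat.card_sigma, Fin.sum_univ_succ, rec', ← Fin.sum_univ_eq_sum_range]
      congr 1
      · show Nat.card (P0 F 0 × Tup F N (n - (N + 1) * 0)) = _
        haveI : Subsingleton (P0 F 0) := ⟨fun a b => Subtype.ext (by
          rw [eq_one_of_monic_natDegree_zero a.2.1 a.2.2.1, eq_one_of_monic_natDegree_zero b.2.1 b.2.2.1])⟩
        haveI : Nonempty (P0 F 0) := ⟨⟨1, monic_one, natDegree_one, by simp⟩⟩
        rw [Nat.card_prod, Nat.card_of_subsingleton (Classical.arbitrary (P0 F 0)), one_mul, mul_zero, Nat.sub_zero]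
      · refine Finset.sum_congr rfl fun d _ => ?_
        show Nat.card (P0 F ((d.succ : Fin _) : ℕ) × Tup F N (n - (N + 1) * ((d.succ : Fin _) : ℕ))) = _
        rw [Fin.val_succ, Nat.card_prod, (card_P0 (Nat.succ_pos _)).2]; rfl
    have hg1 : ∀ m, g m ≤ q ^ m := fun m => (ih m).2.1
    have hg2 : ∀ m, N ≤ m → g m * q ^ N ≤ q ^ m * (q ^ N - 1) := fun m hm => (ih m).2.2 hm
    have hbig : N + 1 ≤ n → Nat.card (Tup F (N + 1) n) * q ^ (N + 1) ≤ q ^ n * (q ^ (N + 1) - 1) := by
      intro hn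
      have h1 := rec'_bound hq hN g hg1 hg2 n hn
      have hqN : 1 ≤ q ^ N := Nat.one_le_pow _ _ (by omega)
      have e1 : q ^ (n - (N + 1)) * q ^ (N + 1) = q ^ n := by rw [← pow_add, Nat.sub_add_cancel hn]
      calc Nat.card (Tup F (N + 1) n) * q ^ (N + 1)
          ≤ (g n + (q - 1) * q ^ (n - (N + 1))) * q ^ (N + 1) :=
            Nat.mul_le_mul_right _ (hle.trans (Nat.add_le_add_left h1 _))
        _ = g n * q ^ N * q + (q - 1) * q ^ n := by rw [add_mul, mul_assoc (q - 1), e1, pow_succ]; ring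
        _ ≤ q ^ n * (q ^ N - 1) * q + (q - 1) * q ^ n :=
            Nat.add_le_add_right (Nat.mul_le_mul_right _ (hg2 n (by omega))) _
        _ = q ^ n * (q ^ (N + 1) - 1) := by
            have h2 : 1 ≤ q ^ (N + 1) := Nat.one_le_pow _ _ (by omega)
            zify [hqN, h2, show 1 ≤ q by omega]
            ring
    refine ⟨inferInstance, ?_, hbig⟩
    by_cases hn : N + 1 ≤ n
    · refine Nat.le_of_mul_le_mul_right ((hbig hn).trans ?_) (pow_pos (by omega : 0 < q) (N + 1))
      exact Nat.mul_le_mul_left _ (Nat.sub_le _ _)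
    · refine hle.trans ?_
      rw [rec', Nat.div_eq_of_lt (by omega), Finset.range_zero, Finset.sum_empty, add_zero]
      exact hg1 n

/-- Classes inject into tuples. -/
theorem exists_embedding [Fintype F] (n : ℕ) (hn : 1 ≤ n) :
    ∃ T : GL (Fin n) F → Tup F n n, ∀ g h, T g = T h → IsConj g h := by
  classical
  have hdata : ∀ g : GL (Fin n) F, ∃ (ι : Type _) (_ : Fintype ι) (p : ι → F[X]) (e : ι → ℕ)
      (φ : Module.AEval' (Matrix.toLin' (g : Matrix (Fin n) (Fin n) F)) ≃ₗ[F[X]]
        Π i, F[X] ⧸ Ideal.span {p i ^ e i}),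
      (∀ i, (p i).Monic ∧ Irreducible (p i) ∧ (p i).coeff 0 ≠ 0 ∧ 1 ≤ e i) ∧ ∑ i, e i * (p i).natDegree = n := by
    intro g
    set f := Matrix.toLin' (g : Matrix (Fin n) (Fin n) F)
    have htor : Module.IsTorsion F[X] (Module.AEval' f) := Module.AEval.isTorsion_of_finiteDimensional F _ f
    obtain ⟨ι, hι, p, hp, e, ⟨φ0⟩⟩ := Module.equiv_directSum_of_isTorsion htor
    let φ1 : Module.AEval' f ≃ₗ[F[X]] Π i, F[X] ⧸ Ideal.span {p i ^ e i} :=
      φ0.trans (DirectSum.linearEquivFunOnFintype F[X] ι _)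
    -- drop trivial components and normalise
    let P : {i // 1 ≤ e i} → F[X] := fun i => normalize (p i.1)
    have hspan : ∀ i : {i // 1 ≤ e i}, Ideal.span {p i.1 ^ e i.1} = Ideal.span {P i ^ e i.1} := fun i =>
      Ideal.span_singleton_eq_span_singleton.2 ((normalize_associated _).symm.pow_pow)
    have hsub : ∀ i, ¬ 1 ≤ e i → Subsingleton (F[X] ⧸ Ideal.span {p i ^ e i}) := fun i hi => by
      rw [Ideal.Quotient.subsingleton_iff, show e i = 0 by omega, pow_zero, Ideal.span_singleton_one]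
    let φ2 : (Π i, F[X] ⧸ Ideal.span {p i ^ e i}) ≃ₗ[F[X]] Π i : {i // 1 ≤ e i}, F[X] ⧸ Ideal.span {P i ^ e i.1} :=
      LinearEquiv.ofBijective (LinearMap.pi fun i =>
        (Submodule.quotEquivOfEq _ _ (hspan i)).toLinearMap ∘ₗ LinearMap.proj i.1) ⟨fun x y h => funext fun i => by
          by_cases hi : 1 ≤ e i
          · exact (Submodule.quotEquivOfEq _ _ (hspan ⟨i, hi⟩)).injective (congrFun h ⟨i, hi⟩)
          · exact @Subsingleton.elim _ (hsub i hi) _ _,
        fun y => ⟨fun i => if hi : 1 ≤ e i then (Submodule.quotEquivOfEq _ _ (hspan ⟨i, hi⟩)).symm (y ⟨i, hi⟩) else 0,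
          funext fun i => by
            show (Submodule.quotEquivOfEq _ _ (hspan i)) (dite _ _ _) = _
            rw [dif_pos i.2, LinearEquiv.apply_symm_apply]⟩⟩
    let φ := φ1.trans φ2
    have hmon : ∀ i, (P i).Monic := fun i => Polynomial.monic_normalize (hp i.1).ne_zero
    have hirr : ∀ i, Irreducible (P i) := fun i => (normalize_associated _).symm.irreducible (hp i.1)
    refine ⟨_, inferInstance, P, fun i => e i.1, φ, fun i => ⟨hmon i, hirr i, fun h0 => ?_, i.2⟩, ?_⟩
    · -- zero is not an eigenvalue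
      obtain ⟨r, hr⟩ := (Polynomial.X_dvd_iff.2 h0).trans (dvd_pow_self (P i) (show e i.1 ≠ 0 by have := i.2; omega))
      have hne : P i ^ e i.1 ≠ 0 := pow_ne_zero _ (hmon i).ne_zero
      set w : F[X] ⧸ Ideal.span {P i ^ e i.1} := Ideal.Quotient.mk _ r
      have hw : w ≠ 0 := fun h => by
        rw [Ideal.Quotient.eq_zero_iff_mem, Ideal.mem_span_singleton] at h
        have hr0 : r ≠ 0 := fun h' => hne (by rw [hr, h', mul_zero])
        have := Polynomial.natDegree_le_of_dvd h hr0
        rw [hr, Polynomial.natDegree_X_mul hr0] at this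
        omega
      obtain ⟨v, hv⟩ := φ.surjective (Pi.single i w)
      have hXv : (X : F[X]) • v = 0 := φ.injective (by
        rw [map_smul, map_zero, hv, ← Pi.single_smul]
        convert Pi.single_zero i
        show Ideal.Quotient.mk _ (X * r) = 0
        rw [← hr, Ideal.Quotient.eq_zero_iff_mem]
        exact Ideal.mem_span_singleton_self _)
      obtain ⟨v', rfl⟩ := (Module.AEval'.of f).surjective v
      rw [Module.AEval'.X_smul_of] at hXv
      have hinj : Function.Injective f := fun a b hab => by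
        have := congrArg (Matrix.mulVec ((g⁻¹ : GL (Fin n) F) : Matrix (Fin n) (Fin n) F)) hab
        simpa [f, Matrix.mulVec_mulVec, ← Units.val_mul] using this
      have : v' = 0 := hinj (by
        rw [map_zero]; exact (Module.AEval'.of f).injective (hXv.trans (map_zero _).symm))
      rw [this, map_zero, map_zero] at hv
      exact hw (by simpa using (congrFun hv i).symm)
    · have hd : ∀ i, Module.finrank F (F[X] ⧸ Ideal.span {P i ^ e i.1}) = e i.1 * (P i).natDegree := fun i => by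
        rw [finrank_quotient_span_eq_natDegree, Polynomial.natDegree_pow]
      haveI : ∀ i, Module.Finite F (F[X] ⧸ Ideal.span {P i ^ e i.1}) := fun i =>
        (AdjoinRoot.powerBasis (pow_ne_zero (e i.1) (hmon i).ne_zero)).finite
      have h := LinearEquiv.finrank_eq ((Module.AEval'.of f).trans (φ.restrictScalars F))
      rw [Module.finrank_fin_fun, Module.finrank_pi_fintype] at h
      simp only [hd] at h
      exact h.symm
  choose ι hι p e φ hpe hdim using hdata
  let T0 : GL (Fin n) F → Fin n → F[X] := fun g i =>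
    ((Finset.univ.filter fun j => e g j = (i : ℕ) + 1).val.map (p g)).prod
  have hfac : ∀ g i, UniqueFactorizationMonoid.normalizedFactors (T0 g i) =
      (Finset.univ.filter fun j => e g j = (i : ℕ) + 1).val.map (p g) := fun g i => by
    rw [UniqueFactorizationMonoid.normalizedFactors_prod_eq _ (fun x hx => ?_)]
    · rw [Multiset.map_map]
      exact Multiset.map_congr rfl fun j _ => ((hpe g j).1).normalize_eq_self
    · obtain ⟨j, -, rfl⟩ := Multiset.mem_map.1 hx
      exact (hpe g j).2.1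
  have hle : ∀ g j, e g j ≤ n := fun g j => by
    refine le_trans ?_ ((Finset.single_le_sum (fun k _ => Nat.zero_le _) (Finset.mem_univ j)).trans (hdim g).le)
    exact Nat.le_mul_of_pos_right _ (hpe g j).2.1.natDegree_pos
  have hT : ∀ g, (∀ i, (T0 g i).Monic ∧ (T0 g i).coeff 0 ≠ 0) ∧
      ∑ i : Fin n, ((i : ℕ) + 1) * (T0 g i).natDegree = n := fun g => by
    refine ⟨fun i => ⟨monic_multiset_prod_of_monic _ _ fun j _ => (hpe g j).1, ?_⟩, ?_⟩
    · rw [← constantCoeff_apply, map_multiset_prod, Multiset.map_map]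
      refine Multiset.prod_ne_zero ?_
      rw [Multiset.mem_map]
      rintro ⟨j, -, hj⟩
      exact (hpe g j).2.2.1 hj
    · conv_rhs => rw [← hdim g]
      rw [← Finset.sum_fiberwise_of_maps_to (g := fun j => (⟨e g j - 1, by have := hle g j; omega⟩ : Fin n))
        (fun j _ => Finset.mem_univ _)]
      refine Finset.sum_congr rfl fun i _ => ?_
      have hf : (Finset.univ.filter fun j => (⟨e g j - 1, by have := hle g j; omega⟩ : Fin n) = i) =
          Finset.univ.filter fun j => e g j = (i : ℕ) + 1 := by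
        ext j
        simp only [Finset.mem_filter, Finset.mem_univ, true_and, Fin.ext_iff]
        have := (hpe g j).2.2.2
        omega
      rw [hf, natDegree_multiset_prod_of_monic _ (fun x hx => by
        obtain ⟨j, -, rfl⟩ := Multiset.mem_map.1 hx; exact (hpe g j).1), Multiset.map_map]
      show _ * (Finset.sum _ fun j => (p g j).natDegree) = _
      rw [Finset.mul_sum]
      exact Finset.sum_congr rfl fun j hj => by rw [(Finset.mem_filter.1 hj).2]
  refine ⟨fun g => ⟨T0 g, hT g⟩, fun g h hgh => ?_⟩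
  have hTe : ∀ i, T0 g i = T0 h i := fun i => congrFun (congrArg Subtype.val hgh) i
  -- fibres have the same size
  have hcount : ∀ c : F[X] × ℕ,
      Fintype.card {j // (p g j, e g j) = c} = Fintype.card {j // (p h j, e h j) = c} := by
    rintro ⟨P, k⟩
    by_cases hk : 1 ≤ k ∧ k ≤ n
    · have key : ∀ x, Fintype.card {j // (p x j, e x j) = (P, k)} =
          (UniqueFactorizationMonoid.normalizedFactors (T0 x ⟨k - 1, by omega⟩)).count P := fun x => by
        rw [hfac, Multiset.count_map, Fintype.card_subtype]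
        show _ = Multiset.card ((Finset.univ.filter fun j => e x j = k - 1 + 1).filter fun j => P = p x j).val
        rw [Finset.filter_filter]
        refine congrArg Multiset.card (congrArg Finset.val (Finset.filter_congr fun j _ => ?_))
        rw [Prod.mk.injEq, show k - 1 + 1 = k by omega]
        exact ⟨fun h => ⟨h.2, h.1.symm⟩, fun h => ⟨h.2.symm, h.1⟩⟩
      rw [key, key, hTe]
    · have key : ∀ x, IsEmpty {j // (p x j, e x j) = (P, k)} := fun x => ⟨fun ⟨j, hj⟩ => by
        rw [Prod.mk.injEq] at hj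
        exact hk ⟨hj.2 ▸ (hpe x j).2.2.2, hj.2 ▸ hle x j⟩⟩
      rw [Fintype.card_eq_zero_iff.2 (key g), Fintype.card_eq_zero_iff.2 (key h)]
  let σ : ι g ≃ ι h := Equiv.ofFiberEquiv (f := fun j => (p g j, e g j)) (g := fun j => (p h j, e h j))
    fun c => Fintype.equivOfCardEq (hcount c)
  have hσ : ∀ j, p h (σ j) = p g j ∧ e h (σ j) = e g j := fun j => by
    have := Equiv.ofFiberEquiv_map (f := fun j => (p g j, e g j)) (g := fun j => (p h j, e h j))
      (fun c => Fintype.equivOfCardEq (hcount c)) j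
    exact ⟨congrArg Prod.fst this, congrArg Prod.snd this⟩
  let A : (Π i, F[X] ⧸ Ideal.span {p g i ^ e g i}) ≃ₗ[F[X]] Π i, F[X] ⧸ Ideal.span {p h i ^ e h i} :=
    (LinearEquiv.piCongrRight fun j => Submodule.quotEquivOfEq _ _ (by rw [(hσ j).1, (hσ j).2])).trans
      (LinearEquiv.piCongrLeft F[X] (fun i => F[X] ⧸ Ideal.span {p h i ^ e h i}) σ)
  let fg := Matrix.toLin' (g : Matrix (Fin n) (Fin n) F)
  let fh := Matrix.toLin' (h : Matrix (Fin n) (Fin n) F)
  let Φ : Module.AEval' fg ≃ₗ[F[X]] Module.AEval' fh := ((φ g).trans A).trans (φ h).symm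
  let L : (Fin n → F) ≃ₗ[F] (Fin n → F) :=
    ((Module.AEval'.of fg).trans (Φ.restrictScalars F)).trans (Module.AEval'.of fh).symm
  have hL : ∀ v, L (fg v) = fh (L v) := fun v => by
    show (Module.AEval'.of fh).symm (Φ (Module.AEval'.of fg (fg v))) = fh ((Module.AEval'.of fh).symm (Φ (Module.AEval'.of fg v)))
    rw [← Module.AEval'.X_smul_of, map_smul, Module.AEval'.of_symm_X_smul]
  set Q : GL (Fin n) F := ⟨LinearMap.toMatrix' (L : (Fin n → F) →ₗ[F] (Fin n → F)),
    LinearMap.toMatrix' (L.symm : (Fin n → F) →ₗ[F] (Fin n → F)),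
    by rw [← LinearMap.toMatrix'_comp]; simp,
    by rw [← LinearMap.toMatrix'_comp]; simp⟩
  refine isConj_iff.2 ⟨Q, mul_inv_eq_iff_eq_mul.2 (Units.ext ?_)⟩
  refine Matrix.ext_iff_mulVec.2 fun v => ?_
  rw [Units.val_mul, Units.val_mul, ← Matrix.mulVec_mulVec, ← Matrix.mulVec_mulVec]
  show LinearMap.toMatrix' (L : (Fin n → F) →ₗ[F] (Fin n → F)) *ᵥ _ = _ *ᵥ (LinearMap.toMatrix' (L : (Fin n → F) →ₗ[F] (Fin n → F)) *ᵥ v)
  rw [LinearMap.toMatrix'_mulVec, LinearMap.toMatrix'_mulVec]
  exact hL v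

theorem card_le [Fintype F] {n : ℕ} (hn : 1 ≤ n) :
    Nat.card (ConjClasses (GL (Fin n) F)) ≤ Fintype.card F ^ n := by
  obtain ⟨T, hT⟩ := exists_embedding (F := F) n hn
  haveI := (tup_bound (F := F) n hn n).1
  refine le_trans (Nat.card_le_card_of_injective (fun c => T (Quotient.out c)) fun a b h => ?_)
    (tup_bound (F := F) n hn n).2.1
  rw [← Quotient.out_eq a, ← Quotient.out_eq b]
  exact Quotient.sound (hT _ _ h)

theorem le_card [Fintype F] {n : ℕ} (hn : 1 ≤ n) :
    Fintype.card F ^ n - Fintype.card F ^ (n - 1) ≤ Nat.card (ConjClasses (GL (Fin n) F)) := by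
  classical
  obtain ⟨p, hp⟩ := CharP.exists F
  obtain ⟨k, hpp, hq⟩ := FiniteField.card F p
  haveI := Fact.mk hpp
  refine le_trans (le_of_eq ?_) (Nat.card_le_card_of_injective _ (Subtype.val_injective
    (p := fun c : ConjClasses (GL (Fin n) F) => ∃ g : GL (Fin n) F, ConjClasses.mk g = c ∧ (orderOf g).Coprime p)))
  rw [SemisimpleClasses.card_gl p hn, Nat.sub_mul, one_mul, ← pow_succ', Nat.sub_add_cancel hn]

end Cfsg.Agent.Lib.GLn.ClassCount
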