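import Mathlib

/-! Determinants of products of linear maps and norms in `F[X]/(p ^ e)`. -/

set_option autoImplicit false

namespace Cfsg.Agent.Lib.GLn.DetAeval

open Polynomial

universe u v w

variable {F : Type u} [Field F]

/-- The determinant of a product of endomorphisms. -/
theorem det_pi' {ι : Type w} [Fintype ι] {V : ι → Type v} [∀ i, AddCommGroup (V i)] [∀ i, Module F (V i)]
    [∀ i, FiniteDimensional F (V i)] (f : ∀ i, Module.End F (V i)) :
    LinearMap.det (LinearMap.pi fun i => (f i).comp (LinearMap.proj i) : Module.End F (∀ i, V i)) =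
      ∏ i, LinearMap.det (f i) := by
  classical
  have single : ∀ (a : ι) (g : Module.End F (V a)),
      LinearMap.det (LinearMap.pi fun i => (Function.update (fun i => (1 : Module.End F (V i))) a g i).comp (LinearMap.proj i) :
        Module.End F (∀ i, V i)) = LinearMap.det g := by
    intro a g
    let E : (∀ i, V i) ≃ₗ[F] V a × (∀ i : {j // j ≠ a}, V i) :=
      { Equiv.piSplitAt a V with
        map_add' := fun x y => rfl
        map_smul' := fun c x => rfl }
    have h : (LinearMap.pi fun i => (Function.update (fun i => (1 : Module.End F (V i))) a g i).comp (LinearMap.proj i) :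
        Module.End F (∀ i, V i)) = E.symm.conj (g.prodMap LinearMap.id) := by
      refine LinearMap.ext fun x => ?_
      apply E.injective
      rw [LinearEquiv.conj_apply_apply, LinearEquiv.apply_symm_apply, LinearEquiv.symm_symm]
      refine Prod.ext ?_ (funext fun i => ?_)
      · show (Function.update (fun i => (1 : Module.End F (V i))) a g a) (x a) = g (x a)
        rw [Function.update_self]
      · show (Function.update (fun i => (1 : Module.End F (V i))) a g i.1) (x i.1) = x i.1
        rw [Function.update_of_ne i.2]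
        rfl
    rw [h, LinearEquiv.conj_apply, LinearMap.comp_assoc, LinearMap.det_conj, LinearMap.det_prodMap, LinearMap.det_id,
      mul_one]
  have key : ∀ s : Finset ι,
      LinearMap.det (LinearMap.pi fun i => (if i ∈ s then f i else 1).comp (LinearMap.proj i) : Module.End F (∀ i, V i)) =
        ∏ i ∈ s, LinearMap.det (f i) := by
    intro s
    induction s using Finset.induction_on with
    | empty =>
      rw [Finset.prod_empty, ← LinearMap.det_id (A := F) (M := ∀ i, V i)]
      congr 1
    | @insert a s ha ih =>
      rw [Finset.prod_insert ha, ← ih, ← single a (f a), ← map_mul]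
      congr 1
      refine LinearMap.ext fun x => funext fun i => ?_
      rw [Module.End.mul_apply]
      simp only [LinearMap.pi_apply, LinearMap.comp_apply, LinearMap.proj_apply]
      by_cases h : i = a
      · subst h
        rw [Function.update_self, if_pos (Finset.mem_insert_self _ _), if_neg ha]
        rfl
      · rw [Function.update_of_ne h, Module.End.one_apply]
        simp [h]
  simpa using key Finset.univ

theorem algebraMap_det_aeval {κ' : Type*} [Fintype κ'] [DecidableEq κ'] (L : Type u) [Field L] [Algebra F L]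
    (C' : Matrix κ' κ' F) (r : F[X]) (a : L) (m : Multiset L)
    (hm : r.map (algebraMap F L) = C a * (m.map fun x => X - C x).prod) :
    algebraMap F L (aeval C' r).det = a ^ Fintype.card κ' *
      (m.map fun x => (-1 : L) ^ Fintype.card κ' * (C'.charpoly.map (algebraMap F L)).eval x).prod := by
  classical
  have h1 : (algebraMap F L).mapMatrix (aeval C' r) =
      aeval ((algebraMap F L).mapMatrix C') (r.map (algebraMap F L)) := by
    rw [aeval_map_algebraMap]
    exact (aeval_algHom_apply ((IsScalarTower.toAlgHom F F L).mapMatrix) C' r).symm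
  rw [RingHom.map_det, h1, hm, map_mul, aeval_C, Matrix.det_mul]
  congr 1
  · rw [Algebra.algebraMap_eq_smul_one, Matrix.det_smul, Matrix.det_one, mul_one]
  · refine (map_multiset_prod ((Matrix.detMonoidHom).comp
      (((aeval ((algebraMap F L).mapMatrix C')) : L[X] →ₐ[L] Matrix κ' κ' L) : L[X] →* Matrix κ' κ' L)) _).trans ?_
    rw [Multiset.map_map]
    refine congrArg Multiset.prod (Multiset.map_congr rfl fun x _ => ?_)
    simp only [Function.comp_apply, MonoidHom.comp_apply, MonoidHom.coe_coe, Matrix.coe_detMonoidHom, map_sub, aeval_X, aeval_C]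
    rw [← Matrix.charpoly_map, Matrix.eval_charpoly, ← Matrix.det_neg, neg_sub]
    rfl

/-- `det (r(M))` is determined by the characteristic polynomial. -/
theorem det_aeval_pow {ι : Type*} [Fintype ι] [DecidableEq ι] {κ : Type*} [Fintype κ] [DecidableEq κ]
    (A : Matrix ι ι F) (B : Matrix κ κ F) (e : ℕ) (h : A.charpoly = B.charpoly ^ e) (r : F[X]) :
    (aeval A r).det = (aeval B r).det ^ e := by
  classical
  let L := AlgebraicClosure F
  obtain ⟨m, hm⟩ := Polynomial.splits_iff_exists_multiset.1 (IsAlgClosed.splits (r.map (algebraMap F L)))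
  have hd : Fintype.card ι = Fintype.card κ * e := by
    have := congrArg natDegree h
    rwa [natDegree_pow, Matrix.charpoly_natDegree_eq_dim, Matrix.charpoly_natDegree_eq_dim, mul_comm] at this
  apply (algebraMap F L).injective
  rw [algebraMap_det_aeval L A r _ m hm, map_pow, algebraMap_det_aeval L B r _ m hm, h, hd, pow_mul, mul_pow, ← Multiset.prod_map_pow]
  congr 2
  refine Multiset.map_congr rfl fun x _ => ?_
  rw [Polynomial.map_pow, eval_pow, mul_pow, pow_mul]

/-- Norm from `F[X]/(p ^ e)`. -/
theorem norm_mk_pow (p : F[X]) (hp : p.Monic) (e : ℕ) (r : F[X]) :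
    Algebra.norm F (AdjoinRoot.mk (p ^ e) r) = Algebra.norm F (AdjoinRoot.mk p r) ^ e := by
  classical
  have hpe : (p ^ e).Monic := hp.pow e
  have key : ∀ f : F[X], ∀ hf : f.Monic, Algebra.norm F (AdjoinRoot.mk f r) =
      (aeval (Algebra.leftMulMatrix (AdjoinRoot.powerBasis hf.ne_zero).basis (AdjoinRoot.root f)) r).det := by
    intro f hf
    rw [Algebra.norm_eq_matrix_det (AdjoinRoot.powerBasis hf.ne_zero).basis, aeval_algHom_apply, AdjoinRoot.aeval_eq]
  have hc : ∀ f : F[X], ∀ hf : f.Monic,
      (Algebra.leftMulMatrix (AdjoinRoot.powerBasis hf.ne_zero).basis (AdjoinRoot.root f)).charpoly = f := by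
    intro f hf
    rw [← AdjoinRoot.powerBasis_gen hf.ne_zero, charpoly_leftMulMatrix, AdjoinRoot.powerBasis_gen,
      AdjoinRoot.minpoly_root hf.ne_zero, hf.leadingCoeff, inv_one, C_1, mul_one]
  rw [key _ hpe, key _ hp]
  exact det_aeval_pow _ _ e (by rw [hc _ hpe, hc _ hp]) r

/-- The norm of the root. -/
theorem norm_mk_X (p : F[X]) (hp : p.Monic) :
    Algebra.norm F (AdjoinRoot.mk p X) = (-1) ^ p.natDegree * p.coeff 0 := by
  classical
  have hc : (Algebra.leftMulMatrix (AdjoinRoot.powerBasis hp.ne_zero).basis (AdjoinRoot.root p)).charpoly = p := by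
    rw [← AdjoinRoot.powerBasis_gen hp.ne_zero, charpoly_leftMulMatrix, AdjoinRoot.powerBasis_gen,
      AdjoinRoot.minpoly_root hp.ne_zero, hp.leadingCoeff, inv_one, C_1, mul_one]
  rw [AdjoinRoot.mk_X, Algebra.norm_eq_matrix_det (AdjoinRoot.powerBasis hp.ne_zero).basis,
    Matrix.det_eq_sign_charpoly_coeff, hc, Fintype.card_fin, AdjoinRoot.powerBasis_dim]

/-- Multiplication by a polynomial on `F[X]/(f)`. -/
theorem det_lsmul_quot (f r : F[X]) :
    LinearMap.det ((LinearMap.lsmul F[X] (F[X] ⧸ Ideal.span {f}) r).restrictScalars F) =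
      Algebra.norm F (AdjoinRoot.mk f r) := by
  rw [Algebra.norm_apply]
  refine congrArg LinearMap.det (LinearMap.ext fun x => ?_)
  obtain ⟨a, rfl⟩ := Ideal.Quotient.mk_surjective x
  rfl

end Cfsg.Agent.Lib.GLn.DetAeval
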