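import Cfsg.Agent.Lib.GLn.ClassCount
import Cfsg.Agent.Lib.GLn.DetAeval

/-!
# A complete invariant of conjugacy in `GL`, its behaviour under scalars, and centralizer determinants
-/

set_option autoImplicit false

namespace Cfsg.Agent.Lib.GLn.ClassInvariant

open Polynomial Matrix
open Cfsg.Agent.Lib.GLn.ClassCount (Tup)

universe u

variable {F : Type u} [Field F] {n : ℕ}

/-- An elementary divisor decomposition. -/
structure Decomp (g : GL (Fin n) F) where
  ι : Type u
  fin : Fintype ι
  p : ι → F[X]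
  e : ι → ℕ
  φ : Module.AEval' (Matrix.toLin' (g : Matrix (Fin n) (Fin n) F)) ≃ₗ[F[X]] Π i, F[X] ⧸ Ideal.span {p i ^ e i}
  hpe : ∀ i, (p i).Monic ∧ Irreducible (p i) ∧ (p i).coeff 0 ≠ 0 ∧ 1 ≤ e i
  hdim : ∑ i, e i * (p i).natDegree = n

attribute [instance] Decomp.fin

variable [Fintype F]

theorem exists_decomp (g : GL (Fin n) F) (hn : 1 ≤ n) : Nonempty (Decomp g) := by
  classical
  have hdata : ∃ (ι : Type u) (_ : Fintype ι) (p : ι → F[X]) (e : ι → ℕ)
      (φ : Module.AEval' (Matrix.toLin' (g : Matrix (Fin n) (Fin n) F)) ≃ₗ[F[X]]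
        Π i, F[X] ⧸ Ideal.span {p i ^ e i}),
      (∀ i, (p i).Monic ∧ Irreducible (p i) ∧ (p i).coeff 0 ≠ 0 ∧ 1 ≤ e i) ∧ ∑ i, e i * (p i).natDegree = n := by
    set f := Matrix.toLin' (g : Matrix (Fin n) (Fin n) F)
    have htor : Module.IsTorsion F[X] (Module.AEval' f) := Module.AEval.isTorsion_of_finiteDimensional F _ f
    obtain ⟨ι, hι, p, hp, e, ⟨φ0⟩⟩ := Module.equiv_directSum_of_isTorsion htor
    let φ1 : Module.AEval' f ≃ₗ[F[X]] Π i, F[X] ⧸ Ideal.span {p i ^ e i} :=
      φ0.trans (DirectSum.linearEquivFunOnFintype F[X] ι _)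
    -- drop trivial components and normalise
    let P : {i // 1 ≤ e i} → F[X] := fun i => normalize (p i.1)
    have hspan : ∀ i : {i // 1 ≤ e i}, Ideal.span {p i.1 ^ e i.1} = Ideal.span {P i ^ e i.1} := fun i =>
      Ideal.span_singleton_eq_span_singleton.2 ((normalize_associated _).symm.pow_pow)
    have hsub : ∀ i, ¬ 1 ≤ e i → Subsingleton (F[X] ⧸ Ideal.span {p i ^ e i}) := fun i hi => by
      rw [Ideal.Quotient.subsingleton_iff, show e i = 0 by omega, pow_zero, Ideal.span_singleton_one]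
    let φ2 : (Π i, F[X] ⧸ Ideal.span {p i ^ e i}) ≃ₗ[F[X]] Π i : {i // 1 ≤ e i}, F[X] ⧸ Ideal.span {P i ^ e i.1} :=
      LinearEquiv.ofBijective (LinearMap.pi fun i =>
        (Submodule.quotEquivOfEq _ _ (hspan i)).toLinearMap ∘ₗ LinearMap.proj i.1) ⟨fun x y h => funext fun i => by
          by_cases hi : 1 ≤ e i
          · exact (Submodule.quotEquivOfEq _ _ (hspan ⟨i, hi⟩)).injective (congrFun h ⟨i, hi⟩)
          · exact @Subsingleton.elim _ (hsub i hi) _ _,
        fun y => ⟨fun i => if hi : 1 ≤ e i then (Submodule.quotEquivOfEq _ _ (hspan ⟨i, hi⟩)).symm (y ⟨i, hi⟩) else 0,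
          funext fun i => by
            show (Submodule.quotEquivOfEq _ _ (hspan i)) (dite _ _ _) = _
            rw [dif_pos i.2, LinearEquiv.apply_symm_apply]⟩⟩
    let φ := φ1.trans φ2
    have hmon : ∀ i, (P i).Monic := fun i => Polynomial.monic_normalize (hp i.1).ne_zero
    have hirr : ∀ i, Irreducible (P i) := fun i => (normalize_associated _).symm.irreducible (hp i.1)
    refine ⟨_, inferInstance, P, fun i => e i.1, φ, fun i => ⟨hmon i, hirr i, fun h0 => ?_, i.2⟩, ?_⟩
    · -- zero is not an eigenvalue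
      obtain ⟨r, hr⟩ := (Polynomial.X_dvd_iff.2 h0).trans (dvd_pow_self (P i) (show e i.1 ≠ 0 by have := i.2; omega))
      have hne : P i ^ e i.1 ≠ 0 := pow_ne_zero _ (hmon i).ne_zero
      set w : F[X] ⧸ Ideal.span {P i ^ e i.1} := Ideal.Quotient.mk _ r
      have hw : w ≠ 0 := fun h => by
        rw [Ideal.Quotient.eq_zero_iff_mem, Ideal.mem_span_singleton] at h
        have hr0 : r ≠ 0 := fun h' => hne (by rw [hr, h', mul_zero])
        have := Polynomial.natDegree_le_of_dvd h hr0
        rw [hr, Polynomial.natDegree_X_mul hr0] at this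
        omega
      obtain ⟨v, hv⟩ := φ.surjective (Pi.single i w)
      have hXv : (X : F[X]) • v = 0 := φ.injective (by
        rw [map_smul, map_zero, hv, ← Pi.single_smul]
        convert Pi.single_zero i
        show Ideal.Quotient.mk _ (X * r) = 0
        rw [← hr, Ideal.Quotient.eq_zero_iff_mem]
        exact Ideal.mem_span_singleton_self _)
      obtain ⟨v', rfl⟩ := (Module.AEval'.of f).surjective v
      rw [Module.AEval'.X_smul_of] at hXv
      have hinj : Function.Injective f := fun a b hab => by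
        have := congrArg (Matrix.mulVec ((g⁻¹ : GL (Fin n) F) : Matrix (Fin n) (Fin n) F)) hab
        simpa [f, Matrix.mulVec_mulVec, ← Units.val_mul] using this
      have : v' = 0 := hinj (by
        rw [map_zero]; exact (Module.AEval'.of f).injective (hXv.trans (map_zero _).symm))
      rw [this, map_zero, map_zero] at hv
      exact hw (by simpa using (congrFun hv i).symm)
    · have hd : ∀ i, Module.finrank F (F[X] ⧸ Ideal.span {P i ^ e i.1}) = e i.1 * (P i).natDegree := fun i => by
        rw [finrank_quotient_span_eq_natDegree, Polynomial.natDegree_pow]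
      haveI : ∀ i, Module.Finite F (F[X] ⧸ Ideal.span {P i ^ e i.1}) := fun i =>
        (AdjoinRoot.powerBasis (pow_ne_zero (e i.1) (hmon i).ne_zero)).finite
      have h := LinearEquiv.finrank_eq ((Module.AEval'.of f).trans (φ.restrictScalars F))
      rw [Module.finrank_fin_fun, Module.finrank_pi_fintype] at h
      simp only [hd] at h
      exact h.symm
  obtain ⟨ι, hι, p, e, φ, h1, h2⟩ := hdata
  exact ⟨⟨ι, hι, p, e, φ, h1, h2⟩⟩

/-- `dim ker P(g)^k`, as a cardinality. -/
noncomputable def kerCard (g : GL (Fin n) F) (P : F[X]) (k : ℕ) : ℕ :=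
  Nat.card {v : Fin n → F // aeval (Matrix.toLin' (g : Matrix (Fin n) (Fin n) F)) (P ^ k) v = 0}

omit [Fintype F] in
theorem kerCard_conj {g h : GL (Fin n) F} (hgh : IsConj g h) (P : F[X]) (k : ℕ) : kerCard g P k = kerCard h P k := by
  obtain ⟨x, hx⟩ := isConj_iff.1 hgh
  let L : (Fin n → F) ≃ₗ[F] (Fin n → F) := Matrix.GeneralLinearGroup.toLin x |>.toLinearEquiv
  have hL : ∀ v, L v = (x : Matrix (Fin n) (Fin n) F) *ᵥ v := fun v => rfl
  have hconj : ∀ (r : F[X]) v, L (aeval (Matrix.toLin' (g : Matrix (Fin n) (Fin n) F)) r v) =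
      aeval (Matrix.toLin' (h : Matrix (Fin n) (Fin n) F)) r (L v) := by
    intro r
    induction r using Polynomial.induction_on' with
    | add s t hs ht => intro v; rw [map_add, map_add, LinearMap.add_apply, LinearMap.add_apply, map_add, hs, ht]
    | monomial j c =>
      induction j with
      | zero => intro v; simp [Module.algebraMap_end_apply]
      | succ j ih =>
        intro v
        rw [← monomial_mul_X, map_mul, map_mul, aeval_X, aeval_X, Module.End.mul_apply, Module.End.mul_apply, ih]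
        congr 1
        rw [hL, hL, Matrix.toLin'_apply, Matrix.toLin'_apply, Matrix.mulVec_mulVec, Matrix.mulVec_mulVec, ← Units.val_mul,
          ← Units.val_mul, ← mul_inv_eq_iff_eq_mul.1 hx]
  refine Nat.card_congr (L.toEquiv.subtypeEquiv fun v => ?_)
  show _ = 0 ↔ aeval (Matrix.toLin' (h : Matrix (Fin n) (Fin n) F)) (P ^ k) (L v) = 0
  rw [← hconj, map_eq_zero_iff _ L.injective]

theorem card_quot (f : F[X]) (hf : f ≠ 0) : Nat.card (F[X] ⧸ Ideal.span {f}) = Fintype.card F ^ f.natDegree := by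
  haveI : Module.Finite F (F[X] ⧸ Ideal.span {f}) := (AdjoinRoot.powerBasis hf).finite
  rw [Module.natCard_eq_pow_finrank (K := F), finrank_quotient_span_eq_natDegree, Nat.card_eq_fintype_card]

open Classical in
theorem card_ker_single (P p : F[X]) (hP : P.Monic) (hPi : Irreducible P) (hp : p.Monic) (hpi : Irreducible p) (k e : ℕ) :
    Nat.card {y : F[X] ⧸ Ideal.span {p ^ e} // P ^ k • y = 0} =
      Fintype.card F ^ (P.natDegree * (if p = P then min k e else 0)) := by
  have hsm : ∀ r a : F[X], r • (Submodule.Quotient.mk a : F[X] ⧸ Ideal.span {p ^ e}) = 0 ↔ p ^ e ∣ r * a := fun r a => by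
    rw [← Submodule.Quotient.mk_smul, Submodule.Quotient.mk_eq_zero, Ideal.mem_span_singleton, smul_eq_mul]
  by_cases h : p = P
  · subst h
    rw [if_pos rfl]
    rcases le_total e k with hek | hek
    · rw [min_eq_right hek, mul_comm, ← natDegree_pow, ← card_quot _ (pow_ne_zero e hp.ne_zero)]
      refine Nat.card_congr ⟨fun y => y.1, fun y => ⟨y, ?_⟩, fun _ => rfl, fun _ => rfl⟩
      obtain ⟨a, rfl⟩ := Submodule.Quotient.mk_surjective _ y
      exact (hsm _ _).2 ((pow_dvd_pow p hek).mul_right a)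
    · rw [min_eq_left hek, mul_comm, ← natDegree_pow, ← card_quot _ (pow_ne_zero k hp.ne_zero)]
      have hle : Ideal.span {p ^ k} ≤ Submodule.comap (LinearMap.mulLeft F[X] (p ^ (e - k))) (Ideal.span {p ^ e}) := by
        intro a ha
        obtain ⟨b, rfl⟩ := Ideal.mem_span_singleton.1 ha
        refine Ideal.mem_span_singleton.2 ⟨b, ?_⟩
        show p ^ (e - k) * (p ^ k * b) = p ^ e * b
        rw [← mul_assoc, ← pow_add, Nat.sub_add_cancel hek]
      let μ := Submodule.mapQ _ _ (LinearMap.mulLeft F[X] (p ^ (e - k))) hle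
      have hμ : ∀ a, μ (Submodule.Quotient.mk a) = Submodule.Quotient.mk (p ^ (e - k) * a) := fun a => rfl
      refine (Nat.card_congr (Equiv.ofBijective (fun y => (⟨μ y, ?_⟩ : {y : F[X] ⧸ Ideal.span {p ^ e} // p ^ k • y = 0}))
        ⟨fun y y' hy => ?_, fun y => ?_⟩)).symm
      · obtain ⟨a, rfl⟩ := Submodule.Quotient.mk_surjective _ y
        rw [hμ, hsm, ← mul_assoc, ← pow_add, Nat.add_sub_cancel' hek]
        exact Dvd.intro a rfl
      · obtain ⟨a, rfl⟩ := Submodule.Quotient.mk_surjective _ y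
        obtain ⟨a', rfl⟩ := Submodule.Quotient.mk_surjective _ y'
        have h1 : μ (Submodule.Quotient.mk a) = μ (Submodule.Quotient.mk a') := congrArg Subtype.val hy
        rw [hμ, hμ, Submodule.Quotient.eq, Ideal.mem_span_singleton, ← mul_sub] at h1
        rw [Submodule.Quotient.eq, Ideal.mem_span_singleton]
        refine (mul_dvd_mul_iff_left (pow_ne_zero (e - k) hp.ne_zero)).1 ?_
        rwa [← pow_add, Nat.sub_add_cancel hek]
      · obtain ⟨y, hy⟩ := y
        obtain ⟨a, rfl⟩ := Submodule.Quotient.mk_surjective _ y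
        have h1 := (hsm _ _).1 hy
        rw [show p ^ e = p ^ k * p ^ (e - k) by rw [← pow_add, Nat.add_sub_cancel' hek],
          mul_dvd_mul_iff_left (pow_ne_zero k hp.ne_zero)] at h1
        obtain ⟨b, rfl⟩ := h1
        exact ⟨Submodule.Quotient.mk b, Subtype.ext (hμ b)⟩
  · rw [if_neg h, mul_zero, pow_zero]
    have hcop : IsCoprime (p ^ e) (P ^ k) := (hpi.coprime_iff_not_dvd.2 fun hd => h
      (eq_of_monic_of_associated hp hP (hpi.associated_of_dvd hPi hd))).pow
    rw [Nat.card_eq_one_iff_unique]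
    refine ⟨⟨fun x y => Subtype.ext ?_⟩, ⟨⟨0, smul_zero _⟩⟩⟩
    have h0 : ∀ z : {y : F[X] ⧸ Ideal.span {p ^ e} // P ^ k • y = 0}, z.1 = 0 := by
      rintro ⟨z, hz⟩
      obtain ⟨a, rfl⟩ := Submodule.Quotient.mk_surjective _ z
      rw [Submodule.Quotient.mk_eq_zero, Ideal.mem_span_singleton]
      exact hcop.dvd_of_dvd_mul_left ((hsm _ _).1 hz)
    rw [h0 x, h0 y]

namespace Decomp

variable {g : GL (Fin n) F} (D : Decomp g)

open Classical in
/-- Number of elementary divisors `P ^ k`. -/
noncomputable def count (P : F[X]) (k : ℕ) : ℕ := (Finset.univ.filter fun j => D.e j = k ∧ P = D.p j).card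

open Classical in
/-- `∑ min k e` over the blocks of `P`. -/
noncomputable def minSum (P : F[X]) (k : ℕ) : ℕ := ∑ j, if D.p j = P then min k (D.e j) else 0

theorem kerCard_eq (P : F[X]) (hP : P.Monic) (hPi : Irreducible P) (k : ℕ) :
    kerCard g P k = Fintype.card F ^ (P.natDegree * D.minSum P k) := by
  classical
  set f := Matrix.toLin' (g : Matrix (Fin n) (Fin n) F)
  let L : (Fin n → F) ≃ₗ[F] (Π i, F[X] ⧸ Ideal.span {D.p i ^ D.e i}) :=
    (Module.AEval'.of f).trans (D.φ.restrictScalars F)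
  have hL : ∀ (r : F[X]) v, L (aeval f r v) = r • L v := fun r v => by
    show D.φ (Module.AEval'.of f (aeval f r v)) = r • D.φ (Module.AEval'.of f v)
    rw [← map_smul]
    rfl
  rw [kerCard, Nat.card_congr ((L.toEquiv.subtypeEquiv (q := fun x => ∀ j, P ^ k • x j = 0) fun v => ?_).trans
    (Equiv.subtypePiEquivPi (p := fun j y => P ^ k • y = 0))), Nat.card_pi, minSum, Finset.mul_sum,
    ← Finset.prod_pow_eq_pow_sum]
  · exact Finset.prod_congr rfl fun j _ => card_ker_single P (D.p j) hP hPi (D.hpe j).1 (D.hpe j).2.1 k (D.e j)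
  · rw [← map_eq_zero_iff _ L.injective, hL, funext_iff]
    rfl

theorem count_add (P : F[X]) (k : ℕ) :
    D.minSum P k + D.minSum P (k + 2) + D.count P (k + 1) = 2 * D.minSum P (k + 1) := by
  classical
  rw [minSum, minSum, minSum, count, Finset.card_filter, Finset.mul_sum, ← Finset.sum_add_distrib, ← Finset.sum_add_distrib]
  refine Finset.sum_congr rfl fun j _ => ?_
  by_cases h : D.p j = P
  · subst h
    simp only [if_true, and_true]
    split_ifs <;> omega
  · simp [h]
    exact fun _ hh => h hh.symm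
    

theorem minSum_eq_of_kerCard {g' : GL (Fin n) F} (D' : Decomp g') {P P' : F[X]} (hP : P.Monic) (hPi : Irreducible P)
    (hP' : P'.Monic) (hPi' : Irreducible P') (hd : P.natDegree = P'.natDegree)
    (hker : ∀ k, kerCard g P k = kerCard g' P' k) (k : ℕ) : D.count P (k + 1) = D'.count P' (k + 1) := by
  have key : ∀ j, D.minSum P j = D'.minSum P' j := fun j => by
    have h := hker j
    rw [D.kerCard_eq P hP hPi, D'.kerCard_eq P' hP' hPi', ← hd] at h
    exact Nat.eq_of_mul_eq_mul_left hPi.natDegree_pos (Nat.pow_right_injective Fintype.one_lt_card h)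
  have h1 := D.count_add P k
  have h2 := D'.count_add P' k
  rw [key, key, key] at h1
  omega

open Classical in
/-- The irreducible factors occurring with exponent `i + 1`. -/
noncomputable def parts (i : Fin n) : Multiset F[X] := (Finset.univ.filter fun j => D.e j = (i : ℕ) + 1).val.map D.p

theorem count_parts [DecidableEq F[X]] (i : Fin n) (P : F[X]) : (D.parts i).count P = D.count P ((i : ℕ) + 1) := by
  classical
  rw [parts, Multiset.count_map, count]
  show Multiset.card ((Finset.univ.filter fun j => D.e j = (i : ℕ) + 1).filter fun j => P = D.p j).val = _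
  rw [Finset.filter_filter]
  rw [Finset.card_val]; congr 1; ext; simp

theorem mem_parts {i : Fin n} {P : F[X]} (h : P ∈ D.parts i) : P.Monic ∧ Irreducible P ∧ P.coeff 0 ≠ 0 := by
  classical
  obtain ⟨j, -, rfl⟩ := Multiset.mem_map.1 h
  exact ⟨(D.hpe j).1, (D.hpe j).2.1, (D.hpe j).2.2.1⟩

/-- The tuple of a decomposition. -/
noncomputable def tupFun (i : Fin n) : F[X] := (D.parts i).prod

theorem tupFun_monic (i : Fin n) : (D.tupFun i).Monic := by
  classical
  exact monic_multiset_prod_of_monic _ _ fun j _ => (D.hpe j).1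

theorem parts_eq_factors [DecidableEq F] (i : Fin n) :
    UniqueFactorizationMonoid.normalizedFactors (D.tupFun i) = D.parts i := by
  classical
  rw [tupFun, UniqueFactorizationMonoid.normalizedFactors_prod_eq _ (fun x hx => (D.mem_parts hx).2.1)]
  conv_rhs => rw [← Multiset.map_id (D.parts i)]
  exact Multiset.map_congr rfl fun x hx => (D.mem_parts hx).1.normalize_eq_self

theorem e_le (j : D.ι) : D.e j ≤ n := by
  refine le_trans ?_ ((Finset.single_le_sum (fun k _ => Nat.zero_le _) (Finset.mem_univ j)).trans D.hdim.le)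
  exact Nat.le_mul_of_pos_right _ (D.hpe j).2.1.natDegree_pos

theorem tupFun_spec : (∀ i, (D.tupFun i).Monic ∧ (D.tupFun i).coeff 0 ≠ 0) ∧
    ∑ i : Fin n, ((i : ℕ) + 1) * (D.tupFun i).natDegree = n := by
  classical
  refine ⟨fun i => ⟨D.tupFun_monic i, ?_⟩, ?_⟩
  · rw [tupFun, ← constantCoeff_apply, map_multiset_prod]
    refine Multiset.prod_ne_zero ?_
    rw [Multiset.mem_map]
    rintro ⟨x, hx, hx0⟩
    exact (D.mem_parts hx).2.2 hx0
  · conv_rhs => rw [← D.hdim]
    rw [← Finset.sum_fiberwise_of_maps_to (g := fun j => (⟨D.e j - 1, by have := D.e_le j; have := (D.hpe j).2.2.2; omega⟩ : Fin n))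
      (fun j _ => Finset.mem_univ _)]
    refine Finset.sum_congr rfl fun i _ => ?_
    have hf : (Finset.univ.filter fun j => (⟨D.e j - 1, by have := D.e_le j; have := (D.hpe j).2.2.2; omega⟩ : Fin n) = i) =
        Finset.univ.filter fun j => D.e j = (i : ℕ) + 1 := by
      ext j
      simp only [Finset.mem_filter, Finset.mem_univ, true_and, Fin.ext_iff]
      have := (D.hpe j).2.2.2
      omega
    rw [hf, tupFun, natDegree_multiset_prod_of_monic _ (fun x hx => (D.mem_parts hx).1), parts, Multiset.map_map]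
    show _ * (Finset.sum _ fun j => (D.p j).natDegree) = _
    rw [Finset.mul_sum]
    exact Finset.sum_congr rfl fun j hj => by rw [(Finset.mem_filter.1 hj).2]

/-- Equal tuples: conjugate. -/
theorem isConj_of_tupFun {h : GL (Fin n) F} (D' : Decomp h) (hT : ∀ i, D.tupFun i = D'.tupFun i) : IsConj g h := by
  classical
  have hc : ∀ (P : F[X]) k, D.count P k = D'.count P k := by
    intro P k
    by_cases hk : 1 ≤ k ∧ k ≤ n
    · have h1 := congrArg (fun T => (UniqueFactorizationMonoid.normalizedFactors T).count P) (hT ⟨k - 1, by omega⟩)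
      simp only [parts_eq_factors, count_parts] at h1
      rwa [show k - 1 + 1 = k by omega] at h1
    · have key : ∀ {x : GL (Fin n) F} (E : Decomp x), E.count P k = 0 := fun E => by
        rw [count, Finset.card_eq_zero, Finset.filter_eq_empty_iff]
        intro j _ hj
        exact hk ⟨hj.1 ▸ (E.hpe j).2.2.2, hj.1 ▸ E.e_le j⟩
      rw [key D, key D']
  have hfib : ∀ c : F[X] × ℕ,
      Fintype.card {j // (D.p j, D.e j) = c} = Fintype.card {j // (D'.p j, D'.e j) = c} := by
    rintro ⟨P, k⟩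
    have key : ∀ {x : GL (Fin n) F} (E : Decomp x), Fintype.card {j // (E.p j, E.e j) = (P, k)} = E.count P k := fun E => by
      rw [Fintype.card_subtype, count]
      refine congrArg Finset.card (Finset.filter_congr fun j _ => ?_)
      rw [Prod.mk.injEq]
      exact ⟨fun h => ⟨h.2, h.1.symm⟩, fun h => ⟨h.2.symm, h.1⟩⟩
    rw [key D, key D', hc]
  let σ : D.ι ≃ D'.ι := Equiv.ofFiberEquiv (f := fun j => (D.p j, D.e j)) (g := fun j => (D'.p j, D'.e j))
    fun c => Fintype.equivOfCardEq (hfib c)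
  have hσ : ∀ j, D'.p (σ j) = D.p j ∧ D'.e (σ j) = D.e j := fun j => by
    have := Equiv.ofFiberEquiv_map (f := fun j => (D.p j, D.e j)) (g := fun j => (D'.p j, D'.e j))
      (fun c => Fintype.equivOfCardEq (hfib c)) j
    exact ⟨congrArg Prod.fst this, congrArg Prod.snd this⟩
  let A : (Π i, F[X] ⧸ Ideal.span {D.p i ^ D.e i}) ≃ₗ[F[X]] Π i, F[X] ⧸ Ideal.span {D'.p i ^ D'.e i} :=
    (LinearEquiv.piCongrRight fun j => Submodule.quotEquivOfEq _ _ (by rw [(hσ j).1, (hσ j).2])).trans
      (LinearEquiv.piCongrLeft F[X] (fun i => F[X] ⧸ Ideal.span {D'.p i ^ D'.e i}) σ)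
  let fg := Matrix.toLin' (g : Matrix (Fin n) (Fin n) F)
  let fh := Matrix.toLin' (h : Matrix (Fin n) (Fin n) F)
  let Φ : Module.AEval' fg ≃ₗ[F[X]] Module.AEval' fh := (D.φ.trans A).trans D'.φ.symm
  let L : (Fin n → F) ≃ₗ[F] (Fin n → F) :=
    ((Module.AEval'.of fg).trans (Φ.restrictScalars F)).trans (Module.AEval'.of fh).symm
  have hL : ∀ v, L (fg v) = fh (L v) := fun v => by
    show (Module.AEval'.of fh).symm (Φ (Module.AEval'.of fg (fg v))) = fh ((Module.AEval'.of fh).symm (Φ (Module.AEval'.of fg v)))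
    rw [← Module.AEval'.X_smul_of, map_smul, Module.AEval'.of_symm_X_smul]
  set Q : GL (Fin n) F := ⟨LinearMap.toMatrix' (L : (Fin n → F) →ₗ[F] (Fin n → F)),
    LinearMap.toMatrix' (L.symm : (Fin n → F) →ₗ[F] (Fin n → F)),
    by rw [← LinearMap.toMatrix'_comp]; simp,
    by rw [← LinearMap.toMatrix'_comp]; simp⟩
  refine isConj_iff.2 ⟨Q, mul_inv_eq_iff_eq_mul.2 (Units.ext ?_)⟩
  refine Matrix.ext_iff_mulVec.2 fun v => ?_
  rw [Units.val_mul, Units.val_mul, ← Matrix.mulVec_mulVec, ← Matrix.mulVec_mulVec]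
  show LinearMap.toMatrix' (L : (Fin n → F) →ₗ[F] (Fin n → F)) *ᵥ _ = _ *ᵥ (LinearMap.toMatrix' (L : (Fin n → F) →ₗ[F] (Fin n → F)) *ᵥ v)
  rw [LinearMap.toMatrix'_mulVec, LinearMap.toMatrix'_mulVec]
  exact hL v

/-- The endomorphism given by one polynomial per block. -/
noncomputable def blockEnd (a : D.ι → F[X]) : Module.End F (Fin n → F) :=
  ((Module.AEval'.of (Matrix.toLin' (g : Matrix (Fin n) (Fin n) F))).trans (D.φ.restrictScalars F)).symm.conj
    (LinearMap.pi fun i => ((LinearMap.lsmul F[X] (F[X] ⧸ Ideal.span {D.p i ^ D.e i}) (a i)).restrictScalars F).comp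
      (LinearMap.proj i))

theorem blockEnd_X : D.blockEnd (fun _ => X) = Matrix.toLin' (g : Matrix (Fin n) (Fin n) F) := by
  refine LinearMap.ext fun v => ?_
  rw [blockEnd, LinearEquiv.conj_apply_apply, LinearEquiv.symm_symm, LinearEquiv.symm_apply_eq]
  show (X : F[X]) • D.φ (Module.AEval'.of (Matrix.toLin' (g : Matrix (Fin n) (Fin n) F)) v) = _
  rw [← map_smul, Module.AEval'.X_smul_of]
  rfl

theorem det_blockEnd (a : D.ι → F[X]) :
    LinearMap.det (D.blockEnd a) = ∏ j, Algebra.norm F (AdjoinRoot.mk (D.p j) (a j)) ^ D.e j := by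
  haveI : ∀ i, Module.Finite F (F[X] ⧸ Ideal.span {D.p i ^ D.e i}) := fun i =>
    (AdjoinRoot.powerBasis (pow_ne_zero (D.e i) (D.hpe i).1.ne_zero)).finite
  rw [blockEnd, LinearEquiv.conj_apply, LinearMap.comp_assoc, LinearMap.det_conj]
  refine (DetAeval.det_pi' _).trans (Finset.prod_congr rfl fun j _ => ?_)
  rw [DetAeval.det_lsmul_quot, DetAeval.norm_mk_pow _ (D.hpe j).1]

theorem blockEnd_comm (a : D.ι → F[X]) : Commute (D.blockEnd a) (Matrix.toLin' (g : Matrix (Fin n) (Fin n) F)) := by
  rw [← D.blockEnd_X]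
  have h : ∀ b c : D.ι → F[X], D.blockEnd b * D.blockEnd c = D.blockEnd fun i => b i * c i := fun b c => by
    refine LinearMap.ext fun v => ?_
    rw [Module.End.mul_apply, blockEnd, blockEnd, blockEnd, LinearEquiv.conj_apply_apply, LinearEquiv.conj_apply_apply,
      LinearEquiv.conj_apply_apply, LinearEquiv.symm_symm, LinearEquiv.apply_symm_apply]
    refine congrArg _ (funext fun i => ?_)
    simp [smul_smul, mul_comm]
  show _ * _ = _ * _
  rw [h, h]
  exact congrArg _ (funext fun i => mul_comm _ _)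

/-- The determinant in terms of the tuple. -/
theorem det_eq : (g : Matrix (Fin n) (Fin n) F).det =
    ∏ i : Fin n, ((-1) ^ (D.tupFun i).natDegree * (D.tupFun i).coeff 0) ^ ((i : ℕ) + 1) := by
  classical
  rw [← LinearMap.det_toLin', ← D.blockEnd_X, D.det_blockEnd]
  rw [← Finset.prod_fiberwise_of_maps_to (g := fun j => (⟨D.e j - 1, by have := D.e_le j; have := (D.hpe j).2.2.2; omega⟩ : Fin n))
      (fun j _ => Finset.mem_univ _)]
  refine Finset.prod_congr rfl fun i _ => ?_
  have hf : (Finset.univ.filter fun j => (⟨D.e j - 1, by have := D.e_le j; have := (D.hpe j).2.2.2; omega⟩ : Fin n) = i) =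
      Finset.univ.filter fun j => D.e j = (i : ℕ) + 1 := by
    ext j
    simp only [Finset.mem_filter, Finset.mem_univ, true_and, Fin.ext_iff]
    have := (D.hpe j).2.2.2
    omega
  rw [hf]
  have hmul : ∀ s : Finset D.ι, (-1) ^ ((s.val.map D.p).prod).natDegree * ((s.val.map D.p).prod).coeff 0 =
      ∏ j ∈ s, Algebra.norm F (AdjoinRoot.mk (D.p j) X) := by
    intro s
    induction s using Finset.induction_on with
    | empty => simp
    | @insert a s ha ih =>
      rw [Finset.insert_val, Multiset.ndinsert_of_notMem (by exact ha), Multiset.map_cons, Multiset.prod_cons,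
        Finset.prod_insert ha, ← ih, DetAeval.norm_mk_X _ (D.hpe a).1, mul_coeff_zero,
        (D.hpe a).1.natDegree_mul (monic_multiset_prod_of_monic _ _ fun j _ => (D.hpe j).1), pow_add]
      ring
  rw [show (-1 : F) ^ (D.tupFun i).natDegree * (D.tupFun i).coeff 0 = _ from hmul _, ← Finset.prod_pow]
  exact Finset.prod_congr rfl fun j hj => by rw [(Finset.mem_filter.1 hj).2]

/-- Centralizer determinants. -/
theorem exists_commute_det (j : D.ι) (c : Fˣ) :
    ∃ z : GL (Fin n) F, Commute z g ∧ Matrix.GeneralLinearGroup.det z = c ^ D.e j := by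
  classical
  haveI : Fact (Irreducible (D.p j)) := ⟨(D.hpe j).2.1⟩
  haveI : Module.Finite F (AdjoinRoot (D.p j)) := (AdjoinRoot.powerBasis (D.hpe j).1.ne_zero).finite
  haveI : Finite (AdjoinRoot (D.p j)) := Module.finite_of_finite F
  obtain ⟨x, hx⟩ := FiniteField.norm_surjective (K := F) (K' := AdjoinRoot (D.p j)) (c : F)
  obtain ⟨r, rfl⟩ := AdjoinRoot.mk_surjective (g := D.p j) x
  let a : D.ι → F[X] := Function.update (fun _ => 1) j r
  have hdet : LinearMap.det (D.blockEnd a) = (c : F) ^ D.e j := by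
    rw [D.det_blockEnd, Finset.prod_eq_single j]
    · simp only [a, Function.update_self, hx]
    · intro b _ hb
      simp only [a, Function.update_of_ne hb, map_one, one_pow]
    · simp
  set Z : Matrix (Fin n) (Fin n) F := Matrix.toLinAlgEquiv'.symm (D.blockEnd a) with hZ
  have hZd : Z.det = (c : F) ^ D.e j := by
    rw [← LinearMap.det_toLin', ← hdet]
    exact congrArg LinearMap.det (Matrix.toLinAlgEquiv'.apply_symm_apply (D.blockEnd a))
  have hZu : IsUnit Z := (Matrix.isUnit_iff_isUnit_det Z).2 (by rw [hZd]; exact (c.isUnit).pow _)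
  refine ⟨hZu.unit, Units.ext ?_, Units.ext ?_⟩
  · have := ((D.blockEnd_comm a).map (Matrix.toLinAlgEquiv'.symm : _ ≃ₐ[F] Matrix (Fin n) (Fin n) F)).eq
    rw [show Matrix.toLinAlgEquiv'.symm (Matrix.toLin' (g : Matrix (Fin n) (Fin n) F)) = (g : Matrix (Fin n) (Fin n) F) from
      Matrix.toLinAlgEquiv'.symm_apply_apply _] at this
    exact this
  · exact hZd

end Decomp

/-- The tuple of a class. -/
noncomputable def tup (hn : 1 ≤ n) (g : GL (Fin n) F) : Tup F n n :=
  ⟨(exists_decomp g hn).some.tupFun, (exists_decomp g hn).some.tupFun_spec⟩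

theorem isConj_of_tup_eq (hn : 1 ≤ n) {g h : GL (Fin n) F} (e : tup hn g = tup hn h) : IsConj g h :=
  (exists_decomp g hn).some.isConj_of_tupFun (exists_decomp h hn).some fun i =>
    congrFun (congrArg Subtype.val e) i

theorem tup_eq_of_isConj (hn : 1 ≤ n) {g h : GL (Fin n) F} (e : IsConj g h) : tup hn g = tup hn h := by
  classical
  refine Subtype.ext (funext fun i => congrArg Multiset.prod (Multiset.ext.2 fun P => ?_))
  rw [Decomp.count_parts, Decomp.count_parts]
  by_cases hP : P.Monic ∧ Irreducible P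
  · exact Decomp.minSum_eq_of_kerCard _ _ hP.1 hP.2 hP.1 hP.2 rfl (fun k => kerCard_conj e P k) i
  · have key : ∀ {x : GL (Fin n) F} (E : Decomp x) (k : ℕ), E.count P k = 0 := fun E k => by
      rw [Decomp.count, Finset.card_eq_zero, Finset.filter_eq_empty_iff]
      intro j _ hj
      exact hP ⟨hj.2 ▸ (E.hpe j).1, hj.2 ▸ (E.hpe j).2.1⟩
    rw [key, key]

/-- `det` of a tuple. -/
noncomputable def tdet {N : ℕ} (T : Fin N → F[X]) : F :=
  ∏ i : Fin N, ((-1) ^ (T i).natDegree * (T i).coeff 0) ^ ((i : ℕ) + 1)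

theorem det_tup (hn : 1 ≤ n) (g : GL (Fin n) F) : (g : Matrix (Fin n) (Fin n) F).det = tdet (tup hn g).1 :=
  (exists_decomp g hn).some.det_eq

/-- The gcd of `q - 1` and the support. -/
noncomputable def tgcd {N : ℕ} (T : Fin N → F[X]) : ℕ :=
  haveI := Classical.decEq F[X]
  Nat.gcd (Fintype.card F - 1) ((Finset.univ.filter fun i => T i ≠ 1).gcd fun i => (i : ℕ) + 1)

/-- The centralizer has all `tgcd`-th powers as determinants. -/
theorem powers_le_det_centralizer (hn : 1 ≤ n) (g : GL (Fin n) F) :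
    (powMonoidHom (tgcd (tup hn g).1) : Fˣ →* Fˣ).range ≤
      (Subgroup.centralizer ({g} : Set (GL (Fin n) F))).map Matrix.GeneralLinearGroup.det := by
  classical
  set D := (exists_decomp g hn).some with hD
  set H := (Subgroup.centralizer ({g} : Set (GL (Fin n) F))).map (Matrix.GeneralLinearGroup.det (n := Fin n) (R := F))
  rintro _ ⟨c, rfl⟩
  show c ^ tgcd (tup hn g).1 ∈ H
  have hgcd : ∀ a b : ℕ, c ^ a ∈ H → c ^ b ∈ H → c ^ Nat.gcd a b ∈ H := fun a b ha hb => by
    have h1 : c ^ (Nat.gcd a b : ℤ) ∈ H := by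
      rw [Nat.gcd_eq_gcd_ab, _root_.zpow_add, _root_.zpow_mul, _root_.zpow_mul, zpow_natCast, zpow_natCast]
      exact mul_mem (zpow_mem ha _) (zpow_mem hb _)
    rwa [zpow_natCast] at h1
  refine hgcd _ _ (by rw [← Fintype.card_units, pow_card_eq_one]; exact H.one_mem) ?_
  have hs : ∀ i ∈ Finset.univ.filter (fun i => (tup hn g).1 i ≠ 1), c ^ ((i : ℕ) + 1) ∈ H := by
    intro i hi
    have hne : D.tupFun i ≠ 1 := (Finset.mem_filter.1 hi).2
    obtain ⟨j, hj⟩ : ∃ j, D.e j = (i : ℕ) + 1 := by
      by_contra hcon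
      push Not at hcon
      apply hne
      rw [Decomp.tupFun, Decomp.parts, Finset.filter_false_of_mem fun j _ => hcon j]
      simp
    obtain ⟨z, hz, hzd⟩ := D.exists_commute_det j c
    exact ⟨z, Subgroup.mem_centralizer_singleton_iff.2 hz.eq, by rw [hzd, hj]⟩
  have : ∀ s : Finset (Fin n), (∀ i ∈ s, c ^ ((i : ℕ) + 1) ∈ H) → c ^ (s.gcd fun i => (i : ℕ) + 1) ∈ H := by
    intro s
    induction s using Finset.induction_on with
    | empty => intro _; rw [Finset.gcd_empty, pow_zero]; exact H.one_mem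
    | @insert a s ha ih =>
      intro h
      rw [Finset.gcd_insert]
      exact hgcd _ _ (h a (Finset.mem_insert_self _ _)) (ih fun i hi => h i (Finset.mem_insert_of_mem hi))
  exact this _ fun i hi => hs i (by simpa using hi)

/-- The substitution `P ↦ ζ ^ deg P * P (X / ζ)`. -/
noncomputable def twist (ζ : F) (P : F[X]) : F[X] := C (ζ ^ P.natDegree) * P.comp (C ζ⁻¹ * X)

/-- Classes fixed by a scalar have twist-invariant tuples. -/
theorem twist_tup (hn : 1 ≤ n) {g g' : GL (Fin n) F} (ζ : F) (hζ : ζ ≠ 0)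
    (hg' : (g' : Matrix (Fin n) (Fin n) F) = ζ • (g : Matrix (Fin n) (Fin n) F)) (e : IsConj g g') (i : Fin n) :
    twist ζ ((tup hn g).1 i) = (tup hn g).1 i := by
  classical
  have hinv : ζ⁻¹ ≠ 0 := inv_ne_zero hζ
  have hdeg : ∀ P : F[X], (twist ζ P).natDegree = P.natDegree := fun P => by
    rw [twist, natDegree_C_mul (pow_ne_zero _ hζ), natDegree_comp, natDegree_C_mul_X _ hinv, mul_one]
  have hmon : ∀ P : F[X], P.Monic → (twist ζ P).Monic := fun P hP => by
    rw [Monic, twist, leadingCoeff_mul, leadingCoeff_C, leadingCoeff_comp (by rw [natDegree_C_mul_X _ hinv]; omega),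
      leadingCoeff_C_mul_X, hP.leadingCoeff, one_mul, ← mul_pow, mul_inv_cancel₀ hζ, one_pow]
  have hirr : ∀ P : F[X], Irreducible P → Irreducible (twist ζ P) := fun P hP => by
    rw [twist, irreducible_isUnit_mul ((IsUnit.mk0 _ (pow_ne_zero _ hζ)).map C)]
    letI : Invertible ζ⁻¹ := invertibleOfNonzero hinv
    have := (MulEquiv.irreducible_iff (algEquivCMulXAddC ζ⁻¹ (0 : F)).toMulEquiv).2 hP
    convert this using 1
    show P.comp (C ζ⁻¹ * X) = aeval (C ζ⁻¹ * X + C (0 : F)) P
    rw [C_0, add_zero, comp_eq_aeval]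
  have htinj : ∀ P Q : F[X], twist ζ P = twist ζ Q → P = Q := fun P Q h => by
    have h1 := congrArg (fun R : F[X] => R.comp (C ζ * X)) h
    have h2 := hdeg P
    rw [h, hdeg] at h2
    simp only [twist, mul_comp, C_comp, comp_assoc, X_comp, ← mul_assoc, ← C_mul, inv_mul_cancel₀ hζ, C_1, one_mul,
      comp_X, h2] at h1
    exact mul_left_cancel₀ (fun h => pow_ne_zero _ hζ (C_eq_zero.1 h)) h1
  have hmul : ∀ P Q : F[X], P.Monic → Q.Monic → twist ζ (P * Q) = twist ζ P * twist ζ Q := fun P Q hP hQ => by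
    rw [twist, twist, twist, hP.natDegree_mul hQ, pow_add, C_mul, mul_comp]; ring
  have hker : ∀ (P : F[X]) k, kerCard g (twist ζ P) k = kerCard g P k := by
    intro P k
    rw [kerCard_conj e (twist ζ P) k, kerCard, kerCard]
    refine Nat.card_congr (Equiv.subtypeEquivRight fun v => ?_)
    have h1 : aeval (Matrix.toLin' (g' : Matrix (Fin n) (Fin n) F)) (twist ζ P ^ k) =
        (ζ ^ P.natDegree) ^ k • aeval (Matrix.toLin' (g : Matrix (Fin n) (Fin n) F)) (P ^ k) := by
      rw [hg', map_smul, twist, mul_pow, map_mul, ← C_pow, aeval_C, ← Algebra.smul_def]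
      congr 1
      rw [← pow_comp, aeval_comp, map_mul, aeval_C, aeval_X, ← Algebra.smul_def, smul_smul, inv_mul_cancel₀ hζ, one_smul]
    rw [h1, LinearMap.smul_apply, smul_eq_zero]
    exact or_iff_right (pow_ne_zero _ (pow_ne_zero _ hζ))
  set D := (exists_decomp g hn).some
  have hcount : ∀ (P : F[X]), P.Monic → Irreducible P → (D.parts i).count (twist ζ P) = (D.parts i).count P := by
    intro P hP hPi
    rw [Decomp.count_parts, Decomp.count_parts]
    exact Decomp.minSum_eq_of_kerCard D D (hmon P hP) (hirr P hPi) hP hPi (hdeg P) (hker P) i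
  have hmap : (D.parts i).map (twist ζ) = D.parts i := by
    refine Multiset.eq_of_le_of_card_le (Multiset.le_iff_count.2 fun Q => ?_) (by rw [Multiset.card_map])
    by_cases hQ : Q ∈ (D.parts i).map (twist ζ)
    · obtain ⟨P, hP, rfl⟩ := Multiset.mem_map.1 hQ
      rw [Multiset.count_map_eq_count' _ _ (fun a b => htinj a b), hcount P (D.mem_parts hP).1 (D.mem_parts hP).2.1]
    · rw [Multiset.count_eq_zero_of_notMem hQ]
      exact Nat.zero_le _
  have hprod : ∀ m : Multiset F[X], (∀ x ∈ m, x.Monic) → twist ζ m.prod = (m.map (twist ζ)).prod := by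
    intro m
    induction m using Multiset.induction_on with
    | empty => intro _; simp [twist]
    | cons a m ih =>
      intro h
      rw [Multiset.prod_cons, Multiset.map_cons, Multiset.prod_cons, hmul _ _ (h a (Multiset.mem_cons_self _ _))
        (by rw [← Multiset.map_id m]; exact monic_multiset_prod_of_monic _ _ fun x hx => h x (Multiset.mem_cons_of_mem hx)) |>.trans
        (by rw [ih fun x hx => h x (Multiset.mem_cons_of_mem hx)])]
  show twist ζ (D.tupFun i) = D.tupFun i
  rw [Decomp.tupFun, hprod _ (fun x hx => (D.mem_parts hx).1), hmap]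

end Cfsg.Agent.Lib.GLn.ClassInvariant
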