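import Cfsg.Agent.Lib.GLn.PSLPrimeAdjacency
import Cfsg.Agent.Lib.Zsigmondy
import Cfsg.Agent.S2638

/-!
# Elements of order `q^(n/2) + 1` in `PSL_n(q)`
-/

set_option autoImplicit false

namespace Cfsg.Agent.Lib.GLn.HalfTorus

open Matrix Cfsg.Agent.Lib.GLn

variable {F : Type*} [Field F] [Fintype F]

/-- `1 + q + ... + q^(h-1)` -/
def S (q h : ℕ) : ℕ := ∑ i ∈ Finset.range h, q ^ i

theorem S_modEq {q d h : ℕ} (hq : 1 ≤ q) (hd : d ∣ q - 1) : (d ∣ S q h) ↔ d ∣ h := by
  have h1 : (q : ZMod d) = 1 := by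
    have := (ZMod.natCast_eq_zero_iff (q - 1) d).mpr hd
    rwa [Nat.cast_sub hq, Nat.cast_one, sub_eq_zero] at this
  rw [← ZMod.natCast_eq_zero_iff, ← ZMod.natCast_eq_zero_iff, S]
  push_cast
  rw [h1]
  simp

theorem S_two_mul {q h : ℕ} (hq : 1 ≤ q) : (q ^ h + 1) * S q h = S q (2 * h) := by
  rw [S, S, two_mul, Finset.sum_range_add, add_mul, one_mul, Finset.mul_sum, add_comm]
  simp [pow_add]

theorem S_mul {q n : ℕ} (hq : 1 ≤ q) : S q n * (q - 1) = q ^ n - 1 := by
  rw [S]
  exact geom_sum_mul_of_one_le hq n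

theorem norm_one_pow (K : Type*) [Field K] [Fintype K] [Algebra F K] (n : ℕ) (hK : Module.finrank F K = n)
    (u : Kˣ) (hu : Units.map (Algebra.norm F : K →* F) u = 1) : u ^ S (Fintype.card F) n = 1 := by
  classical
  let f : Kˣ →* Fˣ := Units.map (Algebra.norm F : K →* F)
  have hsurj : Function.Surjective f := FiniteField.unitsMap_norm_surjective F K
  have hk : Nat.card f.ker = S (Fintype.card F) n := by
    have h1 := Subgroup.card_eq_card_quotient_mul_card_subgroup f.ker
    rw [Nat.card_congr (QuotientGroup.quotientKerEquivOfSurjective f hsurj).toEquiv, Nat.card_units, Nat.card_units,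
      Module.natCard_eq_pow_finrank (K := F), hK, Nat.card_eq_fintype_card] at h1
    rw [← S_mul (q := Fintype.card F) (n := n) Fintype.card_pos, mul_comm] at h1
    exact (Nat.eq_of_mul_eq_mul_left (Nat.sub_pos_of_lt Fintype.one_lt_card) h1).symm
  have := pow_card_eq_one' (x := (⟨u, hu⟩ : f.ker))
  rw [hk] at this
  simpa using congrArg Subtype.val this

/-- The Singer torus with its determinant and scalars. -/
theorem exists_singer (K : Type*) [Field K] [Fintype K] [Algebra F K] (n : ℕ) (hK : Module.finrank F K = n) :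
    ∃ ψ : Kˣ →* GL (Fin n) F, Function.Injective ψ ∧
      (∀ u, Matrix.GeneralLinearGroup.det (ψ u) = Units.map (Algebra.norm F : K →* F) u) ∧
      ∀ (u : Kˣ) (c : F), (u : K) = algebraMap F K c → (ψ u : Matrix (Fin n) (Fin n) F) = c • 1 := by
  let b : Module.Basis (Fin n) F K := Module.finBasisOfFinrankEq F K hK
  refine ⟨Units.map (Algebra.leftMulMatrix b : K →* Matrix (Fin n) (Fin n) F),
    fun x y h => Units.ext (Algebra.leftMulMatrix_injective b (congrArg Units.val h)), fun u => Units.ext ?_, ?_⟩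
  · exact (Algebra.norm_eq_matrix_det b (u : K)).symm
  · intro u c h
    change Algebra.leftMulMatrix b (u : K) = c • 1
    rw [h, AlgHom.commutes, Algebra.algebraMap_eq_smul_one]

theorem exists_half (p : ℕ) [Fact p.Prime] [CharP F p] {n h : ℕ} (hn : n = 2 * h) (h0 : 0 < h)
    (hd : Nat.gcd n (Fintype.card F - 1) ∣ h) :
    ∃ g : Matrix.ProjectiveSpecialLinearGroup (Fin n) F, orderOf g = Fintype.card F ^ h + 1 := by
  classical
  have hq : 1 < Fintype.card F := Fintype.one_lt_card
  haveI : NeZero n := ⟨by omega⟩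
  let K := FiniteField.Extension F p n
  haveI : Fintype K := Fintype.ofFinite K
  obtain ⟨ψ, hψ, hdet, -⟩ := exists_singer (F := F) K n (FiniteField.finrank_extension F p n)
  set N := S (Fintype.card F) n with hN
  obtain ⟨γ, hγ⟩ := IsCyclic.exists_ofOrder_eq_natCard (α := Kˣ)
  rw [Nat.card_units, FiniteField.natCard_extension, Nat.card_eq_fintype_card, ← S_mul (n := n) hq.le, ← hN] at hγ
  set u := γ ^ (Fintype.card F - 1)
  have hu : orderOf u = N := by
    rw [orderOf_pow_of_dvd (by omega) (hγ ▸ dvd_mul_left _ _), hγ, Nat.mul_div_cancel _ (by omega)]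
  have hnorm : Units.map (Algebra.norm F : K →* F) u = 1 := by
    have h1 : Nat.card Fˣ = Fintype.card F - 1 := by rw [Nat.card_units, Nat.card_eq_fintype_card]
    rw [map_pow, ← h1]
    exact pow_card_eq_one'
  let X : Matrix.SpecialLinearGroup (Fin n) F :=
    ⟨(ψ u : Matrix (Fin n) (Fin n) F), by simpa [hnorm] using congrArg Units.val (hdet u)⟩
  have hX : orderOf X = N := by
    rw [← orderOf_injective Matrix.SpecialLinearGroup.toGL Matrix.SpecialLinearGroup.toGL_injective X, ← hu,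
      ← orderOf_injective ψ hψ u]
    congr 1
    exact Units.ext rfl
  set d := Nat.gcd n (Fintype.card F - 1) with hddef
  set m := orderOf (QuotientGroup.mk X : Matrix.ProjectiveSpecialLinearGroup (Fin n) F) with hm
  have hNm : N ∣ m * d := by
    rw [← hX]
    apply orderOf_dvd_of_pow_eq_one
    have h1 : (QuotientGroup.mk (X ^ m) : Matrix.ProjectiveSpecialLinearGroup (Fin n) F) = 1 := by
      rw [QuotientGroup.mk_pow, hm, pow_orderOf_eq_one]
    obtain ⟨c, hcn, hc⟩ := UnipCentralizer.mk_eq_one_iff.mp h1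
    have hc0 : c ≠ 0 := by
      rintro rfl
      rw [zero_pow (by omega)] at hcn
      exact zero_ne_one hcn
    apply Subtype.ext
    rw [pow_mul, Matrix.SpecialLinearGroup.coe_pow, hc, smul_pow, one_pow,
      pow_gcd_eq_one.mpr ⟨hcn, FiniteField.pow_card_sub_one_eq_one c hc0⟩, one_smul, Matrix.SpecialLinearGroup.coe_one]
  have hdS : d ∣ S (Fintype.card F) h := (S_modEq hq.le (Nat.gcd_dvd_right _ _)).mpr hd
  have hdpos : 0 < d := Nat.gcd_pos_of_pos_left _ (by omega)
  have hdiv : Fintype.card F ^ h + 1 ∣ m := by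
    apply Nat.dvd_of_mul_dvd_mul_right hdpos
    refine (Nat.mul_dvd_mul_left _ hdS).trans ?_
    rw [S_two_mul hq.le, ← hn, ← hN]
    exact hNm
  exact ⟨_, orderOf_pow_orderOf_div (orderOf_pos _).ne' hdiv⟩

theorem no_half (p : ℕ) [Fact p.Prime] [CharP F p] {n h : ℕ} (hn : n = 2 * h) (h2 : 2 ≤ h)
    (hodd : Odd (Fintype.card F)) {g : Matrix.ProjectiveSpecialLinearGroup (Fin n) F}
    (hg : orderOf g = Fintype.card F ^ h + 1) : Nat.gcd n (Fintype.card F - 1) ∣ h := by
  classical
  have hq : 1 < Fintype.card F := Fintype.one_lt_card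
  obtain ⟨r, hr, hrd, hrmin⟩ := Cfsg.Agent.Lib.Zsigmondy.exists_primitive_prime (Fintype.card F) n hq (by omega)
    (fun e => by rw [e.1] at hodd; exact absurd hodd (by decide)) (fun e => by omega)
  haveI := Fact.mk hr
  have hrq : ¬ r ∣ Fintype.card F := by
    intro hd
    have h1 := Nat.dvd_sub (dvd_pow hd (show n ≠ 0 by omega)) hrd
    rw [Nat.sub_sub_self (Nat.one_le_pow _ _ (by omega))] at h1
    exact hr.not_dvd_one h1
  have hkd := fun i => LargeSylow.dvd_pow_sub_one_iff (r := r) hq i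
  have hord : orderOf ((Fintype.card F : ℕ) : ZMod r) = n := by
    apply le_antisymm (Nat.le_of_dvd (by omega) ((hkd n).mp hrd))
    by_contra hlt
    exact hrmin _ (LargeSylow.order_pos hrq) (by omega) ((hkd _).mpr dvd_rfl)
  have hrn : n < r := by
    have hq0 : ((Fintype.card F : ℕ) : ZMod r) ≠ 0 := by rwa [Ne, ZMod.natCast_eq_zero_iff]
    have h1 := Nat.le_of_dvd (Nat.sub_pos_of_lt hr.one_lt) (ZMod.orderOf_dvd_card_sub_one hq0)
    rw [hord] at h1
    omega
  have hrp : r ≠ p := by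
    rintro rfl
    obtain ⟨f, -, hK⟩ := FiniteField.card F r
    exact hrq (hK ▸ dvd_pow_self r f.ne_zero)
  have hr1 : ¬ r ∣ Fintype.card F - 1 := fun h' => hrmin 1 one_pos (by omega) (by rwa [pow_one])
  have hrh : r ∣ Fintype.card F ^ h + 1 := by
    rcases hr.dvd_mul.mp (show r ∣ (Fintype.card F ^ h + 1) * (Fintype.card F ^ h - 1) by
      have := Nat.sq_sub_sq (Fintype.card F ^ h) 1
      rw [one_pow] at this
      rw [← this, ← pow_mul, mul_comm h 2, ← hn]
      exact hrd) with h' | h'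
    · exact h'
    · exact absurd h' (hrmin h (by omega) (by omega))
  -- the lifts
  obtain ⟨X, hX⟩ := QuotientGroup.mk_surjective g
  have hgr : orderOf (g ^ (orderOf g / r)) = r := orderOf_pow_orderOf_div (orderOf_pos g).ne' (hg ▸ hrh)
  obtain ⟨R, hR, hRr⟩ := UnipCentralizer.exists_lift hr hr1 (by omega) (x := g ^ (orderOf g / r))
    (by rw [← orderOf_dvd_iff_pow_eq_one, hgr])
  have hR1 : R ≠ 1 := by
    rintro rfl
    rw [QuotientGroup.mk_one] at hR
    rw [← hR, orderOf_one] at hgr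
    exact hr.one_lt.ne hgr
  have hRo : orderOf R = r := orderOf_eq_prime hRr hR1
  have hcomm : Commute X R := by
    have h1 : (QuotientGroup.mk (X * R * X⁻¹ * R⁻¹) : Matrix.ProjectiveSpecialLinearGroup (Fin n) F) = 1 := by
      rw [QuotientGroup.mk_mul, QuotientGroup.mk_mul, QuotientGroup.mk_mul, QuotientGroup.mk_inv, QuotientGroup.mk_inv,
        hR, hX, (Commute.self_pow g _).eq, mul_inv_cancel_right, mul_inv_cancel]
    obtain ⟨z, hzn, hz⟩ := UnipCentralizer.mk_eq_one_iff.mp h1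
    have hz0 : z ≠ 0 := by
      rintro rfl
      rw [zero_pow (by omega)] at hzn
      exact zero_ne_one hzn
    have h2 : ((X * R * X⁻¹ : Matrix.SpecialLinearGroup (Fin n) F) : Matrix (Fin n) (Fin n) F) =
        z • (R : Matrix (Fin n) (Fin n) F) := by
      rw [show X * R * X⁻¹ = X * R * X⁻¹ * R⁻¹ * R by group, Matrix.SpecialLinearGroup.coe_mul, hz, smul_mul_assoc,
        one_mul]
    have h3 : (z • (R : Matrix (Fin n) (Fin n) F)) ^ r = 1 := by
      rw [← h2, ← Matrix.SpecialLinearGroup.coe_pow, conj_pow, hRr, mul_one, mul_inv_cancel,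
        Matrix.SpecialLinearGroup.coe_one]
    rw [smul_pow, ← Matrix.SpecialLinearGroup.coe_pow, hRr, Matrix.SpecialLinearGroup.coe_one] at h3
    have h4 : z ^ r = 1 := by
      have := congrFun₂ h3 ⟨0, by omega⟩ ⟨0, by omega⟩
      simpa using this
    have hz1 : z = 1 := by
      have := (pow_gcd_eq_one (a := z)).mpr ⟨h4, FiniteField.pow_card_sub_one_eq_one z hz0⟩
      rwa [(hr.coprime_iff_not_dvd.mpr hr1).gcd_eq_one, pow_one] at this
    rw [hz1, one_smul] at h2
    exact mul_inv_eq_iff_eq_mul.mp (Subtype.ext h2)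
  -- move `R` into the torus
  haveI : NeZero n := ⟨by omega⟩
  let K := FiniteField.Extension F p n
  haveI : Fintype K := Fintype.ofFinite K
  obtain ⟨ψ, hψ, hdet, hscal⟩ := exists_singer (F := F) K n (FiniteField.finrank_extension F p n)
  obtain ⟨a, ha⟩ : ∃ a, a = padicValNat r (Nat.card (GL (Fin n) F)) := ⟨_, rfl⟩
  have hva : padicValNat r (Nat.card Kˣ) = a := by
    rw [ha, LargeSylow.card_GL_val n hrn hrq, hord, Nat.div_self (by omega), one_mul, Nat.card_units,
      FiniteField.natCard_extension, Nat.card_eq_fintype_card]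
    have := LargeSylow.val_pow_sub_one (r := r) hq hrq
    rw [hord] at this
    exact this
  obtain ⟨Q⟩ : Nonempty (Sylow r Kˣ) := inferInstance
  have hQ : Nat.card ((Q : Subgroup Kˣ).map ψ) = r ^ (Nat.card (GL (Fin n) F)).factorization r := by
    rw [Subgroup.card_map_of_injective hψ, Q.card_eq_multiplicity, Nat.factorization_def _ hr,
      Nat.factorization_def _ hr, hva, ha]
  let T : Sylow r (GL (Fin n) F) := Sylow.ofCard _ hQ
  have hRg : orderOf (Matrix.SpecialLinearGroup.toGL R) = r := by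
    rw [orderOf_injective _ Matrix.SpecialLinearGroup.toGL_injective, hRo]
  obtain ⟨P, hP⟩ := (IsPGroup.of_card (p := r) (n := 1) (G := Subgroup.zpowers (Matrix.SpecialLinearGroup.toGL R))
    (by rw [Nat.card_zpowers, hRg, pow_one])).exists_le_sylow
  obtain ⟨c, hc⟩ := MulAction.exists_smul_eq (GL (Fin n) F) P T
  have hin : c * Matrix.SpecialLinearGroup.toGL R * c⁻¹ ∈ (T : Subgroup (GL (Fin n) F)) := by
    rw [← hc, Sylow.coe_subgroup_smul, Subgroup.mem_pointwise_smul_iff_inv_smul_mem, MulAut.smul_def,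
      ← map_inv, MulAut.conj_apply, inv_inv]
    convert hP (Subgroup.mem_zpowers _) using 1
    group
  obtain ⟨t, -, ht⟩ := hin
  have htr : orderOf (ψ t) = r := by
    rw [ht, show c * Matrix.SpecialLinearGroup.toGL R * c⁻¹ = MulAut.conj c (Matrix.SpecialLinearGroup.toGL R) from rfl,
      MulEquiv.orderOf_eq, hRg]
  obtain ⟨-, hcard⟩ := Cfsg.Agent.S2638.result (p := p) (r := r) (n := n) rfl (by omega) hr hrp hord (ψ t) htr
  have hcen : Subgroup.centralizer ({ψ t} : Set (GL (Fin n) F)) = ψ.range := by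
    refine (Subgroup.eq_of_le_of_card_ge ?_ ?_).symm
    · rintro - ⟨v, rfl⟩
      rw [Subgroup.mem_centralizer_singleton_iff, ← map_mul, ← map_mul, mul_comm]
    · rw [hcard, ← Nat.card_congr (MonoidHom.ofInjective hψ).toEquiv, Nat.card_units, FiniteField.natCard_extension,
        Nat.card_eq_fintype_card]
  have hXc : c * Matrix.SpecialLinearGroup.toGL X * c⁻¹ ∈ ψ.range := by
    rw [← hcen, Subgroup.mem_centralizer_singleton_iff, ht]
    have := congrArg Matrix.SpecialLinearGroup.toGL hcomm.eq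
    rw [map_mul, map_mul] at this
    simp [mul_assoc]
    rw [← mul_assoc (Matrix.SpecialLinearGroup.toGL X), this, mul_assoc]
  obtain ⟨u, hu⟩ := hXc
  have hnorm : Units.map (Algebra.norm F : K →* F) u = 1 := by
    rw [← hdet, hu, map_mul, map_mul, map_inv, mul_comm _ (Matrix.GeneralLinearGroup.det (Matrix.SpecialLinearGroup.toGL X)),
      mul_inv_cancel_right]
    exact Units.ext X.2
  have hN := norm_one_pow (F := F) K n (FiniteField.finrank_extension F p n) u hnorm
  set d := Nat.gcd n (Fintype.card F - 1) with hd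
  have hdpos : 0 < d := Nat.gcd_pos_of_pos_left _ (by omega)
  have hdN : d ∣ S (Fintype.card F) n := (S_modEq hq.le (Nat.gcd_dvd_right _ _)).mpr (Nat.gcd_dvd_left _ _)
  obtain ⟨e, he⟩ := hdN
  have hz : (u ^ e) ^ d = 1 := by rw [← pow_mul, mul_comm, ← he, hN]
  -- a `d`-th root of unity is in `F`
  obtain ⟨ζ0, hζ0⟩ := IsCyclic.exists_ofOrder_eq_natCard (α := Fˣ)
  have hdq : d ∣ orderOf ζ0 := by
    rw [hζ0, Nat.card_units, Nat.card_eq_fintype_card]
    exact Nat.gcd_dvd_right _ _
  have hζ : orderOf (((ζ0 ^ (orderOf ζ0 / d) : Fˣ) : F)) = d := by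
    rw [orderOf_units]
    exact orderOf_pow_orderOf_div (orderOf_pos ζ0).ne' hdq
  have hζK : IsPrimitiveRoot (algebraMap F K ((ζ0 ^ (orderOf ζ0 / d) : Fˣ) : F)) d := by
    rw [IsPrimitiveRoot.iff_orderOf]
    exact (orderOf_injective (algebraMap F K).toMonoidHom (algebraMap F K).injective _).trans hζ
  haveI : NeZero d := ⟨hdpos.ne'⟩
  obtain ⟨i, -, hi⟩ := hζK.eq_pow_of_pow_eq_one (ξ := ((u ^ e : Kˣ) : K))
    (by rw [← Units.val_pow_eq_pow_val, hz, Units.val_one])
  have hzn : (((ζ0 ^ (orderOf ζ0 / d) : Fˣ) : F) ^ i) ^ n = 1 := by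
    have h7 : ((ζ0 ^ (orderOf ζ0 / d) : Fˣ) : F) ^ n = 1 :=
      orderOf_dvd_iff_pow_eq_one.mp (by rw [hζ]; exact Nat.gcd_dvd_left _ _)
    rw [← pow_mul, mul_comm, pow_mul, h7, one_pow]
  have hψe := hscal (u ^ e) (((ζ0 ^ (orderOf ζ0 / d) : Fˣ) : F) ^ i) (by rw [map_pow, hi])
  rw [map_pow, hu, conj_pow] at hψe
  have hXe : ((X ^ e : Matrix.SpecialLinearGroup (Fin n) F) : Matrix (Fin n) (Fin n) F) =
      (((ζ0 ^ (orderOf ζ0 / d) : Fˣ) : F) ^ i) • 1 := by
    have h5 := congrArg (fun M => ((c⁻¹ : GL (Fin n) F) : Matrix (Fin n) (Fin n) F) * M * (c : Matrix (Fin n) (Fin n) F)) hψe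
    simp only [Units.val_mul, mul_assoc, Units.inv_mul, mul_one, smul_mul_assoc, one_mul, mul_smul_comm] at h5
    rw [← mul_assoc, Units.inv_mul, one_mul, ← map_pow] at h5
    exact h5
  have hge : g ^ e = 1 := by
    rw [← hX, ← QuotientGroup.mk_pow, UnipCentralizer.mk_eq_one_iff]
    exact ⟨_, hzn, hXe⟩
  have hdiv : Fintype.card F ^ h + 1 ∣ e := hg ▸ orderOf_dvd_of_pow_eq_one hge
  have h6 : (Fintype.card F ^ h + 1) * d ∣ (Fintype.card F ^ h + 1) * S (Fintype.card F) h := by
    rw [S_two_mul hq.le, ← hn, he, mul_comm d e]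
    exact Nat.mul_dvd_mul_right hdiv d
  exact (S_modEq hq.le (Nat.gcd_dvd_right _ _)).mp (Nat.dvd_of_mul_dvd_mul_left (by omega) h6)

theorem gcd_dvd_half_iff {n q : ℕ} (hn : n ≠ 0) (heven : Even n) (hq : q - 1 ≠ 0) :
    Nat.gcd n (q - 1) ∣ n / 2 ↔ padicValNat 2 (q - 1) < padicValNat 2 n := by
  obtain ⟨h, rfl⟩ := heven
  have hh : (h + h) / 2 = h := by omega
  rw [hh, ← two_mul]
  have hh0 : h ≠ 0 := by omega
  haveI : Fact (Nat.Prime 2) := ⟨Nat.prime_two⟩
  rw [padicValNat.mul (by norm_num) hh0, padicValNat.self (by norm_num)]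
  constructor
  · intro hd
    by_contra hlt
    push Not at hlt
    have h1 : 2 ^ (1 + padicValNat 2 h) ∣ Nat.gcd (2 * h) (q - 1) := by
      refine Nat.dvd_gcd ?_ ((pow_dvd_pow 2 hlt).trans pow_padicValNat_dvd)
      rw [pow_add, pow_one]
      exact Nat.mul_dvd_mul_left 2 pow_padicValNat_dvd
    have h2 := (padicValNat_dvd_iff_le hh0).mp (h1.trans hd)
    omega
  · intro hlt
    have hg0 : Nat.gcd (2 * h) (q - 1) ≠ 0 := Nat.gcd_ne_zero_right hq
    rw [← Nat.factorization_le_iff_dvd hg0 hh0, Nat.factorization_gcd (by omega) hq,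
      Nat.factorization_mul (by norm_num) hh0]
    intro l
    rw [Finsupp.inf_apply, Finsupp.add_apply]
    by_cases hl : l = 2
    · subst hl
      refine le_trans inf_le_right ?_
      rw [Nat.factorization_def _ Nat.prime_two, Nat.factorization_def _ Nat.prime_two]
      omega
    · refine le_trans inf_le_left ?_
      rw [Nat.prime_two.factorization, Finsupp.single_eq_of_ne hl, zero_add]

end Cfsg.Agent.Lib.GLn.HalfTorus
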