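import Cfsg.Agent.Lib.GLn.SLClassCount

/-!
# Numerical bounds for class numbers of `SL` and `PSL`
-/

set_option autoImplicit false

namespace Cfsg.Agent.Lib.GLn.SLClassBounds

open Polynomial Matrix
open Cfsg.Agent.Lib.GLn.ClassCount (Tup)
open Cfsg.Agent.Lib.GLn.TupleSum
open Cfsg.Agent.Lib.GLn.SLClassCount

universe u

variable {F : Type u} [Field F] [Fintype F] {n : ℕ}

theorem sum_le_single {D : Finset ℕ} {a : ℕ} (h : ∀ o ∈ D, o = a) (f : ℕ → ℕ) : ∑ o ∈ D, f o ≤ f a := by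
  refine (Finset.sum_le_sum_of_subset (fun o ho => Finset.mem_singleton.2 (h o ho))).trans ?_
  rw [Finset.sum_singleton]

theorem sum_le_pair {D : Finset ℕ} {a b : ℕ} (hab : a ≠ b) (h : ∀ o ∈ D, o = a ∨ o = b) (f : ℕ → ℕ) :
    ∑ o ∈ D, f o ≤ f a + f b := by
  refine (Finset.sum_le_sum_of_subset (t := ({a, b} : Finset ℕ)) (fun o ho => ?_)).trans ?_
  · simpa using h o ho
  · rw [Finset.sum_pair hab]

theorem card_tup_one : Nat.card (Tup F 1 1) ≤ Fintype.card F - 1 :=
  (card_tup_lt le_rfl).trans (by rw [pow_one])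

theorem sqSum_two : (sqSum F 2 : ℤ) ≤ ((Fintype.card F : ℤ) - 1) * (Fintype.card F + 4) ∧
    (¬ 2 ∣ Fintype.card F - 1 → (sqSum F 2 : ℤ) ≤ ((Fintype.card F : ℤ) - 1) * (Fintype.card F + 1)) := by
  have h := sqSum_le (F := F) 2
  have h2 := card_tup_lt (F := F) (show 1 ≤ 2 by omega)
  have h1 := card_tup_one (F := F)
  set q := Fintype.card F with hqd
  have hq : 2 ≤ q := Fintype.one_lt_card
  have hD : ∀ o ∈ divs F 2, o = 2 := fun o ho => by
    obtain ⟨a, -, c⟩ := mem_divs.1 ho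
    have := Nat.le_of_dvd (by omega) a
    omega
  refine ⟨?_, fun hev => ?_⟩
  · have hs := sum_le_single hD (fun o => (o ^ 2 - 1) * Nat.card (Tup F (2 / o) (2 / o)))
    simp only [show 2 / 2 = 1 from rfl, show (2 : ℕ) ^ 2 - 1 = 3 from rfl] at hs
    have : sqSum F 2 ≤ q ^ 2 - 1 + 3 * (q - 1) := by omega
    have h3 : ((sqSum F 2 : ℕ) : ℤ) ≤ ((q ^ 2 - 1 + 3 * (q - 1) : ℕ) : ℤ) := by exact_mod_cast this
    rw [Nat.cast_add, Nat.cast_mul, Nat.cast_sub (Nat.one_le_pow _ _ (by omega)), Nat.cast_sub (by omega : 1 ≤ q)] at h3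
    push_cast at h3
    nlinarith
  · have he : divs F 2 = ∅ := Finset.eq_empty_of_forall_notMem fun o ho => hev (by
      obtain ⟨-, b, -⟩ := mem_divs.1 ho
      rwa [hD o ho] at b)
    rw [he, Finset.sum_empty, add_zero] at h
    have : sqSum F 2 ≤ q ^ 2 - 1 := by omega
    have h3 : ((sqSum F 2 : ℕ) : ℤ) ≤ ((q ^ 2 - 1 : ℕ) : ℤ) := by exact_mod_cast this
    rw [Nat.cast_sub (Nat.one_le_pow _ _ (by omega))] at h3
    push_cast at h3
    nlinarith

theorem sum_large {D : Finset ℕ} {n C : ℕ} (f : ℕ → ℕ) (hD : ∀ o ∈ D, 3 ≤ o → o ≤ n ∧ f o ≤ C) :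
    ∑ o ∈ D.filter (3 ≤ ·), f o ≤ (n - 2) * C := by
  refine (Finset.sum_le_card_nsmul _ _ C fun o ho => (hD o (Finset.mem_filter.1 ho).1 (Finset.mem_filter.1 ho).2).2).trans ?_
  rw [smul_eq_mul]
  refine Nat.mul_le_mul_right _ ?_
  refine (Finset.card_le_card (t := Finset.Icc 3 n) fun o ho => ?_).trans (by rw [Nat.card_Icc]; omega)
  rw [Finset.mem_filter] at ho
  exact Finset.mem_Icc.2 ⟨ho.2, (hD o ho.1 ho.2).1⟩

theorem sum_split (f : ℕ → ℕ) (n : ℕ) :
    ∑ o ∈ divs F n, f o ≤ f 2 + ∑ o ∈ (divs F n).filter (3 ≤ ·), f o := by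
  rw [← Finset.sum_filter_add_sum_filter_not (divs F n) (3 ≤ ·), add_comm]
  refine Nat.add_le_add_right ((Finset.sum_le_sum_of_subset (t := ({2} : Finset ℕ)) fun o ho => ?_).trans ?_) _
  · rw [Finset.mem_filter] at ho
    have := (mem_divs.1 ho.1).2.2
    exact Finset.mem_singleton.2 (by omega)
  · rw [Finset.sum_singleton]

theorem sqSum_ge_three (hn : 3 ≤ n) :
    sqSum F n ≤ (Fintype.card F - 1) * (Fintype.card F ^ (n - 1) + 3 * Fintype.card F ^ (n - 2)) := by
  have h := sqSum_le (F := F) n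
  have h1 := card_tup_one (F := F)
  set q := Fintype.card F with hqd
  have hq : 2 ≤ q := Fintype.one_lt_card
  rcases lt_or_ge n 5 with hn5 | hn5
  · interval_cases n
    · have h3 := card_tup_three (F := F)
      rw [← hqd] at h3
      rcases (divs F 3).eq_empty_or_nonempty with he | ⟨o, ho⟩
      · rw [he, Finset.sum_empty, add_zero] at h
        show sqSum F 3 ≤ (q - 1) * (q ^ 2 + 3 * q ^ 1)
        have h4 : sqSum F 3 ≤ q ^ 3 - q := h.trans h3
        zify [show 1 ≤ q by omega]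
        have h5 : (sqSum F 3 : ℤ) ≤ ((q ^ 3 - q : ℕ) : ℤ) := by exact_mod_cast h4
        rw [Nat.cast_sub (Nat.le_self_pow (by omega) q)] at h5
        push_cast at h5
        nlinarith
      · have hD : ∀ o ∈ divs F 3, o = 3 := fun o ho => by
          obtain ⟨a, -, c⟩ := mem_divs.1 ho
          rcases (Nat.dvd_prime Nat.prime_three).1 a with h | h <;> omega
        obtain ⟨-, b, -⟩ := mem_divs.1 ho
        rw [hD o ho] at b
        have := Nat.le_of_dvd (by omega) b
        have hs := sum_le_single hD (fun o => (o ^ 2 - 1) * Nat.card (Tup F (3 / o) (3 / o)))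
        simp only [show 3 / 3 = 1 from rfl, show (3 : ℕ) ^ 2 - 1 = 8 from rfl] at hs
        show sqSum F 3 ≤ (q - 1) * (q ^ 2 + 3 * q ^ 1)
        have h4 : sqSum F 3 ≤ q ^ 3 - q + 8 * (q - 1) := by omega
        zify [show 1 ≤ q by omega]
        have h5 : (sqSum F 3 : ℤ) ≤ ((q ^ 3 - q + 8 * (q - 1) : ℕ) : ℤ) := by exact_mod_cast h4
        rw [Nat.cast_add, Nat.cast_mul, Nat.cast_sub (Nat.le_self_pow (by omega) q), Nat.cast_sub (by omega : 1 ≤ q)] at h5
        push_cast at h5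
        nlinarith [mul_nonneg (sub_nonneg.2 (by exact_mod_cast (show 4 ≤ q by omega) : (4 : ℤ) ≤ q))
          (sub_nonneg.2 (by exact_mod_cast (show 1 ≤ q by omega) : (1 : ℤ) ≤ q))]
    · have h4 := card_tup_le (F := F) 4
      have h2 := card_tup_lt (F := F) (show 1 ≤ 2 by omega)
      rw [← hqd] at h4 h2
      have hD : ∀ o ∈ divs F 4, o = 2 ∨ o = 4 := fun o ho => by
        obtain ⟨a, -, c⟩ := mem_divs.1 ho
        have := Nat.le_of_dvd (by omega) a
        interval_cases o <;> omega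
      show sqSum F 4 ≤ (q - 1) * (q ^ 3 + 3 * q ^ 2)
      zify [show 1 ≤ q by omega]
      rcases (divs F 4).eq_empty_or_nonempty with he | ⟨o, ho⟩
      · rw [he, Finset.sum_empty, add_zero] at h
        have h5 : (sqSum F 4 : ℤ) ≤ (q : ℤ) ^ 4 := by exact_mod_cast h.trans h4
        nlinarith [(by exact_mod_cast hq : (2 : ℤ) ≤ q), sq_nonneg (q : ℤ)]
      · obtain ⟨-, b, -⟩ := mem_divs.1 ho
        have hq3 : 3 ≤ q := by
          have := Nat.le_of_dvd (by omega) b
          rcases hD o ho with h | h <;> omega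
        by_cases h4' : 4 ∈ divs F 4
        · have hq5 : 5 ≤ q := by
            have := Nat.le_of_dvd (by omega) (mem_divs.1 h4').2.1
            omega
          have hs := sum_le_pair (by omega : (2 : ℕ) ≠ 4) hD (fun o => (o ^ 2 - 1) * Nat.card (Tup F (4 / o) (4 / o)))
          simp only [show 4 / 2 = 2 from rfl, show 4 / 4 = 1 from rfl, show (2 : ℕ) ^ 2 - 1 = 3 from rfl,
            show (4 : ℕ) ^ 2 - 1 = 15 from rfl] at hs
          have h6 : sqSum F 4 ≤ q ^ 4 + 3 * q ^ 2 + 15 * q := by omega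
          have h5 : (sqSum F 4 : ℤ) ≤ (q : ℤ) ^ 4 + 3 * (q : ℤ) ^ 2 + 15 * (q : ℤ) := by exact_mod_cast h6
          have hq5' : (5 : ℤ) ≤ q := by exact_mod_cast hq5
          nlinarith [mul_le_mul_of_nonneg_left hq5' (sq_nonneg (q : ℤ)), mul_le_mul_of_nonneg_left hq5' (by positivity : (0 : ℤ) ≤ q)]
        · have hD' : ∀ o ∈ divs F 4, o = 2 := fun o ho => (hD o ho).resolve_right fun e => h4' (e ▸ ho)
          have hs := sum_le_single hD' (fun o => (o ^ 2 - 1) * Nat.card (Tup F (4 / o) (4 / o)))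
          simp only [show 4 / 2 = 2 from rfl, show (2 : ℕ) ^ 2 - 1 = 3 from rfl] at hs
          have h6 : sqSum F 4 + 3 ≤ q ^ 4 + 3 * q ^ 2 := by
            have : 1 ≤ q ^ 2 := Nat.one_le_pow _ _ (by omega)
            omega
          have h5 : (sqSum F 4 : ℤ) + 3 ≤ (q : ℤ) ^ 4 + 3 * (q : ℤ) ^ 2 := by exact_mod_cast h6
          have hq3' : (3 : ℤ) ≤ q := by exact_mod_cast hq3
          nlinarith [mul_le_mul_of_nonneg_left hq3' (sq_nonneg (q : ℤ))]
  -- the general case
  have hK : ∀ m, Nat.card (Tup F m m) ≤ q ^ m := card_tup_le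
  suffices key : ∑ o ∈ divs F n, (o ^ 2 - 1) * q ^ (n / o) ≤ (2 * q - 3) * q ^ (n - 2) by
    refine h.trans ((Nat.add_le_add (hK n) ((Finset.sum_le_sum fun o _ => Nat.mul_le_mul_left _ (hK _)).trans key)).trans
      (le_of_eq ?_))
    obtain ⟨m, rfl⟩ : ∃ m, n = m + 2 := ⟨n - 2, by omega⟩
    rw [show m + 2 - 1 = m + 1 from rfl, show m + 2 - 2 = m from rfl]
    zify [show 1 ≤ q by omega, show 3 ≤ 2 * q by omega]
    ring
  rcases (divs F n).eq_empty_or_nonempty with he | ⟨o, ho⟩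
  · rw [he, Finset.sum_empty]; exact Nat.zero_le _
  have hq3 : 3 ≤ q := by
    obtain ⟨-, b, c⟩ := mem_divs.1 ho
    have := Nat.le_of_dvd (by omega) b
    omega
  have hfirst : (2 ^ 2 - 1) * q ^ (n / 2) ≤ q ^ (n - 2) :=
    calc (2 ^ 2 - 1) * q ^ (n / 2) ≤ q * q ^ (n / 2) := Nat.mul_le_mul_right _ hq3
      _ = q ^ (n / 2 + 1) := (pow_succ' q _).symm
      _ ≤ q ^ (n - 2) := Nat.pow_le_pow_right (by omega) (by omega)
  refine (sum_split _ n).trans ?_
  rcases ((divs F n).filter (3 ≤ ·)).eq_empty_or_nonempty with he | ⟨o', ho'⟩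
  · rw [he, Finset.sum_empty, add_zero]
    exact hfirst.trans (Nat.le_mul_of_pos_left _ (by omega))
  have hq4 : 4 ≤ q := by
    rw [Finset.mem_filter] at ho'
    obtain ⟨-, b, -⟩ := mem_divs.1 ho'.1
    have := Nat.le_of_dvd (by omega) b
    omega
  have hsum := sum_large (n := n) (C := q ^ (2 + n / 3)) (D := divs F n) (fun o => (o ^ 2 - 1) * q ^ (n / o)) fun o ho h3 => by
    obtain ⟨a, b, -⟩ := mem_divs.1 ho
    have hoq : o ≤ q := (Nat.le_of_dvd (by omega) b).trans (Nat.sub_le _ _)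
    refine ⟨Nat.le_of_dvd (by omega) a, ?_⟩
    rw [pow_add]
    exact Nat.mul_le_mul ((Nat.sub_le _ _).trans (Nat.pow_le_pow_left hoq 2))
      (Nat.pow_le_pow_right (by omega) (Nat.div_le_div_left h3 (by omega)))
  have hsecond : (n - 2) * q ^ (2 + n / 3) ≤ 4 * q ^ (n - 2) := by
    set e := n - 4 - n / 3 with he
    have h1 : n - 2 ≤ 4 * (e + 1) := by omega
    have h2 : e + 1 ≤ 4 ^ e := Nat.lt_pow_self (by omega)
    calc (n - 2) * q ^ (2 + n / 3) ≤ (4 * q ^ e) * q ^ (2 + n / 3) :=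
          Nat.mul_le_mul_right _ (h1.trans (Nat.mul_le_mul_left 4 (h2.trans (Nat.pow_le_pow_left hq4 e))))
      _ = _ := by rw [mul_assoc, ← pow_add]; congr 2; omega
  refine (Nat.add_le_add hfirst (hsum.trans hsecond)).trans ?_
  calc q ^ (n - 2) + 4 * q ^ (n - 2) = 5 * q ^ (n - 2) := by ring
    _ ≤ (2 * q - 3) * q ^ (n - 2) := Nat.mul_le_mul_right _ (by omega)

theorem sqSum_le_three (hn : 1 ≤ n) : sqSum F n ≤ 3 * ((Fintype.card F - 1) * Fintype.card F ^ (n - 1)) := by
  have h1 := card_tup_one (F := F)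
  have hq : 2 ≤ Fintype.card F := Fintype.one_lt_card
  rcases eq_or_lt_of_le hn with rfl | hn1
  · have h := sqSum_le (F := F) 1
    have he : divs F 1 = ∅ := Finset.eq_empty_of_forall_notMem fun o ho => by
      obtain ⟨a, -, c⟩ := mem_divs.1 ho
      have := Nat.le_of_dvd (by omega) a
      omega
    rw [he, Finset.sum_empty, add_zero] at h
    simp only [Nat.sub_self, pow_zero, mul_one]
    omega
  rcases eq_or_lt_of_le (show 2 ≤ n by omega) with rfl | hn2
  · have h := (sqSum_two (F := F)).1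
    zify [show 1 ≤ Fintype.card F by omega]
    push_cast
    nlinarith [(by exact_mod_cast hq : (2 : ℤ) ≤ Fintype.card F)]
  · refine (sqSum_ge_three (by omega)).trans ?_
    rw [mul_left_comm]
    refine Nat.mul_le_mul_left _ ?_
    have e : Fintype.card F ^ (n - 1) = Fintype.card F * Fintype.card F ^ (n - 2) := by
      rw [← pow_succ']; congr 1; omega
    have : 2 * Fintype.card F ^ (n - 2) ≤ Fintype.card F * Fintype.card F ^ (n - 2) := Nat.mul_le_mul_right _ hq
    omega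

theorem sl_two (F : Type u) [Field F] [Fintype F] :
    Nat.card (ConjClasses (SpecialLinearGroup (Fin 2) F)) ≤ Fintype.card F + 4 ∧
      (¬ 2 ∣ Fintype.card F - 1 → Nat.card (ConjClasses (SpecialLinearGroup (Fin 2) F)) ≤ Fintype.card F + 1) := by
  have h := card_sl_le (F := F) (show 1 ≤ 2 by omega)
  obtain ⟨h1, h2⟩ := sqSum_two (F := F)
  set q := Fintype.card F
  have hq : 2 ≤ q := Fintype.one_lt_card
  zify [show 1 ≤ q by omega] at h
  have hA : (0 : ℤ) < (q : ℤ) - 1 := by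
    have : (2 : ℤ) ≤ q := by exact_mod_cast hq
    linarith
  refine ⟨?_, fun he => ?_⟩
  · exact_mod_cast le_of_mul_le_mul_left (h.trans h1) hA
  · exact_mod_cast le_of_mul_le_mul_left (h.trans (h2 he)) hA

theorem sl_ge_three (F : Type u) [Field F] [Fintype F] (n : ℕ) (hn : 3 ≤ n) :
    Nat.card (ConjClasses (SpecialLinearGroup (Fin n) F)) ≤ Fintype.card F ^ (n - 1) + 3 * Fintype.card F ^ (n - 2) :=
  Nat.le_of_mul_le_mul_left ((card_sl_le (by omega)).trans (sqSum_ge_three hn))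
    (by have := Fintype.one_lt_card (α := F); omega)

/-- The class number of `PSL`. -/
theorem psl_main (hn : 1 ≤ n) :
    Nat.card (Subgroup.center (SpecialLinearGroup (Fin n) F)) = Nat.gcd n (Fintype.card F - 1) ∧
    Nat.card (ConjClasses (SpecialLinearGroup (Fin n) F)) ≤
      Nat.gcd n (Fintype.card F - 1) * Nat.card (ConjClasses (Matrix.ProjectiveSpecialLinearGroup (Fin n) F)) ∧
    (Fintype.card F - 1) * (Nat.gcd n (Fintype.card F - 1) * Nat.card (ConjClasses (Matrix.ProjectiveSpecialLinearGroup (Fin n) F))) ≤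
      (Fintype.card F - 1) * Nat.card (ConjClasses (SpecialLinearGroup (Fin n) F)) +
        ∑ o ∈ divs F n, (o - 1) * sqSum F (n / o) := by
  classical
  set Z := Subgroup.center (SpecialLinearGroup (Fin n) F) with hZ
  haveI : Fintype Z := Fintype.ofFinite Z
  let e : Z ≃* rootsOfUnity (Fintype.card (Fin n)) F :=
    Matrix.SpecialLinearGroup.center_equiv_rootsOfUnity' ⟨0, hn⟩
  have hcard : Nat.card Z = Nat.gcd n (Fintype.card F - 1) := by
    rw [Nat.card_congr e.toEquiv, Nat.gcd_comm, ← Fintype.card_units, ← Nat.card_eq_fintype_card (α := Fˣ),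
      ← IsCyclic.card_powMonoidHom_ker (G := Fˣ) n]
    exact Nat.card_congr (Equiv.subtypeEquivRight fun x => by
      rw [mem_rootsOfUnity, Fintype.card_fin]; rfl)
  haveI : IsCyclic Z := isCyclic_of_injective e.toMonoidHom e.injective
  let fix : Z → ℕ := fun z => Nat.card {c : ConjClasses (SpecialLinearGroup (Fin n) F) //
    ∃ h, ConjClasses.mk h = c ∧ IsConj h ((z : SpecialLinearGroup (Fin n) F) * h)}
  have hsum : Nat.gcd n (Fintype.card F - 1) * Nat.card (ConjClasses (Matrix.ProjectiveSpecialLinearGroup (Fin n) F)) =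
      ∑ z : Z, fix z := by
    rw [← hcard]
    exact center_sum Z le_rfl
  have hone : fix 1 = Nat.card (ConjClasses (SpecialLinearGroup (Fin n) F)) := by
    refine Nat.card_congr (Equiv.subtypeUnivEquiv fun c => ?_)
    obtain ⟨h, rfl⟩ := ConjClasses.mk_surjective c
    exact ⟨h, rfl, by rw [OneMemClass.coe_one, one_mul]⟩
  refine ⟨hcard, ?_, ?_⟩
  · rw [hsum, ← hone]
    exact Finset.single_le_sum (fun z _ => Nat.zero_le (fix z)) (Finset.mem_univ (1 : Z))
  · rw [hsum, ← Finset.add_sum_erase _ _ (Finset.mem_univ (1 : Z)), Nat.mul_add, hone, Finset.mul_sum]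
    refine Nat.add_le_add_left ?_ _
    refine (Finset.sum_le_sum (g := fun z : Z => sqSum F (n / orderOf z)) fun z _ => card_fixed_le hn z).trans ?_
    have hmaps : ∀ z ∈ (Finset.univ : Finset Z).erase 1, orderOf z ∈ divs F n := fun z hz => by
      have h1 : orderOf z ∣ Nat.gcd n (Fintype.card F - 1) := hcard ▸ orderOf_dvd_natCard z
      refine mem_divs.2 ⟨h1.trans (Nat.gcd_dvd_left _ _), h1.trans (Nat.gcd_dvd_right _ _), ?_⟩
      have := orderOf_pos z
      have : orderOf z ≠ 1 := fun h => (Finset.mem_erase.1 hz).1 (orderOf_eq_one_iff.1 h)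
      omega
    rw [← Finset.sum_fiberwise_of_maps_to hmaps]
    refine Finset.sum_le_sum fun o ho => ?_
    obtain ⟨hon, hoq, ho2⟩ := mem_divs.1 ho
    rw [Finset.sum_congr rfl (fun z (hz : z ∈ ((Finset.univ : Finset Z).erase 1).filter fun z => orderOf z = o) => by
      rw [(Finset.mem_filter.1 hz).2]), Finset.sum_const, smul_eq_mul]
    refine Nat.mul_le_mul_right _ ?_
    refine (Finset.card_le_card (t := Finset.univ.filter fun z : Z => orderOf z = o) fun z hz => ?_).trans ?_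
    · exact Finset.mem_filter.2 ⟨Finset.mem_univ z, (Finset.mem_filter.1 hz).2⟩
    · rw [IsCyclic.card_orderOf_eq_totient (by
        rw [← Nat.card_eq_fintype_card, hcard]; exact Nat.dvd_gcd hon hoq)]
      have := Nat.totient_lt o (by omega)
      omega

theorem psl_upper (F : Type u) [Field F] [Fintype F] (n : ℕ) (hn : 2 ≤ n) :
    Nat.gcd n (Fintype.card F - 1) * Nat.card (ConjClasses (Matrix.ProjectiveSpecialLinearGroup (Fin n) F)) ≤
      Fintype.card F ^ (n - 1) + 5 * Fintype.card F ^ (n - 2) := by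
  have hmain := (psl_main (F := F) (show 1 ≤ n by omega)).2.2
  set q := Fintype.card F with hqd
  have hq : 2 ≤ q := Fintype.one_lt_card
  have hS1 : sqSum F 1 ≤ q - 1 := by
    have h := sqSum_le (F := F) 1
    have he : divs F 1 = ∅ := Finset.eq_empty_of_forall_notMem fun o ho => by
      obtain ⟨a, -, c⟩ := mem_divs.1 ho
      have := Nat.le_of_dvd (by omega) a
      omega
    rw [he, Finset.sum_empty, add_zero] at h
    exact h.trans card_tup_one
  refine Nat.le_of_mul_le_mul_left (hmain.trans ?_) (show 0 < q - 1 by omega)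
  rcases eq_or_lt_of_le hn with rfl | hn3
  · obtain ⟨h1, h2⟩ := sl_two F
    rw [← hqd] at h1 h2
    have hD : ∀ o ∈ divs F 2, o = 2 := fun o ho => by
      obtain ⟨a, -, c⟩ := mem_divs.1 ho
      have := Nat.le_of_dvd (by omega) a
      omega
    show _ ≤ (q - 1) * (q ^ 1 + 5 * q ^ 0)
    rw [pow_one, pow_zero, mul_one]
    have hs := sum_le_single hD (fun o => (o - 1) * sqSum F (2 / o))
    simp only [show 2 / 2 = 1 from rfl, show (2 : ℕ) - 1 = 1 from rfl, one_mul] at hs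
    calc _ ≤ (q - 1) * (q + 4) + (q - 1) := Nat.add_le_add (Nat.mul_le_mul_left _ h1) (hs.trans hS1)
      _ = _ := by ring
  have h3 := sl_ge_three F n (by omega)
  rw [← hqd] at h3
  suffices key : ∑ o ∈ divs F n, (o - 1) * sqSum F (n / o) ≤ (q - 1) * (2 * q ^ (n - 2)) by
    refine (Nat.add_le_add (Nat.mul_le_mul_left _ h3) key).trans (le_of_eq ?_)
    ring
  rcases (divs F n).eq_empty_or_nonempty with he | ⟨o, ho⟩
  · rw [he, Finset.sum_empty]; exact Nat.zero_le _
  have hq3 : 3 ≤ q := by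
    obtain ⟨-, b, c⟩ := mem_divs.1 ho
    have := Nat.le_of_dvd (by omega) b
    omega
  rcases lt_or_ge n 5 with hn5 | hn5
  · interval_cases n
    · have hD : ∀ o ∈ divs F 3, o = 3 := fun o ho => by
        obtain ⟨a, -, c⟩ := mem_divs.1 ho
        rcases (Nat.dvd_prime Nat.prime_three).1 a with h | h <;> omega
      have hs := sum_le_single hD (fun o => (o - 1) * sqSum F (3 / o))
      simp only [show 3 / 3 = 1 from rfl, show (3 : ℕ) - 1 = 2 from rfl] at hs
      refine (hs.trans (Nat.mul_le_mul_left 2 hS1)).trans ?_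
      rw [mul_comm]
      exact Nat.mul_le_mul_left _ (by show 2 ≤ 2 * q ^ 1; rw [pow_one]; omega)
    · have hD : ∀ o ∈ divs F 4, o = 2 ∨ o = 4 := fun o ho => by
        obtain ⟨a, -, c⟩ := mem_divs.1 ho
        have := Nat.le_of_dvd (by omega) a
        interval_cases o <;> omega
      have hs := sum_le_pair (by omega : (2 : ℕ) ≠ 4) hD (fun o => (o - 1) * sqSum F (4 / o))
      simp only [show 4 / 2 = 2 from rfl, show 4 / 4 = 1 from rfl, show (2 : ℕ) - 1 = 1 from rfl,
        show (4 : ℕ) - 1 = 3 from rfl, one_mul] at hs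
      have h2 : sqSum F 2 ≤ 3 * ((q - 1) * q ^ (2 - 1)) := sqSum_le_three (show 1 ≤ 2 by omega)
      refine (hs.trans (Nat.add_le_add h2 (Nat.mul_le_mul_left 3 hS1))).trans ?_
      show 3 * ((q - 1) * q ^ 1) + 3 * (q - 1) ≤ (q - 1) * (2 * q ^ 2)
      rw [show 3 * ((q - 1) * q ^ 1) + 3 * (q - 1) = (q - 1) * (3 * q + 3) by ring]
      refine Nat.mul_le_mul_left _ ?_
      have : 3 * q ≤ q * q := Nat.mul_le_mul_right _ hq3
      rw [pow_two]
      omega
  have hb : ∀ o ∈ divs F n, (o - 1) * sqSum F (n / o) ≤ (q - 1) * (3 * ((o - 1) * q ^ (n / o - 1))) := fun o ho => by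
    obtain ⟨a, -, c⟩ := mem_divs.1 ho
    have h1 : 1 ≤ n / o := Nat.div_pos (Nat.le_of_dvd (by omega) a) (by omega)
    refine (Nat.mul_le_mul_left _ (sqSum_le_three h1)).trans (le_of_eq ?_)
    ring
  refine (Finset.sum_le_sum hb).trans ?_
  rw [← Finset.mul_sum]
  refine Nat.mul_le_mul_left _ ?_
  refine (sum_split (fun o => 3 * ((o - 1) * q ^ (n / o - 1))) n).trans ?_
  have hfirst : 3 * ((2 - 1) * q ^ (n / 2 - 1)) ≤ q ^ (n - 2) := by
    calc 3 * ((2 - 1) * q ^ (n / 2 - 1)) ≤ q * q ^ (n / 2 - 1) := by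
          rw [show (2 : ℕ) - 1 = 1 from rfl, one_mul]; exact Nat.mul_le_mul_right _ hq3
      _ = q ^ (n / 2) := by rw [← pow_succ']; congr 1; omega
      _ ≤ q ^ (n - 2) := Nat.pow_le_pow_right (by omega) (by omega)
  rcases ((divs F n).filter (3 ≤ ·)).eq_empty_or_nonempty with he | ⟨o', ho'⟩
  · rw [he, Finset.sum_empty, add_zero]
    exact hfirst.trans (Nat.le_mul_of_pos_left _ (by omega))
  have hq4 : 4 ≤ q := by
    rw [Finset.mem_filter] at ho'
    obtain ⟨-, b, -⟩ := mem_divs.1 ho'.1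
    have := Nat.le_of_dvd (by omega) b
    omega
  have hsum := sum_large (n := n) (C := 3 * q ^ (n / 3)) (D := divs F n) (fun o => 3 * ((o - 1) * q ^ (n / o - 1))) fun o ho h3 => by
    obtain ⟨a, b, -⟩ := mem_divs.1 ho
    have hoq : o - 1 ≤ q := (Nat.sub_le _ _).trans ((Nat.le_of_dvd (by omega) b).trans (Nat.sub_le _ _))
    have h1 : 1 ≤ n / o := Nat.div_pos (Nat.le_of_dvd (by omega) a) (by omega)
    refine ⟨Nat.le_of_dvd (by omega) a, Nat.mul_le_mul_left 3 ?_⟩
    calc (o - 1) * q ^ (n / o - 1) ≤ q * q ^ (n / o - 1) := Nat.mul_le_mul_right _ hoq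
      _ = q ^ (n / o) := by rw [← pow_succ', Nat.sub_add_cancel h1]
      _ ≤ q ^ (n / 3) := Nat.pow_le_pow_right (by omega) (Nat.div_le_div_left h3 (by omega))
  have hsecond : (n - 2) * (3 * q ^ (n / 3)) ≤ q ^ (n - 2) := by
    obtain ⟨e, he⟩ : ∃ e, n - 2 - n / 3 = e + 2 := ⟨n - 4 - n / 3, by omega⟩
    have h2 : e + 1 ≤ 4 ^ e := Nat.lt_pow_self (by omega)
    have h1 : (n - 2) * 3 ≤ 4 ^ (e + 2) := by rw [pow_add]; omega
    calc (n - 2) * (3 * q ^ (n / 3)) = (n - 2) * 3 * q ^ (n / 3) := by ring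
      _ ≤ q ^ (e + 2) * q ^ (n / 3) := Nat.mul_le_mul_right _ (h1.trans (Nat.pow_le_pow_left hq4 _))
      _ = q ^ (n - 2) := by rw [← pow_add]; congr 1; omega
  refine (Nat.add_le_add hfirst (hsum.trans hsecond)).trans (le_of_eq ?_)
  ring

end Cfsg.Agent.Lib.GLn.SLClassBounds
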