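import Cfsg.Agent.Lib.GLn.TupleSum

/-!
# Class numbers of `SL` and `PSL`
-/

set_option autoImplicit false

namespace Cfsg.Agent.Lib.GLn.SLClassCount

open Polynomial Matrix
open Cfsg.Agent.Lib.GLn.ClassCount (Tup)
open Cfsg.Agent.Lib.GLn.ClassInvariant
open Cfsg.Agent.Lib.GLn.TupleSum

universe u

variable {F : Type u} [Field F] [Fintype F] {n : ℕ}

open Classical in
/-- Classes of `SL` with prescribed tuples. -/
theorem card_classes_le (hn : 1 ≤ n) (R : Tup F n n → Prop)
    (A : ConjClasses (SpecialLinearGroup (Fin n) F) → Prop)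
    (hA : ∀ h, A (ConjClasses.mk h) → R (tup hn (SpecialLinearGroup.toGL h))) :
    Nat.card {c // A c} ≤
      ∑ T ∈ (Finset.univ : Finset (Tup F n n)).filter (fun T => tdet T.1 = 1 ∧ R T), tgcd T.1 := by
  classical
  let S := {T : Tup F n n // tdet T.1 = 1 ∧ R T}
  let H : Tup F n n → Subgroup Fˣ := fun T => (powMonoidHom (tgcd T.1) : Fˣ →* Fˣ).range
  haveI : Nonempty (GL (Fin n) F) := ⟨1⟩
  let r : Tup F n n → GL (Fin n) F := Function.invFun (tup hn)
  have hrep : ∀ g, tup hn (r (tup hn g)) = tup hn g := fun g => Function.invFun_eq ⟨g, rfl⟩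
  have hx : ∀ h : SpecialLinearGroup (Fin n) F,
      ∃ x : GL (Fin n) F, x * r (tup hn (SpecialLinearGroup.toGL h)) * x⁻¹ = SpecialLinearGroup.toGL h :=
    fun h => isConj_iff.1 (isConj_of_tup_eq hn (hrep _))
  choose x hx using hx
  have hR : ∀ c : {c // A c}, tdet (tup hn (SpecialLinearGroup.toGL (Quotient.out c.1))).1 = 1 ∧
      R (tup hn (SpecialLinearGroup.toGL (Quotient.out c.1))) := fun c => by
    refine ⟨?_, hA _ (by rw [show ConjClasses.mk (Quotient.out c.1) = c.1 from Quotient.out_eq c.1]; exact c.2)⟩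
    rw [← det_tup]
    exact (Quotient.out c.1).2
  let Θ : {c // A c} → Σ T : S, Fˣ ⧸ H T.1 := fun c =>
    ⟨⟨tup hn (SpecialLinearGroup.toGL (Quotient.out c.1)), hR c⟩,
      QuotientGroup.mk (Matrix.GeneralLinearGroup.det (x (Quotient.out c.1)))⟩
  have main : ∀ h h' : SpecialLinearGroup (Fin n) F, tup hn (SpecialLinearGroup.toGL h') = tup hn (SpecialLinearGroup.toGL h) →
      (Matrix.GeneralLinearGroup.det (x h))⁻¹ * Matrix.GeneralLinearGroup.det (x h') ∈
        H (tup hn (SpecialLinearGroup.toGL h)) → IsConj h h' := by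
    intro h h' hT hmem
    have hmem' : (Matrix.GeneralLinearGroup.det (x h'))⁻¹ * Matrix.GeneralLinearGroup.det (x h) ∈
        H (tup hn (r (tup hn (SpecialLinearGroup.toGL h)))) := by
      rw [hrep]
      have := (H (tup hn (SpecialLinearGroup.toGL h))).inv_mem hmem
      rwa [_root_.mul_inv_rev, inv_inv] at this
    obtain ⟨z, hz, hzd⟩ := powers_le_det_centralizer hn _ hmem'
    have hzc : z * r (tup hn (SpecialLinearGroup.toGL h)) = r (tup hn (SpecialLinearGroup.toGL h)) * z :=
      Subgroup.mem_centralizer_singleton_iff.1 hz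
    set y := x h' * z * (x h)⁻¹ with hy
    have hyd : (y : Matrix (Fin n) (Fin n) F).det = 1 := by
      have h1 : Matrix.GeneralLinearGroup.det y = 1 := by
        rw [hy, map_mul, map_mul, map_inv, hzd, ← mul_assoc, _root_.mul_inv_cancel, one_mul, _root_.mul_inv_cancel]
      exact congrArg Units.val h1
    let y' : SpecialLinearGroup (Fin n) F := ⟨(y : Matrix (Fin n) (Fin n) F), hyd⟩
    have hy' : SpecialLinearGroup.toGL y' = y := Units.ext rfl
    refine isConj_iff.2 ⟨y', SpecialLinearGroup.toGL_injective ?_⟩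
    rw [map_mul, map_mul, map_inv, hy', hy, ← hx h, ← hx h', hT]
    calc x h' * z * (x h)⁻¹ * (x h * r (tup hn (SpecialLinearGroup.toGL h)) * (x h)⁻¹) * (x h' * z * (x h)⁻¹)⁻¹
        = x h' * (z * r (tup hn (SpecialLinearGroup.toGL h))) * z⁻¹ * (x h')⁻¹ := by group
      _ = x h' * r (tup hn (SpecialLinearGroup.toGL h)) * (x h')⁻¹ := by rw [hzc]; group
  have hinj : Function.Injective Θ := by
    intro c c' e
    have key : ∀ (T T' : Tup F n n) (d d' : Fˣ), T = T' →
        HEq (QuotientGroup.mk (s := H T) d) (QuotientGroup.mk (s := H T') d') → d⁻¹ * d' ∈ H T := by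
      rintro T T' d d' rfl h1
      exact QuotientGroup.eq.1 (eq_of_heq h1)
    obtain ⟨e1, e2⟩ := Sigma.mk.inj_iff.1 e
    have e1' := congrArg Subtype.val e1
    have h := main (Quotient.out c.1) (Quotient.out c'.1) e1'.symm (key _ _ _ _ e1' e2)
    apply Subtype.ext
    rw [← Quotient.out_eq c.1, ← Quotient.out_eq c'.1]
    exact Quotient.sound h
  refine (Nat.card_le_card_of_injective Θ hinj).trans (le_of_eq ?_)
  rw [Nat.card_sigma, Finset.sum_subtype _ (fun T => ?_) (fun T : Tup F n n => tgcd T.1)]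
  · refine Finset.sum_congr rfl fun T _ => ?_
    rw [← Subgroup.index_eq_card, IsCyclic.index_powMonoidHom_range, Nat.card_eq_fintype_card (α := Fˣ),
      Fintype.card_units, Nat.gcd_eq_right (tgcd_dvd T.1.1)]
  · simp

theorem card_sl_le (hn : 1 ≤ n) :
    (Fintype.card F - 1) * Nat.card (ConjClasses (SpecialLinearGroup (Fin n) F)) ≤ sqSum F n := by
  classical
  refine le_trans (Nat.mul_le_mul_left _ ?_) (fibre_sum_le (F := F) (n := n) 1 one_ne_zero)
  rw [← Nat.card_congr (Equiv.subtypeUnivEquiv (p := fun _ : ConjClasses (SpecialLinearGroup (Fin n) F) => True) fun _ => trivial)]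
  refine (card_classes_le hn (fun _ => True) _ (fun _ _ => trivial)).trans (le_of_eq ?_)
  simp

/-- Classes fixed by a central element. -/
theorem card_fixed_le (hn : 1 ≤ n) (z : Subgroup.center (SpecialLinearGroup (Fin n) F)) :
    (Fintype.card F - 1) * Nat.card {c : ConjClasses (SpecialLinearGroup (Fin n) F) //
      ∃ h, ConjClasses.mk h = c ∧ IsConj h ((z : SpecialLinearGroup (Fin n) F) * h)} ≤ sqSum F (n / orderOf z) := by
  classical
  obtain ⟨ζ, hζn, hζ⟩ := Matrix.SpecialLinearGroup.mem_center_iff.1 z.2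
  have hζ0 : ζ ≠ 0 := fun h => by rw [h, zero_pow (by rw [Fintype.card_fin]; omega)] at hζn; exact zero_ne_one hζn
  set u : Fˣ := Units.mk0 ζ hζ0
  have hpow : ∀ k : ℕ, u ^ k = 1 ↔ z ^ k = 1 := by
    intro k
    have hk : (((z ^ k : Subgroup.center (SpecialLinearGroup (Fin n) F)) : SpecialLinearGroup (Fin n) F) :
        Matrix (Fin n) (Fin n) F) = Matrix.scalar (Fin n) (ζ ^ k) := by
      induction k with
      | zero => rw [pow_zero, pow_zero, map_one]; rfl
      | succ k ih =>
        rw [pow_succ, pow_succ, map_mul]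
        show (((z ^ k : Subgroup.center (SpecialLinearGroup (Fin n) F)) : SpecialLinearGroup (Fin n) F) :
          Matrix (Fin n) (Fin n) F) * ((z : SpecialLinearGroup (Fin n) F) : Matrix (Fin n) (Fin n) F) = _
        rw [ih, hζ]
    haveI : Nonempty (Fin n) := ⟨⟨0, hn⟩⟩
    rw [Units.ext_iff, Units.val_pow_eq_pow_val, Units.val_one]
    refine ⟨fun h => ?_, fun h => ?_⟩
    · apply Subtype.ext
      apply Subtype.ext
      rw [hk, show ζ ^ k = 1 from h, map_one]
      rfl
    · refine Matrix.scalar_inj.1 (?_ : Matrix.scalar (Fin n) (ζ ^ k) = Matrix.scalar (Fin n) (1 : F))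
      rw [← hk, h, map_one]
      rfl
  have hord : orderOf z = orderOf u := orderOf_eq_orderOf_iff.2 fun k => (hpow k).symm
  rw [hord]
  refine le_trans (Nat.mul_le_mul_left _ ?_) (twist_sum_le u hn)
  convert card_classes_le hn (fun T => ∀ i, twist (u : F) (T.1 i) = T.1 i)
    (fun c => ∃ h, ConjClasses.mk h = c ∧ IsConj h ((z : SpecialLinearGroup (Fin n) F) * h)) (fun h hh => ?_)
  obtain ⟨h0, hc, hcz⟩ := hh
  intro i
  have e : IsConj (SpecialLinearGroup.toGL h) (SpecialLinearGroup.toGL ((z : SpecialLinearGroup (Fin n) F) * h)) := by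
    refine SpecialLinearGroup.toGL.map_isConj ?_
    obtain ⟨y, hy⟩ := isConj_iff.1 (ConjClasses.mk_eq_mk_iff_isConj.1 hc)
    refine (ConjClasses.mk_eq_mk_iff_isConj.1 hc).symm.trans (hcz.trans (isConj_iff.2 ⟨y, ?_⟩))
    rw [← mul_assoc y, ((Subgroup.mem_center_iff.1 z.2) y), mul_assoc, mul_assoc, ← mul_assoc y, hy]
  refine twist_tup hn ζ hζ0 ?_ e i
  show ((z : SpecialLinearGroup (Fin n) F) : Matrix (Fin n) (Fin n) F) * (h : Matrix (Fin n) (Fin n) F) = _
  rw [← hζ, Matrix.scalar_apply, ← Matrix.smul_one_eq_diagonal, Matrix.smul_mul, one_mul]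
  rfl

theorem lt_card_sl (hn : 2 ≤ n) :
    Fintype.card F ^ (n - 1) < Nat.card (ConjClasses (SpecialLinearGroup (Fin n) F)) := by
  classical
  obtain ⟨p, hp⟩ := CharP.exists F
  obtain ⟨k, hpp, -⟩ := FiniteField.card F p
  haveI := Fact.mk hpp
  rw [← SemisimpleClasses.card_sl p (by omega : 1 ≤ n)]
  let i : Fin n := ⟨0, by omega⟩
  let j : Fin n := ⟨1, by omega⟩
  have hij : i ≠ j := fun h => by simp [i, j, Fin.ext_iff] at h
  let t : SpecialLinearGroup (Fin n) F := ⟨Matrix.transvection i j 1, Matrix.det_transvection_of_ne i j hij 1⟩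
  have hpow : ∀ m : ℕ, ((t ^ m : SpecialLinearGroup (Fin n) F) : Matrix (Fin n) (Fin n) F) = Matrix.transvection i j (m : F) := by
    intro m
    induction m with
    | zero => rw [pow_zero, Nat.cast_zero, Matrix.transvection_zero]; rfl
    | succ m ih =>
      rw [pow_succ, Nat.cast_succ]
      show ((t ^ m : SpecialLinearGroup (Fin n) F) : Matrix (Fin n) (Fin n) F) * (t : Matrix (Fin n) (Fin n) F) = _
      rw [ih]
      exact Matrix.transvection_mul_transvection_same i j hij _ _
  have hord : orderOf t = p := by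
    refine orderOf_eq_prime (Subtype.ext ?_) fun h => ?_
    · rw [hpow, CharP.cast_eq_zero, Matrix.transvection_zero]; rfl
    · have h1 : (t : Matrix (Fin n) (Fin n) F) i j = (1 : Matrix (Fin n) (Fin n) F) i j := by rw [h]; rfl
      simp [t, Matrix.transvection, hij] at h1
  rw [Nat.card_eq_fintype_card, Nat.card_eq_fintype_card]
  refine Fintype.card_subtype_lt (x := ConjClasses.mk t) ?_
  rintro ⟨g, hg, hgo⟩
  obtain ⟨c, hc⟩ := isConj_iff.1 (ConjClasses.mk_eq_mk_iff_isConj.1 hg)
  have : orderOf t = orderOf g := by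
    rw [← hc]; exact (MulAut.conj c).orderOf_eq g
  rw [← this, hord, Nat.coprime_self] at hgo
  exact hpp.ne_one hgo

/-- Burnside for the centre acting on classes: `|Z| k(G/Z) = ∑ fix(z)`. -/
theorem center_sum {G : Type*} [Group G] [Finite G] (Z : Subgroup G) [Z.Normal] [Fintype Z] (hZ : Z ≤ Subgroup.center G) :
    Nat.card Z * Nat.card (ConjClasses (G ⧸ Z)) =
      ∑ z : Z, Nat.card {c : ConjClasses G // ∃ h, ConjClasses.mk h = c ∧ IsConj h ((z : G) * h)} := by
  classical
  haveI := Fintype.ofFinite G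
  have hcomm : ∀ (z : Z) (g : G), g * (z : G) = z * g := fun z g => Subgroup.mem_center_iff.1 (hZ z.2) g
  letI act : MulAction Z (ConjClasses G) :=
    { smul := fun z c => Quotient.liftOn c (fun h => ConjClasses.mk ((z : G) * h)) fun a b hab =>
        ConjClasses.mk_eq_mk_iff_isConj.2 (by
          obtain ⟨y, hy⟩ := isConj_iff.1 hab
          refine isConj_iff.2 ⟨y, ?_⟩
          rw [← hy, ← mul_assoc y, hcomm, mul_assoc (z : G), mul_assoc (z : G)])
      one_smul := fun c => by
        induction c using Quotient.inductionOn with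
        | h a => show ConjClasses.mk ((1 : G) * a) = _; rw [one_mul]; rfl
      mul_smul := fun z w c => by
        induction c using Quotient.inductionOn with
        | h a => show ConjClasses.mk ((z : G) * w * a) = ConjClasses.mk ((z : G) * (w * a)); rw [mul_assoc] }
  have hsmul : ∀ (z : Z) (a : G), z • ConjClasses.mk a = ConjClasses.mk ((z : G) * a) := fun _ _ => rfl
  have hfix : ∀ z : Z, Nat.card {c : ConjClasses G // ∃ h, ConjClasses.mk h = c ∧ IsConj h ((z : G) * h)} =
      Fintype.card (MulAction.fixedBy (ConjClasses G) z) := by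
    intro z
    rw [← Nat.card_eq_fintype_card]
    refine Nat.card_congr (Equiv.subtypeEquivRight fun c => ?_)
    obtain ⟨a, rfl⟩ := ConjClasses.mk_surjective c
    show _ ↔ z • ConjClasses.mk a = ConjClasses.mk a
    rw [hsmul, ConjClasses.mk_eq_mk_iff_isConj]
    refine ⟨fun ⟨h, hh, hz⟩ => ?_, fun h => ⟨a, rfl, h.symm⟩⟩
    have h1 := (hsmul z h).symm
    rw [hh, hsmul, ConjClasses.mk_eq_mk_iff_isConj] at h1
    exact h1.symm.trans (hz.symm.trans (ConjClasses.mk_eq_mk_iff_isConj.1 hh))
  simp only [hfix]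
  refine Eq.trans ?_ (MulAction.sum_card_fixedBy_eq_card_orbits_mul_card_group Z (ConjClasses G)).symm
  rw [mul_comm, ← Nat.card_eq_fintype_card (α := Quotient (MulAction.orbitRel Z (ConjClasses G))),
    Nat.card_eq_fintype_card (α := Z)]
  congr 1
  let f : Quotient (MulAction.orbitRel Z (ConjClasses G)) → ConjClasses (G ⧸ Z) :=
    Quotient.lift (ConjClasses.map (QuotientGroup.mk' Z)) fun c d hcd => by
      obtain ⟨z, rfl⟩ := hcd
      obtain ⟨a, rfl⟩ := ConjClasses.mk_surjective d
      show ConjClasses.mk (QuotientGroup.mk' Z ((z : G) * a)) = ConjClasses.mk (QuotientGroup.mk' Z a)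
      rw [map_mul, (QuotientGroup.eq_one_iff (z : G)).2 z.2 |> fun h => show QuotientGroup.mk' Z (z : G) = 1 from h, one_mul]
  refine (Nat.card_congr (Equiv.ofBijective f ⟨?_, ?_⟩)).symm
  · intro c d
    induction c using Quotient.inductionOn with
    | h c =>
      induction d using Quotient.inductionOn with
      | h d =>
        obtain ⟨a, rfl⟩ := ConjClasses.mk_surjective c
        obtain ⟨b, rfl⟩ := ConjClasses.mk_surjective d
        intro e
        change ConjClasses.mk (QuotientGroup.mk' Z a) = ConjClasses.mk (QuotientGroup.mk' Z b) at e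
        obtain ⟨y, hy⟩ := isConj_iff.1 (ConjClasses.mk_eq_mk_iff_isConj.1 e)
        obtain ⟨y, rfl⟩ := QuotientGroup.mk'_surjective Z y
        rw [← map_inv, ← map_mul, ← map_mul] at hy
        obtain ⟨w, hw, hwb⟩ := (QuotientGroup.mk'_eq_mk' Z).1 hy
        refine Quotient.sound ?_
        show ConjClasses.mk a ∈ MulAction.orbit Z (ConjClasses.mk b)
        refine ⟨(⟨w, hw⟩ : Z)⁻¹, ?_⟩
        show (⟨w, hw⟩ : Z)⁻¹ • ConjClasses.mk b = _
        rw [inv_smul_eq_iff, hsmul, ConjClasses.mk_eq_mk_iff_isConj]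
        refine (isConj_iff.2 ⟨y, ?_⟩).symm
        rw [← mul_assoc y, hcomm ⟨w, hw⟩ y, mul_assoc, mul_assoc, ← mul_assoc y, ← hwb]
        exact (hcomm ⟨w, hw⟩ _).symm
  · intro c
    obtain ⟨a, rfl⟩ := ConjClasses.mk_surjective c
    obtain ⟨a, rfl⟩ := QuotientGroup.mk'_surjective Z a
    exact ⟨Quotient.mk _ (ConjClasses.mk a), rfl⟩

end Cfsg.Agent.Lib.GLn.SLClassCount
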