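import Cfsg.Agent.Lib.GLn.ClassInvariant

/-!
# Weighted sums over tuples of polynomials
-/

set_option autoImplicit false

namespace Cfsg.Agent.Lib.GLn.TupleSum

open Polynomial
open Cfsg.Agent.Lib.GLn.ClassCount (Tup tup_bound P0 card_P0)
open Cfsg.Agent.Lib.GLn.ClassInvariant (tdet tgcd twist)

universe u

variable {F : Type u} [Field F] [Fintype F] {N n : ℕ}

theorem finite_tup (n : ℕ) : Finite (Tup F n n) := by
  rcases Nat.eq_zero_or_pos n with rfl | hn
  · haveI : Subsingleton (Tup F 0 0) := ⟨fun a b => Subtype.ext (funext fun i => i.elim0)⟩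
    exact Finite.of_subsingleton
  · exact (tup_bound (F := F) n hn n).1

noncomputable instance (n : ℕ) : Fintype (Tup F n n) := by
  haveI := finite_tup (F := F) n
  exact Fintype.ofFinite _

theorem tgcd_dvd (T : Fin N → F[X]) : tgcd T ∣ Fintype.card F - 1 := Nat.gcd_dvd_left _ _

theorem tgcd_pos (T : Fin N → F[X]) : 0 < tgcd T :=
  Nat.gcd_pos_of_pos_left _ (by have := Fintype.one_lt_card (α := F); omega)

theorem tgcd_dvd_succ {T : Fin N → F[X]} {i : Fin N} (h : T i ≠ 1) : tgcd T ∣ (i : ℕ) + 1 :=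
  letI := Classical.decEq F[X]
  (Nat.gcd_dvd_right _ _).trans (Finset.gcd_dvd (Finset.mem_filter.2 ⟨Finset.mem_univ i, h⟩))

theorem dvd_tgcd {T : Fin N → F[X]} {d : ℕ} (h1 : d ∣ Fintype.card F - 1) (h2 : ∀ i, T i ≠ 1 → d ∣ (i : ℕ) + 1) :
    d ∣ tgcd T :=
  letI := Classical.decEq F[X]
  Nat.dvd_gcd h1 (Finset.dvd_gcd fun i hi => h2 i (Finset.mem_filter.1 hi).2)

theorem eq_one_iff_natDegree {P : F[X]} (hP : P.Monic) : P = 1 ↔ P.natDegree = 0 :=
  ⟨fun h => by rw [h, natDegree_one], fun h => eq_one_of_monic_natDegree_zero hP h⟩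

theorem tgcd_dvd_weight (T : Tup F N n) : tgcd T.1 ∣ n := by
  conv_rhs => rw [← T.2.2]
  refine Finset.dvd_sum fun i _ => ?_
  by_cases h : T.1 i = 1
  · rw [h, natDegree_one, mul_zero]; exact dvd_zero _
  · exact (tgcd_dvd_succ h).mul_right _

/-- A subgroup containing `c ^ (i + 1)` on the support contains `c ^ tgcd`. -/
theorem pow_tgcd_mem (T : Fin N → F[X]) (H : Subgroup Fˣ) (c : Fˣ)
    (h : ∀ i, T i ≠ 1 → c ^ ((i : ℕ) + 1) ∈ H) : c ^ tgcd T ∈ H := by
  classical
  have hgcd : ∀ a b : ℕ, c ^ a ∈ H → c ^ b ∈ H → c ^ Nat.gcd a b ∈ H := fun a b ha hb => by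
    have h1 : c ^ (Nat.gcd a b : ℤ) ∈ H := by
      rw [Nat.gcd_eq_gcd_ab, _root_.zpow_add, _root_.zpow_mul, _root_.zpow_mul, zpow_natCast, zpow_natCast]
      exact mul_mem (zpow_mem ha _) (zpow_mem hb _)
    rwa [zpow_natCast] at h1
  refine hgcd _ _ (by rw [← Fintype.card_units, pow_card_eq_one]; exact H.one_mem) ?_
  have : ∀ s : Finset (Fin N), (∀ i ∈ s, c ^ ((i : ℕ) + 1) ∈ H) → c ^ (s.gcd fun i => (i : ℕ) + 1) ∈ H := by
    intro s
    induction s using Finset.induction_on with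
    | empty => intro _; rw [Finset.gcd_empty, pow_zero]; exact H.one_mem
    | @insert a s ha ih =>
      intro h
      rw [Finset.gcd_insert]
      exact hgcd _ _ (h a (Finset.mem_insert_self _ _)) (ih fun i hi => h i (Finset.mem_insert_of_mem hi))
  exact this _ fun i hi => h i (by simpa using hi)

theorem card_powers (T : Fin N → F[X]) :
    Nat.card (powMonoidHom (tgcd T) : Fˣ →* Fˣ).range * tgcd T = Fintype.card F - 1 := by
  classical
  have h := Subgroup.card_mul_index (powMonoidHom (tgcd T) : Fˣ →* Fˣ).range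
  rw [IsCyclic.index_powMonoidHom_range, Nat.card_eq_fintype_card (α := Fˣ), Fintype.card_units,
    Nat.gcd_eq_right (tgcd_dvd T)] at h
  exact h

/-- The fibres of `tdet`, weighted by `tgcd`. -/
theorem fibre_sum_le (c : F) (hc : c ≠ 0) [DecidableEq F] :
    (Fintype.card F - 1) * ∑ T ∈ (Finset.univ : Finset (Tup F n n)).filter (fun T => tdet T.1 = c), tgcd T.1 ≤
      ∑ T : Tup F n n, tgcd T.1 ^ 2 := by
  classical
  -- a choice of multipliers for each support
  have hu : ∀ (T : Tup F n n) (h : Fˣ), h ∈ (powMonoidHom (tgcd T.1) : Fˣ →* Fˣ).range →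
      ∃ u : Fin n → Fˣ, ∏ i ∈ Finset.univ.filter (fun i => T.1 i ≠ 1), u i ^ ((i : ℕ) + 1) = h := by
    rintro T _ ⟨d, rfl⟩
    let φ : (Fin n → Fˣ) →* Fˣ :=
      { toFun := fun u => ∏ i ∈ Finset.univ.filter (fun i => T.1 i ≠ 1), u i ^ ((i : ℕ) + 1)
        map_one' := by simp
        map_mul' := fun a b => by simp [mul_pow, Finset.prod_mul_distrib] }
    refine (pow_tgcd_mem T.1 φ.range d fun i hi => ⟨Pi.mulSingle i d, ?_⟩ : d ^ tgcd T.1 ∈ φ.range)
    show ∏ k ∈ Finset.univ.filter (fun i => T.1 i ≠ 1), Pi.mulSingle (M := fun _ => Fˣ) i d k ^ ((k : ℕ) + 1) = _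
    rw [Finset.prod_eq_single i]
    · rw [Pi.mulSingle_eq_same]
    · intro b _ hb; rw [Pi.mulSingle_eq_of_ne hb, one_pow]
    · intro h; exact absurd (Finset.mem_filter.2 ⟨Finset.mem_univ i, hi⟩) h
  let mult : Finset (Fin n) → Fˣ → Fin n → Fˣ := fun s h =>
    if hh : ∃ u : Fin n → Fˣ, ∏ i ∈ s, u i ^ ((i : ℕ) + 1) = h then hh.choose else 1
  let shift : Tup F n n → Fˣ → Tup F n n := fun T h => ⟨fun i => if T.1 i = 1 then 1 else
      T.1 i + C (((mult (Finset.univ.filter fun i => T.1 i ≠ 1) h i : F) - 1) * (T.1 i).coeff 0), fun i => by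
        by_cases hT : T.1 i = 1
        · simp [hT]
        · have hd : 0 < (T.1 i).natDegree := Nat.pos_of_ne_zero fun h => hT ((eq_one_iff_natDegree (T.2.1 i).1).2 h)
          dsimp only
          rw [if_neg hT]
          refine ⟨(T.2.1 i).1.add_of_left ((degree_C_le).trans_lt (natDegree_pos_iff_degree_pos.1 hd)), ?_⟩
          rw [coeff_add, coeff_C_zero, sub_mul, one_mul, add_sub_cancel]
          exact mul_ne_zero (Units.ne_zero _) (T.2.1 i).2, by
      conv_rhs => rw [← T.2.2]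
      refine Finset.sum_congr rfl fun i _ => ?_
      by_cases hT : T.1 i = 1
      · simp [hT]
      · dsimp only
        rw [if_neg hT, natDegree_add_C]⟩
  have hne : ∀ T h i, (shift T h).1 i ≠ 1 ↔ T.1 i ≠ 1 := fun T h i => by
    show (if T.1 i = 1 then 1 else _) ≠ (1 : F[X]) ↔ _
    by_cases hT : T.1 i = 1
    · simp [hT]
    · rw [if_neg hT]
      refine iff_of_true (fun e => hT ((eq_one_iff_natDegree (T.2.1 i).1).2 ?_)) hT
      have := congrArg natDegree e
      rwa [natDegree_add_C, natDegree_one] at this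
  have hgcd : ∀ T h, tgcd (shift T h).1 = tgcd T.1 := fun T h =>
    Nat.dvd_antisymm (dvd_tgcd (tgcd_dvd _) fun i hi => tgcd_dvd_succ ((hne T h i).2 hi))
      (dvd_tgcd (tgcd_dvd _) fun i hi => tgcd_dvd_succ ((hne T h i).1 hi))
  have hfs : ∀ T h, (Finset.univ.filter fun i => (shift T h).1 i ≠ 1) = Finset.univ.filter fun i => T.1 i ≠ 1 :=
    fun T h => Finset.filter_congr fun i _ => hne T h i
  have hdet : ∀ T h, h ∈ (powMonoidHom (tgcd T.1) : Fˣ →* Fˣ).range → tdet (shift T h).1 = tdet T.1 * (h : F) := by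
    intro T h hh
    set u := mult (Finset.univ.filter fun i => T.1 i ≠ 1) h with hudef
    have hux : ∏ i ∈ Finset.univ.filter (fun i => T.1 i ≠ 1), u i ^ ((i : ℕ) + 1) = h := by
      simp only [hudef, mult, dif_pos (hu T h hh)]
      exact (hu T h hh).choose_spec
    have hux' : ∏ i ∈ Finset.univ.filter (fun i => T.1 i ≠ 1), ((u i : F)) ^ ((i : ℕ) + 1) = (h : F) := by
      rw [← hux, Units.coe_prod]
      simp only [Units.val_pow_eq_pow_val]
    rw [← hux', tdet, tdet, Finset.prod_filter, ← Finset.prod_mul_distrib]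
    refine Finset.prod_congr rfl fun i _ => ?_
    show ((-1) ^ (if T.1 i = 1 then 1 else _ : F[X]).natDegree * (if T.1 i = 1 then 1 else _ : F[X]).coeff 0) ^ _ = _
    by_cases hT : T.1 i = 1
    · simp [hT]
    · rw [if_neg hT, if_pos hT, natDegree_add_C, coeff_add, coeff_C_zero, ← mul_pow]
      congr 1
      ring
  let A := (Finset.univ : Finset (Tup F n n)).filter (fun T => tdet T.1 = c)
  let HF : Tup F n n → Finset Fˣ := fun T => Finset.univ.filter fun h => h ∈ (powMonoidHom (tgcd T.1) : Fˣ →* Fˣ).range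
  have hcardH : ∀ T, (HF T).card * tgcd T.1 = Fintype.card F - 1 := fun T => by
    rw [← card_powers T.1, Nat.card_eq_fintype_card, ← Fintype.card_subtype]
  calc (Fintype.card F - 1) * ∑ T ∈ A, tgcd T.1
      = ∑ x ∈ A.sigma HF, tgcd x.1.1 ^ 2 := by
        rw [Finset.sum_sigma, Finset.mul_sum]
        refine Finset.sum_congr rfl fun T _ => ?_
        dsimp only
        rw [Finset.sum_const, smul_eq_mul, sq, ← mul_assoc, hcardH]
    _ = ∑ x ∈ A.sigma HF, tgcd (shift x.1 x.2).1 ^ 2 := Finset.sum_congr rfl fun x _ => by rw [hgcd]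
    _ = ∑ T ∈ (A.sigma HF).image (fun x => shift x.1 x.2), tgcd T.1 ^ 2 := by
        refine (Finset.sum_image (f := fun T : Tup F n n => tgcd T.1 ^ 2) ?_).symm
        rintro ⟨T, h⟩ hx ⟨T', h'⟩ hx' e
        simp only [Finset.coe_sigma, Set.mem_sigma_iff, A, HF, Finset.coe_filter, Set.mem_setOf_eq, Finset.mem_univ,
          true_and] at hx hx'
        have e' : shift T h = shift T' h' := e
        have h1 := congrArg (fun U : Tup F n n => tdet U.1) e'
        simp only [hdet T h hx.2, hdet T' h' hx'.2, hx.1, hx'.1] at h1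
        obtain rfl : h = h' := Units.ext (mul_left_cancel₀ hc h1)
        have hs : (Finset.univ.filter fun i => T.1 i ≠ 1) = Finset.univ.filter fun i => T'.1 i ≠ 1 := by
          rw [← hfs T h, ← hfs T' h, e']
        have hTT : T = T' := by
          refine Subtype.ext (funext fun i => ?_)
          have hi : T.1 i ≠ 1 ↔ T'.1 i ≠ 1 := by rw [← hne T h i, ← hne T' h i, e']
          by_cases hT : T.1 i = 1
          · rw [hT, not_not.1 (fun hh => hi.2 hh hT)]
          · have h2 : (T.1 i + C (((mult (Finset.univ.filter fun i => T.1 i ≠ 1) h i : F) - 1) * (T.1 i).coeff 0)) =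
                T'.1 i + C (((mult (Finset.univ.filter fun i => T'.1 i ≠ 1) h i : F) - 1) * (T'.1 i).coeff 0) := by
              have := congrFun (congrArg Subtype.val e') i
              simpa only [shift, if_neg hT, if_neg (hi.1 hT)] using this
            rw [← hs] at h2
            have h0 := congrArg (fun P : F[X] => P.coeff 0) h2
            simp only [coeff_add, coeff_C_zero, sub_mul, one_mul, add_sub_cancel] at h0
            rw [mul_left_cancel₀ (Units.ne_zero _) h0] at h2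
            exact add_right_cancel h2
        subst hTT
        rfl
    _ ≤ ∑ T : Tup F n n, tgcd T.1 ^ 2 := Finset.sum_le_sum_of_subset (Finset.subset_univ _)

/-- Divisors that may occur as `tgcd`. -/
noncomputable def divs (F : Type u) [Fintype F] (n : ℕ) : Finset ℕ :=
  (Nat.gcd n (Fintype.card F - 1)).divisors.filter (2 ≤ ·)

theorem mem_divs {o : ℕ} : o ∈ divs F n ↔ o ∣ n ∧ o ∣ Fintype.card F - 1 ∧ 2 ≤ o := by
  have hq := Fintype.one_lt_card (α := F)
  rw [divs, Finset.mem_filter, Nat.mem_divisors, Nat.dvd_gcd_iff]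
  exact ⟨fun h => ⟨h.1.1.1, h.1.1.2, h.2⟩, fun h => ⟨⟨⟨h.1, h.2.1⟩, fun e => by
    have := Nat.eq_zero_of_gcd_eq_zero_right e; omega⟩, h.2.2⟩⟩

/-- Tuples supported on multiples of `o`. -/
theorem card_supported_le {o m : ℕ} (ho : 1 ≤ o) (hn : n = o * m) [DecidableEq F] :
    ((Finset.univ : Finset (Tup F n n)).filter (fun T => o ∣ tgcd T.1)).card ≤ Nat.card (Tup F m m) := by
  classical
  subst hn
  let idx : Fin m → Fin (o * m) := fun j => ⟨o * ((j : ℕ) + 1) - 1, by
    have h1 : o * ((j : ℕ) + 1) ≤ o * m := Nat.mul_le_mul_left o j.2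
    have h2 : 0 < o * ((j : ℕ) + 1) := by positivity
    omega⟩
  have hidx : ∀ j, ((idx j : ℕ) + 1) = o * ((j : ℕ) + 1) := fun j => by
    have h2 : 0 < o * ((j : ℕ) + 1) := by positivity
    simp only [idx]; omega
  have hidxi : Function.Injective idx := fun a b h => by
    have := hidx a
    rw [h, hidx b] at this
    exact Fin.ext (by have := Nat.eq_of_mul_eq_mul_left (by omega) this; omega)
  have hsupp : ∀ T : Tup F (o * m) (o * m), o ∣ tgcd T.1 → ∀ i, T.1 i ≠ 1 → ∃ j, idx j = i := by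
    intro T hT i hi
    obtain ⟨t, ht⟩ := hT.trans (tgcd_dvd_succ hi)
    have h1 : o * t ≤ o * m := by rw [← ht]; exact i.2
    have ht0 : 0 < t := Nat.pos_of_ne_zero fun h => by rw [h, mul_zero] at ht; omega
    have htm : t ≤ m := Nat.le_of_mul_le_mul_left h1 ho
    refine ⟨⟨t - 1, by omega⟩, Fin.ext ?_⟩
    show o * (t - 1 + 1) - 1 = (i : ℕ)
    rw [Nat.sub_add_cancel ht0]
    omega
  have hw : ∀ T : Tup F (o * m) (o * m), o ∣ tgcd T.1 →
      ∑ j : Fin m, ((j : ℕ) + 1) * (T.1 (idx j)).natDegree = m := by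
    intro T hT
    refine Nat.eq_of_mul_eq_mul_left (show 0 < o by omega) ?_
    conv_rhs => rw [← T.2.2]
    rw [Finset.mul_sum]
    calc ∑ j : Fin m, o * (((j : ℕ) + 1) * (T.1 (idx j)).natDegree)
        = ∑ i ∈ Finset.univ.image idx, ((i : ℕ) + 1) * (T.1 i).natDegree := by
          rw [Finset.sum_image hidxi.injOn]
          exact Finset.sum_congr rfl fun j _ => by rw [hidx, mul_assoc]
      _ = _ := Finset.sum_subset (Finset.subset_univ _) fun i _ hi => by
          by_cases h : T.1 i = 1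
          · rw [h, natDegree_one, mul_zero]
          · obtain ⟨j, hj⟩ := hsupp T hT i h
            exact absurd (Finset.mem_image.2 ⟨j, Finset.mem_univ _, hj⟩) hi
  rw [← Fintype.card_coe, ← Nat.card_eq_fintype_card]
  haveI := finite_tup (F := F) m
  refine Nat.card_le_card_of_injective
    (fun T => (⟨fun j => T.1.1 (idx j), fun j => T.1.2.1 _, hw T.1 (Finset.mem_filter.1 T.2).2⟩ : Tup F m m)) ?_
  rintro ⟨T, hT⟩ ⟨T', hT'⟩ e
  refine Subtype.ext (Subtype.ext (funext fun i => ?_))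
  have h := fun j => congrFun (congrArg Subtype.val e) j
  by_cases h1 : T.1 i = 1
  · by_cases h2 : T'.1 i = 1
    · rw [h1, h2]
    · obtain ⟨j, rfl⟩ := hsupp T' (Finset.mem_filter.1 hT').2 i h2
      exact h j
  · obtain ⟨j, rfl⟩ := hsupp T (Finset.mem_filter.1 hT).2 i h1
    exact h j

/-- The weighted sum. -/
noncomputable def sqSum (F : Type u) [Field F] [Fintype F] (n : ℕ) : ℕ := ∑ T : Tup F n n, tgcd T.1 ^ 2

theorem sqSum_le (n : ℕ) :
    sqSum F n ≤ Nat.card (Tup F n n) + ∑ o ∈ divs F n, (o ^ 2 - 1) * Nat.card (Tup F (n / o) (n / o)) := by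
  classical
  have h1 : ∀ T : Tup F n n, tgcd T.1 ^ 2 ≤ 1 + ∑ o ∈ divs F n, (o ^ 2 - 1) * if o ∣ tgcd T.1 then 1 else 0 := by
    intro T
    by_cases h : 2 ≤ tgcd T.1
    · have hm : tgcd T.1 ∈ divs F n := mem_divs.2 ⟨tgcd_dvd_weight T, tgcd_dvd _, h⟩
      have := Finset.single_le_sum (f := fun o => (o ^ 2 - 1) * if o ∣ tgcd T.1 then 1 else 0)
        (fun o _ => Nat.zero_le _) hm
      simp only [dvd_refl, if_true, mul_one] at this
      omega
    · have : tgcd T.1 = 1 := by have := tgcd_pos T.1; omega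
      rw [this]; simp
  calc sqSum F n ≤ ∑ T : Tup F n n, (1 + ∑ o ∈ divs F n, (o ^ 2 - 1) * if o ∣ tgcd T.1 then 1 else 0) :=
        Finset.sum_le_sum fun T _ => h1 T
    _ = Nat.card (Tup F n n) + ∑ o ∈ divs F n, (o ^ 2 - 1) *
        ((Finset.univ : Finset (Tup F n n)).filter (fun T => o ∣ tgcd T.1)).card := by
      rw [Finset.sum_add_distrib, Finset.sum_const, smul_eq_mul, mul_one, Finset.card_univ, Nat.card_eq_fintype_card,
        Finset.sum_comm]
      congr 1
      refine Finset.sum_congr rfl fun o _ => ?_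
      rw [← Finset.mul_sum, Finset.card_filter]
    _ ≤ _ := by
      refine Nat.add_le_add_left (Finset.sum_le_sum fun o ho => Nat.mul_le_mul_left _ ?_) _
      obtain ⟨h, -, h2⟩ := mem_divs.1 ho
      exact card_supported_le (by omega) (Nat.mul_div_cancel' h).symm

/-- Tuples invariant under a twist come from shorter tuples. -/
theorem twist_sum_le (ζ : Fˣ) [DecidableEq F] (hn : 1 ≤ n) :
    (Fintype.card F - 1) * ∑ T ∈ (Finset.univ : Finset (Tup F n n)).filter
        (fun T => tdet T.1 = 1 ∧ ∀ i, twist (ζ : F) (T.1 i) = T.1 i), tgcd T.1 ≤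
      sqSum F (n / orderOf ζ) := by
  classical
  set o := orderOf ζ with ho
  have ho0 : 0 < o := orderOf_pos ζ
  -- invariant polynomials are polynomials in `X ^ o`
  have hexp : ∀ P : F[X], P.Monic → P.coeff 0 ≠ 0 → twist (ζ : F) P = P →
      o ∣ P.natDegree ∧ expand F o (contract o P) = P := by
    intro P hP h0 hinv
    have hk : ∀ k, P.coeff k ≠ 0 → k ≤ P.natDegree ∧ o ∣ P.natDegree - k := by
      intro k hk
      have hle := le_natDegree_of_ne_zero hk
      have h1 := congrArg (fun Q : F[X] => Q.coeff k) hinv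
      simp only [twist, coeff_C_mul, comp_C_mul_X_coeff] at h1
      refine ⟨hle, orderOf_dvd_of_pow_eq_one (Units.ext ?_)⟩
      rw [Units.val_pow_eq_pow_val, Units.val_one]
      have h2 : ((ζ : F) ^ P.natDegree * ((ζ : F)⁻¹) ^ k) * P.coeff k = 1 * P.coeff k := by
        rw [one_mul]; conv_rhs => rw [← h1]
        ring
      have h3 := mul_right_cancel₀ hk h2
      rwa [inv_pow, ← pow_sub₀ _ ζ.ne_zero hle] at h3
    have hd : o ∣ P.natDegree := by simpa using (hk 0 h0).2
    refine ⟨hd, ?_⟩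
    ext k
    rw [coeff_expand ho0, coeff_contract ho0.ne']
    by_cases hok : o ∣ k
    · rw [if_pos hok, Nat.div_mul_cancel hok]
    · rw [if_neg hok]
      by_contra hne
      obtain ⟨h1, h2⟩ := hk k (Ne.symm hne)
      exact hok (by simpa [Nat.sub_sub_self h1] using Nat.dvd_sub hd h2)
  set m := n / o with hm
  set s := (Finset.univ : Finset (Tup F n n)).filter (fun T => tdet T.1 = 1 ∧ ∀ i, twist (ζ : F) (T.1 i) = T.1 i) with hs
  rcases s.eq_empty_or_nonempty with hs0 | ⟨T0, hT0⟩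
  · rw [hs0, Finset.sum_empty, mul_zero]; exact Nat.zero_le _
  have hmem : ∀ T ∈ s, ∀ i, o ∣ (T.1 i).natDegree ∧ expand F o (contract o (T.1 i)) = T.1 i := fun T hT i =>
    hexp _ (T.2.1 i).1 (T.2.1 i).2 ((Finset.mem_filter.1 hT).2.2 i)
  have hon : o ∣ n := by
    rw [← T0.2.2]
    exact Finset.dvd_sum fun i _ => (hmem T0 hT0 i).1.mul_left _
  have hnom : n = o * m := (Nat.mul_div_cancel' hon).symm
  have hmn : m ≤ n := Nat.div_le_self n o
  have hdeg : ∀ T ∈ s, ∀ i, (T.1 i).natDegree = o * (contract o (T.1 i)).natDegree := fun T hT i => by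
    conv_lhs => rw [← (hmem T hT i).2]
    rw [natDegree_expand, mul_comm]
  have hwt : ∀ T ∈ s, ∑ i : Fin n, ((i : ℕ) + 1) * (contract o (T.1 i)).natDegree = m := fun T hT => by
    refine Nat.eq_of_mul_eq_mul_left ho0 ?_
    rw [← hnom]
    conv_rhs => rw [← T.2.2]
    rw [Finset.mul_sum]
    exact Finset.sum_congr rfl fun i _ => by rw [hdeg T hT]; ring
  have hcmon : ∀ T ∈ s, ∀ i, (contract o (T.1 i)).Monic ∧ (contract o (T.1 i)).coeff 0 ≠ 0 := fun T hT i => by
    refine ⟨(monic_expand_iff ho0).1 ?_, ?_⟩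
    · rw [(hmem T hT i).2]; exact (T.2.1 i).1
    · rw [coeff_contract ho0.ne', zero_mul]; exact (T.2.1 i).2
  have htop : ∀ T ∈ s, ∀ i : Fin n, m ≤ (i : ℕ) → T.1 i = 1 := fun T hT i hi => by
    refine (eq_one_iff_natDegree (T.2.1 i).1).2 ?_
    by_contra h
    have h1 := Finset.single_le_sum (f := fun i : Fin n => ((i : ℕ) + 1) * (contract o (T.1 i)).natDegree)
      (fun _ _ => Nat.zero_le _) (Finset.mem_univ i)
    rw [hwt T hT] at h1
    have h2 : 0 < (contract o (T.1 i)).natDegree := Nat.pos_of_ne_zero fun e => h (by rw [hdeg T hT, e, mul_zero])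
    have := Nat.le_mul_of_pos_right ((i : ℕ) + 1) h2
    omega
  have hemb : ∀ T ∈ s, ∑ j : Fin m, ((j : ℕ) + 1) * (contract o (T.1 (j.castLE hmn))).natDegree = m := fun T hT => by
    conv_rhs => rw [← hwt T hT]
    calc _ = ∑ i ∈ Finset.univ.image (Fin.castLE hmn), ((i : ℕ) + 1) * (contract o (T.1 i)).natDegree := by
          rw [Finset.sum_image (Fin.castLE_injective hmn).injOn]
          rfl
      _ = _ := Finset.sum_subset (Finset.subset_univ _) fun i _ hi => by
          have him : m ≤ (i : ℕ) := by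
            by_contra hlt
            exact hi (Finset.mem_image.2 ⟨⟨i, by omega⟩, Finset.mem_univ _, rfl⟩)
          have h := hdeg T hT i
          rw [htop T hT i him, natDegree_one] at h
          rw [htop T hT i him]
          rcases Nat.mul_eq_zero.1 h.symm with h' | h'
          · omega
          · rw [h', mul_zero]
  let Ψ : {T // T ∈ s} → Tup F m m := fun T =>
    ⟨fun j => contract o (T.1.1 (j.castLE hmn)), fun j => hcmon T.1 T.2 _, hemb T.1 T.2⟩
  have hinj : Function.Injective Ψ := fun T T' e => Subtype.ext (Subtype.ext (funext fun i => by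
    by_cases hi : (i : ℕ) < m
    · have h := congrFun (congrArg Subtype.val e) ⟨i, hi⟩
      change contract o (T.1.1 (Fin.castLE hmn ⟨i, hi⟩)) = contract o (T'.1.1 (Fin.castLE hmn ⟨i, hi⟩)) at h
      rw [← (hmem T.1 T.2 i).2, ← (hmem T'.1 T'.2 i).2]
      exact congrArg (expand F o) h
    · rw [htop T.1 T.2 i (not_lt.1 hi), htop T'.1 T'.2 i (not_lt.1 hi)]))
  have hne1 : ∀ (T : {T // T ∈ s}) (j : Fin m), (Ψ T).1 j ≠ 1 ↔ T.1.1 (j.castLE hmn) ≠ 1 := fun T j => by
    refine not_congr ⟨fun h => ?_, fun h => ?_⟩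
    · rw [← (hmem T.1 T.2 _).2, show contract o (T.1.1 (j.castLE hmn)) = 1 from h, map_one]
    · show contract o (T.1.1 (j.castLE hmn)) = 1
      refine (eq_one_iff_natDegree (hcmon T.1 T.2 _).1).2 ?_
      have := hdeg T.1 T.2 (j.castLE hmn)
      rw [h, natDegree_one] at this
      rcases Nat.mul_eq_zero.1 this.symm with h' | h'
      · omega
      · rwa [h]
  have hgcd : ∀ T : {T // T ∈ s}, tgcd (Ψ T).1 = tgcd T.1.1 := fun T =>
    Nat.dvd_antisymm
      (dvd_tgcd (tgcd_dvd _) fun i hi => by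
        have him : (i : ℕ) < m := not_le.1 fun h => hi (htop T.1 T.2 i h)
        have := tgcd_dvd_succ ((hne1 T ⟨i, him⟩).2 hi)
        simpa using this)
      (dvd_tgcd (tgcd_dvd _) fun j hj => by simpa using tgcd_dvd_succ ((hne1 T j).1 hj))
  -- the determinant of the short tuple
  set c : F := (((-1 : F) ^ (o - 1)) ^ m)⁻¹ with hc
  have hc0 : c ≠ 0 := inv_ne_zero (pow_ne_zero _ (pow_ne_zero _ (neg_ne_zero.2 one_ne_zero)))
  have hdet : ∀ T : {T // T ∈ s}, tdet (Ψ T).1 = c := fun T => by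
    have h1 : tdet T.1.1 = tdet (Ψ T).1 * ((-1 : F) ^ (o - 1)) ^ m := by
      have hstep : ∀ i : Fin n, ((-1 : F) ^ (T.1.1 i).natDegree * (T.1.1 i).coeff 0) ^ ((i : ℕ) + 1) =
          ((-1 : F) ^ (contract o (T.1.1 i)).natDegree * (contract o (T.1.1 i)).coeff 0) ^ ((i : ℕ) + 1) *
            ((-1 : F) ^ (o - 1)) ^ (((i : ℕ) + 1) * (contract o (T.1.1 i)).natDegree) := fun i => by
        rw [hdeg T.1 T.2, coeff_contract ho0.ne', zero_mul, mul_comm ((i : ℕ) + 1), pow_mul _ _ ((i : ℕ) + 1),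
          ← mul_pow]
        congr 1
        have key : ∀ d : ℕ, (-1 : F) ^ (o * d) = (-1) ^ d * ((-1) ^ (o - 1)) ^ d := fun d => by
          rw [← pow_mul, ← pow_add]
          congr 1
          obtain ⟨o', ho'⟩ : ∃ o', o = o' + 1 := ⟨o - 1, by omega⟩
          rw [ho', Nat.add_sub_cancel]; ring
        rw [key]; ring
      rw [tdet, Finset.prod_congr rfl fun i _ => hstep i, Finset.prod_mul_distrib, Finset.prod_pow_eq_pow_sum,
        hwt T.1 T.2]
      congr 1
      rw [tdet, ← Finset.prod_subset (Finset.subset_univ (Finset.univ.image (Fin.castLE hmn))),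
        Finset.prod_image (Fin.castLE_injective hmn).injOn]
      · rfl
      · intro i _ hi
        have him : m ≤ (i : ℕ) := by
          by_contra hlt
          exact hi (Finset.mem_image.2 ⟨⟨i, by omega⟩, Finset.mem_univ _, rfl⟩)
        have e1 : contract o (T.1.1 i) = 1 := by
          have h := hdeg T.1 T.2 i
          rw [htop T.1 T.2 i him, natDegree_one] at h
          refine (eq_one_iff_natDegree (hcmon T.1 T.2 i).1).2 ?_
          rcases Nat.mul_eq_zero.1 h.symm with h' | h'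
          · omega
          · rwa [htop T.1 T.2 i him]
        rw [e1]; simp
    rw [(Finset.mem_filter.1 T.2).2.1] at h1
    exact eq_inv_of_mul_eq_one_left h1.symm
  refine le_trans (Nat.mul_le_mul_left _ ?_) (fibre_sum_le c hc0)
  calc ∑ T ∈ s, tgcd T.1 = ∑ T : {T // T ∈ s}, tgcd (Ψ T).1 := by
        rw [← Finset.sum_coe_sort s (fun T => tgcd T.1)]
        exact Finset.sum_congr rfl fun T _ => (hgcd T).symm
    _ = ∑ U ∈ Finset.univ.image Ψ, tgcd U.1 :=
        (Finset.sum_image (f := fun U : Tup F m m => tgcd U.1) hinj.injOn).symm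
    _ ≤ _ := Finset.sum_le_sum_of_subset fun U hU => by
        obtain ⟨T, -, rfl⟩ := Finset.mem_image.1 hU
        exact Finset.mem_filter.2 ⟨Finset.mem_univ _, hdet T⟩

/-- The count of tuples of weight three. -/
theorem card_tup_three : Nat.card (Tup F 3 3) ≤ Fintype.card F ^ 3 - Fintype.card F := by
  classical
  set q := Fintype.card F
  have hq : 2 ≤ q := Fintype.one_lt_card
  have hcase : ∀ T : Tup F 3 3, ((T.1 0).natDegree = 3 ∧ T.1 1 = 1 ∧ T.1 2 = 1) ∨
      ((T.1 0).natDegree = 1 ∧ (T.1 1).natDegree = 1 ∧ T.1 2 = 1) ∨ (T.1 0 = 1 ∧ T.1 1 = 1 ∧ (T.1 2).natDegree = 1) := by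
    intro T
    have := T.2.2
    rw [Fin.sum_univ_three] at this
    simp only [Fin.val_zero, Fin.val_one, Fin.val_two] at this
    rw [eq_one_iff_natDegree (T.2.1 0).1, eq_one_iff_natDegree (T.2.1 1).1, eq_one_iff_natDegree (T.2.1 2).1]
    omega
  haveI := (card_P0 (F := F) (show 1 ≤ 3 by omega)).1
  haveI := (card_P0 (F := F) (show 1 ≤ 1 by omega)).1
  let Φ : Tup F 3 3 → P0 F 3 ⊕ (P0 F 1 × P0 F 1) ⊕ P0 F 1 := fun T =>
    if h : (T.1 0).natDegree = 3 then Sum.inl ⟨T.1 0, (T.2.1 0).1, h, (T.2.1 0).2⟩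
    else if h' : (T.1 2).natDegree = 1 then Sum.inr (Sum.inr ⟨T.1 2, (T.2.1 2).1, h', (T.2.1 2).2⟩)
    else Sum.inr (Sum.inl (⟨T.1 0, (T.2.1 0).1, by
        rcases hcase T with ⟨a, -, -⟩ | ⟨a, -, -⟩ | ⟨-, -, a⟩
        · exact absurd a h
        · exact a
        · exact absurd a h', (T.2.1 0).2⟩,
      ⟨T.1 1, (T.2.1 1).1, by
        rcases hcase T with ⟨a, -, -⟩ | ⟨-, a, -⟩ | ⟨-, -, a⟩
        · exact absurd a h
        · exact a
        · exact absurd a h', (T.2.1 1).2⟩))
  have hinj : Function.Injective Φ := by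
    intro T U h
    have key : T.1 0 = U.1 0 ∧ T.1 1 = U.1 1 ∧ T.1 2 = U.1 2 := by
      rcases hcase T with ⟨a, b, c⟩ | ⟨a, b, c⟩ | ⟨a, b, c⟩ <;> rcases hcase U with ⟨a', b', c'⟩ | ⟨a', b', c'⟩ | ⟨a', b', c'⟩ <;>
        simp [Φ, a, b, c, a', b', c', Subtype.ext_iff] at h ⊢ <;> simp_all
    refine Subtype.ext (funext fun i => ?_)
    fin_cases i
    · exact key.1
    · exact key.2.1
    · exact key.2.2
  refine (Nat.card_le_card_of_injective Φ hinj).trans (le_of_eq ?_)
  rw [Nat.card_sum, Nat.card_sum, Nat.card_prod, (card_P0 (show 1 ≤ 3 by omega)).2, (card_P0 (show 1 ≤ 1 by omega)).2]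
  have h1 : q ≤ q ^ 3 := Nat.le_self_pow (by omega) q
  simp only [show Fintype.card F = q from rfl]
  zify [h1, show 1 ≤ q by omega]
  ring

theorem card_tup_le (n : ℕ) : Nat.card (Tup F n n) ≤ Fintype.card F ^ n := by
  rcases Nat.eq_zero_or_pos n with rfl | hn
  · haveI : Subsingleton (Tup F 0 0) := ⟨fun a b => Subtype.ext (funext fun i => i.elim0)⟩
    haveI := finite_tup (F := F) 0
    rw [pow_zero]
    exact Finite.card_le_one_iff_subsingleton.2 inferInstance
  · exact (tup_bound (F := F) n hn n).2.1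

theorem card_tup_lt (hn : 1 ≤ n) : Nat.card (Tup F n n) ≤ Fintype.card F ^ n - 1 := by
  have h := (tup_bound (F := F) n hn n).2.2 le_rfl
  rw [mul_comm] at h
  exact Nat.le_of_mul_le_mul_left h (pow_pos Fintype.card_pos n)

end Cfsg.Agent.Lib.GLn.TupleSum
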