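import Cfsg.Agent.Lib.GLn.WindowGen

/-!
# Two regular unipotent elements generating `SL_n`

`u` is the upper Jordan block and `v = x u`, where `x² = tv (-a) φ` with `a = e_{n-2} + 2 e_{n-1}`
and `φ = R - 2 e_{n-1}` for a parameter vector `R` with `R_{n-2} = 4`, `R_{n-1} = 0`.
-/

set_option autoImplicit false

namespace Cfsg.Agent.Lib.GLn.TwoUnip

open Matrix Cfsg.Agent.Lib.GLn Cfsg.Agent.Lib.GLn.Window

variable {F : Type*} [Field F] {k : ℕ}

/-- The index `n - 2`. -/
abbrev i2 (k : ℕ) : Fin (k + 3) := ⟨k + 1, by omega⟩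

/-- The index `n - 1`. -/
abbrev il (k : ℕ) : Fin (k + 3) := ⟨k + 2, by omega⟩

/-- Parameter vectors. -/
structure Par (F : Type*) [Field F] (k : ℕ) where
  /-- the vector -/
  R : Fin (k + 3) → F
  h2 : R (i2 k) = 4
  hl : R (il k) = 0

variable (p : Par F k)

/-- The element whose square is a transvection. -/
def xEl : Matrix.SpecialLinearGroup (Fin (k + 3)) F :=
  tv (Pi.single (il k) 1) p.R (by simp [p.hl]) *
    tv (-Pi.single (i2 k) 1) (Pi.single (il k) 1) (by simp [Fin.ext_iff])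

/-- The second generator. -/
def vEl : Matrix.SpecialLinearGroup (Fin (k + 3)) F := xEl p * upperJordan (k + 3) F

/-- The axis. -/
def phi : Fin (k + 3) → F := p.R - (2 : F) • Pi.single (il k) 1

/-- The centre. -/
def ctr (F : Type*) [Field F] (k : ℕ) : Fin (k + 3) → F :=
  Pi.single (i2 k) 1 + (2 : F) • Pi.single (il k) 1

theorem phi_dot_ctr : phi p ⬝ᵥ ctr F k = 0 := by
  simp [phi, ctr, sub_dotProduct, dotProduct_add, smul_dotProduct, p.h2, p.hl, Fin.ext_iff]
  norm_num

theorem xEl_sq : xEl p * xEl p = tv (-ctr F k) (phi p) (by rw [dotProduct_neg, phi_dot_ctr, neg_zero]) := by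
  apply Subtype.ext
  simp only [xEl, Matrix.SpecialLinearGroup.coe_mul, coe_tv]
  simp only [add_mul, mul_add, one_mul, mul_one, vecMulVec_mul_vecMulVec]
  ext i j
  simp [vecMulVec_apply, p.h2, p.hl, phi, ctr, Fin.ext_iff, Matrix.one_apply, dotProduct_neg]
  ring

theorem xEl_mulVec (z : Fin (k + 3) → F) :
    (xEl p : Matrix (Fin (k + 3)) (Fin (k + 3)) F) *ᵥ z =
      z - z (il k) • Pi.single (i2 k) 1 + (p.R ⬝ᵥ z - 4 * z (il k)) • Pi.single (il k) 1 := by
  simp only [xEl, Matrix.SpecialLinearGroup.coe_mul, coe_tv, ← mulVec_mulVec, add_mulVec, one_mulVec,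
    vecMulVec_mulVec]
  ext i
  simp [dotProduct_add, dotProduct_neg, p.h2, Fin.ext_iff]
  ring

/-- The nilpotent part of the second generator. -/
abbrev Nv : Matrix (Fin (k + 3)) (Fin (k + 3)) F :=
  (vEl p : Matrix (Fin (k + 3)) (Fin (k + 3)) F) - 1

/-- The nilpotent part of the first generator. -/
abbrev Nu (F : Type*) [Field F] (n : ℕ) : Matrix (Fin n) (Fin n) F :=
  (upperJordan n F : Matrix (Fin n) (Fin n) F) - 1

theorem Nu_single {n : ℕ} (i : Fin n) :
    Nu F n *ᵥ Pi.single i 1 = if h : 0 < (i : ℕ) then Pi.single (⟨i - 1, by omega⟩ : Fin n) 1 else 0 := by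
  funext j
  rw [sub_mulVec, one_mulVec, Pi.sub_apply, upperJordan_mulVec, add_sub_cancel_left]
  have := j.2
  have := i.2
  split_ifs with h1 h2 h2 <;>
    simp only [Pi.single_apply, Fin.ext_iff, Pi.zero_apply] <;>
    first | rfl | (split_ifs <;> first | rfl | omega)

theorem Nu_pow_single {n : ℕ} (d : ℕ) (i : Fin n) :
    (Nu F n ^ d) *ᵥ Pi.single i 1 = if h : d ≤ (i : ℕ) then Pi.single (⟨i - d, by omega⟩ : Fin n) 1 else 0 := by
  induction d generalizing i with
  | zero => rw [pow_zero, one_mulVec, dif_pos (Nat.zero_le _)]; rfl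
  | succ d ih =>
    rw [pow_succ, ← mulVec_mulVec, Nu_single]
    split_ifs with h1 h2 h2
    · rw [ih, dif_pos (by simp; omega)]
      congr 1
      exact Fin.ext (by simp; omega)
    · rw [ih, dif_neg (by simp; omega)]
    · omega
    · simp

theorem Nu_pow_eq_zero {n : ℕ} {d : ℕ} (h : n ≤ d) : Nu F n ^ d = 0 := by
  apply Matrix.ext_of_mulVec_single
  intro i
  rw [Nu_pow_single, dif_neg (by omega), zero_mulVec]

theorem Nv_single (j : Fin (k + 3)) (hj : (j : ℕ) < k + 2) :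
    ∃ c : F, Nv p *ᵥ Pi.single j 1 =
      (if h : 0 < (j : ℕ) then Pi.single (⟨j - 1, by omega⟩ : Fin (k + 3)) 1 else 0) +
        c • Pi.single (il k) 1 ∧ ((j : ℕ) = 0 → c = p.R j) := by
  set y : Fin (k + 3) → F := (upperJordan (k + 3) F : Matrix (Fin (k + 3)) (Fin (k + 3)) F) *ᵥ Pi.single j 1 with hy
  have hy' : y = Pi.single j 1 + if h : 0 < (j : ℕ) then Pi.single (⟨j - 1, by omega⟩ : Fin (k + 3)) 1 else 0 := by
    rw [← Nu_single, sub_mulVec, one_mulVec, add_sub_cancel]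
  have hl : y (il k) = 0 := by
    rw [hy']
    split_ifs with h <;> simp only [Pi.add_apply, Pi.single_apply, Pi.zero_apply, Fin.ext_iff] <;> split_ifs <;>
      first | omega | simp
  refine ⟨p.R ⬝ᵥ y, ?_, fun h0 => ?_⟩
  · rw [sub_mulVec, one_mulVec, vEl, Matrix.SpecialLinearGroup.coe_mul, ← mulVec_mulVec, xEl_mulVec, ← hy, hl,
      zero_smul, sub_zero, mul_zero, sub_zero, hy']
    abel
  · rw [hy', dif_neg (by omega), add_zero, dotProduct_single, mul_one]

theorem Nv_last : Nv p *ᵥ Pi.single (il k) 1 = 0 := by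
  set y : Fin (k + 3) → F :=
    (upperJordan (k + 3) F : Matrix (Fin (k + 3)) (Fin (k + 3)) F) *ᵥ Pi.single (il k) 1 with hy
  have hy' : y = Pi.single (il k) 1 + Pi.single (i2 k) 1 := by
    have h := Nu_single (F := F) (il k)
    rw [dif_pos (by simp), sub_mulVec, one_mulVec, sub_eq_iff_eq_add] at h
    rw [hy, h]
    exact add_comm _ _
  rw [sub_mulVec, one_mulVec, vEl, Matrix.SpecialLinearGroup.coe_mul, ← mulVec_mulVec, xEl_mulVec, ← hy, hy']
  simp [dotProduct_add, p.h2, p.hl, Fin.ext_iff]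

/-- The basis in which the second generator is a Jordan block. -/
def gMat : Matrix (Fin (k + 3)) (Fin (k + 3)) F :=
  Matrix.of fun i j => ((Nv p ^ (k + 2 - (j : ℕ))) *ᵥ Pi.single (i2 k) 1) i

theorem pow_i2 (d : ℕ) (hd : d ≤ k + 1) : ∃ c : F, (Nv p ^ d) *ᵥ Pi.single (i2 k) 1 =
    Pi.single (⟨k + 1 - d, by omega⟩ : Fin (k + 3)) 1 + c • Pi.single (il k) 1 := by
  induction d with
  | zero => exact ⟨0, by rw [pow_zero, one_mulVec, zero_smul, add_zero]; rfl⟩
  | succ d ih =>
    obtain ⟨c, hc⟩ := ih (by omega)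
    obtain ⟨c', hc', -⟩ := Nv_single p (⟨k + 1 - d, by omega⟩ : Fin (k + 3)) (by simp; omega)
    refine ⟨c', ?_⟩
    rw [pow_succ', ← mulVec_mulVec, hc, mulVec_add, mulVec_smul, Nv_last, smul_zero, add_zero, hc',
      dif_pos (by simp; omega)]
    congr 2

theorem pow_i2_top : (Nv p ^ (k + 2)) *ᵥ Pi.single (i2 k) 1 = p.R 0 • Pi.single (il k) 1 := by
  obtain ⟨c, hc⟩ := pow_i2 p (k + 1) le_rfl
  obtain ⟨c', hc', h0⟩ := Nv_single p (0 : Fin (k + 3)) (by simp)
  have e : (⟨k + 1 - (k + 1), by omega⟩ : Fin (k + 3)) = 0 := Fin.ext (by simp)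
  rw [pow_succ', ← mulVec_mulVec, hc, e, mulVec_add, mulVec_smul, Nv_last, smul_zero, add_zero, hc',
    dif_neg (by simp), zero_add, h0 (by simp)]

theorem det_gMat : (gMat p).det = (-1) ^ k * p.R 0 := by
  classical
  have hcol : ∀ i : Fin (k + 3), gMat p i 0 = if i = il k then p.R 0 else 0 := fun i => by
    rw [gMat, of_apply, Fin.val_zero, Nat.sub_zero, pow_i2_top]
    simp [Pi.single_apply]
  have hsub : (gMat p).submatrix (il k).succAbove Fin.succ = 1 := by
    ext i j
    obtain ⟨c, hc⟩ := pow_i2 p (k + 1 - (j : ℕ)) (by omega)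
    have hi : (il k).succAbove i = i.castSucc := Fin.succAbove_of_castSucc_lt _ _ (by
      simp only [Fin.lt_def, Fin.val_castSucc]
      have := i.2
      omega)
    rw [submatrix_apply, gMat, of_apply, show k + 2 - ((j.succ : Fin (k + 3)) : ℕ) = k + 1 - (j : ℕ) by simp,
      hc, hi]
    have := j.2
    have := i.2
    simp only [Pi.add_apply, Pi.smul_apply, Pi.single_apply, Fin.ext_iff, Fin.val_castSucc, Matrix.one_apply,
      smul_eq_mul]
    split_ifs <;> first | omega | simp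
  rw [det_succ_column_zero, Finset.sum_eq_single (il k)]
  · rw [hsub, det_one, hcol, if_pos rfl, mul_one]
    simp [pow_add]
  · intro i _ hi
    rw [hcol, if_neg hi]
    simp
  · simp

theorem gMat_single (j : Fin (k + 3)) :
    gMat p *ᵥ Pi.single j 1 = (Nv p ^ (k + 2 - (j : ℕ))) *ᵥ Pi.single (i2 k) 1 := by
  funext i
  rw [mulVec_single_one]
  rfl

theorem Nv_gMat : Nv p * gMat p = gMat p * Nu F (k + 3) := by
  apply Matrix.ext_of_mulVec_single
  intro j
  rw [← mulVec_mulVec, ← mulVec_mulVec, gMat_single, Nu_single, mulVec_mulVec, ← pow_succ']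
  split_ifs with h
  · rw [gMat_single]
    congr 2
    simp
    omega
  · rw [mulVec_zero, show k + 2 - (j : ℕ) + 1 = (k + 2) + 1 by omega, pow_succ', ← mulVec_mulVec, pow_i2_top,
      mulVec_smul, Nv_last, smul_zero]

theorem vEl_regular (h0 : p.R 0 ≠ 0) :
    IsNilpotent ((vEl p : Matrix (Fin (k + 3)) (Fin (k + 3)) F) - 1) ∧
      ((vEl p : Matrix (Fin (k + 3)) (Fin (k + 3)) F) - 1) ^ (k + 3 - 1) ≠ 0 := by
  have hd : IsUnit (gMat p).det := isUnit_iff_ne_zero.2 (by
    rw [det_gMat]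
    exact mul_ne_zero (pow_ne_zero _ (neg_ne_zero.2 one_ne_zero)) h0)
  have hpow : ∀ d, Nv p ^ d = gMat p * Nu F (k + 3) ^ d * (gMat p)⁻¹ := by
    intro d
    induction d with
    | zero => simp [Matrix.mul_nonsing_inv _ hd]
    | succ d ih =>
      rw [pow_succ', ih, ← mul_assoc, ← mul_assoc, Nv_gMat, mul_assoc (gMat p), ← pow_succ']
  refine ⟨⟨k + 3, by rw [hpow, Nu_pow_eq_zero le_rfl, mul_zero, zero_mul]⟩, fun h => ?_⟩
  refine (upperJordan_regular (F := F) (k + 3) (by omega)).2 ?_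
  change Nu F (k + 3) ^ _ = 0
  have h' := congrArg (fun M => (gMat p)⁻¹ * M * gMat p) h
  change (gMat p)⁻¹ * Nv p ^ _ * gMat p = _ at h'
  rw [hpow, Matrix.mul_zero, Matrix.zero_mul] at h'
  simpa [Matrix.mul_assoc, Matrix.nonsing_inv_mul _ hd, Matrix.nonsing_inv_mul_cancel_left _ _ hd] using h'

theorem exists_conj {e : F} (he : e ^ (k + 3) * ((-1) ^ k * p.R 0) = 1) :
    ∃ g : Matrix.SpecialLinearGroup (Fin (k + 3)) F, g * upperJordan (k + 3) F * g⁻¹ = vEl p := by
  obtain ⟨g, hg⟩ : ∃ g : Matrix.SpecialLinearGroup (Fin (k + 3)) F,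
      (g : Matrix (Fin (k + 3)) (Fin (k + 3)) F) = e • gMat p :=
    ⟨⟨e • gMat p, by rw [det_smul, det_gMat, Fintype.card_fin]; exact he⟩, rfl⟩
  refine ⟨g, mul_inv_eq_iff_eq_mul.2 (Subtype.ext ?_)⟩
  simp only [Matrix.SpecialLinearGroup.coe_mul, hg]
  have h := Nv_gMat p
  rw [sub_mul, mul_sub, one_mul, mul_one, sub_left_inj] at h
  rw [smul_mul_assoc, mul_smul_comm, h]

/-- The coefficients of the pairing. -/
def coef (d : ℕ) : F := phi p ⬝ᵥ ((Nu F (k + 3) ^ d) *ᵥ ctr F k)

theorem Nu_pow_ctr (d : ℕ) : (Nu F (k + 3) ^ d) *ᵥ ctr F k =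
    (if h : d ≤ k + 1 then Pi.single (⟨k + 1 - d, by omega⟩ : Fin (k + 3)) 1 else 0) +
      (2 : F) • (if h : d ≤ k + 2 then Pi.single (⟨k + 2 - d, by omega⟩ : Fin (k + 3)) 1 else 0) := by
  rw [ctr, mulVec_add, mulVec_smul, Nu_pow_single, Nu_pow_single]

theorem coef_zero : coef p 0 = 0 := by rw [coef, pow_zero, one_mulVec, phi_dot_ctr]

theorem coef_eq {d : ℕ} (h1 : 1 ≤ d) (h2 : d ≤ k + 1) :
    coef p d = p.R (⟨k + 1 - d, by omega⟩ : Fin (k + 3)) + 2 * p.R (⟨k + 2 - d, by omega⟩ : Fin (k + 3)) := by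
  rw [coef, Nu_pow_ctr, dif_pos h2, dif_pos (by omega)]
  have e1 : k + 1 - d ≠ k + 2 := by omega
  have e2 : k + 2 - d ≠ k + 2 := by omega
  simp [phi, dotProduct_add, sub_dotProduct, smul_dotProduct, Fin.ext_iff, e1, e2]

theorem coef_top : coef p (k + 2) = 2 * p.R 0 := by
  rw [coef, Nu_pow_ctr, dif_neg (by omega), dif_pos le_rfl]
  have e : (⟨k + 2 - (k + 2), by omega⟩ : Fin (k + 3)) = 0 := Fin.ext (by simp)
  rw [e]
  simp [phi, sub_dotProduct, smul_dotProduct, Fin.ext_iff]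

theorem coef_big {d : ℕ} (h : k + 3 ≤ d) : coef p d = 0 := by
  rw [coef, Nu_pow_eq_zero h, zero_mulVec, dotProduct_zero]

theorem upperJordan_eq {n : ℕ} : (upperJordan n F : Matrix (Fin n) (Fin n) F) = Nu F n + 1 := by
  rw [sub_add_cancel]

theorem pow_cen_succ (d t : ℕ) :
    (Nu F (k + 3) ^ d) *ᵥ cen (upperJordan (k + 3) F) (ctr F k) (t + 1) =
      (Nu F (k + 3) ^ (d + 1)) *ᵥ cen (upperJordan (k + 3) F) (ctr F k) t +
        (Nu F (k + 3) ^ d) *ᵥ cen (upperJordan (k + 3) F) (ctr F k) t := by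
  rw [← mulVec_cen, upperJordan_eq, add_mulVec, one_mulVec, mulVec_add, mulVec_mulVec, ← pow_succ]

theorem pairing_window {D : ℕ} (h : ∀ d ≤ D, coef p d = 0) :
    ∀ t d, (d + t ≤ D → phi p ⬝ᵥ ((Nu F (k + 3) ^ d) *ᵥ cen (upperJordan (k + 3) F) (ctr F k) t) = 0) ∧
      (d + t = D + 1 → phi p ⬝ᵥ ((Nu F (k + 3) ^ d) *ᵥ cen (upperJordan (k + 3) F) (ctr F k) t) = coef p (D + 1)) := by
  intro t
  induction t with
  | zero =>
    intro d
    rw [cen_zero]
    exact ⟨fun hd => h d (by omega), fun hd => by rw [← hd, add_zero]; rfl⟩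
  | succ t ih =>
    intro d
    rw [pow_cen_succ, dotProduct_add]
    refine ⟨fun hd => ?_, fun hd => ?_⟩
    · rw [(ih (d + 1)).1 (by omega), (ih d).1 (by omega), add_zero]
    · rw [(ih (d + 1)).2 (by omega), (ih d).1 (by omega), add_zero]

theorem coe_inv_upperJordan {n : ℕ} : (((upperJordan n F)⁻¹ : Matrix.SpecialLinearGroup (Fin n) F) :
    Matrix (Fin n) (Fin n) F) = ∑ d ∈ Finset.range n, (-Nu F n) ^ d := by
  set S := ∑ d ∈ Finset.range n, (-Nu F n) ^ d
  have h : (upperJordan n F : Matrix (Fin n) (Fin n) F) * S = 1 := by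
    rw [upperJordan_eq, show Nu F n + 1 = 1 - -Nu F n by rw [sub_neg_eq_add, add_comm], mul_neg_geom_sum,
      neg_pow, Nu_pow_eq_zero le_rfl, mul_zero, sub_zero]
  calc _ = (((upperJordan n F)⁻¹ : Matrix.SpecialLinearGroup (Fin n) F) : Matrix (Fin n) (Fin n) F) *
        ((upperJordan n F : Matrix (Fin n) (Fin n) F) * S) := by rw [h, mul_one]
    _ = S := by rw [← mul_assoc, coe_inv_mul_self, one_mul]

theorem axs_one_dot : axs (upperJordan (k + 3) F) (phi p) 1 ⬝ᵥ ctr F k =
    ∑ d ∈ Finset.range (k + 3), (-1) ^ d * coef p d := by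
  rw [axs, pow_one, ← dotProduct_mulVec, coe_inv_upperJordan, sum_mulVec, dotProduct_sum]
  refine Finset.sum_congr rfl fun d _ => ?_
  rcases Nat.even_or_odd d with hd | hd
  · rw [hd.neg_pow, hd.neg_one_pow, one_mul, coef]
  · rw [hd.neg_pow, hd.neg_one_pow, neg_mulVec, dotProduct_neg, neg_one_mul, coef]

theorem axs_two_dot : axs (upperJordan (k + 3) F) (phi p) 2 ⬝ᵥ ctr F k =
    ∑ d ∈ Finset.range (k + 3), ∑ e ∈ Finset.range (k + 3), (-1) ^ (d + e) * coef p (d + e) := by
  rw [axs, pow_two, _root_.mul_inv_rev, ← dotProduct_mulVec, Matrix.SpecialLinearGroup.coe_mul, coe_inv_upperJordan,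
    Finset.sum_mul_sum, sum_mulVec, dotProduct_sum]
  refine Finset.sum_congr rfl fun d _ => ?_
  rw [sum_mulVec, dotProduct_sum]
  refine Finset.sum_congr rfl fun e _ => ?_
  rw [← pow_add]
  rcases Nat.even_or_odd (d + e) with hd | hd
  · rw [hd.neg_pow, hd.neg_one_pow, one_mul, coef]
  · rw [hd.neg_pow, hd.neg_one_pow, neg_mulVec, dotProduct_neg, neg_one_mul, coef]

theorem cen_span (t d : ℕ) : (Nu F (k + 3) ^ d) *ᵥ cen (upperJordan (k + 3) F) (ctr F k) t ∈
    Submodule.span F (Set.range fun j : Fin (k + 3) => cen (upperJordan (k + 3) F) (ctr F k) j) := by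
  set W := Submodule.span F (Set.range fun j : Fin (k + 3) => cen (upperJordan (k + 3) F) (ctr F k) j)
  have low : ∀ d j, d + j < k + 3 → (Nu F (k + 3) ^ d) *ᵥ cen (upperJordan (k + 3) F) (ctr F k) j ∈ W := by
    intro d
    induction d with
    | zero =>
      intro j hj
      rw [pow_zero, one_mulVec]
      exact Submodule.subset_span ⟨⟨j, by omega⟩, rfl⟩
    | succ d ih =>
      intro j hj
      have h : (Nu F (k + 3) ^ (d + 1)) *ᵥ cen (upperJordan (k + 3) F) (ctr F k) j =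
          (Nu F (k + 3) ^ d) *ᵥ cen (upperJordan (k + 3) F) (ctr F k) (j + 1) -
            (Nu F (k + 3) ^ d) *ᵥ cen (upperJordan (k + 3) F) (ctr F k) j := by
        rw [pow_cen_succ, add_sub_cancel_right]
      rw [h]
      exact sub_mem (ih _ (by omega)) (ih _ (by omega))
  induction t generalizing d with
  | zero =>
    by_cases hd : d < k + 3
    · exact low d 0 (by omega)
    · rw [Nu_pow_eq_zero (by omega), zero_mulVec]
      exact zero_mem _
  | succ t ih => rw [pow_cen_succ]; exact add_mem (ih _) (ih _)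

theorem axs_span [Finite F] (h0 : p.R 0 ≠ 0) :
    Submodule.span F (Set.range (axs (upperJordan (k + 3) F) (phi p))) = ⊤ := by
  classical
  set u := upperJordan (k + 3) F
  set S := Submodule.span F (Set.range (axs u (phi p)))
  obtain ⟨o, ho⟩ : ∃ o, orderOf u = o + 1 := ⟨orderOf u - 1, by have := orderOf_pos u; omega⟩
  have hu : ∀ i, axs u (phi p) i ᵥ* (u : Matrix (Fin (k + 3)) (Fin (k + 3)) F) = axs u (phi p) (i + o) := by
    intro i
    have hoi : (u ^ o)⁻¹ = u := inv_eq_of_mul_eq_one_right (by rw [← pow_succ, ← ho, pow_orderOf_eq_one])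
    rw [axs, axs, vecMul_coe_mul, add_comm i o, pow_add, _root_.mul_inv_rev, hoi]
  have hSN : ∀ x ∈ S, x ᵥ* Nu F (k + 3) ∈ S := by
    intro x hx
    rw [vecMul_sub, vecMul_one]
    refine sub_mem ?_ hx
    induction hx using Submodule.span_induction with
    | mem y hy =>
      obtain ⟨i, rfl⟩ := hy
      exact Submodule.subset_span ⟨i + o, (hu i).symm⟩
    | zero => simp
    | add a b _ _ ha hb => rw [add_vecMul]; exact add_mem ha hb
    | smul t a _ ha => rw [smul_vecMul]; exact S.smul_mem _ ha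
  have hrS : ∀ d : ℕ, phi p ᵥ* Nu F (k + 3) ^ d ∈ S := by
    intro d
    induction d with
    | zero => exact Submodule.subset_span ⟨0, by rw [pow_zero, vecMul_one, axs_zero]⟩
    | succ d ih => rw [pow_succ, ← vecMul_vecMul]; exact hSN _ ih
  let Q : Matrix (Fin (k + 3)) (Fin (k + 3)) F := Matrix.of fun d i => (phi p ᵥ* Nu F (k + 3) ^ (d : ℕ)) i
  have hQa : ∀ d i, Q d i = if h : (d : ℕ) ≤ (i : ℕ) then phi p ⟨i - d, by omega⟩ else 0 := fun d i => by
    simp only [Q, of_apply]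
    rw [← mul_one ((phi p ᵥ* Nu F (k + 3) ^ (d : ℕ)) i), ← dotProduct_single, ← dotProduct_mulVec, Nu_pow_single]
    split_ifs <;> simp
  have hQ : Q.det ≠ 0 := by
    rw [det_of_upperTriangular]
    · refine Finset.prod_ne_zero_iff.2 fun i _ => ?_
      rw [hQa, dif_pos le_rfl]
      have e : (⟨(i : ℕ) - i, by omega⟩ : Fin (k + 3)) = 0 := Fin.ext (by simp)
      rw [e, phi]
      simpa [Fin.ext_iff] using h0
    · intro i j hij
      have : (j : ℕ) < i := hij
      rw [hQa, dif_neg (by omega)]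
  rw [eq_top_iff]
  intro x _
  rw [show x = (x ᵥ* Q⁻¹) ᵥ* Q by
    rw [vecMul_vecMul, Matrix.nonsing_inv_mul _ (isUnit_iff_ne_zero.2 hQ), vecMul_one], Matrix.vecMul_eq_sum]
  exact sum_mem fun i _ => S.smul_mem _ (hrS i)

/-- The generation criterion for `u` and `v`. -/
theorem generates [Finite F] (h0 : p.R 0 ≠ 0) {D : ℕ} (hD1 : 1 ≤ D) (hDk : D ≤ k + 1)
    (hc : ∀ d ≤ D, coef p d = 0) (hk4 : (2 : F) = 0 → 4 ≤ k + 3)
    (hμ : coef p (D + 1) ≠ 0) (hA : ∑ d ∈ Finset.range (k + 3), (-1) ^ d * coef p d ≠ 0)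
    (hν : ∀ C : AddSubgroup F, (1 : F) ∈ C →
      (∀ c ∈ C, coef p (D + 1) * (∑ d ∈ Finset.range (k + 3), (-1) ^ d * coef p d) ^ (D + 1) * c ∈ C) → C = ⊤)
    (hside : k + 3 ≤ 2 * D + 2 ∨ (D = 1 ∧ k = 2 ∧
      ∑ d ∈ Finset.range (k + 3), ∑ e ∈ Finset.range (k + 3), (-1) ^ (d + e) * coef p (d + e) ≠ 0)) :
    Subgroup.closure ({upperJordan (k + 3) F, vEl p} : Set (Matrix.SpecialLinearGroup (Fin (k + 3)) F)) = ⊤ := by
  classical
  set G := Subgroup.closure ({upperJordan (k + 3) F, vEl p} : Set (Matrix.SpecialLinearGroup (Fin (k + 3)) F))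
  set u := upperJordan (k + 3) F
  have hu : u ∈ G := Subgroup.subset_closure (by simp [u])
  have hv : vEl p ∈ G := Subgroup.subset_closure (by simp)
  have hx : xEl p ∈ G := by
    have := mul_mem hv (inv_mem hu)
    rwa [vEl, mul_inv_cancel_right] at this
  have htv : tv (ctr F k) (phi p) (phi_dot_ctr p) ∈ G := by
    have := inv_mem (mul_mem hx hx)
    rw [xEl_sq, tv_neg] at this
    convert this using 1
    exact tv_congr _ _ (neg_neg _).symm
  have hwin : ∀ t ≤ D, phi p ⬝ᵥ cen u (ctr F k) t = 0 := fun t ht => by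
    simpa [u] using (pairing_window p hc t 0).1 (by omega)
  have hμ' : phi p ⬝ᵥ cen u (ctr F k) (D + 1) = coef p (D + 1) := by
    simpa [u] using (pairing_window p hc (D + 1) 0).2 (by omega)
  set W := Submodule.span F (Set.range fun j : Fin (k + 3) => cen u (ctr F k) j)
  have hNW : ∀ d, (Nu F (k + 3) ^ d) *ᵥ ctr F k ∈ W := fun d => by
    simpa [cen_zero, u, W] using cen_span (F := F) (k := k) 0 d
  let η : Fin (k + 3) → F := Pi.single (il k) 1
  have hmain : (∀ y, η ⬝ᵥ y = 0 → y ∈ W) ∧ (W = ⊤ ∨ (4 ≤ k + 3 ∧ ∀ c : F,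
      η ᵥ* (((vEl p)⁻¹ : Matrix.SpecialLinearGroup (Fin (k + 3)) F) : Matrix (Fin (k + 3)) (Fin (k + 3)) F) ≠ c • η)) := by
    by_cases h2 : (2 : F) = 0
    · refine ⟨fun y hy => ?_, Or.inr ⟨hk4 h2, fun c hc => ?_⟩⟩
      · rw [pi_eq_sum_univ' y]
        refine sum_mem fun i _ => ?_
        by_cases hi : i = il k
        · subst hi
          simp only [η, single_dotProduct, one_mul] at hy
          rw [hy, zero_smul]
          exact zero_mem _
        · have hi' : (i : ℕ) ≤ k + 1 := by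
            have := i.2
            have : (i : ℕ) ≠ k + 2 := fun h => hi (Fin.ext h)
            omega
          have := hNW (k + 1 - i)
          rw [Nu_pow_ctr, dif_pos (by omega), h2, zero_smul, add_zero] at this
          refine W.smul_mem _ ?_
          convert this using 2
          exact Fin.ext (by simp; omega)
      · have hη : η = c • (η ᵥ* (vEl p : Matrix (Fin (k + 3)) (Fin (k + 3)) F)) := by
          rw [← smul_vecMul, ← hc, vecMul_coe_mul, inv_mul_cancel, one_vecMul']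
        obtain ⟨c', hc', h0'⟩ := Nv_single p (0 : Fin (k + 3)) (by simp)
        have e := congrFun hc' (il k)
        rw [dif_neg (by simp), zero_add, h0' (by simp)] at e
        simp [sub_mulVec, Fin.ext_iff] at e
        have e2 := congrFun hη 0
        simp [η, Fin.ext_iff, e, h0] at e2
        have e3 := congrFun hη (il k)
        simp [η, e2] at e3
    · have hε : ∀ i : ℕ, (hi : i < k + 3) → Pi.single (⟨i, hi⟩ : Fin (k + 3)) (1 : F) ∈ W := by
        intro i
        induction i with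
        | zero =>
          intro hi
          have := W.smul_mem (2 : F)⁻¹ (hNW (k + 2))
          rw [Nu_pow_ctr, dif_neg (by omega), dif_pos le_rfl, zero_add, smul_smul, inv_mul_cancel₀ h2,
            one_smul] at this
          convert this using 2
          exact Fin.ext (by simp)
        | succ i ih =>
          intro hi
          have := W.smul_mem (2 : F)⁻¹ (sub_mem (hNW (k + 1 - i)) (ih (by omega)))
          rw [Nu_pow_ctr, dif_pos (by omega), dif_pos (by omega)] at this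
          have e : (⟨k + 1 - (k + 1 - i), by omega⟩ : Fin (k + 3)) = ⟨i, by omega⟩ := Fin.ext (by simp; omega)
          rw [e, add_sub_cancel_left, smul_smul, inv_mul_cancel₀ h2, one_smul] at this
          convert this using 2
          exact Fin.ext (by simp; omega)
      have hW : W = ⊤ := by
        rw [eq_top_iff]
        intro y _
        rw [pi_eq_sum_univ' y]
        exact sum_mem fun i _ => W.smul_mem _ (hε i i.2)
      exact ⟨fun y _ => hW ▸ Submodule.mem_top, Or.inl hW⟩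
  refine Window.eq_top hu hv (phi_dot_ctr p) htv (D := D) (by omega) hD1 hwin ?_ ?_ ?_ ?_ (axs_span p h0) η hmain.1 ?_
    hmain.2
  · rw [axs_one_dot]; exact hA
  · rw [hμ']; exact hμ
  · rw [hμ', axs_one_dot]; exact hν
  · rcases hside with h | ⟨h1, h2, h3⟩
    · exact Or.inl h
    · exact Or.inr ⟨h1, by omega, by rwa [axs_two_dot]⟩
  · intro j
    rw [mulVec_cen]
    simpa [u] using cen_span (F := F) (k := k) ((j : ℕ) + 1) 0

end Cfsg.Agent.Lib.GLn.TwoUnip
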