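import Cfsg.Agent.Lib.GLn.TwoUnipParam

/-!
# Two regular unipotent generators of `SL_4` over the fields with 3, 4 and 5 elements
-/

set_option autoImplicit false

namespace Cfsg.Agent.Lib.GLn.TwoUnip

open Matrix Cfsg.Agent.Lib.GLn Cfsg.Agent.Lib.GLn.Window

variable {F : Type*} [Field F]

/-- The group generated by the two elements. -/
abbrev gp {k : ℕ} (p : Par F k) : Subgroup (Matrix.SpecialLinearGroup (Fin (k + 3)) F) :=
  Subgroup.closure ({upperJordan (k + 3) F, vEl p} : Set (Matrix.SpecialLinearGroup (Fin (k + 3)) F))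

/-- A transvection lies in the group. -/
def InG (p : Par F 1) (b c : Fin 4 → F) : Prop := ∃ h : c ⬝ᵥ b = 0, tv b c h ∈ gp p

/-- Action of the first generator on vectors. -/
def Uc (x : Fin 4 → F) : Fin 4 → F := ![x 0 + x 1, x 1 + x 2, x 2 + x 3, x 3]

/-- Action of the first generator on covectors. -/
def Ur (y : Fin 4 → F) : Fin 4 → F := ![y 0, y 0 + y 1, y 1 + y 2, y 2 + y 3]

/-- Action of the second generator on vectors. -/
def Vc (r0 r1 : F) (x : Fin 4 → F) : Fin 4 → F :=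
  ![x 0 + x 1, x 1 + x 2, x 2, x 3 + (r0 * (x 0 + x 1) + r1 * (x 1 + x 2) + 4 * (x 2 + x 3) - 4 * x 3)]

/-- Action of the second generator on covectors. -/
def Vr (r0 r1 : F) (y : Fin 4 → F) : Fin 4 → F :=
  ![y 0 + y 3 * r0, y 0 + y 3 * r0 + (y 1 + y 3 * r1), y 1 + y 3 * r1 + (y 2 + y 3 * 4),
    y 2 + y 3 * 4 + (y 3 - (y 2 + y 3 * 4))]

theorem coe_Uc (x : Fin 4 → F) : (upperJordan 4 F : Matrix (Fin 4) (Fin 4) F) *ᵥ x = Uc x := by
  funext i
  rw [upperJordan_mulVec]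
  fin_cases i <;> simp [Uc]

theorem coe_Ur (y : Fin 4 → F) : y ᵥ* (upperJordan 4 F : Matrix (Fin 4) (Fin 4) F) = Ur y := by
  funext i
  rw [← mul_one ((y ᵥ* (upperJordan 4 F : Matrix (Fin 4) (Fin 4) F)) i), ← dotProduct_single, ← dotProduct_mulVec,
    coe_Uc]
  fin_cases i <;> simp [Uc, Ur, dotProduct, Fin.sum_univ_four]

theorem R_eq {p : Par F 1} : p.R = ![p.R 0, p.R 1, 4, 0] := by
  funext i
  fin_cases i
  · rfl
  · rfl
  · exact p.h2
  · exact p.hl

theorem coe_Vc (p : Par F 1) (x : Fin 4 → F) :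
    (vEl p : Matrix (Fin 4) (Fin 4) F) *ᵥ x = Vc (p.R 0) (p.R 1) x := by
  rw [vEl, Matrix.SpecialLinearGroup.coe_mul, ← mulVec_mulVec, xEl_mulVec, coe_Uc, R_eq]
  funext i
  fin_cases i <;> simp [vecHead, vecTail, Uc, Vc, dotProduct, Fin.sum_univ_four, i2, il, Fin.ext_iff, Pi.single_apply]

theorem coe_Vr (p : Par F 1) (y : Fin 4 → F) :
    y ᵥ* (vEl p : Matrix (Fin 4) (Fin 4) F) = Vr (p.R 0) (p.R 1) y := by
  funext i
  rw [← mul_one ((y ᵥ* (vEl p : Matrix (Fin 4) (Fin 4) F)) i), ← dotProduct_single, ← dotProduct_mulVec, coe_Vc]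
  fin_cases i <;> simp [Vc, Vr, dotProduct, Fin.sum_univ_four] <;> ring

theorem inG_conj {p : Par F 1} {b c : Fin 4 → F} (h : InG p b c) {g : Matrix.SpecialLinearGroup (Fin 4) F}
    (hg : g ∈ gp p) : InG p ((g : Matrix (Fin 4) (Fin 4) F) *ᵥ b)
      (c ᵥ* ((g⁻¹ : Matrix.SpecialLinearGroup (Fin 4) F) : Matrix (Fin 4) (Fin 4) F)) := by
  obtain ⟨h, h'⟩ := h
  have := mul_mem (mul_mem hg h') (inv_mem hg)
  rw [conj_tv] at this
  exact ⟨_, this⟩

theorem inG_fwd {p : Par F 1} {b c b' c' : Fin 4 → F} (h : InG p b c) {g : Matrix.SpecialLinearGroup (Fin 4) F}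
    (hg : g ∈ gp p) (hb : (g : Matrix (Fin 4) (Fin 4) F) *ᵥ b = b') (hc : c' ᵥ* (g : Matrix (Fin 4) (Fin 4) F) = c) :
    InG p b' c' := by
  have := inG_conj h hg
  rwa [hb, ← hc, vecMul_coe_mul, mul_inv_cancel, one_vecMul'] at this

theorem inG_bwd {p : Par F 1} {b c b' c' : Fin 4 → F} (h : InG p b c) {g : Matrix.SpecialLinearGroup (Fin 4) F}
    (hg : g ∈ gp p) (hb : (g : Matrix (Fin 4) (Fin 4) F) *ᵥ b' = b) (hc : c ᵥ* (g : Matrix (Fin 4) (Fin 4) F) = c') :
    InG p b' c' := by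
  have := inG_conj h (inv_mem hg)
  rwa [inv_inv, hc, ← hb, coe_mul_mulVec, inv_mul_cancel, one_mulVec'] at this

theorem mem_u (p : Par F 1) : upperJordan 4 F ∈ gp p := Subgroup.subset_closure (Set.mem_insert _ _)

theorem mem_v (p : Par F 1) : vEl p ∈ gp p := Subgroup.subset_closure (Set.mem_insert_of_mem _ rfl)

theorem step_u (p : Par F 1) {b c b' c' : Fin 4 → F} (h : InG p b c) (hb : Uc b = b') (hc : Ur c' = c) :
    InG p b' c' := inG_fwd h (mem_u p) ((coe_Uc b).trans hb) ((coe_Ur c').trans hc)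

theorem step_U (p : Par F 1) {b c b' c' : Fin 4 → F} (h : InG p b c) (hb : Uc b' = b) (hc : Ur c = c') :
    InG p b' c' := inG_bwd h (mem_u p) ((coe_Uc b').trans hb) ((coe_Ur c).trans hc)

theorem step_v (p : Par F 1) {r0 r1 : F} (h0 : p.R 0 = r0) (h1 : p.R 1 = r1) {b c b' c' : Fin 4 → F}
    (h : InG p b c) (hb : Vc r0 r1 b = b') (hc : Vr r0 r1 c' = c) : InG p b' c' := by
  subst h0 h1
  exact inG_fwd h (mem_v p) ((coe_Vc p b).trans hb) ((coe_Vr p c').trans hc)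

theorem step_V (p : Par F 1) {r0 r1 : F} (h0 : p.R 0 = r0) (h1 : p.R 1 = r1) {b c b' c' : Fin 4 → F}
    (h : InG p b c) (hb : Vc r0 r1 b' = b) (hc : Vr r0 r1 c = c') : InG p b' c' := by
  subst h0 h1
  exact inG_bwd h (mem_v p) ((coe_Vc p b').trans hb) ((coe_Vr p c).trans hc)

theorem inG_start (p : Par F 1) : InG p (ctr F 1) (phi p) := by
  have hx : xEl p ∈ gp p := by
    have := mul_mem (mem_v p) (inv_mem (mem_u p))
    rwa [vEl, mul_inv_cancel_right] at this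
  have := inv_mem (mul_mem hx hx)
  rw [xEl_sq, tv_neg] at this
  refine ⟨phi_dot_ctr p, ?_⟩
  convert this using 1
  exact tv_congr _ _ (neg_neg _).symm

theorem inG_add {p : Par F 1} {b b' c : Fin 4 → F} (h : InG p b c) (h' : InG p b' c) : InG p (b + b') c := by
  obtain ⟨e, e'⟩ := h
  obtain ⟨f, f'⟩ := h'
  refine ⟨by rw [dotProduct_add, e, f, add_zero], ?_⟩
  have := mul_mem e' f'
  rwa [tv_mul] at this

theorem inG_nsmul {p : Par F 1} {b c : Fin 4 → F} (h : InG p b c) (m : ℕ) : InG p ((m : F) • b) c := by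
  induction m with
  | zero =>
    refine ⟨by rw [Nat.cast_zero, zero_smul, dotProduct_zero], ?_⟩
    rw [tv_congr (a' := (0 : Fin 4 → F)) _ (dotProduct_zero c) (by rw [Nat.cast_zero, zero_smul]), tv_zero]
    exact one_mem _
  | succ m ih => rw [Nat.cast_succ, add_smul, one_smul]; exact inG_add ih h

theorem inG_axis {p : Par F 1} {b c : Fin 4 → F} {d : F} (h : InG p b (d • c)) (hd : d ≠ 0) : InG p (d • b) c := by
  obtain ⟨h, h'⟩ := h
  rw [smul_dotProduct, smul_eq_mul, mul_eq_zero] at h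
  refine ⟨by rw [dotProduct_smul, h.resolve_left hd, smul_zero], ?_⟩
  convert h' using 1
  apply Subtype.ext
  rw [coe_tv, coe_tv, smul_vecMulVec, vecMulVec_smul]

theorem top_of_kernel [Finite F] (p : Par F 1) (h0 : p.R 0 ≠ 0)
    (hker : ∀ y, phi p ⬝ᵥ y = 0 → InG p y (phi p)) : gp p = ⊤ := by
  refine eq_top_of_full (axs (upperJordan 4 F) (phi p)) (axs_span p h0) fun i y hy => ?_
  have hfull : ∀ z, phi p ⬝ᵥ z = 0 → z ∈ Lines (gp p) (phi p) := fun z hz t =>
    hker (t • z) (by rw [dotProduct_smul, hz, smul_zero])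
  set z := (((upperJordan 4 F) ^ i)⁻¹ : Matrix.SpecialLinearGroup (Fin 4) F).1 *ᵥ y with hz
  have hyz : y = (((upperJordan 4 F) ^ i : Matrix.SpecialLinearGroup (Fin 4) F) : Matrix (Fin 4) (Fin 4) F) *ᵥ z := by
    rw [hz, coe_mul_mulVec, mul_inv_cancel, one_mulVec']
  rw [hyz] at hy ⊢
  refine lines_conj (pow_mem (mem_u p) i) (hfull z ?_)
  rwa [axs, conj_dot] at hy

/-- The parameters of the exceptional cases. -/
abbrev par4 (r0 r1 : F) : Par F 1 := mkPar le_rfl r0 r1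

theorem par4_R0 (r0 r1 : F) : (par4 r0 r1).R 0 = r0 := mkR_zero' (k := 1) r0 r1

theorem par4_R1 (r0 r1 : F) : (par4 r0 r1).R 1 = r1 := mkR_one (k := 1) r0 r1 (h := by omega)

theorem phi4 (r0 r1 : F) : phi (par4 r0 r1) = ![r0, r1, 4, -2] := by
  rw [phi, R_eq, par4_R0, par4_R1]
  funext i
  fin_cases i <;> simp [il, Fin.ext_iff, Pi.single_apply]

theorem ctr4 : ctr F 1 = ![0, 0, 1, 2] := by
  funext i
  fin_cases i <;> simp [ctr, i2, il, Fin.ext_iff, Pi.single_apply]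

local macro "chk" : term => `(by
  simp only [Uc, Ur, Vc, Vr]
  ext i
  fin_cases i <;> simp <;> grind)

theorem gen_three [Finite F] (h3 : (3 : F) = 0) (hsurj : ∀ x : F, ∃ m : ℕ, (m : F) = x) :
    gp (par4 (2 : F) 2) = ⊤ := by
  set p := par4 (2 : F) 2 with hp
  have hR0 : p.R 0 = (2 : F) := par4_R0 _ _
  have hR1 : p.R 1 = 2 := par4_R1 _ _
  have h20 : (2 : F) ≠ 0 := fun h => one_ne_zero (α := F) (by linear_combination h3 - h)
  have k0 : InG p ![0, 0, 1, 2] ![2, 2, 1, 1] := by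
    have := inG_start p
    rw [hp, phi4, ctr4] at this
    convert this using 1
    ext i; fin_cases i <;> simp <;> grind
  have k1 : InG p ![0, 1, 0, 2] ![2, 0, 1, 0] := step_u p k0 chk chk
  have k2 : InG p ![1, 1, 0, 0] ![2, 1, 0, 0] := step_v p hR0 hR1 k1 chk chk
  have k3 : InG p ![0, 1, 0, 0] ![2, 0, 1, 0] := step_U p k2 chk chk
  have k4 : InG p ![2, 1, 0, 0] ![2, 2, 1, 1] := step_U p k3 chk chk
  have k5 : InG p ![1, 1, 2, 2] ![2, 1, 0, 0] := step_u p k1 chk chk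
  have k6 : InG p ![2, 2, 2, 2] ![2, 0, 1, 0] := step_V p hR0 hR1 k5 chk chk
  have k7 : InG p ![0, 2, 0, 2] ![2, 2, 1, 1] := step_U p k6 chk chk
  refine top_of_kernel p (by rw [hp, par4_R0]; exact h20) fun y hy => ?_
  have hphi : phi p = ![2, 2, 1, 1] := by rw [hp, phi4]; ext i; fin_cases i <;> simp <;> grind
  rw [hphi] at hy ⊢
  simp [dotProduct, Fin.sum_univ_four] at hy
  obtain ⟨a, ha⟩ := hsurj (y 2)
  obtain ⟨b, hb⟩ := hsurj (2 * y 0)
  obtain ⟨c, hc⟩ := hsurj (2 * y 1 + 2 * y 0)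
  convert inG_add (inG_add (inG_nsmul k0 a) (inG_nsmul k4 b)) (inG_nsmul k7 c) using 1
  rw [ha, hb, hc]
  ext i; fin_cases i <;> simp <;> grind

theorem gen_five [Finite F] (h5 : (5 : F) = 0) (hsurj : ∀ x : F, ∃ m : ℕ, (m : F) = x) :
    gp (par4 (4 : F) 0) = ⊤ := by
  set p := par4 (4 : F) 0 with hp
  have hR0 : p.R 0 = (4 : F) := par4_R0 _ _
  have hR1 : p.R 1 = 0 := par4_R1 _ _
  have h20 : (2 : F) ≠ 0 := fun h => one_ne_zero (α := F) (by linear_combination h5 - 2 * h)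
  have h30 : (3 : F) ≠ 0 := fun h => one_ne_zero (α := F) (by linear_combination 2 * h - h5)
  have k0 : InG p ![0, 0, 1, 2] ![4, 0, 4, 3] := by
    have := inG_start p
    rw [hp, phi4, ctr4] at this
    convert this using 1
    ext i; fin_cases i <;> simp <;> grind
  have k1 : InG p ![0, 1, 1, 1] ![2, 1, 1, 3] := step_v p hR0 hR1 k0 chk chk
  have k2 : InG p ![4, 1, 0, 1] ![2, 3, 2, 4] := step_U p k1 chk chk
  have k3 : InG p ![3, 1, 0, 0] ![3, 1, 1, 4] := step_V p hR0 hR1 k2 chk chk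
  have k4 : InG p ![2, 1, 0, 0] ![3, 4, 2, 0] := step_U p k3 chk chk
  have k5 : InG p ![1, 1, 0, 2] ![3, 2, 1, 0] := step_V p hR0 hR1 k4 chk chk
  have k6 : InG p ![3, 3, 3, 2] ![3, 0, 3, 1] := step_U p k5 chk chk
  have k7 : InG p ![0, 1, 3, 2] ![4, 1, 3, 0] := step_u p k0 chk chk
  have k8 : InG p ![1, 4, 3, 3] ![4, 2, 1, 0] := step_v p hR0 hR1 k7 chk chk
  have k9 : InG p ![0, 2, 1, 3] ![4, 3, 3, 2] := step_u p k8 chk chk
  have k10 : InG p ![2, 3, 1, 0] ![1, 4, 1, 2] := step_v p hR0 hR1 k9 chk chk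
  have k11 : InG p ![0, 4, 1, 0] ![1, 3, 3, 4] := step_u p k10 chk chk
  have k12 : InG p ![2, 3, 1, 1] ![2, 0, 2, 4] := step_V p hR0 hR1 k11 chk chk
  refine top_of_kernel p (by rw [hp, par4_R0]; intro h; exact one_ne_zero (α := F) (by linear_combination h5 - h))
    fun y hy => ?_
  have hphi : phi p = ![4, 0, 4, 3] := by rw [hp, phi4]; ext i; fin_cases i <;> simp <;> grind
  rw [hphi] at hy ⊢
  simp [dotProduct, Fin.sum_univ_four] at hy
  have f1 : InG p ![1, 1, 1, 4] ![4, 0, 4, 3] := by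
    have : InG p ![3, 3, 3, 2] ((2 : F) • ![4, 0, 4, 3]) := by
      convert k6 using 1; ext i; fin_cases i <;> simp <;> grind
    convert inG_axis this h20 using 1
    ext i; fin_cases i <;> simp <;> grind
  have f2 : InG p ![1, 4, 3, 3] ![4, 0, 4, 3] := by
    have : InG p ![2, 3, 1, 1] ((3 : F) • ![4, 0, 4, 3]) := by
      convert k12 using 1; ext i; fin_cases i <;> simp <;> grind
    convert inG_axis this h30 using 1
    ext i; fin_cases i <;> simp <;> grind
  obtain ⟨b, hb⟩ := hsurj (3 * (y 0 + y 1))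
  obtain ⟨c, hc⟩ := hsurj (3 * (y 0 - y 1))
  obtain ⟨a, ha⟩ := hsurj (y 2 - 3 * (y 0 + y 1) - 3 * (3 * (y 0 - y 1)))
  convert inG_add (inG_add (inG_nsmul k0 a) (inG_nsmul f1 b)) (inG_nsmul f2 c) using 1
  rw [ha, hb, hc]
  ext i; fin_cases i <;> simp <;> grind

theorem gen_four [Finite F] (h2 : (2 : F) = 0) (w : F) (hw : w * w = w + 1)
    (hall : ∀ x : F, x = 0 ∨ x = 1 ∨ x = w ∨ x = w + 1) : gp (par4 w w) = ⊤ := by
  set p := par4 w w with hp
  have hR0 : p.R 0 = w := par4_R0 _ _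
  have hR1 : p.R 1 = w := par4_R1 _ _
  have hw0 : w ≠ 0 := fun h => one_ne_zero (α := F) (by subst h; linear_combination -hw)
  have k0 : InG p ![0, 0, 1, 0] ![w, w, 0, 0] := by
    have := inG_start p
    rw [hp, phi4, ctr4] at this
    convert this using 1 <;> ext i <;> fin_cases i <;> simp <;> grind
  have k1 : InG p ![0, 1, 1, w] ![w, 0, 0, 0] := step_v p hR0 hR1 k0 chk chk
  have k2 : InG p ![w, w, w + 1, w] ![w, w, 0, 0] := step_U p k1 chk chk
  have k3 : InG p ![0, 1, 1, 0] ![w, 0, 0, 0] := step_u p k0 chk chk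
  have k4 : InG p ![0, 0, 1, w] ![w, w, 0, 0] := step_V p hR0 hR1 k3 chk chk
  have k5 : InG p ![1, 0, 1, w] ![w, w, w, 0] := step_v p hR0 hR1 k3 chk chk
  have k6 : InG p ![1, 1, 1, w] ![w, 0, w, 0] := step_v p hR0 hR1 k5 chk chk
  have k7 : InG p ![0, 0, w + 1, w] ![w, w, 0, 0] := step_u p k6 chk chk
  have k8 : InG p ![0, w + 1, w + 1, w + 1] ![w, 0, 0, 0] := step_v p hR0 hR1 k7 chk chk
  have k9 : InG p ![w + 1, w + 1, 0, w + 1] ![w, w, 0, 0] := step_U p k8 chk chk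
  have k10 : InG p ![0, w + 1, 1, w] ![w, 0, 0, 0] := step_u p k7 chk chk
  have k11 : InG p ![w, w, 1, w + 1] ![w, w, 0, 0] := step_V p hR0 hR1 k10 chk chk
  refine top_of_kernel p (by rw [hp, par4_R0]; exact hw0) fun y hy => ?_
  have hphi : phi p = ![w, w, 0, 0] := by rw [hp, phi4]; ext i; fin_cases i <;> simp <;> grind
  rw [hphi] at hy ⊢
  simp [dotProduct, Fin.sum_univ_four] at hy
  have hy01 : y 1 = y 0 := by
    have : w * (y 1 - y 0) = 0 := by linear_combination hy - w * y 0 * h2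
    rcases mul_eq_zero.1 this with h | h
    · exact absurd h hw0
    · exact sub_eq_zero.1 h
  have e3w : InG p ![0, 0, 0, w] ![w, w, 0, 0] := by
    convert inG_add k0 k4 using 1; ext i; fin_cases i <;> simp <;> grind
  have e2v : InG p ![0, 0, w + 1, 0] ![w, w, 0, 0] := by
    convert inG_add k7 e3w using 1; ext i; fin_cases i <;> simp <;> grind
  have e2w : InG p ![0, 0, w, 0] ![w, w, 0, 0] := by
    convert inG_add e2v k0 using 1; ext i; fin_cases i <;> simp <;> grind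
  have e01w : InG p ![w, w, 0, 0] ![w, w, 0, 0] := by
    convert inG_add k2 k7 using 1; ext i; fin_cases i <;> simp <;> grind
  have e3v : InG p ![0, 0, 0, w + 1] ![w, w, 0, 0] := by
    convert inG_add (inG_add k11 k0) e01w using 1; ext i; fin_cases i <;> simp <;> grind
  have e31 : InG p ![0, 0, 0, 1] ![w, w, 0, 0] := by
    convert inG_add e3v e3w using 1; ext i; fin_cases i <;> simp <;> grind
  have e01v : InG p ![w + 1, w + 1, 0, 0] ![w, w, 0, 0] := by
    convert inG_add k9 e3v using 1; ext i; fin_cases i <;> simp <;> grind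
  have e011 : InG p ![1, 1, 0, 0] ![w, w, 0, 0] := by
    convert inG_add e01v e01w using 1; ext i; fin_cases i <;> simp <;> grind
  have h00 : InG p ![0, 0, 0, 0] ![w, w, 0, 0] := by
    convert inG_nsmul k0 0 using 1; ext i; fin_cases i <;> simp
  have A : ∀ x, InG p ![x, x, 0, 0] ![w, w, 0, 0] := fun x => by
    rcases hall x with rfl | rfl | rfl | rfl <;> assumption
  have B : ∀ x, InG p ![0, 0, x, 0] ![w, w, 0, 0] := fun x => by
    rcases hall x with rfl | rfl | rfl | rfl <;> assumption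
  have C : ∀ x, InG p ![0, 0, 0, x] ![w, w, 0, 0] := fun x => by
    rcases hall x with rfl | rfl | rfl | rfl <;> assumption
  convert inG_add (inG_add (A (y 0)) (B (y 2))) (C (y 3)) using 1
  ext i; fin_cases i <;> simp [hy01]

end Cfsg.Agent.Lib.GLn.TwoUnip
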