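import Cfsg.Agent.Lib.GLn.TwoUnipFour

/-!
# Two regular unipotent elements generate `SL_n`, `n ≥ 4`
-/

set_option autoImplicit false

namespace Cfsg.Agent.Lib.GLn.TwoUnip

open Matrix Cfsg.Agent.Lib.GLn

variable {F : Type*} [Field F] [Fintype F]

/-- An additive group containing one and stable under `ν` is everything unless `ν` lies in a proper subfield. -/
theorem addSubgroup_top_or {p e : ℕ} [Fact p.Prime] [CharP F p] (he : Fintype.card F = p ^ e) (ν : F)
    (C : AddSubgroup F) (h1 : (1 : F) ∈ C) (hC : ∀ c ∈ C, ν * c ∈ C) :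
    C = ⊤ ∨ ∃ d, 1 ≤ d ∧ 2 * d ≤ e ∧ ν ^ p ^ d = ν := by
  classical
  let R : Subring F :=
    { carrier := {x | ∀ c ∈ C, x * c ∈ C}
      one_mem' := fun c hc => by rwa [one_mul]
      mul_mem' := fun {x y} hx hy c hc => by rw [mul_assoc]; exact hx _ (hy c hc)
      zero_mem' := fun c _ => by rw [zero_mul]; exact C.zero_mem
      add_mem' := fun {x y} hx hy c hc => by rw [add_mul]; exact C.add_mem (hx c hc) (hy c hc)
      neg_mem' := fun {x} hx c hc => by rw [neg_mul]; exact C.neg_mem (hx c hc) }
  let K : Subfield F :=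
    { R with
      inv_mem' := fun x hx => by
        by_cases h0 : x = 0
        · rw [h0, _root_.inv_zero]; exact R.zero_mem
        have h2 : 2 ≤ Fintype.card F := Fintype.one_lt_card
        have : x⁻¹ = x ^ (Fintype.card F - 2) := by
          refine (eq_inv_of_mul_eq_one_left ?_).symm
          rw [← pow_succ, show Fintype.card F - 2 + 1 = Fintype.card F - 1 by omega,
            FiniteField.pow_card_sub_one_eq_one x h0]
        rw [this]
        exact R.pow_mem hx _ }
  haveI : Fintype K := Fintype.ofFinite K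
  haveI : CharP K p := (RingHom.charP_iff K.subtype K.subtype.injective p).2 inferInstance
  obtain ⟨d, -, hd⟩ := FiniteField.card K p
  have hνK : ν ∈ K := hC
  have hpow : ν ^ p ^ (d : ℕ) = ν := by
    have := congrArg Subtype.val (FiniteField.pow_card (⟨ν, hνK⟩ : K))
    rw [hd] at this
    simpa using this
  have hr := Module.card_eq_pow_finrank (K := K) (V := F)
  rw [he, hd, ← pow_mul] at hr
  have her := Nat.pow_right_injective (Fact.out : p.Prime).two_le hr
  rcases Nat.lt_or_ge (Module.finrank K F) 2 with hlt | hge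
  · left
    have hcard : Fintype.card K = Fintype.card F := by
      rw [hd, he, her]
      have hpos : 0 < Module.finrank K F := Module.finrank_pos
      rw [show Module.finrank K F = 1 by omega, mul_one]
    have hall : ∀ x : F, x ∈ K := fun x => by
      obtain ⟨y, rfl⟩ := ((Fintype.bijective_iff_injective_and_card _).2
        ⟨Subtype.val_injective, hcard⟩ : Function.Bijective (fun y : K => (y : F))).2 x
      exact y.2
    rw [eq_top_iff]
    intro x _
    simpa using hall x 1 h1
  · exact Or.inr ⟨d, d.pos, by rw [her]; calc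
      2 * (d : ℕ) = (d : ℕ) * 2 := Nat.mul_comm _ _
      _ ≤ (d : ℕ) * Module.finrank K F := Nat.mul_le_mul_left _ hge, hpow⟩

theorem sum_pow_le {p : ℕ} (hp : 3 ≤ p) (h : ℕ) : 2 * ∑ d ∈ Finset.Icc 1 h, p ^ d ≤ 3 * p ^ h := by
  induction h with
  | zero => simp
  | succ h ih =>
    rw [Finset.sum_Icc_succ_top (by omega), pow_succ]
    nlinarith [Nat.one_le_pow h p (by omega)]

/-- A parameter for `SL_4` in odd characteristic. -/
theorem exists_param {p e : ℕ} [Fact p.Prime] [CharP F p] (he : Fintype.card F = p ^ e) (he2 : 2 ≤ e) (hp : 3 ≤ p)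
    (h9 : ¬(p = 3 ∧ e = 2)) : ∃ s : F, s ≠ 0 ∧ s - 1 ≠ 0 ∧ s + 1 ≠ 0 ∧
      ∀ d, 1 ≤ d → 2 * d ≤ e → (4096 * (s - 1) * (s + 1) ^ 2) ^ p ^ d ≠ 4096 * (s - 1) * (s + 1) ^ 2 := by
  classical
  have h20 : (2 : F) ≠ 0 := Ring.two_ne_zero (by rw [ringChar.eq F p]; omega)
  set N : Polynomial F := Polynomial.C (4096 : F) * (Polynomial.X - Polynomial.C 1) *
    (Polynomial.X + Polynomial.C 1) ^ 2 with hN
  have hC : (4096 : F) ≠ 0 := by
    rw [show (4096 : F) = 2 ^ 12 by norm_num]
    exact pow_ne_zero _ h20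
  have hNdeg : N.natDegree = 3 := by
    rw [hN, Polynomial.natDegree_mul (mul_ne_zero (by simpa using hC) (Polynomial.X_sub_C_ne_zero _))
      (pow_ne_zero _ (Polynomial.X_add_C_ne_zero _)), Polynomial.natDegree_C_mul hC, Polynomial.natDegree_X_sub_C,
      Polynomial.natDegree_pow, Polynomial.natDegree_X_add_C]
  let P : ℕ → Polynomial F := fun d => N ^ p ^ d - N
  have hPdeg : ∀ d, 1 ≤ d → (P d).natDegree = 3 * p ^ d := fun d hd => by
    have h3 : 3 ≤ p ^ d := hp.trans (Nat.le_self_pow (by omega) p)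
    rw [Polynomial.natDegree_sub_eq_left_of_natDegree_lt, Polynomial.natDegree_pow, hNdeg, mul_comm]
    rw [Polynomial.natDegree_pow, hNdeg]
    omega
  set B : Finset F := {0, 1, -1} ∪ (Finset.Icc 1 (e / 2)).biUnion fun d => (P d).roots.toFinset with hB
  have hBcard : B.card < Fintype.card F := by
    calc B.card ≤ 3 + ∑ d ∈ Finset.Icc 1 (e / 2), ((P d).roots.toFinset).card := by
          refine (Finset.card_union_le _ _).trans (Nat.add_le_add ?_ Finset.card_biUnion_le)
          exact Finset.card_le_three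
      _ ≤ 3 + ∑ d ∈ Finset.Icc 1 (e / 2), 3 * p ^ d := by
          refine Nat.add_le_add_left (Finset.sum_le_sum fun d hd => ?_) _
          refine (Multiset.toFinset_card_le _).trans ((Polynomial.card_roots' _).trans (le_of_eq ?_))
          exact hPdeg d (Finset.mem_Icc.1 hd).1
      _ < Fintype.card F := by
          rw [he, ← Finset.mul_sum]
          rcases Nat.lt_or_ge e 4 with h4 | h4
          · have : e / 2 = 1 := by omega
            rw [this, Finset.Icc_self, Finset.sum_singleton, pow_one]
            rcases (show e = 2 ∨ e = 3 by omega) with rfl | rfl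
            · have : 4 ≤ p := by omega
              nlinarith
            · have : 9 * p ≤ p ^ 3 := by rw [pow_succ]; exact Nat.mul_le_mul_right p (by nlinarith)
              omega
          · have h1 := sum_pow_le hp (e / 2)
            have h2 : p ^ (e / 2) * p ^ (e / 2) ≤ p ^ e := by
              rw [← pow_add]; exact Nat.pow_le_pow_right (by omega) (by omega)
            have h3 : 9 ≤ p ^ (e / 2) := calc
              9 ≤ p ^ 2 := by nlinarith
              _ ≤ p ^ (e / 2) := Nat.pow_le_pow_right (by omega) (by omega)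
            nlinarith
  obtain ⟨s, hs⟩ : ∃ s, s ∉ B := by
    by_contra hc
    push Not at hc
    have : Fintype.card F ≤ B.card := Finset.card_le_card fun x _ => hc x
    omega
  simp only [hB, Finset.mem_union, Finset.mem_insert, Finset.mem_singleton, Finset.mem_biUnion, Finset.mem_Icc,
    Multiset.mem_toFinset, not_or, not_exists, not_and] at hs
  obtain ⟨⟨hs0, hs1, hs2⟩, hs3⟩ := hs
  refine ⟨s, hs0, sub_ne_zero.2 hs1, fun h => hs2 (eq_neg_of_add_eq_zero_left h), fun d hd1 hd2 hd3 => ?_⟩
  have hPd : P d ≠ 0 := fun h => by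
    have h' := hPdeg d hd1
    rw [h, Polynomial.natDegree_zero] at h'
    have := pow_pos (show 0 < p by omega) d
    omega
  refine hs3 d ⟨hd1, by omega⟩ ((Polynomial.mem_roots hPd).2 ?_)
  simp [P, N, hd3]

/-- `SL_4`. -/
theorem main_four : TwoGen F 4 ∧ ((Fintype.card F).Prime → ConjGen F 4) := by
  classical
  have R0 : ∀ r0 r1 : F, (mkPar (k := 1) le_rfl r0 r1).R 0 = r0 := fun r0 r1 => mkR_zero' (k := 1) r0 r1
  have hone : (1 : F) ≠ 0 := one_ne_zero
  by_cases hq : (Fintype.card F).Prime
  · suffices h : ConjGen F 4 from ⟨twoGen_of_conjGen h, fun _ => h⟩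
    have hsurj := natCast_surj hq
    have hν := addSubgroup_eq_top_of_prime hsurj
    by_cases h2 : (2 : F) = 0
    · refine conjGen_of_closure (k := 1) _ (e := 1) ?_ (generates_full le_rfl (1 : F) hone
        (fun h => hone (by linear_combination h + 8 * h2)) (fun h => hone (by linear_combination h - 8 * h2))
        fun C h1 _ => hν C h1)
      rw [R0]
      linear_combination -h2
    by_cases h3 : (3 : F) = 0
    · refine conjGen_of_closure (k := 1) (par4 (2 : F) 2) (e := 1) ?_ (gen_three h3 hsurj)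
      rw [par4_R0]
      linear_combination -h3
    by_cases h5 : (5 : F) = 0
    · refine conjGen_of_closure (k := 1) (par4 (4 : F) 0) (e := 1) ?_ (gen_five h5 hsurj)
      rw [par4_R0]
      linear_combination -h5
    by_cases h17 : (17 : F) = 0
    · refine conjGen_of_closure (k := 1) _ (e := 6) ?_ (generates_full le_rfl (-81 : F)
        (fun h => h3 ?_) (fun h => h5 ?_) (fun h => h3 ?_) fun C h1 _ => hν C h1)
      · rw [R0]
        linear_combination 6175 * h17
      · have : (3 : F) ^ 4 = 0 := by linear_combination -h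
        exact eq_zero_of_pow_eq_zero this
      · linear_combination h + 6 * h17
      · linear_combination h + 4 * h17
    refine conjGen_of_closure (k := 1) _ (e := 1) ?_ (generates_full le_rfl (-1 : F) (neg_ne_zero.2 hone)
      (fun h => h17 (by linear_combination -h))
      (fun h => (mul_ne_zero h3 h5) (by linear_combination h)) fun C h1 _ => hν C h1)
    rw [R0]
    ring
  refine ⟨?_, fun h => absurd h hq⟩
  obtain ⟨p, hchar⟩ := CharP.exists F
  haveI : Fact p.Prime := ⟨CharP.char_is_prime F p⟩
  obtain ⟨e, hpp, he⟩ := FiniteField.card F p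
  have he2 : 2 ≤ (e : ℕ) := by
    by_contra h
    rw [he, show (e : ℕ) = 1 by have := e.pos; omega, pow_one] at hq
    exact hq hpp
  have hp0 : (p : F) = 0 := CharP.cast_eq_zero F p
  by_cases hp2 : p = 2
  · subst hp2
    have h2 : (2 : F) = 0 := by exact_mod_cast hp0
    by_cases hq4 : (e : ℕ) = 2
    · rw [hq4] at he
      obtain ⟨w, hw⟩ : ∃ w : F, w ∉ ({0, 1} : Finset F) := by
        by_contra hc
        push Not at hc
        have h1 := (Finset.card_le_card (fun x (_ : x ∈ Finset.univ) => hc x)).trans Finset.card_le_two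
        rw [Finset.card_univ, he] at h1
        norm_num at h1
      simp only [Finset.mem_insert, Finset.mem_singleton, not_or] at hw
      have hall : ∀ x : F, x ≠ 0 → x ≠ 1 → x * x = x + 1 := fun x hx0 hx1 => by
        have h4 := FiniteField.pow_card_sub_one_eq_one x hx0
        rw [he] at h4
        norm_num at h4
        have : (x - 1) * (x * x + x + 1) = 0 := by linear_combination h4
        have := (mul_eq_zero.1 this).resolve_left (sub_ne_zero.2 hx1)
        linear_combination this - (x + 1) * h2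
      have hw2 := hall w hw.1 hw.2
      refine twoGen_of_closure (k := 1) (par4 w w) (by rw [par4_R0]; exact hw.1) (gen_four h2 w hw2 fun x => ?_)
      by_cases hx0 : x = 0
      · exact Or.inl hx0
      by_cases hx1 : x = 1
      · exact Or.inr (Or.inl hx1)
      have hx := hall x hx0 hx1
      have : (x - w) * (x - (w + 1)) = 0 := by linear_combination hx + hw2 + (1 + w - x * w) * h2
      rcases mul_eq_zero.1 this with h | h
      · exact Or.inr (Or.inr (Or.inl (sub_eq_zero.1 h)))
      · exact Or.inr (Or.inr (Or.inr (sub_eq_zero.1 h)))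
    · obtain ⟨ζ, hζ⟩ := IsCyclic.exists_generator (α := Fˣ)
      have hpz : (8 : F) * (-2) ^ 1 = 0 := by linear_combination (-8 : F) * h2
      refine twoGen_of_closure (k := 1) _ (by rw [R0]; exact ζ.ne_zero) (generates_full le_rfl (ζ : F) ζ.ne_zero
        (by rw [hpz, add_zero]; exact ζ.ne_zero) (by rw [hpz, sub_zero]; exact ζ.ne_zero) fun C h1 hC => ?_)
      have hν : ((ζ : F) + 8 * (-2) ^ 1) * ((-1) ^ 1 * ((ζ : F) - 8 * (-2) ^ 1)) ^ (1 + 1) = (ζ : F) ^ 3 := by
        rw [hpz]; ring
      rw [hν] at hC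
      refine (addSubgroup_top_or (p := 2) he _ C h1 hC).resolve_right ?_
      rintro ⟨d, hd1, hd2, hd3⟩
      have hX : 2 ≤ 2 ^ d := Nat.le_self_pow (by omega) 2
      have hd4 : ζ ^ (3 * (2 ^ d - 1)) = 1 := by
        have h3 : ζ ^ (3 * 2 ^ d) = ζ ^ 3 := Units.ext (by push_cast; rw [pow_mul]; exact hd3)
        have : 3 * 2 ^ d = 3 + 3 * (2 ^ d - 1) := by omega
        rw [this, pow_add] at h3
        exact mul_left_cancel (h3.trans (mul_one _).symm)
      have hord : orderOf ζ = 2 ^ (e : ℕ) - 1 := by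
        rw [orderOf_eq_card_of_forall_mem_zpowers hζ, Nat.card_eq_fintype_card, Fintype.card_units, he]
      have hle := Nat.le_of_dvd (Nat.mul_pos (by omega) (by omega)) (orderOf_dvd_of_pow_eq_one hd4)
      rw [hord] at hle
      have h8 : 2 ^ 3 ≤ 2 ^ (e : ℕ) := Nat.pow_le_pow_right (by norm_num) (by omega)
      rcases (show d = 1 ∨ 2 ≤ d by omega) with rfl | hd
      · norm_num at hle
        omega
      · have h4 : 4 ≤ 2 ^ d := le_trans (by norm_num) (Nat.pow_le_pow_right (by norm_num : 1 ≤ 2) hd)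
        have hsq : 2 ^ d * 2 ^ d ≤ 2 ^ (e : ℕ) := by
          rw [← pow_add]; exact Nat.pow_le_pow_right (by norm_num) (by omega)
        have : 4 * 2 ^ d ≤ 2 ^ d * 2 ^ d := Nat.mul_le_mul_right _ h4
        omega
  have hp3 : 3 ≤ p := by have := hpp.two_le; omega
  have h20 : (2 : F) ≠ 0 := Ring.two_ne_zero (by rw [ringChar.eq F p]; omega)
  have h16 : (16 : F) ≠ 0 := by
    rw [show (16 : F) = 2 ^ 4 by norm_num]
    exact pow_ne_zero _ h20
  obtain ⟨s, hs0, hs1, hs2, hs3⟩ : ∃ s : F, s ≠ 0 ∧ s - 1 ≠ 0 ∧ s + 1 ≠ 0 ∧ ∀ d, 1 ≤ d → 2 * d ≤ (e : ℕ) →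
      (4096 * (s - 1) * (s + 1) ^ 2) ^ p ^ d ≠ 4096 * (s - 1) * (s + 1) ^ 2 := by
    by_cases h9 : p = 3 ∧ (e : ℕ) = 2
    · obtain ⟨rfl, he'⟩ := h9
      have h30 : (3 : F) = 0 := by exact_mod_cast hp0
      obtain ⟨ζ, hζ⟩ := IsCyclic.exists_generator (α := Fˣ)
      have hord : orderOf ζ = 8 := by
        rw [orderOf_eq_card_of_forall_mem_zpowers hζ, Nat.card_eq_fintype_card, Fintype.card_units, he, he']
        norm_num
      have hne : (ζ : F) ^ 4 ≠ 1 := fun h => by
        have := orderOf_dvd_of_pow_eq_one (Units.ext (by push_cast; exact h) : ζ ^ 4 = 1)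
        rw [hord] at this
        norm_num at this
      have h8 : (ζ : F) ^ 8 = 1 := by
        have := congrArg Units.val (pow_orderOf_eq_one ζ)
        rw [hord] at this
        push_cast at this
        exact this
      have hsq : ((ζ : F) ^ 2) * (ζ : F) ^ 2 = -1 := by
        have : ((ζ : F) ^ 4 - 1) * ((ζ : F) ^ 4 + 1) = 0 := by linear_combination h8
        linear_combination (mul_eq_zero.1 this).resolve_left (sub_ne_zero.2 hne)
      set s := (ζ : F) ^ 2
      refine ⟨s, pow_ne_zero _ ζ.ne_zero, fun h => h20 ?_, fun h => h20 ?_, fun d hd1 hd2 => ?_⟩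
      · linear_combination hsq - (s + 1) * h
      · linear_combination hsq - (s - 1) * h
      obtain rfl : d = 1 := by omega
      have hν : 4096 * (s - 1) * (s + 1) ^ 2 = s + 1 := by grind
      rw [hν, pow_one]
      intro h
      have : 2 * s = 0 := by grind
      rcases mul_eq_zero.1 this with h | h
      · exact h20 h
      · exact pow_ne_zero _ ζ.ne_zero h
    · exact exists_param he he2 hp3 h9
  refine twoGen_of_closure (k := 1) _ (by rw [R0]; exact mul_ne_zero h16 hs0) (generates_full le_rfl (16 * s)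
    (mul_ne_zero h16 hs0) ?_ ?_ fun C h1 hC => ?_)
  · intro h
    exact mul_ne_zero h16 hs1 (by linear_combination h)
  · intro h
    exact mul_ne_zero h16 hs2 (by linear_combination h)
  · have hν : ((16 : F) * s + 8 * (-2) ^ 1) * ((-1) ^ 1 * (16 * s - 8 * (-2) ^ 1)) ^ (1 + 1) =
        4096 * (s - 1) * (s + 1) ^ 2 := by ring
    rw [hν] at hC
    refine (addSubgroup_top_or he _ C h1 hC).resolve_right ?_
    rintro ⟨d, hd1, hd2, hd3⟩
    exact hs3 d hd1 hd2 hd3

end Cfsg.Agent.Lib.GLn.TwoUnip
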