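import Cfsg.Agent.Lib.GLn.TwoUnip

/-!
# Parameters for two regular unipotent generators of `SL_n`
-/

set_option autoImplicit false

namespace Cfsg.Agent.Lib.GLn.TwoUnip

open Matrix Cfsg.Agent.Lib.GLn

variable {F : Type*} [Field F] {k : ℕ}

/-- The conclusion to be proved. -/
def TwoGen (F : Type*) [Field F] (n : ℕ) : Prop :=
  ∃ u v : Matrix.SpecialLinearGroup (Fin n) F,
    (IsNilpotent ((u : Matrix (Fin n) (Fin n) F) - 1) ∧ ((u : Matrix (Fin n) (Fin n) F) - 1) ^ (n - 1) ≠ 0) ∧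
    (IsNilpotent ((v : Matrix (Fin n) (Fin n) F) - 1) ∧ ((v : Matrix (Fin n) (Fin n) F) - 1) ^ (n - 1) ≠ 0) ∧
      Subgroup.closure ({u, v} : Set (Matrix.SpecialLinearGroup (Fin n) F)) = ⊤

/-- The same with conjugate elements. -/
def ConjGen (F : Type*) [Field F] (n : ℕ) : Prop :=
  ∃ u g : Matrix.SpecialLinearGroup (Fin n) F,
    (IsNilpotent ((u : Matrix (Fin n) (Fin n) F) - 1) ∧ ((u : Matrix (Fin n) (Fin n) F) - 1) ^ (n - 1) ≠ 0) ∧
      Subgroup.closure ({u, g * u * g⁻¹} : Set (Matrix.SpecialLinearGroup (Fin n) F)) = ⊤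

/-- A geometric parameter vector. -/
def mkR (k : ℕ) (r0 r1 : F) : Fin (k + 3) → F := fun j =>
  if (j : ℕ) = 0 then r0 else if (j : ℕ) = k + 2 then 0 else if (j : ℕ) = 1 then r1
  else 4 * (-2) ^ (k + 1 - (j : ℕ))

/-- The parameters. -/
def mkPar (hk : 1 ≤ k) (r0 r1 : F) : Par F k where
  R := mkR k r0 r1
  h2 := by
    unfold mkR
    rw [if_neg (by simp), if_neg (by simp), if_neg (by simp; omega)]
    simp
  hl := by
    unfold mkR
    rw [if_neg (by simp), if_pos rfl]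

theorem mkR_zero (r0 r1 : F) {h : 0 < k + 3} : mkR k r0 r1 ⟨0, h⟩ = r0 := by simp [mkR]

theorem mkR_zero' (r0 r1 : F) : mkR k r0 r1 0 = r0 := by simp [mkR]

theorem mkR_one (r0 r1 : F) {h : 1 < k + 3} : mkR k r0 r1 ⟨1, h⟩ = r1 := by
  simp [mkR]

theorem mkR_geom (r0 r1 : F) {j : ℕ} {h : j < k + 3} (h1 : 2 ≤ j) (h2 : j ≤ k + 1) :
    mkR k r0 r1 ⟨j, h⟩ = 4 * (-2) ^ (k + 1 - j) := by
  unfold mkR
  rw [if_neg (by simp; omega), if_neg (by simp; omega), if_neg (by simp; omega)]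

theorem coef_low (hk : 1 ≤ k) (r0 r1 : F) {d : ℕ} (hd : d + 1 ≤ k) : coef (mkPar hk r0 r1) d = 0 := by
  rcases Nat.eq_zero_or_pos d with rfl | hd0
  · exact coef_zero _
  rw [coef_eq _ (by omega) (by omega)]
  change mkR k r0 r1 _ + 2 * mkR k r0 r1 _ = 0
  rw [mkR_geom _ _ (by omega) (by omega), mkR_geom _ _ (by omega) (by omega),
    show k + 1 - (k + 1 - d) = (k + 1 - (k + 2 - d)) + 1 by omega, pow_succ]
  ring

theorem coef_k (hk : 1 ≤ k) (r0 r1 : F) : coef (mkPar hk r0 r1) k = r1 + 8 * (-2) ^ (k - 1) := by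
  rw [coef_eq _ hk (by omega)]
  change mkR k r0 r1 _ + 2 * mkR k r0 r1 _ = _
  simp only [show k + 1 - k = 1 by omega, show k + 2 - k = 2 by omega]
  rw [mkR_one, mkR_geom _ _ le_rfl (by omega), show k + 1 - 2 = k - 1 by omega]
  ring

theorem coef_k1 (hk : 1 ≤ k) (r0 r1 : F) : coef (mkPar hk r0 r1) (k + 1) = r0 + 2 * r1 := by
  rw [coef_eq _ (by omega) le_rfl]
  change mkR k r0 r1 _ + 2 * mkR k r0 r1 _ = _
  simp only [Nat.sub_self, show k + 2 - (k + 1) = 1 by omega]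
  rw [mkR_zero, mkR_one]

theorem coef_k2 (hk : 1 ≤ k) (r0 r1 : F) : coef (mkPar hk r0 r1) (k + 2) = 2 * r0 := by
  rw [coef_top]
  change 2 * mkR k r0 r1 0 = _
  rw [mkR_zero']

theorem alt_sum (hk : 1 ≤ k) (r0 r1 : F) :
    ∑ d ∈ Finset.range (k + 3), (-1) ^ d * coef (mkPar hk r0 r1) d =
      (-1) ^ k * (r0 + 8 * (-2) ^ (k - 1) - r1) := by
  rw [Finset.sum_range_succ, Finset.sum_range_succ, Finset.sum_range_succ,
    Finset.sum_eq_zero (fun d hd => by rw [coef_low hk r0 r1 (by simp at hd; omega), mul_zero]), zero_add,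
    coef_k, coef_k1, coef_k2, pow_succ, pow_succ]
  ring

/-- An additive group containing one is everything in a prime field. -/
theorem addSubgroup_eq_top_of_prime (hp : ∀ x : F, ∃ m : ℕ, (m : F) = x) (C : AddSubgroup F) (h1 : (1 : F) ∈ C) :
    C = ⊤ := by
  rw [eq_top_iff]
  intro x _
  obtain ⟨m, rfl⟩ := hp x
  have := C.nsmul_mem h1 m
  rwa [nsmul_one] at this

theorem natCast_surj [Fintype F] (hq : (Fintype.card F).Prime) : ∀ x : F, ∃ m : ℕ, (m : F) = x := by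
  obtain ⟨p, hp⟩ := CharP.exists F
  haveI : Fact p.Prime := ⟨CharP.char_is_prime F p⟩
  obtain ⟨e, hpp, he⟩ := FiniteField.card F p
  rw [he] at hq
  have he1 := hq.eq_one_of_pow
  rw [he1, pow_one] at he
  intro x
  have hbij : Function.Bijective (ZMod.castHom (dvd_refl p) F) :=
    (Fintype.bijective_iff_injective_and_card _).2 ⟨(ZMod.castHom _ F).injective, by rw [ZMod.card, he]⟩
  obtain ⟨y, rfl⟩ := hbij.2 x
  exact ⟨y.val, by rw [← map_natCast (ZMod.castHom (dvd_refl p) F), ZMod.natCast_zmod_val]⟩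

theorem generator_ne_intCast [Fintype F] (hq : ¬(Fintype.card F).Prime) {ζ : Fˣ}
    (hζ : ∀ x : Fˣ, x ∈ Subgroup.zpowers ζ) (c : ℤ) : (ζ : F) ≠ c := by
  classical
  intro h
  obtain ⟨p, hp⟩ := CharP.exists F
  haveI : Fact p.Prime := ⟨CharP.char_is_prime F p⟩
  have hsurj : Function.Surjective (ZMod.castHom (dvd_refl p) F) := by
    intro x
    by_cases hx : x = 0
    · exact ⟨0, by rw [hx, map_zero]⟩
    obtain ⟨j, hj⟩ := (Submonoid.mem_powers_iff _ _).1 (mem_powers_iff_mem_zpowers.2 (hζ (Units.mk0 x hx)))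
    refine ⟨(c : ZMod p) ^ j, ?_⟩
    rw [map_pow, map_intCast, ← h, ← Units.val_pow_eq_pow_val, hj, Units.val_mk0]
  have h1 := Fintype.card_le_of_surjective _ hsurj
  obtain ⟨e, hpp, he⟩ := FiniteField.card F p
  rw [ZMod.card, he] at h1
  refine hq ?_
  have : p ^ (e : ℕ) = p := le_antisymm h1 (Nat.le_self_pow e.ne_zero p)
  rw [he, this]
  exact Fact.out

theorem addSubgroup_eq_top_of_generator [Fintype F] {ζ : Fˣ} (hζ : ∀ x : Fˣ, x ∈ Subgroup.zpowers ζ)
    {ν : F} (hν : ν = ζ ∨ ν = -(ζ : F)) (C : AddSubgroup F) (h1 : (1 : F) ∈ C) (hC : ∀ c ∈ C, ν * c ∈ C) :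
    C = ⊤ := by
  have hstep : ∀ c ∈ C, (ζ : F) * c ∈ C := by
    intro c hc
    rcases hν with h | h
    · exact h ▸ hC c hc
    · have := C.neg_mem (hC c hc)
      rwa [h, neg_mul, neg_neg] at this
  have hpow : ∀ j : ℕ, ((ζ ^ j : Fˣ) : F) ∈ C := by
    intro j
    induction j with
    | zero => simpa using h1
    | succ j ih => rw [pow_succ', Units.val_mul]; exact hstep _ ih
  rw [eq_top_iff]
  intro x _
  by_cases hx : x = 0
  · rw [hx]; exact C.zero_mem
  obtain ⟨j, hj⟩ := (Submonoid.mem_powers_iff _ _).1 (mem_powers_iff_mem_zpowers.2 (hζ (Units.mk0 x hx)))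
  have := hpow j
  rwa [hj] at this

theorem m2_sum (r0 r1 : F) :
    ∑ d ∈ Finset.range (2 + 3), ∑ e ∈ Finset.range (2 + 3),
      (-1) ^ (d + e) * coef (mkPar (k := 2) one_le_two r0 r1) (d + e) =
        3 * (r1 - 16) - 4 * (r0 + 2 * r1) + 10 * r0 := by
  have c1 := coef_low (F := F) (k := 2) one_le_two r0 r1 (d := 1) le_rfl
  have c2 := coef_k (F := F) (k := 2) one_le_two r0 r1
  have c3 := coef_k1 (F := F) (k := 2) one_le_two r0 r1
  have c4 := coef_k2 (F := F) (k := 2) one_le_two r0 r1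
  simp only [Nat.reduceAdd] at c2 c3 c4
  simp only [show (2 : ℕ) + 3 = 5 from rfl, Finset.sum_range_succ, Finset.sum_range_zero, Nat.reduceAdd,
    coef_zero, c1, c2, c3, c4,
    coef_big (mkPar (F := F) (k := 2) one_le_two r0 r1) (show 2 + 3 ≤ 5 by norm_num),
    coef_big (mkPar (F := F) (k := 2) one_le_two r0 r1) (show 2 + 3 ≤ 6 by norm_num),
    coef_big (mkPar (F := F) (k := 2) one_le_two r0 r1) (show 2 + 3 ≤ 7 by norm_num),
    coef_big (mkPar (F := F) (k := 2) one_le_two r0 r1) (show 2 + 3 ≤ 8 by norm_num)]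
  ring

/-- The generic case `n ≥ 5`. -/
theorem generates_main [Finite F] (hk : 2 ≤ k) (r0 lam : F) (hr0 : r0 ≠ 0) (hlam : lam ≠ 0)
    (hdel : r0 - lam + 16 * (-2) ^ (k - 1) ≠ 0)
    (hν : ∀ C : AddSubgroup F, (1 : F) ∈ C →
      (∀ c ∈ C, lam * ((-1) ^ k * (r0 - lam + 16 * (-2) ^ (k - 1))) ^ k * c ∈ C) → C = ⊤)
    (h5 : k = 2 → 6 * r0 - 5 * lam - 128 ≠ 0) :
    Subgroup.closure ({upperJordan (k + 3) F, vEl (mkPar (show 1 ≤ k by omega) r0 (lam - 8 * (-2) ^ (k - 1)))} :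
      Set (Matrix.SpecialLinearGroup (Fin (k + 3)) F)) = ⊤ := by
  have hD : k - 1 + 1 = k := by omega
  set r1 := lam - 8 * (-2) ^ (k - 1) with hr1
  have hk1 : 1 ≤ k := by omega
  have hμ : coef (mkPar hk1 r0 r1) k = lam := by rw [coef_k, hr1]; ring
  have hA : ∑ d ∈ Finset.range (k + 3), (-1) ^ d * coef (mkPar hk1 r0 r1) d =
      (-1) ^ k * (r0 - lam + 16 * (-2) ^ (k - 1)) := by rw [alt_sum, hr1]; ring
  refine generates _ (by change mkR k r0 r1 0 ≠ 0; rwa [mkR_zero']) (D := k - 1) (by omega) (by omega)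
    (fun d hd => coef_low hk1 r0 r1 (by omega)) (fun _ => by omega) (by rwa [hD, hμ])
    (by rw [hA]; exact mul_ne_zero (pow_ne_zero _ (neg_ne_zero.2 one_ne_zero)) hdel) ?_ ?_
  · rw [hD, hμ, hA]
    exact hν
  · by_cases h : k = 2
    · subst h
      refine Or.inr ⟨rfl, rfl, ?_⟩
      rw [m2_sum, hr1]
      convert h5 rfl using 1
      ring
    · exact Or.inl (by omega)

/-- The case of a full window. -/
theorem generates_full [Finite F] (hk : 1 ≤ k) (r0 : F) (hr0 : r0 ≠ 0) (hp : r0 + 8 * (-2) ^ k ≠ 0)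
    (hm : r0 - 8 * (-2) ^ k ≠ 0)
    (hν : ∀ C : AddSubgroup F, (1 : F) ∈ C →
      (∀ c ∈ C, (r0 + 8 * (-2) ^ k) * ((-1) ^ k * (r0 - 8 * (-2) ^ k)) ^ (k + 1) * c ∈ C) → C = ⊤) :
    Subgroup.closure ({upperJordan (k + 3) F, vEl (mkPar hk r0 (4 * (-2) ^ k))} :
      Set (Matrix.SpecialLinearGroup (Fin (k + 3)) F)) = ⊤ := by
  have hpow : ((-2) : F) ^ k = (-2) ^ (k - 1) * (-2) := by rw [← pow_succ, show k - 1 + 1 = k by omega]
  have hck : coef (mkPar hk r0 (4 * (-2) ^ k)) k = 0 := by rw [coef_k, hpow]; ring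
  have hμ : coef (mkPar hk r0 (4 * (-2) ^ k)) (k + 1) = r0 + 8 * (-2) ^ k := by rw [coef_k1]; ring
  have hA : ∑ d ∈ Finset.range (k + 3), (-1) ^ d * coef (mkPar hk r0 (4 * (-2) ^ k)) d =
      (-1) ^ k * (r0 - 8 * (-2) ^ k) := by rw [alt_sum, hpow]; ring
  refine generates _ (by change mkR k r0 (4 * (-2) ^ k) 0 ≠ 0; rwa [mkR_zero']) (D := k) hk (by omega)
    (fun d hd => ?_) (fun _ => by omega) (by rwa [hμ])
    (by rw [hA]; exact mul_ne_zero (pow_ne_zero _ (neg_ne_zero.2 one_ne_zero)) hm) ?_ (Or.inl (by omega))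
  · rcases Nat.lt_or_ge d k with h | h
    · exact coef_low hk _ _ (by omega)
    · rw [show d = k by omega]; exact hck
  · rw [hμ, hA]
    exact hν

theorem twoGen_of_closure (p : Par F k) (h0 : p.R 0 ≠ 0)
    (h : Subgroup.closure ({upperJordan (k + 3) F, vEl p} : Set (Matrix.SpecialLinearGroup (Fin (k + 3)) F)) = ⊤) :
    TwoGen F (k + 3) :=
  ⟨_, _, upperJordan_regular (k + 3) (by omega), vEl_regular p h0, h⟩

theorem conjGen_of_closure (p : Par F k) {e : F} (he : e ^ (k + 3) * ((-1) ^ k * p.R 0) = 1)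
    (h : Subgroup.closure ({upperJordan (k + 3) F, vEl p} : Set (Matrix.SpecialLinearGroup (Fin (k + 3)) F)) = ⊤) :
    ConjGen F (k + 3) := by
  obtain ⟨g, hg⟩ := exists_conj p he
  exact ⟨_, g, upperJordan_regular (k + 3) (by omega), by rw [hg]; exact h⟩

theorem twoGen_of_conjGen {n : ℕ} (h : ConjGen F n) : TwoGen F n := by
  obtain ⟨u, g, ⟨⟨m, hm⟩, hu⟩, hc⟩ := h
  refine ⟨u, g * u * g⁻¹, ⟨⟨m, hm⟩, hu⟩, ?_, hc⟩
  set U := (u : Matrix (Fin n) (Fin n) F) - 1
  set g' := (g : Matrix (Fin n) (Fin n) F)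
  set gi := ((g⁻¹ : Matrix.SpecialLinearGroup (Fin n) F) : Matrix (Fin n) (Fin n) F)
  have h1 : g' * gi = 1 := by
    rw [← Matrix.SpecialLinearGroup.coe_mul, mul_inv_cancel, Matrix.SpecialLinearGroup.coe_one]
  have h2 : gi * g' = 1 := coe_inv_mul_self g
  have hd : ∀ j, (((g * u * g⁻¹ : Matrix.SpecialLinearGroup (Fin n) F) : Matrix (Fin n) (Fin n) F) - 1) ^ j =
      g' * U ^ j * gi := by
    intro j
    have e : ((g * u * g⁻¹ : Matrix.SpecialLinearGroup (Fin n) F) : Matrix (Fin n) (Fin n) F) - 1 = g' * U * gi := by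
      rw [Matrix.SpecialLinearGroup.coe_mul, Matrix.SpecialLinearGroup.coe_mul, mul_sub, sub_mul, mul_one, h1]
    induction j with
    | zero => rw [pow_zero, pow_zero, mul_one, h1]
    | succ j ih =>
      rw [pow_succ, ih, e, pow_succ]
      simp only [← mul_assoc]
      rw [mul_assoc (g' * U ^ j), h2, mul_one]
  refine ⟨⟨m, by rw [hd, hm, mul_zero, zero_mul]⟩, fun h => hu ?_⟩
  rw [hd] at h
  have := congrArg (fun M => gi * M * g') h
  simpa [← mul_assoc, h2, mul_assoc _ gi g'] using this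

/-- `n ≥ 5`. -/
theorem main_of_five [Fintype F] (hk : 2 ≤ k) :
    TwoGen F (k + 3) ∧ ((Fintype.card F).Prime → ConjGen F (k + 3)) := by
  classical
  have hk1 : 1 ≤ k := by omega
  have R0 : ∀ r0 r1 : F, (mkPar hk1 r0 r1).R 0 = r0 := fun r0 r1 => mkR_zero' (k := k) r0 r1
  by_cases hq : (Fintype.card F).Prime
  · suffices h : ConjGen F (k + 3) from ⟨twoGen_of_conjGen h, fun _ => h⟩
    have hν := addSubgroup_eq_top_of_prime (natCast_surj hq)
    by_cases h2 : (2 : F) = 0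
    · have hpow : ((-2) : F) ^ k = 0 := by rw [h2, neg_zero, zero_pow (by omega)]
      refine conjGen_of_closure _ (e := 1) ?_ (generates_full hk1 (1 : F) one_ne_zero
        (by rw [hpow]; simp) (by rw [hpow]; simp) fun C h1 _ => hν C h1)
      rw [R0, one_pow, one_mul, mul_one, show (-1 : F) = 1 by linear_combination -h2, one_pow]
    have hK : (16 : F) * (-2) ^ (k - 1) ≠ 0 := by
      have : (16 : F) = 2 ^ 4 := by norm_num
      rw [this]
      exact mul_ne_zero (pow_ne_zero _ h2) (pow_ne_zero _ (neg_ne_zero.2 h2))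
    have hsign : ((-1 : F) ^ k) ≠ 0 := pow_ne_zero _ (neg_ne_zero.2 one_ne_zero)
    by_cases h19 : k = 2 ∧ (19 : F) = 0
    · obtain ⟨rfl, h19⟩ := h19
      have key : ∀ a b : F, (∃ c : F, a - b = c * 19) → a = b := fun a b ⟨c, hc⟩ => by
        rw [h19, mul_zero, sub_eq_zero] at hc; exact hc
      refine conjGen_of_closure _ (e := (14 : F)) ?_ (generates_main (k := 2) le_rfl (2 : F) (-31 : F) h2 ?_ ?_
        (fun C h1 _ => hν C h1) fun _ => ?_)
      · rw [R0]; exact key _ _ ⟨56613, by norm_num⟩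
      · intro h
        exact one_ne_zero (α := F) (by linear_combination 11 * h + 18 * h19)
      · rw [show (2 : F) - -31 + 16 * (-2) ^ (2 - 1) = 1 by norm_num]; exact one_ne_zero
      · rw [show (6 : F) * 2 - 5 * -31 - 128 = 1 from key _ _ ⟨2, by norm_num⟩]; exact one_ne_zero
    refine conjGen_of_closure _ (e := 1) ?_ (generates_main hk ((-1 : F) ^ k) (16 * (-2) ^ (k - 1)) hsign hK
      (by rw [sub_add_cancel]; exact hsign) (fun C h1 _ => hν C h1) ?_)
    · rw [R0, one_pow, one_mul, ← mul_pow]; norm_num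
    · rintro rfl h
      refine h19 ⟨rfl, ?_⟩
      norm_num at h
      have : (2 : F) * 19 = 0 := by linear_combination h
      exact (mul_eq_zero.1 this).resolve_left h2
  refine ⟨?_, fun h => absurd h hq⟩
  obtain ⟨ζ, hζ⟩ := IsCyclic.exists_generator (α := Fˣ)
  have hne := generator_ne_intCast hq hζ
  have hr0 : (ζ : F) - 16 * (-2) ^ (k - 1) + 1 ≠ 0 := fun h => hne (16 * (-2) ^ (k - 1) - 1) (by
    push_cast
    linear_combination h)
  have hdel : (ζ : F) - 16 * (-2) ^ (k - 1) + 1 - ζ + 16 * (-2) ^ (k - 1) = 1 := by ring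
  refine twoGen_of_closure _ (by rw [R0]; exact hr0) (generates_main hk _ (ζ : F) hr0 (Units.ne_zero ζ)
    (by rw [hdel]; exact one_ne_zero) (fun C h1 hC => ?_) ?_)
  · refine addSubgroup_eq_top_of_generator hζ (ν := (ζ : F) * ((-1) ^ k) ^ k) ?_ C h1 fun c hc => ?_
    · rcases neg_one_pow_eq_or F (k * k) with h | h <;> rw [← pow_mul, h]
      · exact Or.inl (mul_one _)
      · exact Or.inr (by ring)
    · have := hC c hc
      rwa [hdel, mul_one] at this
  · rintro rfl h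
    refine hne (-70) ?_
    push_cast
    norm_num at h
    linear_combination h

end Cfsg.Agent.Lib.GLn.TwoUnip
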