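import Cfsg.Agent.Lib.GLn.TwoUnipMain
import Cfsg.Agent.S0801

/-!
# `SL_3` is generated by two conjugate regular unipotent elements
-/

set_option autoImplicit false

namespace Cfsg.Agent.Lib.GLn.TwoUnipThree

open Matrix Cfsg.Agent.Lib.GLn Cfsg.Agent.Lib.GLn.Window Cfsg.Agent.Lib.GLn.TwoUnip

variable {F : Type*} [Field F]

/-- A transvection lies in the group. -/
def InT (G : Subgroup (Matrix.SpecialLinearGroup (Fin 3) F)) (b c : Fin 3 → F) : Prop :=
  ∃ h : c ⬝ᵥ b = 0, tv b c h ∈ G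

variable {G : Subgroup (Matrix.SpecialLinearGroup (Fin 3) F)}

theorem inT_conj {b c : Fin 3 → F} (h : InT G b c) {g : Matrix.SpecialLinearGroup (Fin 3) F} (hg : g ∈ G) :
    InT G ((g : Matrix (Fin 3) (Fin 3) F) *ᵥ b)
      (c ᵥ* ((g⁻¹ : Matrix.SpecialLinearGroup (Fin 3) F) : Matrix (Fin 3) (Fin 3) F)) := by
  obtain ⟨h, h'⟩ := h
  have := mul_mem (mul_mem hg h') (inv_mem hg)
  rw [conj_tv] at this
  exact ⟨_, this⟩

theorem fwd {b c b' c' : Fin 3 → F} (h : InT G b c) {g : Matrix.SpecialLinearGroup (Fin 3) F}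
    (hg : g ∈ G) (hb : (g : Matrix (Fin 3) (Fin 3) F) *ᵥ b = b') (hc : c' ᵥ* (g : Matrix (Fin 3) (Fin 3) F) = c) :
    InT G b' c' := by
  have := inT_conj h hg
  rwa [hb, ← hc, vecMul_coe_mul, mul_inv_cancel, one_vecMul'] at this

theorem bwd {b c b' c' : Fin 3 → F} (h : InT G b c) {g : Matrix.SpecialLinearGroup (Fin 3) F}
    (hg : g ∈ G) (hb : (g : Matrix (Fin 3) (Fin 3) F) *ᵥ b' = b) (hc : c ᵥ* (g : Matrix (Fin 3) (Fin 3) F) = c') :
    InT G b' c' := by
  have := inT_conj h (inv_mem hg)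
  rwa [inv_inv, hc, ← hb, coe_mul_mulVec, inv_mul_cancel, one_mulVec'] at this

theorem inT_add {b b' c : Fin 3 → F} (h : InT G b c) (h' : InT G b' c) : InT G (b + b') c := by
  obtain ⟨e, e'⟩ := h
  obtain ⟨f, f'⟩ := h'
  refine ⟨by rw [dotProduct_add, e, f, add_zero], ?_⟩
  have := mul_mem e' f'
  rwa [tv_mul] at this

theorem inT_zero (c : Fin 3 → F) : InT G 0 c := by
  refine ⟨dotProduct_zero c, ?_⟩
  rw [tv_zero]
  exact one_mem _

theorem inT_neg {b c : Fin 3 → F} (h : InT G b c) : InT G (-b) c := by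
  obtain ⟨e, e'⟩ := h
  refine ⟨by rw [dotProduct_neg, e, neg_zero], ?_⟩
  have := inv_mem e'
  rwa [tv_neg] at this

theorem inT_nsmul {b c : Fin 3 → F} (h : InT G b c) (m : ℕ) : InT G ((m : F) • b) c := by
  induction m with
  | zero => rw [Nat.cast_zero, zero_smul]; exact inT_zero c
  | succ m ih => rw [Nat.cast_succ, add_smul, one_smul]; exact inT_add ih h

theorem inT_axis {b c : Fin 3 → F} {d : F} (h : InT G b (d • c)) (hd : d ≠ 0) : InT G (d • b) c := by
  obtain ⟨h, h'⟩ := h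
  rw [smul_dotProduct, smul_eq_mul, mul_eq_zero] at h
  refine ⟨by rw [dotProduct_smul, h.resolve_left hd, smul_zero], ?_⟩
  convert h' using 1
  apply Subtype.ext
  rw [coe_tv, coe_tv, smul_vecMulVec, vecMulVec_smul]

theorem inT_axis' {b c : Fin 3 → F} {d : F} (h : InT G (d • b) c) : InT G b (d • c) := by
  obtain ⟨h, h'⟩ := h
  rw [dotProduct_smul, smul_eq_mul] at h
  refine ⟨by rw [smul_dotProduct, smul_eq_mul, h], ?_⟩
  convert h' using 1
  apply Subtype.ext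
  rw [coe_tv, coe_tv, smul_vecMulVec, vecMulVec_smul]

theorem inT_axis_add {b c c' : Fin 3 → F} (h : InT G b c) (h' : InT G b c') : InT G b (c + c') := by
  obtain ⟨e, e'⟩ := h
  obtain ⟨f, f'⟩ := h'
  refine ⟨by rw [add_dotProduct, e, f, add_zero], ?_⟩
  convert mul_mem e' f' using 1
  apply Subtype.ext
  rw [Matrix.SpecialLinearGroup.coe_mul, coe_tv, coe_tv, coe_tv, add_mul, one_mul, mul_add, mul_one,
    vecMulVec_mul_vecMulVec, e, zero_smul, vecMulVec_zero, add_zero, vecMulVec_add]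
  abel

theorem lines_of_inT {c : Fin 3 → F} (h : ∀ y, c ⬝ᵥ y = 0 → InT G y c) :
    ∀ y, c ⬝ᵥ y = 0 → y ∈ Lines G c :=
  fun y hy t => h (t • y) (by rw [dotProduct_smul, hy, smul_zero])

theorem full_move {c c' : Fin 3 → F} (h : ∀ y, c ⬝ᵥ y = 0 → y ∈ Lines G c)
    {g : Matrix.SpecialLinearGroup (Fin 3) F} (hg : g ∈ G) (hc : c' ᵥ* (g : Matrix (Fin 3) (Fin 3) F) = c) :
    ∀ y, c' ⬝ᵥ y = 0 → y ∈ Lines G c' := by
  intro y hy
  set z := ((g⁻¹ : Matrix.SpecialLinearGroup (Fin 3) F) : Matrix (Fin 3) (Fin 3) F) *ᵥ y with hz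
  have hyz : y = (g : Matrix (Fin 3) (Fin 3) F) *ᵥ z := by rw [hz, coe_mul_mulVec, mul_inv_cancel, one_mulVec']
  have hcz : c ⬝ᵥ z = 0 := by rw [← hc, ← dotProduct_mulVec, ← hyz]; exact hy
  have := lines_conj hg (h z hcz)
  rwa [← hc, vecMul_coe_mul, mul_inv_cancel, one_vecMul', ← hyz] at this

theorem top_of_three {c₀ c₁ c₂ : Fin 3 → F} (h₀ : ∀ y, c₀ ⬝ᵥ y = 0 → y ∈ Lines G c₀)
    (h₁ : ∀ y, c₁ ⬝ᵥ y = 0 → y ∈ Lines G c₁) (h₂ : ∀ y, c₂ ⬝ᵥ y = 0 → y ∈ Lines G c₂)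
    (hdet : (Matrix.of ![c₀, c₁, c₂]).det ≠ 0) : G = ⊤ := by
  refine eq_top_of_full ![c₀, c₁, c₂] ?_ (fun i => ?_)
  · have hli := Matrix.linearIndependent_rows_iff_isUnit.2
      ((Matrix.isUnit_iff_isUnit_det _).2 (isUnit_iff_ne_zero.2 hdet))
    exact hli.span_eq_top_of_card_eq_finrank (by simp)
  · fin_cases i
    exacts [h₀, h₁, h₂]

/-- The parameters. -/
def par3 (r : F) : Par F 0 where
  R := ![r, 4, 0]
  h2 := rfl
  hl := rfl

theorem par3_R0 (r : F) : (par3 r).R 0 = r := rfl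

theorem ctr3 : ctr F 0 = ![0, 1, 2] := by
  funext i
  fin_cases i <;> simp [ctr, i2, il, Fin.ext_iff, Pi.single_apply]

theorem phi3 (r : F) : phi (par3 r) = ![r, 4, -2] := by
  funext i
  fin_cases i <;> simp [phi, par3, il, Fin.ext_iff, Pi.single_apply]

theorem coe_u3 : (upperJordan 3 F : Matrix (Fin 3) (Fin 3) F) = !![1, 1, 0; 0, 1, 1; 0, 0, 1] := by
  ext i j
  fin_cases i <;> fin_cases j <;> simp [upperJordan, Fin.ext_iff]

theorem coe_v3 (r : F) : (vEl (par3 r) : Matrix (Fin 3) (Fin 3) F) = !![1, 1, 0; 0, 1, 0; r, r + 4, 1] := by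
  rw [vEl, xEl, Matrix.SpecialLinearGroup.coe_mul, Matrix.SpecialLinearGroup.coe_mul, coe_tv, coe_tv, coe_u3]
  ext i j
  fin_cases i <;> fin_cases j <;>
    simp [par3, i2, il, Fin.ext_iff, Pi.single_apply, Matrix.mul_apply, Fin.sum_univ_three, vecMulVec_apply,
      Matrix.one_apply] <;> ring

/-- The group. -/
abbrev gp3 (r : F) : Subgroup (Matrix.SpecialLinearGroup (Fin 3) F) :=
  Subgroup.closure ({upperJordan 3 F, vEl (par3 r)} : Set (Matrix.SpecialLinearGroup (Fin 3) F))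

theorem mem_u3 (r : F) : upperJordan 3 F ∈ gp3 r := Subgroup.subset_closure (Set.mem_insert _ _)

theorem mem_v3 (r : F) : vEl (par3 r) ∈ gp3 r := Subgroup.subset_closure (Set.mem_insert_of_mem _ rfl)

theorem start3 (r : F) : InT (gp3 r) ![0, 1, 2] ![r, 4, -2] := by
  have hx : xEl (par3 r) ∈ gp3 r := by
    have := mul_mem (mem_v3 r) (inv_mem (mem_u3 r))
    rwa [vEl, mul_inv_cancel_right] at this
  have := inv_mem (mul_mem hx hx)
  rw [xEl_sq, tv_neg] at this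
  rw [← ctr3, ← phi3]
  refine ⟨phi_dot_ctr _, ?_⟩
  convert this using 1
  exact tv_congr _ _ (neg_neg _).symm

theorem conjGen3 {r e : F} (he : e ^ 3 * r = 1) (h : gp3 r = ⊤) : ConjGen F 3 :=
  conjGen_of_closure (k := 0) (par3 r) (e := e) (by rw [par3_R0, pow_zero, one_mul]; exact he) h

local macro "chk" : term => `(by
  (try simp only [coe_u3, coe_v3])
  ext i
  fin_cases i <;> simp [Matrix.mulVec, Matrix.vecMul, dotProduct, Fin.sum_univ_three] <;> grind)

/-- Characteristic two. -/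
theorem top_char_two [Fintype F] (h2 : (2 : F) = 0) {r : F} (hr : r ≠ 0)
    (hν : ∀ C : AddSubgroup F, (1 : F) ∈ C → (∀ c ∈ C, r ^ 2 * c ∈ C) → C = ⊤) : gp3 r = ⊤ := by
  set G := gp3 r
  have hu : upperJordan 3 F ∈ G := mem_u3 r
  have hv : vEl (par3 r) ∈ G := mem_v3 r
  have t0 : InT G ![0, 1, 0] ![r, 0, 0] := by
    convert start3 r using 1 <;> ext i <;> fin_cases i <;> simp <;> grind
  have t1 : InT G ![1, 1, 0] ![r, r, r] := fwd t0 hu chk chk
  have t2 : InT G ![0, 1, 0] ![r, 0, r] := fwd t1 hu chk chk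
  have t3 : InT G ![0, r, 0] ![0, 0, 1] := by
    have e : InT G ![0, 1, 0] (r • ![0, 0, 1]) := by
      convert inT_axis_add t0 t2 using 1
      ext i; fin_cases i <;> simp <;> grind
    convert inT_axis e hr using 1
    ext i; fin_cases i <;> simp
  let C : AddSubgroup F :=
    { carrier := {c | InT G ![0, c * r, 0] ![0, 0, 1]}
      zero_mem' := by
        show InT G _ _
        convert inT_zero (G := G) ![0, 0, 1] using 1
        ext i; fin_cases i <;> simp
      add_mem' := fun {x y} hx hy => by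
        show InT G _ _
        convert inT_add hx hy using 1
        ext i; fin_cases i <;> simp [add_mul]
      neg_mem' := fun {x} hx => by
        show InT G _ _
        convert inT_neg hx using 1
        ext i; fin_cases i <;> simp }
  have h1 : (1 : F) ∈ C := by show InT G _ _; rwa [one_mul]
  have hA : ∀ c ∈ C, InT G ![c * r, c * r, 0] ![0, 0, 1] := fun c hc => fwd hc hu chk chk
  have hB : ∀ c ∈ C, InT G ![c * r, 0, 0] ![0, 0, 1] := fun c hc => by
    convert inT_add (hA c hc) hc using 1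
    ext i; fin_cases i <;> simp <;> grind
  have hstep : ∀ c ∈ C, r ^ 2 * c ∈ C := by
    intro c hc
    show InT G _ _
    have hb : InT G ![c * r, 0, c * r * r] ![r, 0, 1] := fwd (hB c hc) hv chk chk
    obtain ⟨hb0, hb'⟩ := hb
    obtain ⟨hc0, hc'⟩ := (show InT G ![0, 1 * r, 0] ![0, 0, 1] from h1)
    have hψc : ![r, 0, 1] ⬝ᵥ (![0, 1 * r, 0] : Fin 3 → F) = 0 := by
      simp [dotProduct, Fin.sum_univ_three]
    have hm := mul_mem (mul_mem (mul_mem hb' hc') (inv_mem hb')) (inv_mem hc')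
    rw [commutator_tv _ _ _ _ hb0 hc0 hψc] at hm
    have h3' : InT G (-((![0, 0, 1] : Fin 3 → F) ⬝ᵥ ![c * r, 0, c * r * r]) • ![0, 1 * r, 0]) ![r, 0, 1] := ⟨_, hm⟩
    have h3 : InT G ![0, r ^ 2 * c * r, 0] ![r, 0, 1] := by
      convert h3' using 1
      ext i; fin_cases i <;> simp [dotProduct, Fin.sum_univ_three] <;> grind
    have h4 : InT G ![r ^ 2 * c * r, r ^ 2 * c * r, 0] ![0, 0, 1] := bwd h3 hv chk chk
    exact bwd h4 hu chk chk
  have hC : ∀ c : F, c ∈ C := fun c => hν C h1 hstep ▸ AddSubgroup.mem_top c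
  have h₀ : ∀ y, ![0, 0, 1] ⬝ᵥ y = 0 → y ∈ Lines G ![0, 0, 1] := lines_of_inT fun y hy => by
    simp [dotProduct, Fin.sum_univ_three] at hy
    convert inT_add (hB (y 0 / r) (hC _)) (show InT G ![0, y 1 / r * r, 0] ![0, 0, 1] from hC _) using 1
    ext i; fin_cases i <;> simp [hr, hy]
  have h₁ : ∀ y, ![r, 0, 1] ⬝ᵥ y = 0 → y ∈ Lines G ![r, 0, 1] := full_move h₀ hv chk
  have h₂ : ∀ y, ![r, r, r + 1] ⬝ᵥ y = 0 → y ∈ Lines G ![r, r, r + 1] := full_move h₁ hu chk
  refine top_of_three h₀ h₁ h₂ ?_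
  rw [det_fin_three]
  simp
  exact hr

/-- The embedding of `SL_2` on the plane of the first two centres. -/
theorem lines_start [Fintype F] (h2 : (2 : F) ≠ 0) {r : F} (hr : (r + 8) * (r - 8) ≠ 0)
    (hgen : Subfield.closure ({(r + 8) * (r - 8)} : Set F) = ⊤)
    (hexc : ¬(Fintype.card F = 9 ∧ ((r + 8) * (r - 8)) ^ 2 = -1)) :
    ![0, 1, 2] ∈ Lines (gp3 r) ![r, 4, -2] := by
  classical
  set G := gp3 r
  have hf : r + 8 ≠ 0 := (mul_ne_zero_iff.1 hr).1
  have hm : r - 8 ≠ 0 := (mul_ne_zero_iff.1 hr).2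
  let B : Matrix (Fin 3) (Fin 2) F := !![0, 1; (r - 8)⁻¹, 3; 2 * (r - 8)⁻¹, 2]
  let P : Matrix (Fin 2) (Fin 3) F :=
    !![r, 4 - r, r - 6; r * (r + 8)⁻¹, 4 * (r + 8)⁻¹, -2 * (r + 8)⁻¹]
  have hPB : P * B = 1 := by
    ext i j
    fin_cases i <;> fin_cases j <;> simp [P, B, Matrix.mul_apply, Fin.sum_univ_three] <;>
      field_simp <;> ring
  let ι : Matrix.SpecialLinearGroup (Fin 2) F →* Matrix.SpecialLinearGroup (Fin 3) F :=
    { toFun := fun g => ⟨1 + B * (((g : Matrix (Fin 2) (Fin 2) F) - 1) * P), by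
        rw [det_one_add_mul_comm, Matrix.mul_assoc, hPB, Matrix.mul_one, add_sub_cancel, g.2]⟩
      map_one' := Subtype.ext (by simp)
      map_mul' := fun g h => Subtype.ext (by
        change (1 : Matrix (Fin 3) (Fin 3) F) + B * (((((g * h : Matrix.SpecialLinearGroup (Fin 2) F)) :
            Matrix (Fin 2) (Fin 2) F) - 1) * P) = (1 + B * (((g : Matrix (Fin 2) (Fin 2) F) - 1) * P)) *
          (1 + B * (((h : Matrix (Fin 2) (Fin 2) F) - 1) * P))
        rw [Matrix.SpecialLinearGroup.coe_mul]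
        have e : (B * (((g : Matrix (Fin 2) (Fin 2) F) - 1) * P)) * (B * (((h : Matrix (Fin 2) (Fin 2) F) - 1) * P)) =
            B * ((((g : Matrix (Fin 2) (Fin 2) F) - 1) * ((h : Matrix (Fin 2) (Fin 2) F) - 1)) * P) := by
          simp only [Matrix.mul_assoc]
          rw [← Matrix.mul_assoc P B, hPB, Matrix.one_mul]
        rw [add_mul, mul_add, mul_add, e, one_mul, mul_one, one_mul]
        simp only [sub_mul, mul_sub, Matrix.sub_mul, Matrix.mul_sub, Matrix.one_mul, Matrix.mul_one]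
        abel) }
  have hS := (Cfsg.Agent.S0801.result h2 _ hr hgen).resolve_right (fun h => hexc ⟨h.1, h.2.1⟩)
  have hall : ∀ g, ι g ∈ G := by
    intro g
    have : g ∈ G.comap ι := by
      refine (Subgroup.closure_le _).2 ?_ (hS.1 ▸ Subgroup.mem_top g)
      intro g' hg'
      change ι g' ∈ G
      rcases hg' with hg' | hg'
      · have h1 : InT G ![1, 3, 2] ![r, 4 - r, r - 6] := fwd (start3 r) (mem_u3 r) chk chk
        obtain ⟨h1, h1'⟩ := h1
        convert h1' using 1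
        apply Subtype.ext
        change 1 + B * (((g' : Matrix (Fin 2) (Fin 2) F) - 1) * P) = 1 + vecMulVec _ _
        rw [hg']
        ext i j
        fin_cases i <;> fin_cases j <;>
          simp [P, B, Matrix.mul_apply, Matrix.vecMul, dotProduct, Fin.sum_univ_two, vecMulVec_apply, Matrix.one_apply] <;>
            (try field_simp) <;> (try ring)
      · obtain ⟨h1, h1'⟩ := start3 r
        convert h1' using 1
        apply Subtype.ext
        change 1 + B * (((g' : Matrix (Fin 2) (Fin 2) F) - 1) * P) = 1 + vecMulVec _ _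
        rw [hg']
        ext i j
        fin_cases i <;> fin_cases j <;>
          simp [P, B, Matrix.mul_apply, Matrix.vecMul, dotProduct, Fin.sum_univ_two, vecMulVec_apply, Matrix.one_apply] <;>
            (try field_simp) <;> (try ring)
    exact this
  intro t
  have hdot : (![r, 4, -2] : Fin 3 → F) ⬝ᵥ (t • ![0, 1, 2]) = 0 := by
    simp [dotProduct, Fin.sum_univ_three]; ring
  refine ⟨hdot, ?_⟩
  convert hall ⟨!![1, t * (r + 8) * (r - 8); 0, 1], by simp [det_fin_two]⟩ using 1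
  apply Subtype.ext
  change 1 + vecMulVec _ _ = 1 + B * ((!![1, t * (r + 8) * (r - 8); 0, 1] - 1) * P)
  ext i j
  fin_cases i <;> fin_cases j <;>
    simp [P, B, Matrix.mul_apply, Matrix.vecMul, dotProduct, Fin.sum_univ_two, vecMulVec_apply, Matrix.one_apply] <;>
            (try field_simp) <;> (try ring)

/-- Odd characteristic. -/
theorem top_odd [Fintype F] (h2 : (2 : F) ≠ 0) {r : F} (hr0 : r ≠ 0) (hr : (r + 8) * (r - 8) ≠ 0)
    (hr4 : r + 4 ≠ 0)
    (hgen : Subfield.closure ({(r + 8) * (r - 8)} : Set F) = ⊤)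
    (hexc : ¬(Fintype.card F = 9 ∧ ((r + 8) * (r - 8)) ^ 2 = -1)) : gp3 r = ⊤ := by
  set G := gp3 r
  have hf : r + 8 ≠ 0 := (mul_ne_zero_iff.1 hr).1
  have hm : r - 8 ≠ 0 := (mul_ne_zero_iff.1 hr).2
  have h4 : (4 : F) ≠ 0 := by rw [show (4 : F) = 2 * 2 by norm_num]; exact mul_ne_zero h2 h2
  have hu : upperJordan 3 F ∈ G := mem_u3 r
  have l0 : ![0, 1, 2] ∈ Lines G ![r, 4, -2] := lines_start h2 hr hgen hexc
  have mv : ∀ {a c a' c' : Fin 3 → F}, a ∈ Lines G c → (upperJordan 3 F : Matrix (Fin 3) (Fin 3) F) *ᵥ a = a' →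
      c' ᵥ* (upperJordan 3 F : Matrix (Fin 3) (Fin 3) F) = c → a' ∈ Lines G c' := by
    intro a c a' c' ha hb hc
    have := lines_conj hu ha
    rwa [hb, ← hc, vecMul_coe_mul, mul_inv_cancel, one_vecMul'] at this
  have l1 : ![1, 3, 2] ∈ Lines G ![r, 4 - r, r - 6] := mv l0 chk chk
  have l2 : ![4, 5, 2] ∈ Lines G ![r, 4 - 2 * r, 3 * r - 10] := mv l1 chk chk
  have hf2a : r * 4 + 16 ≠ 0 := by rw [show r * 4 + 16 = 4 * (r + 4) by ring]; exact mul_ne_zero h4 hr4
  have hf2b : 16 + r * 4 ≠ 0 := by rw [add_comm]; exact hf2a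
  set σ := -(r + 8) / ((r - 8) * (4 * r + 16)) with hσ
  have hf2 : 4 * r + 16 ≠ 0 := by rw [show 4 * r + 16 = 4 * (r + 4) by ring]; exact mul_ne_zero h4 hr4
  obtain ⟨hg0, hg⟩ := l2 σ
  set g := tv (σ • ![4, 5, 2]) ![r, 4 - 2 * r, 3 * r - 10] hg0
  have hz := lines_conj hg l1
  set z := (g : Matrix (Fin 3) (Fin 3) F) *ᵥ ![1, 3, 2] with hzdef
  set ψ := ![r, 4 - r, r - 6] ᵥ* ((g⁻¹ : Matrix.SpecialLinearGroup (Fin 3) F) : Matrix (Fin 3) (Fin 3) F) with hψdef
  have hz' : z = ![1, 3, 2] + (σ * (r - 8)) • ![4, 5, 2] := by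
    rw [hzdef, coe_tv, add_mulVec, one_mulVec, vecMulVec_mulVec]
    ext i
    fin_cases i <;> simp [dotProduct, Fin.sum_univ_three] <;> ring
  have hψ' : ψ = ![r, 4 - r, r - 6] - (σ * (r + 8)) • ![r, 4 - 2 * r, 3 * r - 10] := by
    rw [hψdef, tv_neg, coe_tv, vecMul_add, vecMul_one, vecMul_vecMulVec]
    ext i
    fin_cases i <;> simp [dotProduct, Fin.sum_univ_three] <;> ring
  have hz0 : (![r, 4, -2] : Fin 3 → F) ⬝ᵥ z = 0 := by
    rw [hz']
    simp [dotProduct, Fin.sum_univ_three, hσ]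
    field_simp
    ring
  have hψa : ψ ⬝ᵥ ![0, 1, 2] ≠ 0 := by
    have : ψ ⬝ᵥ ![0, 1, 2] = 8 * r ^ 3 / ((r - 8) * (4 * r + 16)) := by
      rw [hψ', hσ]
      simp [dotProduct, Fin.sum_univ_three]
      field_simp
      ring
    rw [this]
    refine div_ne_zero (mul_ne_zero ?_ (pow_ne_zero _ hr0)) (mul_ne_zero hm hf2)
    rw [show (8 : F) = 2 * 4 by norm_num]
    exact mul_ne_zero h2 h4
  have lz : z ∈ Lines G ![r, 4, -2] := lines_comm l0 hz hz0 hψa
  set κ := σ * (r - 8) with hκ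
  have hκ' : κ = -(r + 8) / (4 * r + 16) := by rw [hκ, hσ]; field_simp
  have hk1 : 1 + κ * 4 ≠ 0 := by
    have : 1 + κ * 4 = -(4 * 4) / (4 * r + 16) := by rw [hκ']; field_simp; ring
    rw [this]
    exact div_ne_zero (neg_ne_zero.2 (mul_ne_zero h4 h4)) hf2
  have hfull : ∀ y, (![r, 4, -2] : Fin 3 → F) ⬝ᵥ y = 0 → y ∈ Lines G ![r, 4, -2] := by
    intro y hy
    set β := y 0 / (1 + κ * 4) with hβ
    set α := y 1 - β * (3 + κ * 5) with hα
    have hy' : y = α • ![0, 1, 2] + β • z := by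
      have hβ' : β * (1 + κ * 4) = y 0 := div_mul_cancel₀ _ hk1
      have hz0' := hz0
      rw [hz'] at hz0' ⊢
      simp [dotProduct, Fin.sum_univ_three] at hy hz0'
      ext i
      fin_cases i
      · simp; linear_combination -hβ'
      · simp [hα]
      · have : (2 : F) * (y 2 - (α * 2 + β * (2 + κ * 2))) = 0 := by
          rw [hα]
          linear_combination (-1 : F) * hy + β * hz0' - r * hβ'
        have := (mul_eq_zero.1 this).resolve_left h2
        simp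
        linear_combination this
    rw [hy']
    exact add_mem (Submodule.smul_mem _ _ l0) (Submodule.smul_mem _ _ lz)
  refine top_of_three hfull (full_move hfull hu (c' := ![r, 4 - r, r - 6]) chk)
    (full_move (full_move hfull hu (c' := ![r, 4 - r, r - 6]) chk) hu (c' := ![r, 4 - 2 * r, 3 * r - 10]) chk) ?_
  rw [det_fin_three]
  simp
  intro h
  have : r ^ 3 = 0 := by linear_combination -h
  exact pow_ne_zero 3 hr0 this

/-- The field with four elements. -/
theorem conjGen_four [Fintype F] (h2 : (2 : F) = 0) (w : F) (hw : w * w = w + 1)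
    (hall : ∀ x : F, x = 0 ∨ x = 1 ∨ x = w ∨ x = w + 1) : ConjGen F 3 := by
  obtain ⟨g, hgm⟩ : ∃ g : Matrix.SpecialLinearGroup (Fin 3) F,
      (g : Matrix (Fin 3) (Fin 3) F) = !![1, 0, 0; 1, 1, 0; 0, w, 1] :=
    ⟨⟨!![1, 0, 0; 1, 1, 0; 0, w, 1], by simp [det_fin_three]⟩, rfl⟩
  refine ⟨upperJordan 3 F, g, upperJordan_regular 3 (by omega), ?_⟩
  set G := Subgroup.closure ({upperJordan 3 F, g * upperJordan 3 F * g⁻¹} : Set (Matrix.SpecialLinearGroup (Fin 3) F))
  have hu : upperJordan 3 F ∈ G := Subgroup.subset_closure (Set.mem_insert _ _)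
  have hv : g * upperJordan 3 F * g⁻¹ ∈ G := Subgroup.subset_closure (Set.mem_insert_of_mem _ rfl)
  have coe_v : ((g * upperJordan 3 F * g⁻¹ : Matrix.SpecialLinearGroup (Fin 3) F) : Matrix (Fin 3) (Fin 3) F) =
      !![0, 1, 0; w + 1, w, 1; w + 1, w + 1, w + 1] := by
    have : (g : Matrix (Fin 3) (Fin 3) F) * (upperJordan 3 F : Matrix (Fin 3) (Fin 3) F) =
        !![0, 1, 0; w + 1, w, 1; w + 1, w + 1, w + 1] * (g : Matrix (Fin 3) (Fin 3) F) := by
      rw [hgm, coe_u3]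
      ext i j
      fin_cases i <;> fin_cases j <;> simp [Matrix.mul_apply, Fin.sum_univ_three] <;> grind
    rw [Matrix.SpecialLinearGroup.coe_mul, Matrix.SpecialLinearGroup.coe_mul, this, mul_assoc,
      ← Matrix.SpecialLinearGroup.coe_mul, mul_inv_cancel, Matrix.SpecialLinearGroup.coe_one, mul_one]
  have k0 : InT G ![1, 0, 0] ![0, 0, 1] := by
    refine ⟨by simp [dotProduct, Fin.sum_univ_three], ?_⟩
    convert mul_mem hu hu using 1
    apply Subtype.ext
    rw [coe_tv, Matrix.SpecialLinearGroup.coe_mul, coe_u3]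
    ext i j
    fin_cases i <;> fin_cases j <;> simp [Matrix.mul_apply, Fin.sum_univ_three, vecMulVec_apply] <;> grind
  have k1 : InT G ![0, w + 1, w + 1] ![w + 1, w + 1, w + 1] :=
    fwd k0 hv (by rw [coe_v]; exact chk) (by rw [coe_v]; exact chk)
  have k2 : InT G ![w + 1, w, 0] ![0, 0, 1] :=
    fwd k1 hv (by rw [coe_v]; exact chk) (by rw [coe_v]; exact chk)
  have k3 : InT G ![1, w, 0] ![0, 0, 1] := fwd k2 hu chk chk
  have k4 : InT G ![w, 0, w] ![w + 1, w + 1, w + 1] :=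
    fwd k3 hv (by rw [coe_v]; exact chk) (by rw [coe_v]; exact chk)
  have k5 : InT G ![0, w + 1, 0] ![0, 0, 1] :=
    fwd k4 hv (by rw [coe_v]; exact chk) (by rw [coe_v]; exact chk)
  have ew1 : InT G ![0, w, 0] ![0, 0, 1] := by
    convert inT_add k3 k0 using 1; ext i; fin_cases i <;> simp <;> grind
  have ev0 : InT G ![w + 1, 0, 0] ![0, 0, 1] := by
    convert inT_add k2 ew1 using 1; ext i; fin_cases i <;> simp <;> grind
  have ew0 : InT G ![w, 0, 0] ![0, 0, 1] := by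
    convert inT_add ev0 k0 using 1; ext i; fin_cases i <;> simp <;> grind
  have e11 : InT G ![0, 1, 0] ![0, 0, 1] := by
    convert inT_add k5 ew1 using 1; ext i; fin_cases i <;> simp <;> grind
  have h00 : InT G ![0, 0, 0] ![0, 0, 1] := by
    convert inT_zero (G := G) ![0, 0, 1] using 1; ext i; fin_cases i <;> simp
  have A : ∀ x, InT G ![x, 0, 0] ![0, 0, 1] := fun x => by
    rcases hall x with rfl | rfl | rfl | rfl <;> assumption
  have B : ∀ x, InT G ![0, x, 0] ![0, 0, 1] := fun x => by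
    rcases hall x with rfl | rfl | rfl | rfl <;> assumption
  have h₀ : ∀ y, ![0, 0, 1] ⬝ᵥ y = 0 → y ∈ Lines G ![0, 0, 1] := lines_of_inT fun y hy => by
    simp [dotProduct, Fin.sum_univ_three] at hy
    convert inT_add (A (y 0)) (B (y 1)) using 1
    ext i; fin_cases i <;> simp [hy]
  have h₁ : ∀ y, ![w + 1, w + 1, w + 1] ⬝ᵥ y = 0 → y ∈ Lines G ![w + 1, w + 1, w + 1] :=
    full_move h₀ hv (by rw [coe_v]; exact chk)
  have h₂ : ∀ y, ![w + 1, 0, w + 1] ⬝ᵥ y = 0 → y ∈ Lines G ![w + 1, 0, w + 1] := full_move h₁ hu chk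
  refine top_of_three h₀ h₁ h₂ ?_
  rw [det_fin_three]
  simp
  intro h
  grind

/-- The field with twenty five elements. -/
theorem top_twentyfive [Fintype F] (h5 : (5 : F) = 0) (s : F) (hs : s * s = 2)
    (hall : ∀ x : F, ∃ m n : ℕ, x = (m : F) + (n : F) * s) : gp3 s = ⊤ := by
  set G := gp3 s
  have hu : upperJordan 3 F ∈ G := mem_u3 s
  have hv : vEl (par3 s) ∈ G := mem_v3 s
  have h20 : (2 : F) ≠ 0 := fun h => one_ne_zero (α := F) (by linear_combination h5 - 2 * h)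
  have hs0 : s ≠ 0 := fun h => h20 (by rw [← hs, h, mul_zero])
  have k0 : InT G ![0, 1, 2] ![s, 4, 3] := by
    convert start3 s using 1
    ext i; fin_cases i <;> simp <;> grind
  have k1 : InT G ![1, 3, 2] ![s, 4 + 4 * s, 4 + s] :=
    fwd k0 hu chk chk
  have k2 : InT G ![4, 3, 4 + 4 * s] ![3 + 2 * s, 3 + 4 * s, 4 + s] :=
    fwd k1 hv chk chk
  have k3 : InT G ![2, 3, 1 + s] ![1 + 3 * s, 4 + 3 * s, 4 + s] :=
    fwd k2 hv chk chk
  have k4 : InT G ![0, 4 + s, 1 + s] ![1 + 3 * s, 3, 1 + s] :=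
    fwd k3 hu chk chk
  have k5 : InT G ![4 + s, 2 * s, 1 + s] ![1 + 3 * s, 2 + 2 * s, 4 + 4 * s] :=
    fwd k4 hu chk chk
  have k6 : InT G ![4 + s, 4 + s, 4 + 4 * s] ![4 + 2 * s, 3 + 3 * s, 1 + s] :=
    fwd k4 hv chk chk
  have k7 : InT G ![3, 3, 4 * s] ![2, 2 + 3 * s, 4 + s] :=
    bwd k1 hv chk chk
  have k8 : InT G ![4 * s, 3 + s, 4 * s] ![2, 4 + 3 * s, 1 + 4 * s] :=
    bwd k7 hu chk chk
  have k9 : InT G ![3, 3 + s, 2 + s] ![4 + 4 * s, 3 + 2 * s, 1 + 4 * s] :=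
    fwd k8 hv chk chk
  have k10 : InT G ![2, 1, 2 + s] ![4 + 4 * s, 2 + s, 4 + s] :=
    bwd k9 hu chk chk
  have k11 : InT G ![3, 1, 1 + 4 * s] ![2, 2 + 3 * s, 4 + s] :=
    fwd k10 hv chk chk
  have k12 : InT G ![4, 1, 3 * s] ![s, 4 + 4 * s, 4 + s] :=
    fwd k11 hv chk chk
  have k13 : InT G ![3 + 3 * s, 1 + 2 * s, 3 * s] ![s, 4, 3] :=
    bwd k12 hu chk chk
  have hd5 : (3 + 3 * s : F) ≠ 0 := fun h => one_ne_zero (α := F) (by grind)
  have hd6 : (2 + 2 * s : F) ≠ 0 := fun h => one_ne_zero (α := F) (by grind)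
  have e5 : InT G ![3, 2 + s, 4 + s] ![s, 4, 3] := by
    have : InT G ![4 + s, 2 * s, 1 + s] ((3 + 3 * s) • ![s, 4, 3]) := by
      convert k5 using 1; ext i; fin_cases i <;> simp <;> grind
    convert inT_axis this hd5 using 1
    ext i; fin_cases i <;> simp <;> grind
  have e6 : InT G ![2, 2, 4 + s] ![s, 4, 3] := by
    have : InT G ![4 + s, 4 + s, 4 + 4 * s] ((2 + 2 * s) • ![s, 4, 3]) := by
      convert k6 using 1; ext i; fin_cases i <;> simp <;> grind
    convert inT_axis this hd6 using 1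
    ext i; fin_cases i <;> simp <;> grind
  have hfull : ∀ y, (![s, 4, 3] : Fin 3 → F) ⬝ᵥ y = 0 → y ∈ Lines G ![s, 4, 3] := lines_of_inT fun y hy => by
    obtain ⟨a, b, h0⟩ := hall (y 0)
    obtain ⟨c, d, h1⟩ := hall (y 1)
    set δ : ℕ := 2 * b with hδ
    set β : ℕ := d + b with hβ
    set γ : ℕ := 3 * (a + 2 * β + 2 * δ) with hγ
    set α : ℕ := c + 3 * β + 3 * γ + 4 * δ with hα
    simp [dotProduct, Fin.sum_univ_three, h0, h1] at hy
    convert inT_add (inT_add (inT_nsmul k0 α) (inT_nsmul e5 β)) (inT_add (inT_nsmul e6 γ) (inT_nsmul k13 δ)) using 1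
    ext i
    fin_cases i <;> simp [hα, hβ, hγ, hδ, h0, h1] <;> grind
  refine top_of_three hfull (full_move hfull hu (c' := ![s, 4 - s, 4 + s]) chk)
    (full_move (full_move hfull hu (c' := ![s, 4 - s, 4 + s]) chk) hu (c' := ![s, 4 - 2 * s, 3 * s]) chk) ?_
  rw [det_fin_three]
  simp
  intro h
  exact hs0 (by grind)

end Cfsg.Agent.Lib.GLn.TwoUnipThree
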