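import Cfsg.Agent.Lib.GLn.TwoUnipThree

/-!
# `SL_3`: choice of parameters
-/

set_option autoImplicit false

namespace Cfsg.Agent.Lib.GLn.TwoUnipThree

open Matrix Cfsg.Agent.Lib.GLn Cfsg.Agent.Lib.GLn.TwoUnip

variable {F : Type*} [Field F] [Fintype F]

theorem two_not_square : ∀ y z : ZMod 5, y * y - 2 * (z * z) = 0 → z = 0 := by decide

theorem closure_eq_top {p e : ℕ} [Fact p.Prime] [CharP F p] (he : Fintype.card F = p ^ e) {ν : F}
    (h : ∀ d, 1 ≤ d → 2 * d ≤ e → ν ^ p ^ d ≠ ν) : Subfield.closure ({ν} : Set F) = ⊤ := by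
  set K := Subfield.closure ({ν} : Set F)
  rcases addSubgroup_top_or he ν K.toSubring.toAddSubgroup K.one_mem
      (fun c hc => K.mul_mem (Subfield.subset_closure rfl) hc) with hK | ⟨d, h1, h2, h3⟩
  · rw [eq_top_iff]
    intro x _
    change x ∈ K.toSubring.toAddSubgroup
    rw [hK]
    trivial
  · exact absurd h3 (h d h1 h2)

theorem exists_cube_param {p e : ℕ} [Fact p.Prime] [CharP F p] (he : Fintype.card F = p ^ e) (he2 : 2 ≤ e)
    (hp : 3 ≤ p) (h2 : e = 2 → 7 ≤ p) :
    ∃ w : F, ∀ d, 1 ≤ d → 2 * d ≤ e → ((w ^ 3 + 8) * (w ^ 3 - 8)) ^ p ^ d ≠ (w ^ 3 + 8) * (w ^ 3 - 8) := by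
  classical
  set N : Polynomial F := (Polynomial.X ^ 3 + Polynomial.C 8) * (Polynomial.X ^ 3 - Polynomial.C 8) with hN
  have hNdeg : N.natDegree = 6 := by
    rw [hN, Polynomial.natDegree_mul (Polynomial.X_pow_add_C_ne_zero (by norm_num) _)
      (Polynomial.X_pow_sub_C_ne_zero (by norm_num) _), Polynomial.natDegree_X_pow_add_C,
      Polynomial.natDegree_X_pow_sub_C]
  let P : ℕ → Polynomial F := fun d => N ^ p ^ d - N
  have hPdeg : ∀ d, 1 ≤ d → (P d).natDegree = 6 * p ^ d := fun d hd => by
    have h3 : 3 ≤ p ^ d := hp.trans (Nat.le_self_pow (by omega) p)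
    rw [Polynomial.natDegree_sub_eq_left_of_natDegree_lt, Polynomial.natDegree_pow, hNdeg, mul_comm]
    rw [Polynomial.natDegree_pow, hNdeg]
    omega
  set B : Finset F := (Finset.Icc 1 (e / 2)).biUnion fun d => (P d).roots.toFinset with hB
  have hBcard : B.card < Fintype.card F := by
    calc B.card ≤ ∑ d ∈ Finset.Icc 1 (e / 2), ((P d).roots.toFinset).card := Finset.card_biUnion_le
      _ ≤ ∑ d ∈ Finset.Icc 1 (e / 2), 6 * p ^ d := by
          refine Finset.sum_le_sum fun d hd => ?_
          refine (Multiset.toFinset_card_le _).trans ((Polynomial.card_roots' _).trans (le_of_eq ?_))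
          exact hPdeg d (Finset.mem_Icc.1 hd).1
      _ < Fintype.card F := by
          rw [he, ← Finset.mul_sum]
          rcases Nat.lt_or_ge e 4 with h4 | h4
          · have : e / 2 = 1 := by omega
            rw [this, Finset.Icc_self, Finset.sum_singleton, pow_one]
            rcases (show e = 2 ∨ e = 3 by omega) with rfl | rfl
            · rw [pow_two]
              exact Nat.mul_lt_mul_of_pos_right (by have := h2 rfl; omega) (by omega)
            · have : 9 * p ≤ p ^ 3 := by rw [pow_succ]; exact Nat.mul_le_mul_right p (by nlinarith)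
              omega
          · have h1 := sum_pow_le hp (e / 2)
            have h2' : p ^ (e / 2) * p ^ (e / 2) ≤ p ^ e := by
              rw [← pow_add]; exact Nat.pow_le_pow_right (by omega) (by omega)
            by_cases hsmall : p = 3 ∧ e / 2 = 2
            · obtain ⟨rfl, hh⟩ := hsmall
              rw [hh]
              calc 6 * ∑ d ∈ Finset.Icc 1 2, 3 ^ d = 72 := by decide
                _ < 3 ^ 4 := by norm_num
                _ ≤ 3 ^ e := Nat.pow_le_pow_right (by norm_num) h4
            have h3 : 10 ≤ p ^ (e / 2) := by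
              by_cases hp3 : p = 3
              · subst hp3
                calc 10 ≤ 3 ^ 3 := by norm_num
                  _ ≤ 3 ^ (e / 2) := Nat.pow_le_pow_right (by norm_num) (by omega)
              · have : 4 ≤ p := by omega
                calc 10 ≤ p ^ 2 := by nlinarith
                  _ ≤ p ^ (e / 2) := Nat.pow_le_pow_right (by omega) (by omega)
            nlinarith
  obtain ⟨s, hs⟩ : ∃ s, s ∉ B := by
    by_contra hc
    push Not at hc
    have : Fintype.card F ≤ B.card := Finset.card_le_card fun x _ => hc x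
    omega
  simp only [hB, Finset.mem_biUnion, Finset.mem_Icc, Multiset.mem_toFinset, not_exists, not_and] at hs
  refine ⟨s, fun d hd1 hd2 hd3 => ?_⟩
  have hPd : P d ≠ 0 := fun h => by
    have h' := hPdeg d hd1
    rw [h, Polynomial.natDegree_zero] at h'
    have := pow_pos (show 0 < p by omega) d
    omega
  refine hs d ⟨hd1, by omega⟩ ((Polynomial.mem_roots hPd).2 ?_)
  simp [P, N, hd3]

/-- `SL_3` is generated by two conjugate regular unipotent elements. -/
theorem main_three : ConjGen F 3 := by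
  classical
  have hone : (1 : F) ≠ 0 := one_ne_zero
  obtain ⟨p, hchar⟩ := CharP.exists F
  haveI : Fact p.Prime := ⟨CharP.char_is_prime F p⟩
  obtain ⟨e, hpp, he⟩ := FiniteField.card F p
  have hp0 : (p : F) = 0 := CharP.cast_eq_zero F p
  by_cases hp2 : p = 2
  · subst hp2
    have h2 : (2 : F) = 0 := by exact_mod_cast hp0
    by_cases he1 : (e : ℕ) = 1
    · have hq : (Fintype.card F).Prime := by rw [he, he1, pow_one]; exact hpp
      exact conjGen3 (r := (1 : F)) (e := 1) (by ring) (top_char_two h2 hone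
        fun C h1 _ => addSubgroup_eq_top_of_prime (natCast_surj hq) C h1)
    by_cases he2 : (e : ℕ) = 2
    · rw [he2] at he
      obtain ⟨w, hw⟩ : ∃ w : F, w ∉ ({0, 1} : Finset F) := by
        by_contra hc
        push Not at hc
        have h1 := (Finset.card_le_card (fun x (_ : x ∈ Finset.univ) => hc x)).trans Finset.card_le_two
        rw [Finset.card_univ, he] at h1
        norm_num at h1
      simp only [Finset.mem_insert, Finset.mem_singleton, not_or] at hw
      have hall : ∀ x : F, x ≠ 0 → x ≠ 1 → x * x = x + 1 := fun x hx0 hx1 => by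
        have h4 := FiniteField.pow_card_sub_one_eq_one x hx0
        rw [he] at h4
        norm_num at h4
        have : (x - 1) * (x * x + x + 1) = 0 := by linear_combination h4
        have := (mul_eq_zero.1 this).resolve_left (sub_ne_zero.2 hx1)
        linear_combination this - (x + 1) * h2
      have hw2 := hall w hw.1 hw.2
      refine conjGen_four h2 w hw2 fun x => ?_
      by_cases hx0 : x = 0
      · exact Or.inl hx0
      by_cases hx1 : x = 1
      · exact Or.inr (Or.inl hx1)
      have hx := hall x hx0 hx1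
      have : (x - w) * (x - (w + 1)) = 0 := by linear_combination hx + hw2 + (1 + w - x * w) * h2
      rcases mul_eq_zero.1 this with h | h
      · exact Or.inr (Or.inr (Or.inl (sub_eq_zero.1 h)))
      · exact Or.inr (Or.inr (Or.inr (sub_eq_zero.1 h)))
    obtain ⟨ζ, hζ⟩ := IsCyclic.exists_generator (α := Fˣ)
    have hz : ((ζ : F) ^ 3) ≠ 0 := pow_ne_zero _ ζ.ne_zero
    refine conjGen3 (r := ((ζ : F) ^ 3)⁻¹) (e := (ζ : F)) (mul_inv_cancel₀ hz)
      (top_char_two h2 (inv_ne_zero hz) fun C h1 hC => ?_)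
    refine (addSubgroup_top_or (p := 2) he _ C h1 hC).resolve_right ?_
    rintro ⟨d, hd1, hd2, hd3⟩
    set r := ((ζ : F) ^ 3)⁻¹ with hrdef
    have hr : r ^ 2 ^ d = r := by
      have : (r ^ 2 ^ d - r) ^ 2 = 0 := by
        have e1 : (r ^ 2) ^ 2 ^ d = (r ^ 2 ^ d) ^ 2 := by rw [← pow_mul, ← pow_mul, mul_comm]
        rw [e1] at hd3
        linear_combination hd3 + (r ^ 2 - r ^ 2 ^ d * r) * h2
      exact sub_eq_zero.1 (eq_zero_of_pow_eq_zero this)
    rw [hrdef, inv_pow, _root_.inv_inj] at hr
    have hd4 : ζ ^ (3 * (2 ^ d - 1)) = 1 := by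
      have h3 : ζ ^ (3 * 2 ^ d) = ζ ^ 3 := Units.ext (by push_cast; rw [pow_mul]; exact hr)
      have hX : 1 ≤ 2 ^ d := Nat.one_le_two_pow
      have : 3 * 2 ^ d = 3 + 3 * (2 ^ d - 1) := by omega
      rw [this, pow_add] at h3
      exact mul_left_cancel (h3.trans (mul_one _).symm)
    have hord : orderOf ζ = 2 ^ (e : ℕ) - 1 := by
      rw [orderOf_eq_card_of_forall_mem_zpowers hζ, Nat.card_eq_fintype_card, Fintype.card_units, he]
    have hX : 2 ≤ 2 ^ d := Nat.le_self_pow (by omega) 2
    have hle := Nat.le_of_dvd (Nat.mul_pos (by omega) (by omega)) (orderOf_dvd_of_pow_eq_one hd4)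
    rw [hord] at hle
    have he3 : 3 ≤ (e : ℕ) := by have := e.pos; omega
    have h8 : 2 ^ 3 ≤ 2 ^ (e : ℕ) := Nat.pow_le_pow_right (by norm_num) he3
    rcases (show d = 1 ∨ 2 ≤ d by omega) with rfl | hd
    · norm_num at hle
      omega
    · have h4 : 4 ≤ 2 ^ d := le_trans (by norm_num) (Nat.pow_le_pow_right (by norm_num : 1 ≤ 2) hd)
      have hsq : 2 ^ d * 2 ^ d ≤ 2 ^ (e : ℕ) := by
        rw [← pow_add]; exact Nat.pow_le_pow_right (by norm_num) (by omega)
      have : 4 * 2 ^ d ≤ 2 ^ d * 2 ^ d := Nat.mul_le_mul_right _ h4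
      omega
  have hp3 : 3 ≤ p := by have := hpp.two_le; omega
  have h20 : (2 : F) ≠ 0 := Ring.two_ne_zero (by rw [ringChar.eq F p]; omega)
  have h8 : (8 : F) ≠ 0 := by rw [show (8 : F) = 2 ^ 3 by norm_num]; exact pow_ne_zero _ h20
  have h16 : (16 : F) ≠ 0 := by rw [show (16 : F) = 2 ^ 4 by norm_num]; exact pow_ne_zero _ h20
  by_cases he1 : (e : ℕ) = 1
  · have hq : (Fintype.card F).Prime := by rw [he, he1, pow_one]; exact hpp
    have c1 : coef (par3 (-8 : F)) 1 = 0 := by
      rw [coef_eq _ le_rfl le_rfl]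
      simp [par3]
      ring
    have c2 : coef (par3 (-8 : F)) 2 = -16 := by
      rw [show (2 : ℕ) = 0 + 2 from rfl, coef_top, par3_R0]
      ring
    have hsum : ∑ d ∈ Finset.range (0 + 3), (-1 : F) ^ d * coef (par3 (-8 : F)) d = -16 := by
      simp [Finset.sum_range_succ, coef_zero, c1, c2]
    refine conjGen_of_closure (k := 0) (par3 (-8 : F)) (e := -(2 : F)⁻¹) ?_ (generates (k := 0) _ ?_ (D := 1) le_rfl
      le_rfl (fun d hd => ?_) (fun h => absurd h h20) ?_ ?_ ?_ (Or.inl (by omega)))
    · rw [par3_R0, show (-8 : F) = (-2) ^ 3 by norm_num, pow_zero, one_mul, ← mul_pow, neg_mul_neg,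
        inv_mul_cancel₀ h20, one_pow]
    · rw [par3_R0]; exact neg_ne_zero.2 h8
    · rcases (show d = 0 ∨ d = 1 by omega) with rfl | rfl
      · exact coef_zero _
      · exact c1
    · rw [show 1 + 1 = 2 from rfl, c2]; exact neg_ne_zero.2 h16
    · rw [hsum]; exact neg_ne_zero.2 h16
    · exact fun C h1 _ => addSubgroup_eq_top_of_prime (natCast_surj hq) C h1
  have he2 : 2 ≤ (e : ℕ) := by have := e.pos; omega
  by_cases h25 : p = 5 ∧ (e : ℕ) = 2
  · obtain ⟨rfl, he'⟩ := h25
    have h5 : (5 : F) = 0 := by exact_mod_cast hp0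
    obtain ⟨ζ, hζ⟩ := IsCyclic.exists_generator (α := Fˣ)
    have hord : orderOf ζ = 24 := by
      rw [orderOf_eq_card_of_forall_mem_zpowers hζ, Nat.card_eq_fintype_card, Fintype.card_units, he, he']
      norm_num
    have hne : (ζ : F) ^ 12 ≠ 1 := fun h => by
      have := orderOf_dvd_of_pow_eq_one (Units.ext (by push_cast; exact h) : ζ ^ 12 = 1)
      rw [hord] at this
      norm_num at this
    have h24 : (ζ : F) ^ 24 = 1 := by
      have := congrArg Units.val (pow_orderOf_eq_one ζ)
      rw [hord] at this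
      push_cast at this
      exact this
    have h12 : (ζ : F) ^ 12 = -1 := by
      have : ((ζ : F) ^ 12 - 1) * ((ζ : F) ^ 12 + 1) = 0 := by linear_combination h24
      linear_combination (mul_eq_zero.1 this).resolve_left (sub_ne_zero.2 hne)
    obtain ⟨s, hs⟩ : ∃ s : F, s * s = 2 := by
      have : ((ζ : F) ^ 6 - 2) * ((ζ : F) ^ 6 + 2) = 0 := by linear_combination h12 - h5
      rcases mul_eq_zero.1 this with h | h
      · exact ⟨(ζ : F) ^ 3, by linear_combination h⟩
      · exact ⟨(ζ : F) ^ 9, by linear_combination ((ζ : F) ^ 12 - 2 * (ζ : F) ^ 6 + 4) * h - 2 * h5⟩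
    refine conjGen3 (r := s) (e := 4 * s) ?_ (top_twentyfive h5 s hs fun x => ?_)
    · linear_combination (64 * (s * s + 2)) * hs + 51 * h5
    · let f : ZMod 5 →+* F := ZMod.castHom (dvd_refl 5) F
      have hinj : Function.Injective fun y : ZMod 5 × ZMod 5 => f y.1 + f y.2 * s := by
        rintro ⟨a, b⟩ ⟨a', b'⟩ h
        simp only at h
        by_cases hb : b = b'
        · subst hb
          rw [add_left_inj] at h
          rw [f.injective h]
        · exfalso
          have hd : f (b - b') ≠ 0 := fun h0 => sub_ne_zero.2 hb (f.injective (by rw [h0, map_zero]))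
          have hsub : f (a' - a) = f (b - b') * s := by
            rw [map_sub, map_sub]; linear_combination -h
          have hsq : f ((a' - a) * (a' - a) - 2 * ((b - b') * (b - b'))) = 0 := by
            rw [map_sub, map_mul, map_mul, map_mul, map_ofNat, hsub]
            linear_combination f (b - b') * f (b - b') * hs
          have hzero := f.injective (hsq.trans (map_zero f).symm)
          exact hd (by rw [two_not_square _ _ hzero, map_zero])
      have hbij := (Fintype.bijective_iff_injective_and_card _).2 ⟨hinj, by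
        rw [Fintype.card_prod, ZMod.card, he, he']; norm_num⟩
      obtain ⟨⟨a, b⟩, rfl⟩ := hbij.2 x
      refine ⟨a.val, b.val, ?_⟩
      show f a + f b * s = _
      rw [← map_natCast f a.val, ← map_natCast f b.val, ZMod.natCast_zmod_val, ZMod.natCast_zmod_val]
  by_cases h9 : p = 3 ∧ (e : ℕ) = 2
  · obtain ⟨rfl, he'⟩ := h9
    have h30 : (3 : F) = 0 := by exact_mod_cast hp0
    obtain ⟨ζ, hζ⟩ := IsCyclic.exists_generator (α := Fˣ)
    have hord : orderOf ζ = 8 := by
      rw [orderOf_eq_card_of_forall_mem_zpowers hζ, Nat.card_eq_fintype_card, Fintype.card_units, he, he']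
      norm_num
    have hne : (ζ : F) ^ 4 ≠ 1 := fun h => by
      have := orderOf_dvd_of_pow_eq_one (Units.ext (by push_cast; exact h) : ζ ^ 4 = 1)
      rw [hord] at this
      norm_num at this
    have h8' : (ζ : F) ^ 8 = 1 := by
      have := congrArg Units.val (pow_orderOf_eq_one ζ)
      rw [hord] at this
      push_cast at this
      exact this
    have h4 : (ζ : F) ^ 4 = -1 := by
      have : ((ζ : F) ^ 4 - 1) * ((ζ : F) ^ 4 + 1) = 0 := by linear_combination h8'
      linear_combination (mul_eq_zero.1 this).resolve_left (sub_ne_zero.2 hne)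
    set z := (ζ : F) with hz
    have hz0 : z ≠ 0 := ζ.ne_zero
    have hlam : (z + 8) * (z - 8) = z ^ 2 - 1 := by linear_combination -21 * h30
    have hlam0 : z ^ 2 - 1 ≠ 0 := fun h => hne (by linear_combination (z ^ 2 + 1) * h)
    refine conjGen3 (r := z) (e := z ^ 5) ?_ (top_odd h20 hz0 (by rw [hlam]; exact hlam0) ?_ ?_ ?_)
    · linear_combination (z ^ 8 + 1) * h8'
    · intro h
      exact hlam0 (by linear_combination (z - 4) * h + 5 * h30)
    · rw [hlam]
      refine closure_eq_top he fun d hd1 hd2 h => ?_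
      obtain rfl : d = 1 := by omega
      have : 2 * z ^ 2 = 0 := by linear_combination -h + z ^ 2 * h4 - (z ^ 4 - z ^ 2) * h30
      exact mul_ne_zero h20 (pow_ne_zero 2 hz0) this
    · rintro ⟨-, h⟩
      rw [hlam] at h
      have : 2 * z ^ 2 - 1 = 0 := by linear_combination -h + h4
      exact hne (by linear_combination (z ^ 2 - 1) * (-this) + (z ^ 4 - z ^ 2) * h30)
  have h7 : (e : ℕ) = 2 → 7 ≤ p := fun h => by
    have h3 : p ≠ 3 := fun h3 => h9 ⟨h3, h⟩
    have h5 : p ≠ 5 := fun h5 => h25 ⟨h5, h⟩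
    have h4 : p ≠ 4 := fun h4 => by rw [h4] at hpp; norm_num at hpp
    have h6 : p ≠ 6 := fun h6 => by rw [h6] at hpp; norm_num at hpp
    omega
  obtain ⟨w, hw⟩ := exists_cube_param he he2 hp3 h7
  have hint : ∀ c : ℤ, (w ^ 3 + 8) * (w ^ 3 - 8) ≠ (c : F) := fun c h => hw 1 le_rfl (by omega) (by
    rw [pow_one, h]
    exact (frobenius_def p (c : F)).symm.trans (map_intCast (frobenius F p) c))
  have hw0 : w ≠ 0 := fun h => hint (-64) (by rw [h]; push_cast; ring)
  refine conjGen3 (r := w ^ 3) (e := w⁻¹) (by rw [inv_pow, inv_mul_cancel₀ (pow_ne_zero _ hw0)])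
    (top_odd h20 (pow_ne_zero _ hw0) (fun h => hint 0 (by rw [h, Int.cast_zero])) ?_
      (closure_eq_top he hw) ?_)
  · intro h
    refine hint (-48) ?_
    push_cast
    linear_combination (w ^ 3 - 4) * h
  · rintro ⟨hc, -⟩
    rw [he] at hc
    have hp3' : p = 3 := (Nat.prime_dvd_prime_iff_eq hpp Nat.prime_three).1
      (hpp.dvd_of_dvd_pow (n := 2) (by rw [show 3 ^ 2 = 9 by norm_num, ← hc]; exact dvd_pow_self _ e.pos.ne'))
    subst hp3'
    exact h9 ⟨rfl, Nat.pow_right_injective (le_refl 2 |>.trans (by norm_num : 2 ≤ 3)) (hc.trans (by norm_num))⟩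

end Cfsg.Agent.Lib.GLn.TwoUnipThree
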