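import Cfsg.Agent.Lib.Char.Induced
import Cfsg.Agent.Lib.Char.Linear
import Cfsg.Agent.Lib.CrossChar.SL

/-!
# The permutation character of `SL_n` on nonzero vectors
-/

set_option autoImplicit false

open scoped ComplexConjugate

namespace Cfsg.Agent.Lib.GLn.VectorPermChar

open Cfsg Cfsg.Agent.Lib.Char Matrix

universe u

/-- The sum of the characters of a finite abelian group at an element. -/
theorem sum_dual {A : Type u} [CommGroup A] [Finite A] [Fintype (A →* ℂˣ)] [DecidableEq A] (a : A) :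
    ∑ l : A →* ℂˣ, (l a : ℂ) = if a = 1 then (Nat.card A : ℂ) else 0 := by
  classical
  have : NeZero (Monoid.exponent A) := ⟨Monoid.exponent_ne_zero_of_finite⟩
  have : NeZero (Monoid.exponent A : ℂ) := NeZero.charZero
  split_ifs with h
  · subst h
    simp [← Nat.card_eq_fintype_card, CommGroup.card_monoidHom_of_hasEnoughRootsOfUnity A ℂ]
  · obtain ⟨l₀, hl₀⟩ := CommGroup.exists_apply_ne_one_of_hasEnoughRootsOfUnity A ℂ h
    have e : (∑ l : A →* ℂˣ, (l a : ℂ)) = (l₀ a : ℂ) * ∑ l : A →* ℂˣ, (l a : ℂ) := by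
      rw [Finset.mul_sum]
      refine (Equiv.sum_comp (Equiv.mulLeft l₀) (fun l : A →* ℂˣ => (l a : ℂ))).symm.trans ?_
      simp
    by_contra hne
    exact hl₀ (Units.ext (mul_eq_right₀ hne |>.1 e.symm))

variable {F : Type u} [Field F] [Fintype F] {n : ℕ}

local notation "SLn" => Matrix.SpecialLinearGroup (Fin (n + 3)) F

/-- The first basis vector. -/
def e0 : Fin (n + 3) → F := Pi.single 0 1

theorem e0_ne : (e0 : Fin (n + 3) → F) ≠ 0 := fun h => by
  have := congrFun h 0
  simp [e0] at this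

theorem unit_ext {x y : Fˣ} (h : (x : F) • (e0 : Fin (n + 3) → F) = (y : F) • e0) : x = y :=
  Units.ext (by simpa [e0] using congrFun h 0)

/-- The stabiliser of the line of the first basis vector. -/
def lineStab : Subgroup SLn where
  carrier := {g | ∃ c : Fˣ, (g : Matrix (Fin (n + 3)) (Fin (n + 3)) F) *ᵥ e0 = (c : F) • e0}
  mul_mem' := by
    rintro a b ⟨c, hc⟩ ⟨d, hd⟩
    refine ⟨c * d, ?_⟩
    rw [Matrix.SpecialLinearGroup.coe_mul, ← mulVec_mulVec, hd, mulVec_smul, hc, smul_smul, Units.val_mul, mul_comm]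
  one_mem' := ⟨1, by rw [Matrix.SpecialLinearGroup.coe_one, one_mulVec, Units.val_one, one_smul]⟩
  inv_mem' := by
    rintro a ⟨c, hc⟩
    refine ⟨c⁻¹, ?_⟩
    have h := congrArg (fun v => ((a⁻¹ : SLn) : Matrix (Fin (n + 3)) (Fin (n + 3)) F) *ᵥ v) hc
    simp only [mulVec_mulVec, ← Matrix.SpecialLinearGroup.coe_mul, inv_mul_cancel, Matrix.SpecialLinearGroup.coe_one,
      one_mulVec, mulVec_smul] at h
    conv_rhs => rw [h, smul_smul, ← Units.val_mul, inv_mul_cancel, Units.val_one, one_smul]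

/-- The eigenvalue on the first basis vector. -/
noncomputable def eig : (lineStab : Subgroup SLn) →* Fˣ where
  toFun g := Classical.choose g.2
  map_one' := by
    have h : ((1 : SLn) : Matrix (Fin (n + 3)) (Fin (n + 3)) F) *ᵥ e0 =
        ((Classical.choose (1 : (lineStab : Subgroup SLn)).2 : Fˣ) : F) • e0 :=
      Classical.choose_spec (1 : (lineStab : Subgroup SLn)).2
    rw [Matrix.SpecialLinearGroup.coe_one, one_mulVec] at h
    refine Units.ext ?_
    have := congrFun h 0
    simpa [e0] using this.symm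
  map_mul' a b := by
    have h : ((a.1 * b.1 : SLn) : Matrix (Fin (n + 3)) (Fin (n + 3)) F) *ᵥ e0 =
        ((Classical.choose (a * b).2 : Fˣ) : F) • e0 := Classical.choose_spec (a * b).2
    have ha := Classical.choose_spec a.2
    have hb := Classical.choose_spec b.2
    rw [Matrix.SpecialLinearGroup.coe_mul, ← mulVec_mulVec, hb, mulVec_smul, ha, smul_smul] at h
    refine unit_ext (n := n) ?_
    rw [Units.val_mul, mul_comm]
    exact h.symm

theorem eig_spec (g : (lineStab : Subgroup SLn)) :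
    ((g : SLn) : Matrix (Fin (n + 3)) (Fin (n + 3)) F) *ᵥ e0 = ((eig g : Fˣ) : F) • e0 := Classical.choose_spec g.2

theorem eig_eq_one_iff (g : (lineStab : Subgroup SLn)) :
    eig g = 1 ↔ ((g : SLn) : Matrix (Fin (n + 3)) (Fin (n + 3)) F) *ᵥ e0 = e0 := by
  constructor
  · intro h; rw [eig_spec, h, Units.val_one, one_smul]
  · intro h
    rw [eig_spec] at h
    refine Units.ext ?_
    simpa [e0] using congrFun h 0

/-- The monomial character of a character of `Fˣ`. -/
noncomputable def piece [Fintype (Matrix.SpecialLinearGroup (Fin (n + 3)) F)] (l : Fˣ →* ℂˣ) : SLn → ℂ :=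
  indFun lineStab (fun g => ((l.comp eig) g : ℂ))

/-- The number of fixed nonzero vectors. -/
noncomputable def fixVec (g : SLn) : ℕ :=
  Nat.card {v : Fin (n + 3) → F // v ≠ 0 ∧ (g : Matrix (Fin (n + 3)) (Fin (n + 3)) F) *ᵥ v = v}

variable [DecidableEq F] [Fintype (Matrix.SpecialLinearGroup (Fin (n + 3)) F)]

theorem card_fiber (v : Fin (n + 3) → F) (hv : v ≠ 0) :
    (Finset.univ.filter fun x : SLn => (x : Matrix (Fin (n + 3)) (Fin (n + 3)) F) *ᵥ e0 = v).card =
      (Finset.univ.filter fun x : SLn => (x : Matrix (Fin (n + 3)) (Fin (n + 3)) F) *ᵥ e0 = e0).card := by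
  obtain ⟨A, hA⟩ := CrossChar.sl_transitive (F := F) (show 2 ≤ n + 3 by omega) e0 v e0_ne hv
  refine (Finset.card_bij (fun x _ => A * x) (fun x hx => ?_) (fun a _ b _ h => mul_left_cancel h) fun y hy => ?_).symm
  · simp only [Finset.mem_filter, Finset.mem_univ, true_and] at hx ⊢
    rw [Matrix.SpecialLinearGroup.coe_mul, ← mulVec_mulVec, hx, hA]
  · refine ⟨A⁻¹ * y, ?_, by rw [mul_inv_cancel_left]⟩
    simp only [Finset.mem_filter, Finset.mem_univ, true_and] at hy ⊢
    rw [Matrix.SpecialLinearGroup.coe_mul, ← mulVec_mulVec, hy, ← hA, mulVec_mulVec, ← Matrix.SpecialLinearGroup.coe_mul,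
      inv_mul_cancel, Matrix.SpecialLinearGroup.coe_one, one_mulVec]

theorem card_lineStab :
    Nat.card (lineStab : Subgroup SLn) = (Fintype.card F - 1) *
      (Finset.univ.filter fun x : SLn => (x : Matrix (Fin (n + 3)) (Fin (n + 3)) F) *ᵥ e0 = e0).card := by
  classical
  rw [Nat.card_eq_fintype_card, Fintype.card_subtype,
    Finset.card_eq_sum_card_fiberwise (f := fun x : SLn => (x : Matrix (Fin (n + 3)) (Fin (n + 3)) F) *ᵥ e0)
      (t := Finset.univ.image fun c : Fˣ => (c : F) • (e0 : Fin (n + 3) → F)) (fun x hx => by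
        obtain ⟨c, hc⟩ := (Finset.mem_filter.mp hx).2
        exact Finset.mem_image.mpr ⟨c, Finset.mem_univ _, hc.symm⟩)]
  have hinj : Function.Injective fun c : Fˣ => (c : F) • (e0 : Fin (n + 3) → F) := fun a b h => Units.ext (by
    simpa [e0] using congrFun h 0)
  rw [Finset.sum_image hinj.injOn]
  have : ∀ c : Fˣ, (((Finset.univ.filter fun x : SLn => x ∈ lineStab).filter fun x : SLn =>
      (x : Matrix (Fin (n + 3)) (Fin (n + 3)) F) *ᵥ e0 = (c : F) • e0)).card =
      (Finset.univ.filter fun x : SLn => (x : Matrix (Fin (n + 3)) (Fin (n + 3)) F) *ᵥ e0 = e0).card := fun c => by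
    rw [Finset.filter_filter, Finset.filter_congr (fun x _ => ⟨fun h => h.2, fun h => ⟨⟨c, h⟩, h⟩⟩)]
    exact card_fiber _ (smul_ne_zero (Units.ne_zero c) e0_ne)
  rw [Finset.sum_congr rfl fun c _ => this c, Finset.sum_const, Finset.card_univ, Fintype.card_units, smul_eq_mul]

theorem sum_pieces [Fintype (Fˣ →* ℂˣ)] (g : SLn) : ∑ l : Fˣ →* ℂˣ, piece l g = (fixVec g : ℂ) := by
  classical
  set P := (lineStab : Subgroup SLn)
  set m := (Finset.univ.filter fun x : SLn => (x : Matrix (Fin (n + 3)) (Fin (n + 3)) F) *ᵥ e0 = e0).card with hm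
  have hext : ∀ y : SLn, ∑ l : Fˣ →* ℂˣ, extendByZero P (fun g => ((l.comp eig) g : ℂ)) y =
      if (y : Matrix (Fin (n + 3)) (Fin (n + 3)) F) *ᵥ e0 = e0 then ((Fintype.card F - 1 : ℕ) : ℂ) else 0 := fun y => by
    by_cases hy : y ∈ P
    · rw [Finset.sum_congr rfl fun l _ => extendByZero_mem P _ hy]
      simp only [MonoidHom.comp_apply]
      rw [sum_dual]
      simp only [eig_eq_one_iff, Nat.card_eq_fintype_card, Fintype.card_units]
    · rw [Finset.sum_congr rfl fun l _ => extendByZero_not_mem P _ hy, Finset.sum_const_zero, if_neg]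
      exact fun h => hy ⟨1, by rw [h, Units.val_one, one_smul]⟩
  simp only [piece, indFun]
  rw [← Finset.mul_sum, Finset.sum_comm, Finset.sum_congr rfl fun x _ => hext _, ← Finset.sum_filter, Finset.sum_const,
    nsmul_eq_mul]
  have hcount : (Finset.univ.filter fun x : SLn =>
      ((x⁻¹ * g * x : SLn) : Matrix (Fin (n + 3)) (Fin (n + 3)) F) *ᵥ e0 = e0).card = fixVec g * m := by
    have hmaps : ∀ x : SLn, ((x⁻¹ * g * x : SLn) : Matrix (Fin (n + 3)) (Fin (n + 3)) F) *ᵥ e0 = e0 →
        (x : Matrix (Fin (n + 3)) (Fin (n + 3)) F) *ᵥ e0 ≠ 0 ∧ (g : Matrix (Fin (n + 3)) (Fin (n + 3)) F) *ᵥ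
          ((x : Matrix (Fin (n + 3)) (Fin (n + 3)) F) *ᵥ e0) = (x : Matrix (Fin (n + 3)) (Fin (n + 3)) F) *ᵥ e0 := by
      intro x hx
      refine ⟨fun h0 => e0_ne (F := F) (n := n) ?_, ?_⟩
      · have h2 := congrArg (fun v => ((x⁻¹ : SLn) : Matrix (Fin (n + 3)) (Fin (n + 3)) F) *ᵥ v) h0
        rw [mulVec_mulVec, ← Matrix.SpecialLinearGroup.coe_mul, inv_mul_cancel, Matrix.SpecialLinearGroup.coe_one,
          one_mulVec, mulVec_zero] at h2
        exact h2
      · have h := congrArg (fun v => (x : Matrix (Fin (n + 3)) (Fin (n + 3)) F) *ᵥ v) hx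
        rw [mulVec_mulVec, ← Matrix.SpecialLinearGroup.coe_mul, ← mul_assoc, ← mul_assoc, mul_inv_cancel, one_mul] at h
        rw [mulVec_mulVec, ← Matrix.SpecialLinearGroup.coe_mul]
        exact h
    rw [Finset.card_eq_sum_card_fiberwise (f := fun x : SLn => (x : Matrix (Fin (n + 3)) (Fin (n + 3)) F) *ᵥ e0)
      (t := Finset.univ.filter fun v : Fin (n + 3) → F => v ≠ 0 ∧ (g : Matrix (Fin (n + 3)) (Fin (n + 3)) F) *ᵥ v = v)
      (by intro x hx; simp only [Finset.coe_filter, Finset.mem_univ, true_and, Set.mem_setOf_eq] at hx ⊢; exact hmaps x hx)]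
    rw [fixVec, Nat.card_eq_fintype_card, Fintype.card_subtype, ← smul_eq_mul, ← Finset.sum_const]
    refine Finset.sum_congr rfl fun v hv => ?_
    obtain ⟨hv0, hgv⟩ := (Finset.mem_filter.mp hv).2
    rw [Finset.filter_filter, hm, ← card_fiber v hv0]
    refine congrArg Finset.card (Finset.filter_congr fun x _ => ⟨fun h => h.2, fun h => ⟨?_, h⟩⟩)
    rw [Matrix.SpecialLinearGroup.coe_mul, Matrix.SpecialLinearGroup.coe_mul, ← mulVec_mulVec, ← mulVec_mulVec, h, hgv, ← h,
      mulVec_mulVec, ← Matrix.SpecialLinearGroup.coe_mul, inv_mul_cancel, Matrix.SpecialLinearGroup.coe_one, one_mulVec]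
  rw [hcount, card_lineStab]
  have hm0 : (m : ℂ) ≠ 0 := Nat.cast_ne_zero.mpr (Finset.card_ne_zero.mpr ⟨1, by simp⟩)
  have hq : ((Fintype.card F - 1 : ℕ) : ℂ) ≠ 0 := Nat.cast_ne_zero.mpr (by have := Fintype.one_lt_card (α := F); omega)
  rw [← hm]
  push_cast
  field_simp

omit [DecidableEq F] [Fintype (Matrix.SpecialLinearGroup (Fin (n + 3)) F)] in
/-- `SL` is transitive on independent pairs. -/
theorem exists_pair {v w : Fin (n + 3) → F} (h : LinearIndependent F ![v, w]) :
    ∃ A : SLn, (A : Matrix (Fin (n + 3)) (Fin (n + 3)) F) *ᵥ e0 = v ∧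
      (A : Matrix (Fin (n + 3)) (Fin (n + 3)) F) *ᵥ Pi.single 1 1 = w := by
  classical
  obtain ⟨A, hA⟩ := CrossChar.sl_transitive (F := F) (show 2 ≤ n + 3 by omega) e0 v e0_ne (by
    simpa using h.ne_zero (0 : Fin 2))
  set z : Fin (n + 3) → F := ((A⁻¹ : SLn) : Matrix (Fin (n + 3)) (Fin (n + 3)) F) *ᵥ w with hzdef
  have hAz : (A : Matrix (Fin (n + 3)) (Fin (n + 3)) F) *ᵥ z = w := by
    rw [hzdef, mulVec_mulVec, ← Matrix.SpecialLinearGroup.coe_mul, mul_inv_cancel, Matrix.SpecialLinearGroup.coe_one,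
      one_mulVec]
  obtain ⟨i, hi0, hi⟩ : ∃ i, i ≠ 0 ∧ z i ≠ 0 := by
    by_contra hc
    push Not at hc
    have hz : z = z 0 • e0 := by
      funext i
      by_cases hi : i = 0
      · subst hi; simp [e0]
      · simp [e0, hc i hi, hi]
    have h2 := LinearIndependent.pair_iff.1 h (z 0) (-1) (by
      rw [← hA, ← hAz, ← mulVec_smul, ← mulVec_smul, ← mulVec_add, ← hz]
      simp)
    simp at h2
  -- a determinant one map fixing the first vector
  have hj : ∀ i : Fin (n + 3), ∃ j : Fin (n + 3), j ≠ 0 ∧ j ≠ i := fun i => by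
    by_cases h1 : i = 1
    · exact ⟨2, by simp [Fin.ext_iff, Nat.mod_eq_of_lt], by rw [h1]; simp [Fin.ext_iff, Nat.mod_eq_of_lt]⟩
    · exact ⟨1, by simp [Fin.ext_iff], Ne.symm h1⟩
  have key : ∀ (a : Fin (n + 3) → F) (i : Fin (n + 3)), i ≠ 0 → a i ≠ 0 → ∃ B : SLn,
      (B : Matrix (Fin (n + 3)) (Fin (n + 3)) F) *ᵥ e0 = e0 ∧
      (B : Matrix (Fin (n + 3)) (Fin (n + 3)) F) *ᵥ Pi.single i 1 = a := by
    intro a i hi ha
    obtain ⟨j, hj0, hji⟩ := hj i
    let D : Matrix (Fin (n + 3)) (Fin (n + 3)) F := Matrix.diagonal (Function.update 1 j (a i)⁻¹)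
    refine ⟨⟨(1 : Matrix (Fin (n + 3)) (Fin (n + 3)) F).updateCol i a * D, ?_⟩, ?_, ?_⟩
    · rw [det_mul, ← Matrix.cramer_apply, Matrix.cramer_one]
      simp [D, Finset.prod_update_of_mem, ha]
    · change ((1 : Matrix (Fin (n + 3)) (Fin (n + 3)) F).updateCol i a * D) *ᵥ e0 = e0
      rw [← mulVec_mulVec]
      have : D *ᵥ e0 = e0 := by
        ext k
        simp only [D, e0, mulVec_diagonal]
        by_cases hk : k = 0
        · subst hk; simp [Ne.symm hj0]
        · simp [hk]
      rw [this, e0, mulVec_single_one]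
      ext k
      simp [Matrix.updateCol_apply, Ne.symm hi, Matrix.one_apply, Pi.single_apply]
    · change ((1 : Matrix (Fin (n + 3)) (Fin (n + 3)) F).updateCol i a * D) *ᵥ Pi.single i 1 = a
      rw [← mulVec_mulVec]
      have : D *ᵥ Pi.single i 1 = Pi.single i 1 := by
        ext k
        simp only [D, mulVec_diagonal]
        by_cases hk : k = i
        · subst hk; simp [Ne.symm hji]
        · simp [hk]
      rw [this, mulVec_single_one]
      ext k
      simp
  obtain ⟨B, hB0, hB⟩ := key z i hi0 hi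
  by_cases h1 : i = 1
  · subst h1
    refine ⟨A * B, ?_, ?_⟩ <;> rw [Matrix.SpecialLinearGroup.coe_mul, ← mulVec_mulVec]
    · rw [hB0, hA]
    · rw [hB, hAz]
  · obtain ⟨C, hC0, hC⟩ := key (Pi.single 1 1 + Pi.single i 1) i hi0 (by simp [h1])
    obtain ⟨C', hC'0, hC'⟩ := key (Pi.single 1 1 + Pi.single i 1) 1 (by simp [Fin.ext_iff]) (by simp [Ne.symm h1])
    refine ⟨A * B * C⁻¹ * C', ?_, ?_⟩ <;>
      simp only [Matrix.SpecialLinearGroup.coe_mul, ← mulVec_mulVec]
    · rw [hC'0]
      nth_rewrite 1 [← hC0]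
      rw [mulVec_mulVec (N := (C : Matrix (Fin (n + 3)) (Fin (n + 3)) F)), ← Matrix.SpecialLinearGroup.coe_mul, inv_mul_cancel,
        Matrix.SpecialLinearGroup.coe_one, one_mulVec, hB0, hA]
    · rw [hC', ← hC, mulVec_mulVec (N := (C : Matrix (Fin (n + 3)) (Fin (n + 3)) F)), ← Matrix.SpecialLinearGroup.coe_mul,
        inv_mul_cancel, Matrix.SpecialLinearGroup.coe_one, one_mulVec, hB, hAz]

theorem sum_fix_sq : ∑ g : SLn, fixVec g ^ 2 = Fintype.card F * Fintype.card SLn := by
  classical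
  let X := {v : Fin (n + 3) → F // v ≠ 0}
  letI act : MulAction SLn X :=
    { smul := fun g v => ⟨(g : Matrix (Fin (n + 3)) (Fin (n + 3)) F) *ᵥ v.1, fun h => v.2 (by
        have h2 := congrArg (fun w => ((g⁻¹ : SLn) : Matrix (Fin (n + 3)) (Fin (n + 3)) F) *ᵥ w) h
        rw [mulVec_mulVec, ← Matrix.SpecialLinearGroup.coe_mul, inv_mul_cancel, Matrix.SpecialLinearGroup.coe_one,
          one_mulVec, mulVec_zero] at h2
        exact h2)⟩
      one_smul := fun v => Subtype.ext (by
        change ((1 : SLn) : Matrix (Fin (n + 3)) (Fin (n + 3)) F) *ᵥ v.1 = v.1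
        simp)
      mul_smul := fun a b v => Subtype.ext (by
        change ((a * b : SLn) : Matrix (Fin (n + 3)) (Fin (n + 3)) F) *ᵥ v.1 = _
        rw [Matrix.SpecialLinearGroup.coe_mul, ← mulVec_mulVec]
        rfl) }
  have hfix : ∀ g : SLn, fixVec g ^ 2 = Fintype.card (MulAction.fixedBy (X × X) g) := fun g => by
    rw [fixVec, sq, ← Nat.card_prod, ← Nat.card_eq_fintype_card]
    refine Nat.card_congr ⟨fun p => ⟨(⟨p.1.1, p.1.2.1⟩, ⟨p.2.1, p.2.2.1⟩),
        Prod.ext (Subtype.ext p.1.2.2) (Subtype.ext p.2.2.2)⟩,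
      fun p => (⟨p.1.1.1, p.1.1.2, congrArg (fun z : X × X => z.1.1) p.2⟩,
        ⟨p.1.2.1, p.1.2.2, congrArg (fun z : X × X => z.2.1) p.2⟩), fun _ => rfl, fun _ => rfl⟩
  rw [Finset.sum_congr rfl fun g _ => hfix g, MulAction.sum_card_fixedBy_eq_card_orbits_mul_card_group]
  congr 1
  let f : X × X → Option Fˣ := fun p =>
    if h : ∃ c : Fˣ, p.2.1 = (c : F) • p.1.1 then some h.choose else none
  have hf : ∀ (p : X × X) (c : Fˣ), p.2.1 = (c : F) • p.1.1 → f p = some c := fun p c hc => by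
    have h : ∃ c : Fˣ, p.2.1 = (c : F) • p.1.1 := ⟨c, hc⟩
    simp only [f, dif_pos h]
    refine congrArg some (Units.ext ?_)
    have e := h.choose_spec.symm.trans hc
    by_contra hne
    have : ((h.choose : F) - c) • p.1.1 = 0 := by rw [sub_smul, e, sub_self]
    exact p.1.2 ((smul_eq_zero.1 this).resolve_left (sub_ne_zero.2 hne))
  have hnone : ∀ p : X × X, f p = none → LinearIndependent F ![p.1.1, p.2.1] := fun p hp => by
    refine (LinearIndependent.pair_iff' p.1.2).2 fun a ha => ?_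
    by_cases h0 : a = 0
    · rw [h0, zero_smul] at ha; exact p.2.2 ha.symm
    · have := hf p (Units.mk0 a h0) ha.symm
      rw [hp] at this
      simp at this
  have hinv : ∀ (g : SLn) (p : X × X), f (g • p) = f p := fun g p => by
    rcases hp : f p with _ | c
    · rcases hq : f (g • p) with _ | c
      · rfl
      · exfalso
        simp only [f] at hq
        split_ifs at hq with h
        obtain ⟨d, hd⟩ := h
        have hd' : (g : Matrix (Fin (n + 3)) (Fin (n + 3)) F) *ᵥ p.2.1 =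
            (g : Matrix (Fin (n + 3)) (Fin (n + 3)) F) *ᵥ ((d : F) • p.1.1) := by rw [mulVec_smul]; exact hd
        have h2 := congrArg (fun w => ((g⁻¹ : SLn) : Matrix (Fin (n + 3)) (Fin (n + 3)) F) *ᵥ w) hd'
        simp only [mulVec_mulVec, ← Matrix.SpecialLinearGroup.coe_mul, inv_mul_cancel,
          Matrix.SpecialLinearGroup.coe_one, one_mulVec] at h2
        rw [hf p d h2] at hp
        simp at hp
    · simp only [f] at hp
      split_ifs at hp with h
      refine hf _ c ?_
      change (g : Matrix (Fin (n + 3)) (Fin (n + 3)) F) *ᵥ p.2.1 = (c : F) • ((g : Matrix (Fin (n + 3)) (Fin (n + 3)) F) *ᵥ p.1.1)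
      rw [← mulVec_smul, ← Option.some.inj hp, ← h.choose_spec]
  rw [← Nat.card_eq_fintype_card]
  refine (Nat.card_eq_of_bijective (Quotient.lift f (fun a b hab => by
    obtain ⟨g, rfl⟩ := (MulAction.orbitRel_apply.1 hab : a ∈ MulAction.orbit SLn b)
    exact hinv g b)) ⟨?_, ?_⟩).trans ?_
  · rintro ⟨p⟩ ⟨p'⟩ (e : f p = f p')
    refine Quotient.sound (MulAction.orbitRel_apply.2 ?_)
    rcases hp : f p with _ | c
    · obtain ⟨A, hA0, hA1⟩ := exists_pair (hnone p hp)
      obtain ⟨B, hB0, hB1⟩ := exists_pair (hnone p' (e ▸ hp))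
      refine ⟨A * B⁻¹, Prod.ext (Subtype.ext ?_) (Subtype.ext ?_)⟩
      · change ((A * B⁻¹ : SLn) : Matrix (Fin (n + 3)) (Fin (n + 3)) F) *ᵥ p'.1.1 = p.1.1
        rw [← hB0, mulVec_mulVec, ← Matrix.SpecialLinearGroup.coe_mul, inv_mul_cancel_right, hA0]
      · change ((A * B⁻¹ : SLn) : Matrix (Fin (n + 3)) (Fin (n + 3)) F) *ᵥ p'.2.1 = p.2.1
        rw [← hB1, mulVec_mulVec, ← Matrix.SpecialLinearGroup.coe_mul, inv_mul_cancel_right, hA1]
    · obtain ⟨A, hA⟩ := CrossChar.sl_transitive (F := F) (show 2 ≤ n + 3 by omega) p'.1.1 p.1.1 p'.1.2 p.1.2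
      have hc : ∀ r : X × X, f r = some c → r.2.1 = (c : F) • r.1.1 := fun r hr => by
        simp only [f] at hr
        split_ifs at hr with h
        rw [← Option.some.inj hr]
        exact h.choose_spec
      refine ⟨A, Prod.ext (Subtype.ext hA) (Subtype.ext ?_)⟩
      change (A : Matrix (Fin (n + 3)) (Fin (n + 3)) F) *ᵥ p'.2.1 = p.2.1
      rw [hc p hp, hc p' (e ▸ hp), mulVec_smul, hA]
  · rintro (_ | c)
    · refine ⟨Quotient.mk _ (⟨e0, e0_ne⟩, ⟨Pi.single 1 1, by simp⟩), ?_⟩
      change f _ = none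
      simp only [f]
      rw [dif_neg]
      rintro ⟨c, hc⟩
      have := congrFun hc 1
      simp [e0, Fin.ext_iff] at this
    · exact ⟨Quotient.mk _ (⟨e0, e0_ne⟩, ⟨(c : F) • e0, smul_ne_zero c.ne_zero e0_ne⟩), hf _ c rfl⟩
  · rw [Nat.card_eq_fintype_card, Fintype.card_option, Fintype.card_units]
    have := Fintype.one_lt_card (α := F)
    omega

theorem index_ne_one : (lineStab : Subgroup SLn).index ≠ 1 := fun h => by
  rw [Subgroup.index_eq_one] at h
  obtain ⟨A, hA⟩ := CrossChar.sl_transitive (F := F) (show 2 ≤ n + 3 by omega) e0 (Pi.single 1 1) e0_ne (by simp)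
  obtain ⟨c, hc⟩ : A ∈ (lineStab : Subgroup SLn) := h ▸ Subgroup.mem_top A
  have := congrFun (hA.symm.trans hc) 1
  simp [e0, Fin.ext_iff] at this

theorem inner_piece_one :
    classInner (piece (1 : Fˣ →* ℂˣ)) (fun _ : SLn => (1 : ℂ)) = 1 := by
  classical
  have := Fintype.ofFinite (lineStab : Subgroup SLn)
  rw [piece, classInner_indFun _ _ (fun _ _ => rfl)]
  simp [classInner]

/-- The constituents. -/
noncomputable def constituent (l : Fˣ →* ℂˣ) : SLn → ℂ :=
  piece l - if l = 1 then (fun _ => (1 : ℂ)) else (0 : SLn → ℂ)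

theorem constituent_spec (l : Fˣ →* ℂˣ) :
    IsCharacter SLn (constituent l) ∧ (constituent l : SLn → ℂ) ≠ 0 := by
  classical
  have hch : IsCharacter SLn (piece l) :=
    isCharacter_indFun _ (isCharacter_of_isIrr (isIrrCharacter_linear (l.comp eig)))
  have h1 : piece l (1 : SLn) = ((lineStab : Subgroup SLn).index : ℂ) := by
    rw [piece, indFun_one]
    simp
  have hpos : (lineStab : Subgroup SLn).index ≠ 0 := Subgroup.index_ne_zero_of_finite
  by_cases hl : l = 1
  · subst hl
    refine ⟨?_, fun h => index_ne_one (F := F) (n := n) ?_⟩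
    · refine isCharacter_iff_natCast.mpr ⟨?_, fun χ => ?_⟩
      · rw [constituent, if_pos rfl]
        exact isClassFunction_sub (isClassFunction_of_isCharacter hch) (fun _ _ => rfl)
      · obtain ⟨k, hk⟩ := classInner_natCast hch (isCharacter_of_isIrr χ.2)
        rw [constituent, if_pos rfl, classInner_sub_left, hk, classInner_irr isIrrCharacter_one χ.2]
        split_ifs with e
        · rw [← e, inner_piece_one] at hk
          exact ⟨0, by rw [← hk]; simp⟩
        · exact ⟨k, by rw [sub_zero]⟩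
    · have := congrFun h 1
      simp [constituent, h1, sub_eq_zero] at this
      exact Subgroup.index_eq_one.2 this
  · rw [constituent, if_neg hl, sub_zero]
    refine ⟨hch, fun h => ?_⟩
    have := congrFun h 1
    simp [h1, hpos] at this

theorem fix_eq_sum [Fintype (Fˣ →* ℂˣ)] :
    (fun g : SLn => (fixVec g : ℂ)) = (fun _ => (1 : ℂ)) + ∑ l : Fˣ →* ℂˣ, constituent l := by
  classical
  funext g
  simp only [constituent, Pi.add_apply, Finset.sum_apply, Pi.sub_apply, Finset.sum_sub_distrib, sum_pieces g,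
    apply_ite (fun f : SLn → ℂ => f g), Pi.zero_apply]
  simp

theorem constituent_irr (l : Fˣ →* ℂˣ) :
    IsIrrCharacter SLn (constituent l) ∧ ∀ m, (constituent m : SLn → ℂ) = constituent l → m = l := by
  classical
  let := Fintype.ofFinite (Fˣ →* ℂˣ)
  have hI : NeZero (Monoid.exponent Fˣ : ℂ) := by
    have : NeZero (Monoid.exponent Fˣ) := ⟨Monoid.exponent_ne_zero_of_finite⟩
    exact NeZero.charZero
  have hcard : Fintype.card (Fˣ →* ℂˣ) = Fintype.card F - 1 := by
    rw [← Nat.card_eq_fintype_card, CommGroup.card_monoidHom_of_hasEnoughRootsOfUnity Fˣ ℂ, Nat.card_eq_fintype_card,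
      Fintype.card_units]
  choose b hb using fun p : (Fˣ →* ℂˣ) × (Fˣ →* ℂˣ) =>
    classInner_natCast (constituent_spec (n := n) p.1).1 (constituent_spec (n := n) p.2).1
  choose c hc using fun m : Fˣ →* ℂˣ => classInner_natCast (isCharacter_one (G := SLn)) (constituent_spec (n := n) m).1
  have hb0 : ∀ m, 1 ≤ b (m, m) := fun m => by
    by_contra h0
    exact (constituent_spec m).2 (eq_zero_of_classInner_self _ (by rw [hb (m, m), show b (m, m) = 0 by omega, Nat.cast_zero]))
  have hq : classInner (fun g : SLn => (fixVec g : ℂ)) (fun g : SLn => (fixVec g : ℂ)) = (Fintype.card F : ℂ) := by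
    have hG : (Fintype.card SLn : ℂ) ≠ 0 := Nat.cast_ne_zero.2 Fintype.card_ne_zero
    simp only [classInner, map_natCast, Nat.card_eq_fintype_card]
    rw [inv_mul_eq_iff_eq_mul₀ hG, mul_comm (Fintype.card SLn : ℂ), ← Nat.cast_mul, ← sum_fix_sq]
    simp [sq]
  rw [fix_eq_sum] at hq
  simp only [classInner_add_left, classInner_add_right, classInner_sum_left, classInner_sum_right,
    classInner_irr isIrrCharacter_one isIrrCharacter_one, if_true, hc, fun p q => hb (p, q)] at hq
  have hsym : ∀ m, classInner (constituent m) (fun _ : SLn => (1 : ℂ)) = (c m : ℂ) := fun m => by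
    rw [classInner_conj_symm, hc, map_natCast]
  simp only [hsym, Finset.sum_add_distrib] at hq
  have hN : 1 + ∑ m, c m + (∑ m, c m + ∑ m, ∑ m', b (m, m')) = Fintype.card F ∨
      1 + ∑ m, c m + (∑ m, c m + ∑ m, ∑ m', b (m', m)) = Fintype.card F := by
    first
      | exact Or.inl (by exact_mod_cast hq)
      | exact Or.inr (by exact_mod_cast hq)
  have htot : ∑ m, ∑ m', b (m, m') ≤ Fintype.card F - 1 := by
    rcases hN with h | h
    · omega
    · rw [Finset.sum_comm]
      omega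
  have hrow : ∀ m, 1 ≤ ∑ m', b (m, m') := fun m =>
    (hb0 m).trans (Finset.single_le_sum (f := fun m' => b (m, m')) (fun _ _ => Nat.zero_le _) (Finset.mem_univ m))
  have hrow' : ∀ m, ∑ m', b (m, m') = 1 := by
    have h2 : ∑ _m : Fˣ →* ℂˣ, 1 = ∑ m : Fˣ →* ℂˣ, ∑ m', b (m, m') := by
      refine le_antisymm (Finset.sum_le_sum fun m _ => hrow m) (htot.trans_eq ?_)
      simp [hcard]
    exact fun m => ((Finset.sum_eq_sum_iff_of_le fun m _ => hrow m).1 h2 m (Finset.mem_univ m)).symm
  have hbm : ∀ m, b (m, m) = 1 := fun m => le_antisymm ((hrow' m).symm ▸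
    Finset.single_le_sum (f := fun m' => b (m, m')) (fun _ _ => Nat.zero_le _) (Finset.mem_univ m)) (hb0 m)
  refine ⟨isIrrCharacter_of_norm_one (constituent_spec l).1 (by rw [hb (l, l), hbm, Nat.cast_one]), fun m hm => ?_⟩
  by_contra hne
  have h0 : b (l, m) = 0 := by
    have := Finset.add_sum_erase Finset.univ (fun m' => b (l, m')) (Finset.mem_univ l)
    simp only [hrow', hbm] at this
    have h3 := Finset.single_le_sum (f := fun m' => b (l, m')) (fun _ _ => Nat.zero_le _)
      (Finset.mem_erase.2 ⟨hne, Finset.mem_univ m⟩)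
    omega
  have h1 := hb (l, m)
  simp only [hm] at h1
  rw [hb (l, l), hbm, h0] at h1
  simp at h1

/-- The permutation character on nonzero vectors decomposes into `q - 1` irreducibles and `1`. -/
theorem exists_constituents :
    ∃ χ : Fin (Fintype.card F - 1) → (SLn → ℂ), (∀ i, IsIrrCharacter SLn (χ i)) ∧ Function.Injective χ ∧
      ∀ g : SLn, (fixVec g : ℂ) = 1 + ∑ i, χ i g := by
  classical
  let := Fintype.ofFinite (Fˣ →* ℂˣ)
  have hI : NeZero (Monoid.exponent Fˣ : ℂ) := by
    have : NeZero (Monoid.exponent Fˣ) := ⟨Monoid.exponent_ne_zero_of_finite⟩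
    exact NeZero.charZero
  have hcard : Fintype.card (Fˣ →* ℂˣ) = Fintype.card F - 1 := by
    rw [← Nat.card_eq_fintype_card, CommGroup.card_monoidHom_of_hasEnoughRootsOfUnity Fˣ ℂ, Nat.card_eq_fintype_card,
      Fintype.card_units]
  refine ⟨fun i => constituent ((Fintype.equivFinOfCardEq hcard).symm i), fun i => (constituent_irr _).1,
    fun i j h => (Fintype.equivFinOfCardEq hcard).symm.injective ((constituent_irr _).2 _ h), fun g => ?_⟩
  rw [(Fintype.equivFinOfCardEq hcard).symm.sum_comp (fun l => constituent l g)]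
  have := congrFun fix_eq_sum g
  simpa using this

end Cfsg.Agent.Lib.GLn.VectorPermChar
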