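import Cfsg.Agent.Lib.GLn.UnipGen

/-!
# Generation of `SL_n` from one transvection and a cyclic element with a zero window

Let `u` be an element of a subgroup `G` of `SL_n(F)` and `tv a φ` a transvection in `G`. Write
`a_i = u^i a` and `φ_i = φ u^{-i}`. If `φ_i` vanishes on `a_i, ..., a_{i+D}` and some other pairings
are non-zero, then `G` is the whole group.
-/

set_option autoImplicit false

namespace Cfsg.Agent.Lib.GLn.Window

open Matrix

variable {F : Type*} [Field F] {n : ℕ}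

theorem coe_mul_mulVec (g h : Matrix.SpecialLinearGroup (Fin n) F) (x : Fin n → F) :
    (g : Matrix (Fin n) (Fin n) F) *ᵥ ((h : Matrix (Fin n) (Fin n) F) *ᵥ x) =
      ((g * h : Matrix.SpecialLinearGroup (Fin n) F) : Matrix (Fin n) (Fin n) F) *ᵥ x := by
  rw [mulVec_mulVec, Matrix.SpecialLinearGroup.coe_mul]

theorem one_mulVec' (x : Fin n → F) :
    ((1 : Matrix.SpecialLinearGroup (Fin n) F) : Matrix (Fin n) (Fin n) F) *ᵥ x = x := by
  rw [Matrix.SpecialLinearGroup.coe_one, one_mulVec]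

theorem one_vecMul' (x : Fin n → F) :
    x ᵥ* ((1 : Matrix.SpecialLinearGroup (Fin n) F) : Matrix (Fin n) (Fin n) F) = x := by
  rw [Matrix.SpecialLinearGroup.coe_one, vecMul_one]

theorem vecMul_coe_mul (g h : Matrix.SpecialLinearGroup (Fin n) F) (x : Fin n → F) :
    (x ᵥ* (g : Matrix (Fin n) (Fin n) F)) ᵥ* (h : Matrix (Fin n) (Fin n) F) =
      x ᵥ* ((g * h : Matrix.SpecialLinearGroup (Fin n) F) : Matrix (Fin n) (Fin n) F) := by
  rw [vecMul_vecMul, Matrix.SpecialLinearGroup.coe_mul]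

theorem tv_congr {a a' φ : Fin n → F} (h : φ ⬝ᵥ a = 0) (h' : φ ⬝ᵥ a' = 0) (e : a = a') :
    tv a φ h = tv a' φ h' := by
  subst e
  rfl

/-- Centres of full lines of transvections in `G` with axis `φ`. -/
def Lines (G : Subgroup (Matrix.SpecialLinearGroup (Fin n) F)) (φ : Fin n → F) :
    Submodule F (Fin n → F) where
  carrier := {a | ∀ t : F, ∃ h : φ ⬝ᵥ (t • a) = 0, tv (t • a) φ h ∈ G}
  add_mem' {a b} ha hb t := by
    obtain ⟨h1, h1'⟩ := ha t
    obtain ⟨h2, h2'⟩ := hb t
    refine ⟨by rw [smul_add, dotProduct_add, h1, h2, add_zero], ?_⟩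
    have := mul_mem h1' h2'
    rw [tv_mul] at this
    convert this using 1
    exact tv_congr _ _ (smul_add t a b)
  zero_mem' t := by
    refine ⟨by rw [smul_zero, dotProduct_zero], ?_⟩
    rw [tv_congr (a' := (0 : Fin n → F)) _ (dotProduct_zero φ) (smul_zero t), tv_zero]
    exact one_mem G
  smul_mem' c a ha t := by
    obtain ⟨h1, h1'⟩ := ha (t * c)
    refine ⟨by rw [smul_smul]; exact h1, ?_⟩
    rw [tv_congr (a' := (t * c) • a) _ h1 (smul_smul t c a)]
    exact h1'

variable {G : Subgroup (Matrix.SpecialLinearGroup (Fin n) F)}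

theorem dot_eq_zero {φ a : Fin n → F} (ha : a ∈ Lines G φ) : φ ⬝ᵥ a = 0 := by
  obtain ⟨h, -⟩ := ha 1
  rwa [one_smul] at h

theorem lines_conj {g : Matrix.SpecialLinearGroup (Fin n) F} (hg : g ∈ G) {φ a : Fin n → F} (ha : a ∈ Lines G φ) :
    (g : Matrix (Fin n) (Fin n) F) *ᵥ a ∈
      Lines G (φ ᵥ* ((g⁻¹ : Matrix.SpecialLinearGroup (Fin n) F) : Matrix (Fin n) (Fin n) F)) := by
  intro t
  obtain ⟨h, h'⟩ := ha t
  have hm := mul_mem (mul_mem hg h') (inv_mem hg)
  rw [conj_tv] at hm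
  refine ⟨by rw [← mulVec_smul, conj_dot]; exact h, ?_⟩
  rw [tv_congr _ ((conj_dot g (t • a) φ).trans h) (mulVec_smul _ t a).symm]
  exact hm

theorem lines_comm {φ ψ a b : Fin n → F} (ha : a ∈ Lines G φ) (hb : b ∈ Lines G ψ) (hφb : φ ⬝ᵥ b = 0)
    (hψa : ψ ⬝ᵥ a ≠ 0) : b ∈ Lines G φ := by
  intro t
  obtain ⟨h1, h1'⟩ := ha 1
  obtain ⟨h2, h2'⟩ := hb (-t / (ψ ⬝ᵥ a))
  have hφb' : φ ⬝ᵥ ((-t / (ψ ⬝ᵥ a)) • b) = 0 := by rw [dotProduct_smul, hφb, smul_zero]
  have hm := mul_mem (mul_mem (mul_mem h1' h2') (inv_mem h1')) (inv_mem h2')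
  rw [commutator_tv _ _ φ ψ h1 h2 hφb'] at hm
  refine ⟨by rw [dotProduct_smul, hφb, smul_zero], ?_⟩
  convert hm using 1
  refine tv_congr _ _ ?_
  rw [one_smul, smul_smul]
  congr 1
  field_simp

theorem lines_smul_axis {φ a : Fin n → F} {c : F} (hc : c ≠ 0) (ha : a ∈ Lines G (c • φ)) : a ∈ Lines G φ := by
  intro t
  obtain ⟨h, h'⟩ := ha (t / c)
  have h0 : φ ⬝ᵥ (t • a) = 0 := by
    have := dot_eq_zero ha
    rw [smul_dotProduct, smul_eq_mul, mul_eq_zero] at this
    rw [dotProduct_smul, this.resolve_left hc, smul_zero]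
  refine ⟨h0, ?_⟩
  convert h' using 1
  apply Subtype.ext
  rw [coe_tv, coe_tv, smul_vecMulVec, smul_vecMulVec, vecMulVec_smul, smul_smul]
  congr 2
  field_simp

/-- A subgroup with all transvections of a spanning set of axes is everything. -/
theorem eq_top_of_full {ι : Type*} (φ : ι → Fin n → F) (hspan : Submodule.span F (Set.range φ) = ⊤)
    (hfull : ∀ i a, φ i ⬝ᵥ a = 0 → a ∈ Lines G (φ i)) : G = ⊤ := by
  classical
  obtain ⟨s, hs, hsp, hli⟩ := exists_linearIndependent F (Set.range φ)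
  rw [hspan] at hsp
  let b0 : Module.Basis s F (Fin n → F) := Module.Basis.mk hli (by rw [Subtype.range_coe]; exact hsp.ge)
  haveI : Finite s := hli.finite
  haveI : Fintype s := Fintype.ofFinite s
  let eqv : s ≃ Fin n := Fintype.equivFinOfCardEq
    ((Module.finrank_eq_card_basis b0).symm.trans (Module.finrank_fin_fun F))
  let P : Matrix (Fin n) (Fin n) F := Matrix.of fun i => ((eqv.symm i : s) : Fin n → F)
  have hP : IsUnit P.det := by
    rw [← Matrix.isUnit_iff_isUnit_det, ← Matrix.linearIndependent_rows_iff_isUnit]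
    exact hli.comp _ eqv.symm.injective
  rw [eq_top_iff]
  intro x _
  let X : Matrix.SpecialLinearGroup (Fin n) F :=
    ⟨P * (x : Matrix (Fin n) (Fin n) F) * P⁻¹, by
      rw [det_mul, det_mul, x.2, mul_one, ← det_mul, Matrix.mul_nonsing_inv _ hP, det_one]⟩
  have key : ∀ X : Matrix.SpecialLinearGroup (Fin n) F, ∃ Y ∈ G,
      (Y : Matrix (Fin n) (Fin n) F) = P⁻¹ * (X : Matrix (Fin n) (Fin n) F) * P := by
    intro X
    induction X using Cfsg.Agent.Lib.Classical.SL_transvection_induction with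
    | h1 => exact ⟨1, one_mem _, by rw [Matrix.SpecialLinearGroup.coe_one, mul_one, Matrix.nonsing_inv_mul _ hP]⟩
    | htransvec i j hij t =>
      have hzero : P j ⬝ᵥ (P⁻¹ *ᵥ Pi.single i 1) = 0 := by
        change (P *ᵥ (P⁻¹ *ᵥ Pi.single i 1)) j = 0
        rw [mulVec_mulVec, Matrix.mul_nonsing_inv _ hP, one_mulVec]
        simp [Ne.symm hij]
      obtain ⟨k, hk⟩ := hs (eqv.symm j).2
      have hk' : φ k = P j := hk
      obtain ⟨h', hmem⟩ := hfull k _ (hk' ▸ hzero) t
      refine ⟨_, hmem, ?_⟩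
      rw [coe_tv, hk']
      change _ = P⁻¹ * Matrix.transvection i j t * P
      rw [Matrix.transvection, mul_add, add_mul, mul_one, Matrix.nonsing_inv_mul _ hP]
      congr 1
      rw [show Matrix.single i j t = vecMulVec (t • Pi.single i 1) (Pi.single j 1) by
        ext a b
        rw [vecMulVec_apply, Pi.smul_apply, smul_eq_mul]
        by_cases h1 : a = i
        · by_cases h2 : b = j
          · rw [h1, h2, Matrix.single_apply_same, Pi.single_eq_same, Pi.single_eq_same, mul_one, mul_one]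
          · rw [Matrix.single_apply_of_ne _ _ _ _ _ (by rintro ⟨-, h⟩; exact h2 h.symm), Pi.single_eq_of_ne h2, mul_zero]
        · rw [Matrix.single_apply_of_ne _ _ _ _ _ (by rintro ⟨h, -⟩; exact h1 h.symm), Pi.single_eq_of_ne h1, mul_zero, zero_mul],
        mul_vecMulVec, vecMulVec_mul, single_one_vecMul, mulVec_smul]
      rfl
    | hmul A B hA hB =>
      obtain ⟨Y, hY, hY'⟩ := hA
      obtain ⟨Z, hZ, hZ'⟩ := hB
      refine ⟨Y * Z, mul_mem hY hZ, ?_⟩
      rw [Matrix.SpecialLinearGroup.coe_mul, hY', hZ', Matrix.SpecialLinearGroup.coe_mul]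
      simp [Matrix.mul_assoc, Matrix.mul_nonsing_inv_cancel_left _ _ hP]
  obtain ⟨Y, hY, hY'⟩ := key X
  have : Y = x := by
    apply Subtype.ext
    rw [hY']
    change P⁻¹ * (P * (x : Matrix (Fin n) (Fin n) F) * P⁻¹) * P = _
    simp [Matrix.mul_assoc, Matrix.nonsing_inv_mul _ hP, Matrix.nonsing_inv_mul_cancel_left _ _ hP]
  exact this ▸ hY

variable (u : Matrix.SpecialLinearGroup (Fin n) F) (a φ : Fin n → F)

/-- The shifted centre. -/
def cen (i : ℕ) : Fin n → F := ((u ^ i : Matrix.SpecialLinearGroup (Fin n) F) : Matrix (Fin n) (Fin n) F) *ᵥ a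

/-- The shifted axis. -/
def axs (i : ℕ) : Fin n → F :=
  φ ᵥ* (((u ^ i)⁻¹ : Matrix.SpecialLinearGroup (Fin n) F) : Matrix (Fin n) (Fin n) F)

theorem cen_zero : cen u a 0 = a := by rw [cen, pow_zero, one_mulVec']

theorem axs_zero : axs u φ 0 = φ := by rw [axs, pow_zero, inv_one, one_vecMul']

theorem mulVec_cen (i : ℕ) : (u : Matrix (Fin n) (Fin n) F) *ᵥ cen u a i = cen u a (i + 1) := by
  rw [cen, cen, coe_mul_mulVec, ← pow_succ']

theorem pow_mulVec_cen (i j : ℕ) :
    ((u ^ j : Matrix.SpecialLinearGroup (Fin n) F) : Matrix (Fin n) (Fin n) F) *ᵥ cen u a i = cen u a (j + i) := by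
  rw [cen, cen, coe_mul_mulVec, ← pow_add]

theorem axs_vecMul (i : ℕ) :
    axs u φ i ᵥ* ((u⁻¹ : Matrix.SpecialLinearGroup (Fin n) F) : Matrix (Fin n) (Fin n) F) = axs u φ (i + 1) := by
  rw [axs, axs, vecMul_coe_mul, ← _root_.mul_inv_rev, ← pow_succ']

theorem axs_vecMul_pow (i j : ℕ) :
    axs u φ i ᵥ* (((u ^ j)⁻¹ : Matrix.SpecialLinearGroup (Fin n) F) : Matrix (Fin n) (Fin n) F) = axs u φ (j + i) := by
  rw [axs, axs, vecMul_coe_mul, ← _root_.mul_inv_rev, ← pow_add]

theorem axs_dot_cen (i j : ℕ) : axs u φ i ⬝ᵥ cen u a (i + j) = φ ⬝ᵥ cen u a j := by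
  rw [← pow_mulVec_cen u a j i, axs, conj_dot]

theorem axs_dot_cen' (i j : ℕ) : axs u φ (i + j) ⬝ᵥ cen u a i = axs u φ j ⬝ᵥ a := by
  rw [← axs_vecMul_pow u φ j i]
  exact conj_dot (u ^ i) a (axs u φ j)

variable {u a φ}

/-- The main generation criterion. -/
theorem eq_top [Finite F] {v : Matrix.SpecialLinearGroup (Fin n) F} (hu : u ∈ G) (hv : v ∈ G) (h0 : φ ⬝ᵥ a = 0)
    (htv : tv a φ h0 ∈ G) {D : ℕ} (hDn : D + 1 < n) (hD1 : 1 ≤ D) (hwin : ∀ t ≤ D, φ ⬝ᵥ cen u a t = 0)
    (hA : axs u φ 1 ⬝ᵥ a ≠ 0) (hμ : φ ⬝ᵥ cen u a (D + 1) ≠ 0)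
    (hν : ∀ C : AddSubgroup F, (1 : F) ∈ C →
      (∀ c ∈ C, (φ ⬝ᵥ cen u a (D + 1)) * (axs u φ 1 ⬝ᵥ a) ^ (D + 1) * c ∈ C) → C = ⊤)
    (hside : n ≤ 2 * D + 2 ∨ (D = 1 ∧ n = 5 ∧ axs u φ 2 ⬝ᵥ a ≠ 0))
    (hspanφ : Submodule.span F (Set.range (axs u φ)) = ⊤)
    (η : Fin n → F) (hη : ∀ y, η ⬝ᵥ y = 0 → y ∈ Submodule.span F (Set.range fun j : Fin n => cen u a j))
    (hinv : ∀ j : Fin n, (u : Matrix (Fin n) (Fin n) F) *ᵥ cen u a j ∈
      Submodule.span F (Set.range fun j : Fin n => cen u a j))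
    (hmove : Submodule.span F (Set.range fun j : Fin n => cen u a j) = ⊤ ∨ (4 ≤ n ∧
      ∀ c : F, η ᵥ* ((v⁻¹ : Matrix.SpecialLinearGroup (Fin n) F) : Matrix (Fin n) (Fin n) F) ≠ c • η)) :
    G = ⊤ := by
  classical
  haveI : Fintype F := Fintype.ofFinite F
  set A := axs u φ 1 ⬝ᵥ a with hAdef
  set μ := φ ⬝ᵥ cen u a (D + 1) with hμdef
  set W := Submodule.span F (Set.range fun j : Fin n => cen u a j) with hW
  have hcenW : ∀ j, j < n → cen u a j ∈ W := fun j hj => Submodule.subset_span ⟨⟨j, hj⟩, rfl⟩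
  -- the additive groups of scalars
  let H : (Fin n → F) → (Fin n → F) → Prop := fun ψ b => ∃ h : ψ ⬝ᵥ b = 0, tv b ψ h ∈ G
  have hcomm : ∀ ψ χ b c : Fin n → F, H ψ b → H χ c → ψ ⬝ᵥ c = 0 → H ψ ((χ ⬝ᵥ b) • c) := by
    rintro ψ χ b c ⟨hb, hb'⟩ ⟨hc, hc'⟩ hψc
    have hm := mul_mem (mul_mem (mul_mem hb' hc') (inv_mem hb')) (inv_mem hc')
    rw [commutator_tv b c ψ χ hb hc hψc] at hm
    have := inv_mem hm
    rw [tv_neg] at this
    refine ⟨by rw [dotProduct_smul, hψc, smul_zero], ?_⟩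
    convert this using 1
    refine tv_congr _ _ ?_
    rw [neg_smul, neg_neg]
  have hconj : ∀ g ∈ G, ∀ ψ b : Fin n → F, H ψ b →
      H (ψ ᵥ* ((g⁻¹ : Matrix.SpecialLinearGroup (Fin n) F) : Matrix (Fin n) (Fin n) F))
        ((g : Matrix (Fin n) (Fin n) F) *ᵥ b) := by
    rintro g hg ψ b ⟨hb, hb'⟩
    exact ⟨_, conj_tv g b ψ hb ▸ mul_mem (mul_mem hg hb') (inv_mem hg)⟩
  let C : ℕ → Set F := fun d => {c | H (axs u φ 0) (c • cen u a d)}
  have hshift : ∀ (i d : ℕ) (c : F), c ∈ C d → H (axs u φ i) (c • cen u a (i + d)) := by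
    intro i d c hc
    have := hconj (u ^ i) (pow_mem hu i) _ _ hc
    rwa [axs_vecMul_pow, mulVec_smul, pow_mulVec_cen, add_zero] at this
  let C0 : AddSubgroup F :=
    { carrier := C 0
      zero_mem' := ⟨by rw [zero_smul, dotProduct_zero], by
        rw [tv_congr (a' := (0 : Fin n → F)) _ (dotProduct_zero _) (zero_smul F _), tv_zero]; exact one_mem G⟩
      add_mem' := fun {x y} ⟨h1, h1'⟩ ⟨h2, h2'⟩ => ⟨by rw [add_smul, dotProduct_add, h1, h2, add_zero], by
        have := mul_mem h1' h2'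
        rw [tv_mul] at this
        convert this using 1
        exact tv_congr _ _ (add_smul x y (cen u a 0))⟩
      neg_mem' := fun {x} ⟨h1, h1'⟩ => ⟨by rw [neg_smul, dotProduct_neg, h1, neg_zero], by
        have := inv_mem h1'
        rw [tv_neg] at this
        convert this using 1
        exact tv_congr _ _ (neg_smul x (cen u a 0))⟩ }
  have h1C : (1 : F) ∈ C 0 := by
    refine ⟨by rw [axs_zero, cen_zero, one_smul]; exact h0, ?_⟩
    convert htv using 1
    apply Subtype.ext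
    simp [coe_tv, axs_zero, cen_zero]
  have hR1 : ∀ d, d + 1 ≤ D → ∀ x ∈ C 0, ∀ y ∈ C d, A * x * y ∈ C (d + 1) := by
    intro d hd x hx y hy
    have h := hcomm _ _ _ _ hx (hshift 1 d y hy) (by
      rw [axs_zero, dotProduct_smul, hwin _ (by omega), smul_zero])
    rw [cen_zero, dotProduct_smul, ← hAdef, smul_eq_mul, smul_smul, add_comm 1 d] at h
    change H (axs u φ 0) _
    convert h using 2
    ring
  have hpowC : ∀ d ≤ D, ∀ y ∈ C 0, A ^ d * y ∈ C d := by
    intro d hd y hy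
    induction d with
    | zero => simpa using hy
    | succ d ih =>
      have := hR1 d hd 1 h1C _ (ih (by omega))
      rwa [mul_one, ← mul_assoc, ← pow_succ'] at this
  have hR2 : ∀ x ∈ C D, ∀ y ∈ C 1, μ * x * y ∈ C 0 := by
    intro x hx y hy
    have h := hcomm _ _ _ _ (hshift 1 D x hx) hy (by
      rw [dotProduct_smul, show (1 : ℕ) = 1 + 0 from rfl, axs_dot_cen, cen_zero, h0, smul_zero])
    rw [axs_zero, dotProduct_smul, add_comm 1 D, ← hμdef, smul_eq_mul, smul_smul] at h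
    have := hconj u⁻¹ (inv_mem hu) _ _ h
    rw [inv_inv, mulVec_smul] at this
    rw [← axs_vecMul u φ 0, vecMul_coe_mul, inv_mul_cancel, one_vecMul', ← mulVec_cen u a 0, coe_mul_mulVec,
      inv_mul_cancel, one_mulVec'] at this
    change H (axs u φ 0) _
    rwa [show μ * x * y = x * μ * y by ring]
  have hCtop : C0 = ⊤ := hν C0 h1C fun c hc => by
    have := hR2 _ (hpowC D le_rfl c hc) _ (hpowC 1 hD1 1 h1C)
    change _ ∈ C 0
    convert this using 1
    ring
  have hall : ∀ d ≤ D, ∀ c : F, c ∈ C d := by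
    intro d hd c
    have : (A ^ d)⁻¹ * c ∈ C0 := hCtop ▸ AddSubgroup.mem_top _
    have := hpowC d hd _ this
    rwa [← mul_assoc, mul_inv_cancel₀ (pow_ne_zero _ hA), one_mul] at this
  have hlines : ∀ i d, d ≤ D → cen u a (i + d) ∈ Lines G (axs u φ i) := by
    intro i d hd t
    exact hshift i d t (hall d hd t)
  -- the kernel of one axis inside `W`
  obtain ⟨s, hs⟩ : ∃ s, s + D + 1 = n := ⟨n - D - 1, by omega⟩
  have hlow : ∀ y ∈ Submodule.span F (Set.range fun j : Fin s => cen u a j), axs u φ s ⬝ᵥ y = 0 →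
      y ∈ Lines G (axs u φ s) := by
    intro y hy hy0
    rcases hside with h | ⟨hD, hn5, hM⟩
    · have hy' : y ∈ Lines G (axs u φ 0) := by
        refine Submodule.span_le.2 ?_ hy
        rintro _ ⟨j, rfl⟩
        simpa using hlines 0 j (by omega)
      obtain ⟨d, hd⟩ : ∃ d, D + 1 = s + d := ⟨D + 1 - s, by omega⟩
      refine lines_comm (hlines s d (by omega)) hy' hy0 ?_
      rwa [axs_zero, ← hd]
    · subst hD
      have hs3 : s = 3 := by omega
      subst hs3
      set M2 := axs u φ 2 ⬝ᵥ a with hM2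
      set M3 := axs u φ 3 ⬝ᵥ a with hM3
      have e30 : axs u φ 3 ⬝ᵥ cen u a 0 = M3 := by rw [cen_zero]
      have e31 : axs u φ 3 ⬝ᵥ cen u a 1 = M2 := axs_dot_cen' u a φ 1 2
      have e32 : axs u φ 3 ⬝ᵥ cen u a 2 = A := axs_dot_cen' u a φ 2 1
      set b := A • cen u a 1 - M2 • cen u a 2 with hb
      have hb1 : b ∈ Lines G (axs u φ 1) :=
        sub_mem (Submodule.smul_mem _ _ (by simpa using hlines 1 0 (by omega)))
          (Submodule.smul_mem _ _ (hlines 1 1 le_rfl))
      have hb3 : b ∈ Lines G (axs u φ 3) := by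
        refine lines_comm (hlines 3 0 (by omega)) hb1 ?_ ?_
        · rw [hb, dotProduct_sub, dotProduct_smul, dotProduct_smul, e31, e32, smul_eq_mul, smul_eq_mul]
          ring
        · rw [show 3 + 0 = 1 + 2 from rfl, axs_dot_cen]
          exact hμ
      set b0 := M2 • cen u a 0 - M3 • cen u a 1 with hb0
      have hb00 : b0 ∈ Lines G (axs u φ 0) :=
        sub_mem (Submodule.smul_mem _ _ (by simpa using hlines 0 0 (by omega)))
          (Submodule.smul_mem _ _ (by simpa using hlines 0 1 le_rfl))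
      have hb03 : b0 ∈ Lines G (axs u φ 3) := by
        refine lines_comm hb3 hb00 ?_ ?_
        · rw [hb0, dotProduct_sub, dotProduct_smul, dotProduct_smul, e31, e30, smul_eq_mul, smul_eq_mul]
          ring
        · rw [axs_zero, hb, dotProduct_sub, dotProduct_smul, dotProduct_smul, hwin 1 le_rfl, smul_zero, zero_sub,
            neg_ne_zero, smul_eq_mul, ← hμdef]
          exact mul_ne_zero hM hμ
      obtain ⟨x, rfl⟩ := (Submodule.mem_span_range_iff_exists_fun F).1 hy
      simp only [Fin.sum_univ_three, dotProduct_add, dotProduct_smul, smul_eq_mul] at hy0 ⊢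
      simp only [Fin.val_zero, Fin.val_one, Fin.val_two, e30, e31, e32] at hy0 ⊢
      have key : x 0 • cen u a 0 + x 1 • cen u a 1 + x 2 • cen u a 2 =
          (x 0 / M2) • b0 + ((x 1 + x 0 / M2 * M3) / A) • b := by
        have h2 : x 2 = -((x 1 + x 0 / M2 * M3) / A * M2) := by
          field_simp
          linear_combination hy0
        rw [hb0, hb, h2]
        simp only [smul_sub, smul_smul, neg_smul]
        rw [div_mul_cancel₀ _ hM, div_mul_cancel₀ _ hA]
        simp only [add_smul]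
        abel
      rw [key]
      exact add_mem (Submodule.smul_mem _ _ hb03) (Submodule.smul_mem _ _ hb3)
  have hbase : ∀ y ∈ W, axs u φ s ⬝ᵥ y = 0 → y ∈ Lines G (axs u φ s) := by
    intro y hy hy0
    obtain ⟨x, rfl⟩ := (Submodule.mem_span_range_iff_exists_fun F).1 hy
    set hi := ∑ j ∈ (Finset.univ : Finset (Fin n)).filter (fun j : Fin n => s ≤ (j : ℕ)), x j • cen u a j with hhi
    have hhiL : hi ∈ Lines G (axs u φ s) := sum_mem fun j hj => by
      obtain ⟨d, hd⟩ : ∃ d, (j : ℕ) = s + d := ⟨j - s, by have := (Finset.mem_filter.1 hj).2; omega⟩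
      rw [hd]
      exact Submodule.smul_mem _ _ (hlines s d (by have := j.2; omega))
    rw [← Finset.sum_filter_add_sum_filter_not Finset.univ (fun j : Fin n => s ≤ (j : ℕ))] at hy0 ⊢
    refine add_mem hhiL (hlow _ (sum_mem fun j hj => Submodule.smul_mem _ _ ?_) ?_)
    · have := (Finset.mem_filter.1 hj).2
      exact Submodule.subset_span ⟨⟨j, by omega⟩, rfl⟩
    · rw [dotProduct_add, ← hhi, dot_eq_zero hhiL, zero_add] at hy0
      exact hy0
  -- shifting
  have hWu : ∀ y ∈ W, (u : Matrix (Fin n) (Fin n) F) *ᵥ y ∈ W := by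
    intro y hy
    induction hy using Submodule.span_induction with
    | mem y hy => obtain ⟨j, rfl⟩ := hy; exact hinv j
    | zero => simp
    | add y z _ _ hy hz => rw [mulVec_add]; exact add_mem hy hz
    | smul c y _ hy => rw [mulVec_smul]; exact W.smul_mem c hy
  have hWp : ∀ (k : ℕ) (y : Fin n → F), y ∈ W →
      ((u ^ k : Matrix.SpecialLinearGroup (Fin n) F) : Matrix (Fin n) (Fin n) F) *ᵥ y ∈ W := by
    intro k
    induction k with
    | zero => intro y hy; rwa [pow_zero, one_mulVec']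
    | succ k ih => intro y hy; rw [pow_succ', ← coe_mul_mulVec]; exact hWu _ (ih y hy)
  have hWk : ∀ i y, y ∈ W → axs u φ (i + s) ⬝ᵥ y = 0 → y ∈ Lines G (axs u φ (i + s)) := by
    intro i y hy hy0
    set z := (((u ^ i)⁻¹ : Matrix.SpecialLinearGroup (Fin n) F) : Matrix (Fin n) (Fin n) F) *ᵥ y with hz
    have hzW : z ∈ W := by
      obtain ⟨k, hk⟩ := (Submonoid.mem_powers_iff _ _).1 (mem_powers_iff_mem_zpowers.2
        (inv_mem (Subgroup.pow_mem _ (Subgroup.mem_zpowers u) i)))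
      rw [hz, ← hk]
      exact hWp k y hy
    have hyz : y = ((u ^ i : Matrix.SpecialLinearGroup (Fin n) F) : Matrix (Fin n) (Fin n) F) *ᵥ z := by
      rw [hz, coe_mul_mulVec, mul_inv_cancel, one_mulVec']
    rw [hyz, ← axs_vecMul_pow] at hy0 ⊢
    refine lines_conj (pow_mem hu i) (hbase z hzW ?_)
    rwa [conj_dot] at hy0
  have hspan' : Submodule.span F (Set.range fun i => axs u φ (i + s)) = ⊤ := by
    rw [eq_top_iff, ← hspanφ, Submodule.span_le]
    rintro _ ⟨j, rfl⟩
    refine Submodule.subset_span ⟨j + s * (orderOf u - 1), ?_⟩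
    change axs u φ _ = axs u φ j
    have hor : j + s * (orderOf u - 1) + s = j + s * orderOf u := by
      obtain ⟨o, ho⟩ := Nat.exists_eq_add_of_le (orderOf_pos u)
      rw [ho]; simp [Nat.mul_add]; omega
    rw [hor, axs, axs, pow_add, mul_comm s, pow_mul, pow_orderOf_eq_one, one_pow, mul_one]
  -- one full axis
  obtain ⟨j, hj⟩ : ∃ j, ∀ y, axs u φ (j + s) ⬝ᵥ y = 0 → y ∈ Lines G (axs u φ (j + s)) := by
    rcases hmove with hWtop | ⟨hn4, hmove⟩
    · exact ⟨0, fun y hy => hWk 0 y (hWtop ▸ Submodule.mem_top) hy⟩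
    set ζ := η ᵥ* ((v⁻¹ : Matrix.SpecialLinearGroup (Fin n) F) : Matrix (Fin n) (Fin n) F) with hζ
    have hη0 : η ≠ 0 := fun h => hmove 0 (by rw [hζ, h, zero_vecMul, smul_zero])
    have hdim : ∀ w : Fin 3 → Fin n → F, Submodule.span F (Set.range w) ≠ ⊤ := fun w hw => by
      have := finrank_range_le_card (R := F) w
      rw [Set.finrank, hw, finrank_top, Module.finrank_fin_fun, Fintype.card_fin] at this
      omega
    obtain ⟨j, hj⟩ : ∃ j, axs u φ (j + s) ∉ Submodule.span F (Set.range ![η, ζ, ζ]) := by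
      by_contra hc
      push Not at hc
      refine hdim ![η, ζ, ζ] (eq_top_iff.2 ?_)
      rw [← hspan', Submodule.span_le]
      rintro _ ⟨i, rfl⟩
      exact hc i
    set ψ := fun i => axs u φ (i + s) ᵥ* ((v⁻¹ : Matrix.SpecialLinearGroup (Fin n) F) : Matrix (Fin n) (Fin n) F)
      with hψ
    have hψspan : Submodule.span F (Set.range ψ) = ⊤ := by
      have := (Submodule.map_span (Matrix.vecMulLinear
        ((v⁻¹ : Matrix.SpecialLinearGroup (Fin n) F) : Matrix (Fin n) (Fin n) F)) (Set.range fun i => axs u φ (i + s)))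
      rw [hspan', ← Set.range_comp] at this
      change _ = Submodule.span F (Set.range ψ) at this
      rw [← this, Submodule.map_top, LinearMap.range_eq_top]
      intro y
      exact ⟨y ᵥ* (v : Matrix (Fin n) (Fin n) F), by
        change (y ᵥ* (v : Matrix (Fin n) (Fin n) F)) ᵥ* _ = y
        rw [vecMul_coe_mul, mul_inv_cancel, one_vecMul']⟩
    obtain ⟨i, hi⟩ : ∃ i, η ∉ Submodule.span F (Set.range ![ζ, axs u φ (j + s), ψ i]) := by
      by_contra hc
      push Not at hc
      obtain ⟨i, hi⟩ : ∃ i, ψ i ∉ Submodule.span F (Set.range ![η, ζ, axs u φ (j + s)]) := by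
        by_contra hc'
        push Not at hc'
        refine hdim ![η, ζ, axs u φ (j + s)] (eq_top_iff.2 ?_)
        rw [← hψspan, Submodule.span_le]
        rintro _ ⟨i, rfl⟩
        exact hc' i
      obtain ⟨c, hc⟩ := (Submodule.mem_span_range_iff_exists_fun F).1 (hc i)
      simp only [Fin.sum_univ_three, Matrix.cons_val_zero, Matrix.cons_val_one, Matrix.cons_val_two, Matrix.tail_cons,
        Matrix.head_cons] at hc
      by_cases h2 : c 2 = 0
      · rw [h2, zero_smul, add_zero] at hc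
        by_cases h1 : c 1 = 0
        · rw [h1, zero_smul, add_zero] at hc
          have h0 : c 0 ≠ 0 := fun h => hη0 (by rw [← hc, h, zero_smul])
          exact hmove (c 0)⁻¹ (by rw [← hc, smul_smul, inv_mul_cancel₀ h0, one_smul])
        · refine hj ((Submodule.mem_span_range_iff_exists_fun F).2 ⟨![(c 1)⁻¹, -((c 1)⁻¹ * c 0), 0], ?_⟩)
          simp [Fin.sum_univ_three]
          rw [← hc]
          simp only [smul_add, smul_smul, inv_mul_cancel₀ h1, one_smul]
          abel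
      · refine hi ((Submodule.mem_span_range_iff_exists_fun F).2
          ⟨![(c 2)⁻¹, -((c 2)⁻¹ * c 0), -((c 2)⁻¹ * c 1)], ?_⟩)
        simp [Fin.sum_univ_three]
        rw [← hc]
        simp only [smul_add, smul_smul, inv_mul_cancel₀ h2, one_smul]
        abel
    obtain ⟨g, hg0, hg⟩ := Submodule.exists_dual_map_eq_bot_of_notMem hi inferInstance
    set b : Fin n → F := fun k => g (Pi.single k 1) with hbdef
    have hgb : ∀ z : Fin n → F, g z = z ⬝ᵥ b := fun z => by
      conv_lhs => rw [pi_eq_sum_univ' z]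
      simp [map_sum, dotProduct, hbdef]
    have hk : ∀ z ∈ Submodule.span F (Set.range ![ζ, axs u φ (j + s), ψ i]), z ⬝ᵥ b = 0 := fun z hz => by
      rw [← hgb]
      have : g z ∈ Submodule.map g _ := ⟨z, hz, rfl⟩
      rwa [hg, Submodule.mem_bot] at this
    have hηb : η ⬝ᵥ b ≠ 0 := by rw [← hgb]; exact hg0
    have hb1 : ζ ⬝ᵥ b = 0 := hk _ (Submodule.subset_span ⟨0, rfl⟩)
    have hb2 : axs u φ (j + s) ⬝ᵥ b = 0 := hk _ (Submodule.subset_span ⟨1, rfl⟩)
    have hb3 : ψ i ⬝ᵥ b = 0 := hk _ (Submodule.subset_span ⟨2, rfl⟩)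
    set x := ((v⁻¹ : Matrix.SpecialLinearGroup (Fin n) F) : Matrix (Fin n) (Fin n) F) *ᵥ b with hx
    have hbx : b = (v : Matrix (Fin n) (Fin n) F) *ᵥ x := by rw [hx, coe_mul_mulVec, mul_inv_cancel, one_mulVec']
    have hbψ : b ∈ Lines G (ψ i) := by
      rw [hbx]
      refine lines_conj hv (hWk i x (hη x ?_) ?_)
      · rw [hx, dotProduct_mulVec]; exact hb1
      · rw [hx, dotProduct_mulVec]; exact hb3
    have hbL : b ∈ Lines G (axs u φ (j + s)) := by
      by_cases hcase : ∀ y ∈ W, axs u φ (j + s) ⬝ᵥ y = 0 → ψ i ⬝ᵥ y = 0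
      · have hker : ∀ y, axs u φ (j + s) ⬝ᵥ y = 0 → ψ i ⬝ᵥ y = 0 := by
          intro y hy
          have hy' : y - (η ⬝ᵥ y / η ⬝ᵥ b) • b ∈ W := hη _ (by
            rw [dotProduct_sub, dotProduct_smul, smul_eq_mul, div_mul_cancel₀ _ hηb, sub_self])
          have := hcase _ hy' (by rw [dotProduct_sub, dotProduct_smul, hy, hb2, smul_zero, sub_zero])
          rwa [dotProduct_sub, dotProduct_smul, hb3, smul_zero, sub_zero] at this
        have hne : axs u φ (j + s) ≠ 0 := fun h => hj (h ▸ zero_mem _)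
        obtain ⟨k, hk0⟩ := Function.ne_iff.1 hne
        have hpar : ψ i = (ψ i k / axs u φ (j + s) k) • axs u φ (j + s) := by
          funext l
          have := hker (Pi.single l 1 - (axs u φ (j + s) l / axs u φ (j + s) k) • Pi.single k 1) (by
            rw [dotProduct_sub, dotProduct_smul, dotProduct_single, dotProduct_single, mul_one, mul_one,
              smul_eq_mul, div_mul_cancel₀ _ hk0, sub_self])
          rw [dotProduct_sub, dotProduct_smul, dotProduct_single, dotProduct_single, mul_one, mul_one, sub_eq_zero]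
            at this
          rw [this, Pi.smul_apply, smul_eq_mul, smul_eq_mul]
          ring
        by_cases hc0 : ψ i k / axs u φ (j + s) k = 0
        · exfalso
          rw [hc0, zero_smul] at hpar
          have hinj : axs u φ (i + s) = 0 := by
            have := congrArg (fun z => z ᵥ* (v : Matrix (Fin n) (Fin n) F)) hpar
            simpa only [hψ, vecMul_coe_mul, inv_mul_cancel, one_vecMul', zero_vecMul] using this
          refine hne ?_
          have hzero : φ = 0 := by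
            have := congrArg (fun z => z ᵥ* ((u ^ (i + s) : Matrix.SpecialLinearGroup (Fin n) F) :
              Matrix (Fin n) (Fin n) F)) hinj
            simpa only [axs, vecMul_coe_mul, inv_mul_cancel, one_vecMul', zero_vecMul] using this
          rw [hzero, axs, zero_vecMul]
        · rw [hpar] at hbψ
          exact lines_smul_axis hc0 hbψ
      · push Not at hcase
        obtain ⟨y, hyW, hy0, hy1⟩ := hcase
        exact lines_comm (hWk j y hyW hy0) hbψ hb2 hy1
    refine ⟨j, fun y hy => ?_⟩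
    have hyW : y - (η ⬝ᵥ y / η ⬝ᵥ b) • b ∈ W := hη _ (by
      rw [dotProduct_sub, dotProduct_smul, smul_eq_mul, div_mul_cancel₀ _ hηb, sub_self])
    have := add_mem (hWk j _ hyW (by rw [dotProduct_sub, dotProduct_smul, hy, hb2, smul_zero, sub_zero]))
      (Submodule.smul_mem _ (η ⬝ᵥ y / η ⬝ᵥ b) hbL)
    rwa [sub_add_cancel] at this
  -- conclusion
  refine eq_top_of_full (fun i => axs u φ (i + (j + s))) ?_ fun i y hy => ?_
  · rw [eq_top_iff, ← hspanφ, Submodule.span_le]
    rintro _ ⟨k, rfl⟩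
    refine Submodule.subset_span ⟨k + (j + s) * (orderOf u - 1), ?_⟩
    change axs u φ _ = axs u φ k
    have hor : k + (j + s) * (orderOf u - 1) + (j + s) = k + (j + s) * orderOf u := by
      obtain ⟨o, ho⟩ := Nat.exists_eq_add_of_le (orderOf_pos u)
      rw [ho]; simp [Nat.mul_add]; omega
    rw [hor, axs, axs, pow_add, mul_comm (j + s), pow_mul, pow_orderOf_eq_one, one_pow, mul_one]
  · set z := (((u ^ i)⁻¹ : Matrix.SpecialLinearGroup (Fin n) F) : Matrix (Fin n) (Fin n) F) *ᵥ y with hz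
    have hyz : y = ((u ^ i : Matrix.SpecialLinearGroup (Fin n) F) : Matrix (Fin n) (Fin n) F) *ᵥ z := by
      rw [hz, coe_mul_mulVec, mul_inv_cancel, one_mulVec']
    rw [hyz, ← axs_vecMul_pow] at hy ⊢
    refine lines_conj (pow_mem hu i) (hj z ?_)
    rwa [conj_dot] at hy

end Cfsg.Agent.Lib.GLn.Window
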